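import Cfsg.Agent.Stb.HRel
import Cfsg.Agent.Stb.RankOne

set_option autoImplicit false

/-!
Steinberg relations of orthogonal groups over finite fields (Witt index at least three): the torus.
-/

namespace Cfsg.Agent.Mult.R1

variable {Γ : Type*} [Group Γ] {F : Type*} [Field F] {X Y : F → Γ} (R : R1 X Y)

/-- elements of the rank one group which act diagonally -/
theorem diag_eq [Finite F] {V : Type*} [AddCommGroup V] [Module F V] (φ : Γ →* (V ≃ₗ[F] V)) {e1 e2 : V}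
    (hli : ∀ a b : F, a • e1 + b • e2 = 0 → a = 0 ∧ b = 0)
    (hX1 : ∀ a, φ (X a) e1 = e1) (hX2 : ∀ a, φ (X a) e2 = e2 + a • e1)
    (hY1 : ∀ a, φ (Y a) e1 = e1 + a • e2) (hY2 : ∀ a, φ (Y a) e2 = e2) {g : Γ} (hg : g ∈ R.S)
    (h1 : ∃ c : F, φ g e1 = c • e1) (h2 : ∃ d : F, φ g e2 = d • e2) : ∃ t : F, t ≠ 0 ∧ g = R.h t := by
  have hmulv : ∀ (a b : Γ) (v : V), φ (a * b) v = φ a (φ b v) := fun a b v => by rw [map_mul]; rfl
  obtain ⟨c, hc⟩ := h1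
  obtain ⟨d, hd⟩ := h2
  rcases R.bruhat hg with ⟨a, t, ht, rfl⟩ | ⟨a, t, b, ht, rfl⟩
  · rw [hmulv, R.h_e2 φ hX1 hX2 hY1 hY2 ht, map_smul, hX2, smul_add, smul_smul] at hd
    have h3 := hli (t⁻¹ * a) (t⁻¹ - d) (by rw [sub_smul]; linear_combination (norm := module) hd)
    have h5 : a = 0 := (mul_eq_zero.1 h3.1).resolve_left (inv_ne_zero ht)
    exact ⟨t, ht, by rw [h5, R.X_zero, one_mul]⟩
  · exfalso
    rw [hmulv, hX1, hmulv, R.n_e1 φ hX1 hX2 hY1 one_ne_zero, map_smul, hmulv, R.h_e2 φ hX1 hX2 hY1 hY2 ht, map_smul, hX2] at hc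
    have h3 := hli ((-(1 : F)⁻¹) * t⁻¹ * a - c) ((-(1 : F)⁻¹) * t⁻¹) (by linear_combination (norm := module) hc)
    have h4 := h3.2
    rw [inv_one, neg_one_mul, neg_eq_zero] at h4
    exact inv_ne_zero ht h4

end Cfsg.Agent.Mult.R1

namespace Cfsg.Agent.Stb

open Subgroup
open Cfsg.Agent.Mult (R1)
open scoped commutatorElement

variable {I F W Γ : Type*} [InvolutiveNeg I] [DecidableEq I] [Field F] [AddCommGroup W] [Module F W] [Group Γ]

/-- an anisotropic quadratic form with its polar form -/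
structure OF (q0 : W → F) (B0 : W → W → F) : Prop where
  q_add : ∀ w w', q0 (w + w') = q0 w + q0 w' + B0 w w'
  q_smul : ∀ a w, q0 (a • w) = a ^ 2 * q0 w
  add_right : ∀ w u v, B0 w (u + v) = B0 w u + B0 w v
  smul_right : ∀ w a u, B0 w (a • u) = a * B0 w u
  symm : ∀ w u, B0 w u = B0 u w
  aniso : ∀ {w}, q0 w = 0 → w = 0

namespace OF

variable {q0 : W → F} {B0 : W → W → F} (O : OF q0 B0)

include O

lemma self (w : W) : B0 w w = 2 * q0 w := by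
  have h1 := O.q_add w w
  have h2 := O.q_smul 2 w
  rw [two_smul] at h2
  rw [h2] at h1
  linear_combination -h1

lemma q_zero : q0 0 = 0 := by
  have := O.q_smul 0 0
  rw [zero_smul] at this
  rw [this]; ring

lemma q_neg (w : W) : q0 (-w) = q0 w := by
  have := O.q_smul (-1) w
  rw [neg_one_smul] at this
  rw [this]; ring

theorem hf : HF (RingHom.id F) B0 (fun w c => c = -q0 w) where
  ττ _ := rfl
  add_right := O.add_right
  smul_right := O.smul_right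
  symm w u := O.symm w u
  P_zero := by rw [O.q_zero, neg_zero]
  P_mul := by rintro w c w' c' rfl rfl; rw [O.q_add]; ring
  P_inv := by rintro w c rfl; rw [O.q_neg]; rfl
  P_smul := by rintro w c rfl b; rw [O.q_smul, RingHom.id_apply]; ring
  P_tr := by rintro w c rfl; rw [O.self, RingHom.id_apply]; ring
  P_skew a := by rw [O.q_zero, RingHom.id_apply]; ring
  aniso := by intro w h; exact O.aniso (neg_eq_zero.1 h.symm)

end OF

/-- Steinberg relations of an orthogonal group of Witt index at least three -/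
structure OR (q0 : W → F) (B0 : W → W → F) (y : I → I → F → Γ) (z : I → W → Γ) : Prop where
  ne : ∀ i : I, -i ≠ i
  three : ∀ i j : I, ∃ k, k ≠ i ∧ k ≠ -i ∧ k ≠ j ∧ k ≠ -j
  symm : ∀ {i j}, i ≠ j → i ≠ -j → ∀ a, y i j a = y j i (-a)
  add : ∀ {i j}, i ≠ j → i ≠ -j → ∀ a b, y i j (a + b) = y i j a * y i j b
  zadd : ∀ i w w', z i (w + w') = z i w * z i w'
  c1 : ∀ {i j k : I}, i ≠ j → i ≠ -j → j ≠ k → j ≠ -k → i ≠ k → i ≠ -k → ∀ a b, ⁅y i j a, y (-j) k b⁆ = y i k (a * b)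
  c2 : ∀ {i j : I}, i ≠ j → i ≠ -j → ∀ a b, ⁅y i j a, y (-j) i b⁆ = 1
  c3 : ∀ {i j : I}, i ≠ j → i ≠ -j → ∀ w b, ⁅z i w, y (-i) j b⁆ = y i j (-(q0 w * b)) * z j (b • w)
  c4 : ∀ {i j k l : I}, i ≠ j → i ≠ -j → k ≠ l → k ≠ -l → k ≠ -i → k ≠ -j → l ≠ -i → l ≠ -j → ∀ a b, ⁅y i j a, y k l b⁆ = 1
  c5 : ∀ {i k l : I}, k ≠ l → k ≠ -l → k ≠ -i → l ≠ -i → ∀ w a, ⁅z i w, y k l a⁆ = 1
  c6 : ∀ {i j : I}, i ≠ j → i ≠ -j → ∀ w w', ⁅z i w, z j w'⁆ = y i j (-B0 w w')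

/-- the natural action -/
structure OA [Fintype I] (q0 : W → F) (B0 : W → W → F) (y : I → I → F → Γ) (z : I → W → Γ)
    (ρ : Γ →* (((I → F) × W) ≃ₗ[F] ((I → F) × W))) : Prop where
  act_y : ∀ {i j}, i ≠ j → i ≠ -j → ∀ a v, ρ (y i j a) v =
    (fun p => v.1 p + (if p = i then a * v.1 (-j) else 0) - (if p = j then a * v.1 (-i) else 0), v.2)
  act_z : ∀ i w v, ρ (z i w) v =
    (fun p => v.1 p + (if p = i then -q0 w * v.1 (-i) - B0 w v.2 else 0), v.2 + v.1 (-i) • w)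
  form : ∀ g u v, hh (RingHom.id F) B0 (ρ g u) (ρ g v) = hh (RingHom.id F) B0 u v

variable {q0 : W → F} {B0 : W → W → F} (O : OF q0 B0) {y : I → I → F → Γ} {z : I → W → Γ} (R : OR q0 B0 y z)

omit [DecidableEq I] in
lemma OR.z_zero (R : OR q0 B0 y z) (i : I) : z i 0 = 1 := by
  have := R.zadd i 0 0
  rw [add_zero] at this
  exact mul_eq_left.1 this.symm

omit [DecidableEq I] in
lemma OR.z_neg (R : OR q0 B0 y z) (i : I) (w : W) : z i (-w) = (z i w)⁻¹ := by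
  rw [eq_inv_iff_mul_eq_one, ← R.zadd, neg_add_cancel, R.z_zero]

omit [DecidableEq I] in
theorem OR.hr (R : OR q0 B0 y z) : HR (RingHom.id F) B0 (fun w c => c = -q0 w) y (fun i w _ => z i w) where
  ne := R.ne
  three := R.three
  symm := R.symm
  add := R.add
  zmul i w c w' c' _ _ := (R.zadd i w w').symm
  c1 := R.c1
  c2 {i j} h1 h2 a b := by rw [R.c2 h1 h2, R.z_zero]
  c3 {i j} h1 h2 w c hc b := by rw [R.c3 h1 h2, hc, neg_mul]
  c4 := R.c4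
  c5 {i k l} h1 h2 h3 h4 w c _ a := R.c5 h1 h2 h3 h4 w a
  c6 {i j} h1 h2 w c w' c' _ _ := R.c6 h1 h2 w w'

variable [Fintype I] {ρ : Γ →* (((I → F) × W) ≃ₗ[F] ((I → F) × W))} (A : OA q0 B0 y z ρ)

theorem OA.ha (A : OA q0 B0 y z ρ) : HA (RingHom.id F) B0 (fun w c => c = -q0 w) y (fun i w _ => z i w) ρ where
  act_y := A.act_y
  act_z i w c hc v := by rw [A.act_z, hc]
  form := A.form

/-- root subgroups -/
def OX (q0 : W → F) (y : I → I → F → Γ) (z : I → W → Γ) (i j : I) : Subgroup Γ :=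
  HX (fun w c => c = -q0 w) y (fun i w _ => z i w) i j

/-- monomial elements -/
def OM (q0 : W → F) (y : I → I → F → Γ) (z : I → W → Γ) (ρ : Γ →* (((I → F) × W) ≃ₗ[F] ((I → F) × W))) (i j : I) : Set Γ :=
  HMM (fun w c => c = -q0 w) y (fun i w _ => z i w) ρ i j

include O R A in
theorem ocln : Cln (OX q0 y z) (OM q0 y z ρ) := hcln O.hf R.hr A.ha

include R A

lemma oy_ee {i j : I} (h1 : i ≠ j) (h2 : i ≠ -j) (a : F) (p : I) : ρ (y i j a) (eh p) =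
    eh p + (if p = -j then a else 0) • eh i - (if p = -i then a else 0) • eh j := act_y_ee A.ha h1 h2 a p

lemma oX_e1 {i j : I} (h1 : i ≠ j) (h2 : i ≠ -j) (a : F) : ρ (y i j a) (eh i) = eh i := by
  rw [oy_ee R A h1 h2, if_neg h2, if_neg (R.ne i).symm]; simp

lemma oX_e2 {i j : I} (h1 : i ≠ j) (h2 : i ≠ -j) (a : F) : ρ (y i j a) (eh (-j)) = eh (-j) + a • eh i := by
  rw [oy_ee R A h1 h2, if_pos rfl, if_neg (fun e => h1 (neg_inj.1 e).symm)]; simp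

lemma oY_e1 {i j : I} (h1 : i ≠ j) (h2 : i ≠ -j) (a : F) : ρ (y (-j) (-i) a) (eh i) = eh i + a • eh (-j) := by
  rw [oy_ee R A (by nx) (by nx), neg_neg, neg_neg, if_pos rfl, if_neg h1]; simp

lemma oY_e2 {i j : I} (h1 : i ≠ j) (h2 : i ≠ -j) (a : F) : ρ (y (-j) (-i) a) (eh (-j)) = eh (-j) := by
  rw [oy_ee R A (by nx) (by nx), neg_neg, neg_neg, if_neg (by nx), if_neg (R.ne j)]; simp

omit R A in
lemma oli {i j : I} (h2 : i ≠ -j) (a b : F) (h : a • (eh i : (I → F) × W) + b • eh (-j) = 0) : a = 0 ∧ b = 0 := by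
  have h1 := congrFun (congrArg Prod.fst h) i
  have h3 := congrFun (congrArg Prod.fst h) (-j)
  simp only [Prod.fst_add, Prod.smul_fst, Pi.add_apply, Pi.smul_apply, eh_fst, smul_eq_mul, Prod.fst_zero, Pi.zero_apply,
    if_neg h2, if_neg (Ne.symm h2), if_true, mul_zero, mul_one, add_zero, zero_add] at h1 h3
  exact ⟨h1, h3⟩

/-- Weyl elements of long roots -/
def nl (y : I → I → F → Γ) (i j : I) (t : F) : Γ := y i j t * y (-j) (-i) (-t⁻¹) * y i j t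

/-- torus elements of long roots -/
def hl (y : I → I → F → Γ) (i j : I) (t : F) : Γ := nl y i j t * nl y i j (-1)

include O

lemma nl_mem {i j : I} (h1 : i ≠ j) (h2 : i ≠ -j) {t : F} (ht : t ≠ 0) : nl y i j t ∈ OM q0 y z ρ i j := by
  have hC := ocln O R A
  refine ⟨?_, ?_⟩
  · have m1 : y i j t ∈ OX q0 y z i j := HR.y_mem h1 h2 t
    have m2 : y (-j) (-i) (-t⁻¹) ∈ OX q0 y z (-i) (-j) := by
      rw [hC.Xs]; exact HR.y_mem (by nx) (by nx) _
    exact mul_mem (mul_mem (mem_sup_left m1) (mem_sup_right m2)) (mem_sup_left m1)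
  · have h3 := hn_y_aux O.hf A.ha (i := -j) (j := -i) R.ne (by nx) (by nx) (a := -t⁻¹) (neg_ne_zero.2 (inv_ne_zero ht))
    rw [neg_neg, neg_neg, RingHom.id_apply, show (-t⁻¹)⁻¹ = -t by rw [inv_neg, inv_inv], ← R.symm h1 h2] at h3
    intro p
    obtain ⟨c, hc⟩ := h3 p
    have e : rf (-j) (-i) p = rf i j p := by
      rw [rf_comm' R.ne, rf_negneg' R.ne h2]
    rw [e] at hc
    exact ⟨c, hc⟩

/-- the rank one relations for long roots -/
theorem r1l {i j : I} (h1 : i ≠ j) (h2 : i ≠ -j) : R1 (fun a => y i j a) (fun a => y (-j) (-i) a) := by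
  have ne := R.ne
  have hC := ocln O R A
  have hmij : -i ≠ - -j := fun e => h2 (neg_inj.1 e)
  obtain ⟨rfi, rfj⟩ := rf_self1 (I := I) (i := i) (j := j) h2
  have X1 := oX_e1 R A h1 h2
  have X2 := oX_e2 R A h1 h2
  have Y1 := oY_e1 R A h1 h2
  have Y2 := oY_e2 R A h1 h2
  have hm1 : ∀ t : F, t ≠ 0 → ρ (y i j t * y (-j) (-i) (-t⁻¹) * y i j t) (eh i) = (-t⁻¹) • eh (-j) := by
    intro t ht
    rw [hrho_mul, hrho_mul, X1, Y1, map_add, map_smul, X1, X2, smul_add, smul_smul]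
    have : -t⁻¹ * t = -1 := by field_simp
    rw [this]; module
  have hm2 : ∀ t : F, t ≠ 0 → ρ (y i j t * y (-j) (-i) (-t⁻¹) * y i j t) (eh (-j)) = t • eh i := by
    intro t ht
    rw [hrho_mul, hrho_mul, X2, map_add, map_smul, Y2, Y1, map_add, map_smul, map_add, map_smul, X1, X2]
    have k : t * t⁻¹ = 1 := mul_inv_cancel₀ ht
    linear_combination (norm := module) (-k) • (eh (-j) + t • eh i : (I → F) × W)
  refine ⟨fun t u => R.add h1 h2 _ _, fun t u => R.add (by nx) (by nx) _ _, fun t v ht => ?_, fun t v ht => ?_⟩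
  · have hm := nl_mem O R A h1 h2 ht
    set m := y i j t * y (-j) (-i) (-t⁻¹) * y i j t with hmdef
    have h3 := hC.M_X i j h2 i j h2 m hm (y i j v) (HR.y_mem h1 h2 v)
    rw [rfi, rfj] at h3
    obtain ⟨w, hw⟩ := (R.hr.mem_Xs (by nx) (by nx)).1 h3
    have e1 : m * y i j v = y (-j) (-i) w * m := by rw [hw]; group
    have e2 := congrArg (fun g => ρ g (eh (-j))) e1
    simp only [hrho_mul] at e2
    rw [X2, map_add, map_smul, hm2 t ht, hm1 t ht, map_smul, Y1] at e2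
    have h4 := oli (W := W) h2 0 (v * -t⁻¹ - t * w) (by linear_combination (norm := module) e2)
    have h5 : w = -(t⁻¹ ^ 2 * v) := by
      have h6 := h4.2
      field_simp at h6 ⊢
      linear_combination -h6
    rw [← h5]; exact e1
  · have hm := nl_mem O R A h1 h2 ht
    set m := y i j t * y (-j) (-i) (-t⁻¹) * y i j t with hmdef
    have h3 := hC.M_X i j h2 (-j) (-i) (by nx) m hm (y (-j) (-i) v) (HR.y_mem (by nx) (by nx) v)
    rw [rf_neg ne _ _ _ h2, rf_neg ne _ _ _ h2, rfi, rfj, neg_neg, neg_neg] at h3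
    obtain ⟨w, hw⟩ := (R.hr.mem_Xs h1 h2).1 h3
    have e1 : m * y (-j) (-i) v = y i j w * m := by rw [hw]; group
    have e2 := congrArg (fun g => ρ g (eh i)) e1
    simp only [hrho_mul] at e2
    rw [Y1, map_add, map_smul, hm1 t ht, hm2 t ht, map_smul, X2] at e2
    have h4 := oli (W := W) h2 (v * t + t⁻¹ * w) 0 (by linear_combination (norm := module) e2)
    have h5 : w = -(t ^ 2 * v) := by
      have h6 := h4.1
      field_simp at h6 ⊢
      linear_combination h6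
    rw [← h5]; exact e1

/-- action of the Weyl elements -/
lemma nl_act {i j : I} (h1 : i ≠ j) (h2 : i ≠ -j) {t : F} (ht : t ≠ 0) :
    ρ (nl y i j t) (eh i) = (-t⁻¹) • eh (-j) ∧ ρ (nl y i j t) (eh (-j)) = t • eh i ∧
    ρ (nl y i j t) (eh j) = t⁻¹ • eh (-i) ∧ ρ (nl y i j t) (eh (-i)) = (-t) • eh j ∧
    (∀ p, p ≠ i → p ≠ j → p ≠ -i → p ≠ -j → ρ (nl y i j t) (eh p) = eh p) ∧
    (∀ w, ρ (nl y i j t) (wh w) = wh w) := by
  have h1' : j ≠ i := Ne.symm h1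
  have h2' : j ≠ -i := by nx
  have a1 := (r1l O R A h1 h2).n_e1 ρ (oX_e1 R A h1 h2) (oX_e2 R A h1 h2) (oY_e1 R A h1 h2) ht
  have a2 := (r1l O R A h1 h2).n_e2 ρ (oX_e1 R A h1 h2) (oX_e2 R A h1 h2) (oY_e1 R A h1 h2) (oY_e2 R A h1 h2) ht
  have ht' : -t ≠ 0 := neg_ne_zero.2 ht
  have a3 := (r1l O R A h1' h2').n_e1 ρ (oX_e1 R A h1' h2') (oX_e2 R A h1' h2') (oY_e1 R A h1' h2') ht'
  have a4 := (r1l O R A h1' h2').n_e2 ρ (oX_e1 R A h1' h2') (oX_e2 R A h1' h2') (oY_e1 R A h1' h2') (oY_e2 R A h1' h2') ht'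
  have e : nl y i j t = (r1l O R A h1' h2').n (-t) := by
    change _ = y j i (-t) * y (-i) (-j) (-(-t)⁻¹) * y j i (-t)
    unfold nl
    rw [R.symm h1 h2, R.symm (i := -j) (j := -i) (by nx) (by nx)]
    congr 3
    rw [inv_neg]
  rw [← e] at a3 a4
  refine ⟨a1, a2, ?_, a4, ?_, ?_⟩
  · rw [a3]; congr 1; rw [inv_neg, neg_neg]
  · intro p p1 p2 p3 p4
    unfold nl
    rw [hrho_mul, hrho_mul, oy_ee R A h1 h2, if_neg p4, if_neg p3, zero_smul, zero_smul, add_zero, sub_zero,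
      oy_ee R A (i := -j) (j := -i) (by nx) (by nx), neg_neg, neg_neg, if_neg p1, if_neg p2, zero_smul, zero_smul, add_zero,
      sub_zero, oy_ee R A h1 h2, if_neg p4, if_neg p3, zero_smul, zero_smul, add_zero, sub_zero]
  · intro w
    unfold nl
    rw [hrho_mul, hrho_mul, act_y_wh A.ha h1 h2, act_y_wh A.ha (i := -j) (j := -i) (by nx) (by nx), act_y_wh A.ha h1 h2]

/-- action of the torus elements -/
lemma hl_act {i j : I} (h1 : i ≠ j) (h2 : i ≠ -j) {t : F} (ht : t ≠ 0) :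
    ρ (hl y i j t) (eh i) = t • eh i ∧ ρ (hl y i j t) (eh (-j)) = t⁻¹ • eh (-j) ∧
    ρ (hl y i j t) (eh j) = t • eh j ∧ ρ (hl y i j t) (eh (-i)) = t⁻¹ • eh (-i) ∧
    (∀ p, p ≠ i → p ≠ j → p ≠ -i → p ≠ -j → ρ (hl y i j t) (eh p) = eh p) ∧
    (∀ w, ρ (hl y i j t) (wh w) = wh w) := by
  obtain ⟨a1, a2, a3, a4, a5, a6⟩ := nl_act O R A h1 h2 ht
  obtain ⟨b1, b2, b3, b4, b5, b6⟩ := nl_act O R A h1 h2 (t := -1) (neg_ne_zero.2 one_ne_zero)
  unfold hl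
  refine ⟨?_, ?_, ?_, ?_, ?_, ?_⟩
  · rw [hrho_mul, b1, map_smul, a2, smul_smul]; congr 1; rw [inv_neg, inv_one]; ring
  · rw [hrho_mul, b2, map_smul, a1, smul_smul]; congr 1; ring
  · rw [hrho_mul, b3, map_smul, a4, smul_smul]; congr 1; rw [inv_neg, inv_one]; ring
  · rw [hrho_mul, b4, map_smul, a3, smul_smul]; congr 1; ring
  · intro p p1 p2 p3 p4
    rw [hrho_mul, b5 p p1 p2 p3 p4, a5 p p1 p2 p3 p4]
  · intro w
    rw [hrho_mul, b6, a6]

lemma hl_R {i j : I} (h1 : i ≠ j) (h2 : i ≠ -j) {t : F} (ht : t ≠ 0) : hl y i j t ∈ OX q0 y z i j ⊔ OX q0 y z (-i) (-j) :=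
  mul_mem (nl_mem O R A h1 h2 ht).1 (nl_mem O R A h1 h2 (neg_ne_zero.2 one_ne_zero)).1

lemma hl_T {i j : I} (h1 : i ≠ j) (h2 : i ≠ -j) {t : F} (ht : t ≠ 0) : hl y i j t ∈ (ocln O R A).T :=
  (ocln O R A).mul_mem_T h2 (nl_mem O R A h1 h2 ht) (nl_mem O R A h1 h2 (neg_ne_zero.2 one_ne_zero))

lemma oS_eq {i j : I} (h1 : i ≠ j) (h2 : i ≠ -j) : OX q0 y z i j ⊔ OX q0 y z (-i) (-j) ≤ (r1l O R A h1 h2).S := by
  refine sup_le ?_ ?_
  · intro x hx
    obtain ⟨a, rfl⟩ := (R.hr.mem_Xs h1 h2).1 hx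
    exact (r1l O R A h1 h2).X_mem a
  · intro x hx
    rw [(ocln O R A).Xs] at hx
    obtain ⟨a, rfl⟩ := (R.hr.mem_Xs (by nx) (by nx)).1 hx
    exact (r1l O R A h1 h2).Y_mem a

variable [Finite F]

/-- diagonal elements of a long rank one group -/
lemma hl_uniq' {i j : I} (h1 : i ≠ j) (h2 : i ≠ -j) {g : Γ} (hg : g ∈ OX q0 y z i j ⊔ OX q0 y z (-i) (-j))
    (hi : g ∈ HSt ρ i) (hj : g ∈ HSt ρ (-j)) : ∃ t : F, t ≠ 0 ∧ g = hl y i j t :=
  (r1l O R A h1 h2).diag_eq ρ (oli h2) (oX_e1 R A h1 h2) (oX_e2 R A h1 h2) (oY_e1 R A h1 h2) (oY_e2 R A h1 h2)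
    (oS_eq O R A h1 h2 hg) hi hj

lemma hl_uniq {i j : I} (h1 : i ≠ j) (h2 : i ≠ -j) {g : Γ} (hg : g ∈ OX q0 y z i j ⊔ OX q0 y z (-i) (-j))
    {t : F} (hi : ρ g (eh i) = t • eh i) (hj : g ∈ HSt ρ (-j)) : g = hl y i j t := by
  obtain ⟨s, hs, rfl⟩ := hl_uniq' O R A h1 h2 hg ⟨t, hi⟩ hj
  rw [(hl_act O R A h1 h2 hs).1] at hi
  have := congrFun (congrArg Prod.fst hi) i
  rw [Prod.smul_fst, Pi.smul_apply, Prod.smul_fst, Pi.smul_apply, eh_fst, if_pos rfl, smul_eq_mul, smul_eq_mul, mul_one,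
    mul_one] at this
  rw [this]


omit [Finite F] in
lemma T_R {i j : I} (h2 : i ≠ -j) {t : Γ} (ht : t ∈ (ocln O R A).T) {g : Γ} (hg : g ∈ OX q0 y z i j ⊔ OX q0 y z (-i) (-j)) :
    t * g * t⁻¹ ∈ OX q0 y z i j ⊔ OX q0 y z (-i) (-j) := by
  have : OX q0 y z i j ⊔ OX q0 y z (-i) (-j) ≤ (OX q0 y z i j ⊔ OX q0 y z (-i) (-j)).comap (MulAut.conj t).toMonoidHom := by
    refine sup_le ?_ ?_
    · intro x hx; rw [mem_comap]; exact mem_sup_left ((ocln O R A).T_X h2 ht x hx)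
    · intro x hx; rw [mem_comap]; exact mem_sup_right ((ocln O R A).T_X (fun e => h2 (neg_inj.1 e)) ht x hx)
  exact this hg

omit [Finite F] in
lemma M_R {i j k l : I} (h2 : i ≠ -j) (hkl : k ≠ -l) {m : Γ} (hm : m ∈ OM q0 y z ρ i j) {g : Γ}
    (hg : g ∈ OX q0 y z k l ⊔ OX q0 y z (-k) (-l)) :
    m * g * m⁻¹ ∈ OX q0 y z (rf i j k) (rf i j l) ⊔ OX q0 y z (-rf i j k) (-rf i j l) := by
  have hC := ocln O R A
  have : OX q0 y z k l ⊔ OX q0 y z (-k) (-l) ≤ (OX q0 y z (rf i j k) (rf i j l) ⊔ OX q0 y z (-rf i j k) (-rf i j l)).comap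
      (MulAut.conj m).toMonoidHom := by
    refine sup_le ?_ ?_
    · intro x hx; rw [mem_comap]; exact mem_sup_left (hC.M_X i j h2 k l hkl m hm x hx)
    · intro x hx
      rw [mem_comap]
      have := hC.M_X i j h2 (-k) (-l) (fun e => hkl (neg_inj.1 e)) m hm x hx
      rw [rf_neg R.ne _ _ _ h2, rf_neg R.ne _ _ _ h2] at this
      exact mem_sup_right this
  exact this hg

omit [Finite F] in
lemma oT_St {t : Γ} (ht : t ∈ (ocln O R A).T) (o : I) : t ∈ HSt ρ o := hT_St O.hf R.hr A.ha o ht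

/-- the torus centralizes the torus elements of long roots -/
lemma T_hl {i j : I} (h1 : i ≠ j) (h2 : i ≠ -j) {t : F} (ht : t ≠ 0) {g : Γ} (hg : g ∈ (ocln O R A).T) :
    g * hl y i j t = hl y i j t * g := by
  have h3 := T_R O R A h2 hg (hl_R O R A h1 h2 ht)
  have h4 : g * hl y i j t * g⁻¹ ∈ (ocln O R A).T := mul_mem (mul_mem hg (hl_T O R A h1 h2 ht)) (inv_mem hg)
  have h5 := hl_uniq O R A h1 h2 h3 (t := t) ?_ (oT_St O R A h4 _)
  · exact mul_inv_eq_iff_eq_mul.1 h5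
  · obtain ⟨c, hc⟩ := oT_St O R A (inv_mem hg) i
    have h6 := hswap_inv' hc
    rw [inv_inv] at h6
    have hc0 := hswap_ne hc
    rw [hrho_mul, hrho_mul, hc, map_smul, (hl_act O R A h1 h2 ht).1, map_smul, map_smul, h6, smul_smul, smul_smul]
    congr 1
    field_simp

lemma hl_symm {i j : I} (h1 : i ≠ j) (h2 : i ≠ -j) {t : F} (ht : t ≠ 0) : hl y i j t = hl y j i t := by
  have hC := ocln O R A
  refine hl_uniq O R A (Ne.symm h1) (by nx) ?_ (hl_act O R A h1 h2 ht).2.2.1 (oT_St O R A (hl_T O R A h1 h2 ht) _)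
  have := hl_R O R A h1 h2 ht
  rwa [hC.Xs i j, hC.Xs (-i) (-j)] at this

lemma hl_mul {i j : I} (h1 : i ≠ j) (h2 : i ≠ -j) {t u : F} (ht : t ≠ 0) (hu : u ≠ 0) :
    hl y i j t * hl y i j u = hl y i j (t * u) := by
  refine hl_uniq O R A h1 h2 (mul_mem (hl_R O R A h1 h2 ht) (hl_R O R A h1 h2 hu)) ?_
    (oT_St O R A (mul_mem (hl_T O R A h1 h2 ht) (hl_T O R A h1 h2 hu)) _)
  rw [hrho_mul, (hl_act O R A h1 h2 hu).1, map_smul, (hl_act O R A h1 h2 ht).1, smul_smul, mul_comm]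

lemma hl_one {i j : I} (h1 : i ≠ j) (h2 : i ≠ -j) : hl y i j (1 : F) = 1 := by
  have := hl_mul O R A h1 h2 one_ne_zero one_ne_zero
  rw [mul_one] at this
  exact mul_eq_left.1 this

lemma hl_inv {i j : I} (h1 : i ≠ j) (h2 : i ≠ -j) {t : F} (ht : t ≠ 0) : (hl y i j t)⁻¹ = hl y i j t⁻¹ := by
  rw [inv_eq_iff_mul_eq_one, hl_mul O R A h1 h2 ht (inv_ne_zero ht), mul_inv_cancel₀ ht, hl_one O R A h1 h2]

lemma hl_neg {i j : I} (h1 : i ≠ j) (h2 : i ≠ -j) {t : F} (ht : t ≠ 0) : hl y (-i) (-j) t = (hl y i j t)⁻¹ := by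
  symm
  refine hl_uniq O R A (by nx) (by nx) ?_ ?_ (oT_St O R A (inv_mem (hl_T O R A h1 h2 ht)) _)
  · rw [neg_neg, neg_neg, sup_comm]
    exact inv_mem (hl_R O R A h1 h2 ht)
  · have := hswap_inv' (hl_act O R A h1 h2 ht).2.2.2.1
    rwa [inv_inv] at this

lemma hl_add {i j k : I} (h1 : i ≠ j) (h2 : i ≠ -j) (h3 : j ≠ k) (h4 : j ≠ -k) (h5 : i ≠ k) (h6 : i ≠ -k) {t : F} (ht : t ≠ 0) :
    hl y i k t = hl y i j t * hl y (-j) k t := by
  have hC := ocln O R A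
  have hn := nl_mem O R A h1 h2 (one_ne_zero (α := F))
  set n := nl y i j (1 : F) with hndef
  have hjk : -j ≠ k := by nx
  have hjk' : -j ≠ -k := by nx
  have hβ := hl_T O R A hjk hjk' ht
  set hb := hl y (-j) k t with hbdef
  obtain ⟨rfi, rfj⟩ := rf_self1 (I := I) (i := i) (j := j) h2
  have rfk : rf i j k = k := rf_of_ne (by nx) (by nx) (by nx) (by nx)
  have rfnj : rf i j (-j) = i := by rw [rf_neg R.ne _ _ _ h2, rfj, neg_neg]
  have a1 : n * hb * n⁻¹ ∈ OX q0 y z i k ⊔ OX q0 y z (-i) (-k) := by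
    have := M_R O R A h2 hjk' hn (hl_R O R A hjk hjk' ht)
    rwa [rfnj, rfk] at this
  have nT : n * hb * n⁻¹ ∈ (ocln O R A).T := hC.M_T h2 hn _ hβ
  have e1 : n * hb * n⁻¹ = hl y i k t := by
    refine hl_uniq O R A h5 h6 a1 ?_ (oT_St O R A nT _)
    obtain ⟨-, b2, -⟩ := nl_act O R A h1 h2 (one_ne_zero (α := F))
    rw [one_smul] at b2
    have b3 : ρ n⁻¹ (eh i) = eh (-j) := by
      rw [← b2, ← hrho_mul, inv_mul_cancel, map_one]; rfl
    rw [hrho_mul, hrho_mul, b3, (hl_act O R A hjk hjk' ht).1, map_smul, b2]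
  -- the element of the rank one group of `{i, j}`
  have hn' : n⁻¹ ∈ OM q0 y z ρ i j := hC.M_inv i j h2 n hn
  have a2 : hb * n⁻¹ * hb⁻¹ ∈ OX q0 y z i j ⊔ OX q0 y z (-i) (-j) := T_R O R A h2 hβ hn'.1
  have e2 : n * (hb * n⁻¹ * hb⁻¹) = hl y i k t * hb⁻¹ := by rw [← e1]; group
  have e3 : n * (hb * n⁻¹ * hb⁻¹) = hl y i j t := by
    refine hl_uniq O R A h1 h2 (mul_mem hn.1 a2) ?_ ?_
    · rw [e2, hrho_mul]
      have b4 := (hl_act O R A hjk hjk' ht).2.2.2.2.1 i (by nx) (by nx) (by nx) (by nx)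
      have b5 : ρ hb⁻¹ (eh i) = eh i := by
        conv_lhs => rw [← b4]
        rw [← hrho_mul, inv_mul_cancel, map_one]; rfl
      rw [b5, (hl_act O R A h5 h6 ht).1]
    · rw [e2]
      exact oT_St O R A (mul_mem (hl_T O R A h5 h6 ht) (inv_mem hβ)) _
  rw [← e3, e2, inv_mul_cancel_right]

/-- the diagonal elements of a short rank one group -/
def DI (q0 : W → F) (y : I → I → F → Γ) (z : I → W → Γ) (T : Subgroup Γ) (i : I) : Subgroup Γ :=
  (OX q0 y z i i ⊔ OX q0 y z (-i) (-i)) ⊓ T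

/-- the subgroup generated by the tori of the roots `{i, -i0}` and the torus of the short root `i0` -/
def T1 (q0 : W → F) (y : I → I → F → Γ) (z : I → W → Γ) (T : Subgroup Γ) (i0 : I) : Subgroup Γ :=
  closure {g | ∃ i, i ≠ i0 ∧ i ≠ -i0 ∧ ∃ t : F, t ≠ 0 ∧ g = hl y i (-i0) t} ⊔ DI q0 y z T i0

omit [Finite F] O R A in
lemma hl_T1 {T : Subgroup Γ} {i i0 : I} (h1 : i ≠ i0) (h2 : i ≠ -i0) {t : F} (ht : t ≠ 0) : hl y i (-i0) t ∈ T1 q0 y z T i0 :=
  mem_sup_left (subset_closure ⟨i, h1, h2, t, ht, rfl⟩)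

lemma hl_T1' {T : Subgroup Γ} {i j i0 : I} (h1 : i ≠ j) (h2 : i ≠ -j) {t : F} (ht : t ≠ 0) : hl y i j t ∈ T1 q0 y z T i0 := by
  have ne := R.ne
  -- the roots with `i0` or `-i0`
  have key : ∀ {k : I}, k ≠ i0 → k ≠ -i0 → hl y k i0 t ∈ T1 q0 y z T i0 := by
    intro k k1 k2
    have e := hl_neg O R A (i := -k) (j := -i0) (by nx) (by nx) ht
    rw [neg_neg, neg_neg] at e
    rw [e]
    exact inv_mem (hl_T1 (by nx) (by nx) ht)
  by_cases c1 : j = -i0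
  · subst c1
    rw [neg_neg] at h2
    exact hl_T1 h2 h1 ht
  by_cases c2 : j = i0
  · subst c2
    exact key h1 h2
  by_cases c3 : i = -i0
  · subst c3
    rw [hl_symm O R A h1 h2 ht]
    exact hl_T1 (by nx) (by nx) ht
  by_cases c4 : i = i0
  · subst c4
    rw [hl_symm O R A h1 h2 ht]
    exact key (by nx) (by nx)
  have d1 : i ≠ i0 := c4
  have d2 : i ≠ -i0 := c3
  have d3 : j ≠ i0 := c2
  have d4 : j ≠ -i0 := c1
  rw [hl_add O R A (i := i) (j := -i0) (k := j) (by nx) (by nx) (by nx) (by nx) h1 h2 ht, neg_neg]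
  refine mul_mem (hl_T1 d1 d2 ht) ?_
  rw [hl_symm O R A (by nx) (by nx) ht]
  exact key d3 d4

theorem T_le_T1 (i0 : I) : (ocln O R A).T ≤ T1 q0 y z (ocln O R A).T i0 := by
  have ne := R.ne
  have hC := ocln O R A
  unfold Cln.T
  rw [closure_le]
  rintro _ ⟨i, j, hij, m, hm, m', hm', rfl⟩
  have hT := hC.mul_mem_T hij hm hm'
  have hR : m * m' ∈ OX q0 y z i j ⊔ OX q0 y z (-i) (-j) := mul_mem hm.1 hm'.1
  by_cases h1 : i = j
  · subst h1
    by_cases c1 : i = i0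
    · subst c1
      exact mem_sup_right ⟨hR, hT⟩
    by_cases c2 : i = -i0
    · subst c2
      rw [neg_neg, sup_comm] at hR
      exact mem_sup_right ⟨hR, hT⟩
    have d1 : i ≠ i0 := c1
    have d2 : i ≠ -i0 := c2
    have d3 : i ≠ - -i0 := by rw [neg_neg]; exact d1
    have hn := nl_mem O R A (i := i) (j := -i0) d2 d3 (one_ne_zero (α := F))
    set n := nl y i (-i0) (1 : F)
    set g := m * m' with hg
    have r1 : rf i (-i0) i = i0 := rf_eq ne d1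
    have a1 : n * g * n⁻¹ ∈ OX q0 y z i0 i0 ⊔ OX q0 y z (-i0) (-i0) := by
      have := M_R O R A d3 hij hn hR
      rwa [r1] at this
    have a2 : n * g * n⁻¹ ∈ (ocln O R A).T := hC.M_T d3 hn _ hT
    have a3 : n * g * n⁻¹ ∈ T1 q0 y z (ocln O R A).T i0 := mem_sup_right ⟨a1, a2⟩
    have a4 : g * n⁻¹ * g⁻¹ ∈ OX q0 y z i (-i0) ⊔ OX q0 y z (-i) (- -i0) := T_R O R A d3 hT (hC.M_inv _ _ d3 n hn).1
    have e : n * (g * n⁻¹ * g⁻¹) = (n * g * n⁻¹) * g⁻¹ := by group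
    obtain ⟨t, ht, hte⟩ := hl_uniq' O R A d2 d3 (mul_mem hn.1 a4)
      (by rw [e]; exact oT_St O R A (mul_mem a2 (inv_mem hT)) _) (by rw [e]; exact oT_St O R A (mul_mem a2 (inv_mem hT)) _)
    have e2 : g = (hl y i (-i0) t)⁻¹ * (n * g * n⁻¹) := by rw [← hte]; group
    rw [SetLike.mem_coe, e2]
    exact mul_mem (inv_mem (hl_T1 d1 d2 ht)) a3
  · obtain ⟨t, ht, hte⟩ := hl_uniq' O R A h1 hij hR (oT_St O R A hT _) (oT_St O R A hT _)
    rw [hte]
    exact hl_T1' O R A h1 hij ht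

/-- the central torus elements -/
def cc (y : I → I → F → Γ) (i i0 : I) (u : F) : Γ := hl y i (-i0) u * hl y (-i) (-i0) u

omit [Finite F] in
lemma cc_act {i i0 : I} (h1 : i ≠ i0) (h2 : i ≠ -i0) {u : F} (hu : u ≠ 0) :
    (∀ p, p ≠ i0 → p ≠ -i0 → ρ (cc y i i0 u) (eh p) = eh p) ∧ ρ (cc y i i0 u) (eh (-i0)) = (u ^ 2) • eh (-i0) ∧
    ρ (cc y i i0 u) (eh i0) = (u⁻¹ ^ 2) • eh i0 ∧ ∀ w, ρ (cc y i i0 u) (wh w) = wh w := by
  have ne := R.ne
  have n1 : -i ≠ -i0 := by nx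
  have n2 : -i ≠ - -i0 := by nx
  have n3 : i ≠ - -i0 := by nx
  obtain ⟨a1, a2, a3, a4, a5, a6⟩ := hl_act O R A (i := i) (j := -i0) h2 n3 hu
  obtain ⟨b1, b2, b3, b4, b5, b6⟩ := hl_act O R A (i := -i) (j := -i0) n1 n2 hu
  rw [neg_neg] at a2 b2 b4
  unfold cc
  refine ⟨?_, ?_, ?_, ?_⟩
  · intro p p1 p2
    rw [hrho_mul]
    by_cases c1 : p = i
    · subst c1
      rw [b4, map_smul, a1, smul_smul, inv_mul_cancel₀ hu, one_smul]
    by_cases c2 : p = -i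
    · subst c2
      rw [b1, map_smul, a4, smul_smul, mul_inv_cancel₀ hu, one_smul]
    rw [b5 p c2 p2 (by rw [neg_neg]; exact c1) (by rw [neg_neg]; exact p1), a5 p c1 p2 c2 (by rw [neg_neg]; exact p1)]
  · rw [hrho_mul, b3, map_smul, a3, smul_smul, pow_two]
  · rw [hrho_mul, b2, map_smul, a2, smul_smul, pow_two]
  · intro w
    rw [hrho_mul, b6, a6]

lemma cc_T {i i0 : I} (h1 : i ≠ i0) (h2 : i ≠ -i0) {u : F} (hu : u ≠ 0) : cc y i i0 u ∈ (ocln O R A).T :=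
  mul_mem (hl_T O R A h2 (by nx) hu) (hl_T O R A (by nx) (by nx) hu)

lemma cc_neg {i i0 : I} (h1 : i ≠ i0) (h2 : i ≠ -i0) {u : F} (hu : u ≠ 0) : cc y (-i) i0 u = cc y i i0 u := by
  unfold cc
  rw [neg_neg, T_hl O R A (i := i) (j := -i0) h2 (by nx) hu (hl_T O R A (i := -i) (j := -i0) (by nx) (by nx) hu)]

lemma cc_eq {i j i0 : I} (h1 : i ≠ i0) (h2 : i ≠ -i0) (h3 : j ≠ i0) (h4 : j ≠ -i0) {u : F} (hu : u ≠ 0) :
    cc y i i0 u = cc y j i0 u := by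
  have ne := R.ne
  by_cases c1 : i = j
  · rw [c1]
  by_cases c2 : i = -j
  · rw [c2, cc_neg O R A h3 h4 hu]
  have e1 : hl y i (-i0) u = hl y i (-j) u * hl y j (-i0) u := by
    have := hl_add O R A (i := i) (j := -j) (k := -i0) (by nx) (by nx) (by nx) (by nx) (by nx) (by nx) hu
    rwa [neg_neg] at this
  have e2 : hl y (-j) (-i0) u = hl y (-j) i u * hl y (-i) (-i0) u :=
    hl_add O R A (i := -j) (j := i) (k := -i0) (by nx) (by nx) (by nx) (by nx) (by nx) (by nx) hu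
  unfold cc
  rw [e1, e2, hl_symm O R A (i := -j) (j := i) (by nx) (by nx) hu, ← mul_assoc,
    T_hl O R A (i := i) (j := -j) (by nx) (by nx) hu (hl_T O R A (i := j) (j := -i0) (by nx) (by nx) hu)]

lemma cc_mul {i i0 : I} (h1 : i ≠ i0) (h2 : i ≠ -i0) {t u : F} (ht : t ≠ 0) (hu : u ≠ 0) :
    cc y i i0 t * cc y i i0 u = cc y i i0 (t * u) := by
  unfold cc
  rw [← hl_mul O R A (i := i) (j := -i0) h2 (by nx) ht hu, ← hl_mul O R A (i := -i) (j := -i0) (by nx) (by nx) ht hu]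
  have := T_hl O R A (i := i) (j := -i0) h2 (by nx) hu (hl_T O R A (i := -i) (j := -i0) (by nx) (by nx) ht)
  calc hl y i (-i0) t * hl y (-i) (-i0) t * (hl y i (-i0) u * hl y (-i) (-i0) u)
      = hl y i (-i0) t * (hl y (-i) (-i0) t * hl y i (-i0) u) * hl y (-i) (-i0) u := by group
    _ = _ := by rw [this]; group

end Cfsg.Agent.Stb
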