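import Cfsg.Agent.Stb.OTypeD

set_option autoImplicit false

/-!
The spin group is the universal group with the Steinberg relations.
-/

namespace Cfsg.Agent.Stb

open QuadraticMap Cfsg.Agent.Orth Subgroup
open scoped commutatorElement

section general

variable {I : Type} {F W : Type*} [InvolutiveNeg I] [DecidableEq I] [Fintype I] [Field F] [AddCommGroup W] [Module F W]
variable {Q : QuadraticForm F ((I → F) × W)} {q0 : W → F} {B0 : W → W → F} (H : OQ Q q0 B0) (O : OF q0 B0)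
variable {G : Type*} [Group G] {y : I → I → F → G} {z : I → W → G} (R : OR q0 B0 y z)

omit [DecidableEq I] [Fintype I] in
/-- the relations hold in products -/
theorem or_prod {G' : Type*} [Group G'] {y' : I → I → F → G'} {z' : I → W → G'} (R : OR q0 B0 y z) (R' : OR q0 B0 y' z') :
    OR q0 B0 (fun i j a => (y i j a, y' i j a)) (fun i w => (z i w, z' i w)) where
  ne := R.ne
  three := R.three
  symm h1 h2 a := Prod.ext (R.symm h1 h2 a) (R'.symm h1 h2 a)
  add h1 h2 a b := Prod.ext (R.add h1 h2 a b) (R'.add h1 h2 a b)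
  zadd i w w' := Prod.ext (R.zadd i w w') (R'.zadd i w w')
  c1 h1 h2 h3 h4 h5 h6 a b := Prod.ext (R.c1 h1 h2 h3 h4 h5 h6 a b) (R'.c1 h1 h2 h3 h4 h5 h6 a b)
  c2 h1 h2 a b := Prod.ext (R.c2 h1 h2 a b) (R'.c2 h1 h2 a b)
  c3 h1 h2 w b := Prod.ext (R.c3 h1 h2 w b) (R'.c3 h1 h2 w b)
  c4 h1 h2 h3 h4 h5 h6 h7 h8 a b := Prod.ext (R.c4 h1 h2 h3 h4 h5 h6 h7 h8 a b) (R'.c4 h1 h2 h3 h4 h5 h6 h7 h8 a b)
  c5 h1 h2 h3 h4 w a := Prod.ext (R.c5 h1 h2 h3 h4 w a) (R'.c5 h1 h2 h3 h4 w a)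
  c6 h1 h2 w w' := Prod.ext (R.c6 h1 h2 w w') (R'.c6 h1 h2 w w')

include H O in
theorem oa_prod (y : I → I → F → G) (z : I → W → G) :
    OA q0 B0 (fun i j a => (y i j a, Yc Q i j a)) (fun i w => (z i w, Zc Q i w)) ((ρc Q).comp (MonoidHom.snd G (CP Q))) where
  act_y h1 h2 a v := (oac H O).act_y h1 h2 a v
  act_z i w v := (oac H O).act_z i w v
  form g u v := (oac H O).form g.2 u v

include H O R in
/-- universality from the kernel -/
theorem exists_hom_aux [Finite F] {i1 i0 : I} (k1 : i1 ≠ i0) (k2 : i1 ≠ -i0)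
    (hk : ∀ g ∈ gp (OX q0 (fun i j a => (y i j a, Yc Q i j a)) (fun i w => (z i w, Zc Q i w))) (fun _ _ => True),
      ((ρc Q).comp (MonoidHom.snd G (CP Q))) g = 1 → g = 1 ∨ g = cc (fun i j a => (y i j a, Yc Q i j a)) i1 i0 (-1)) :
    ∃ π : TT Q q0 →* G, (∀ {i j}, i ≠ j → i ≠ -j → ∀ a, π (toS (TT Q q0) (Yc Q i j a)) = y i j a) ∧
      ∀ i w, π (toS (TT Q q0) (Zc Q i w)) = z i w := by
  have Rp := or_prod R (orc H O)
  have Ap := oa_prod H O y z
  set T : Subgroup (G × CP Q) := gp (OX q0 (fun i j a => (y i j a, Yc Q i j a)) (fun i w => (z i w, Zc Q i w))) (fun _ _ => True)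
    with hT
  have memy : ∀ {i j}, i ≠ j → i ≠ -j → ∀ a, ((y i j a, Yc Q i j a) : G × CP Q) ∈ T := fun {i j} h1 h2 a =>
    y_mem_gp (q0 := q0) (y := fun i j a => ((y i j a, Yc Q i j a) : G × CP Q)) (z := fun i w => (z i w, Zc Q i w)) h1 h2 a
  have memz : ∀ i w, ((z i w, Zc Q i w) : G × CP Q) ∈ T := fun i w =>
    z_mem_gp (q0 := q0) (y := fun i j a => ((y i j a, Yc Q i j a) : G × CP Q)) (z := fun i w => (z i w, Zc Q i w)) H.ne i w
  have tY : ∀ {i j}, i ≠ j → i ≠ -j → ∀ a, ((toS (TT Q q0) (Yc Q i j a) : TT Q q0) : CP Q) = Yc Q i j a := fun h1 h2 a =>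
    toS_coe (y_mem_gp h1 h2 a)
  have tZ : ∀ i w, ((toS (TT Q q0) (Zc Q i w) : TT Q q0) : CP Q) = Zc Q i w := fun i w => toS_coe (z_mem_gp H.ne i w)
  have hle : T ≤ (TT Q q0).comap (MonoidHom.snd G (CP Q)) := by
    rw [hT]
    refine ogp_le Rp ?_ ?_ O
    · intro i j h1 h2 a
      exact y_mem_gp h1 h2 a
    · intro i w
      exact z_mem_gp H.ne i w
  let f : T →* TT Q q0 := ((MonoidHom.snd G (CP Q)).comp T.subtype).codRestrict (TT Q q0) (fun g => hle g.2)
  have hf : Function.Injective f := by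
    rw [injective_iff_map_eq_one]
    intro g hg
    have h1 : (g : G × CP Q).2 = 1 := congrArg Subtype.val hg
    have h2 : ((ρc Q).comp (MonoidHom.snd G (CP Q))) g = 1 := by
      rw [MonoidHom.comp_apply]
      change ρc Q (g : G × CP Q).2 = 1
      rw [h1, _root_.map_one]
    rcases hk g g.2 h2 with h3 | h3
    · exact Subtype.ext h3
    · have h4 : cc (Yc Q) i1 i0 (-1) = 1 := by
        have h5 := congrArg Prod.snd h3
        rw [h1] at h5
        exact h5.symm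
      have h20 := kap_ne H O k1 k2 h4
      apply Subtype.ext
      rw [h3]
      have hm1 : (-1 : F) = 1 := by linear_combination -h20
      rw [hm1]
      unfold cc hl nl
      have e : ∀ {i j : I}, i ≠ j → i ≠ -j → ((y i j 1, Yc Q i j 1) : G × CP Q) * (y (-j) (-i) (-(1 : F)⁻¹), Yc Q (-j) (-i) (-(1 : F)⁻¹)) *
          (y i j 1, Yc Q i j 1) * ((y i j (-1), Yc Q i j (-1)) * (y (-j) (-i) (-(-1 : F)⁻¹), Yc Q (-j) (-i) (-(-1 : F)⁻¹)) *
          (y i j (-1), Yc Q i j (-1))) = 1 := by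
        intro i j h1 h2
        have n1 : -j ≠ -i := by nx
        have n2 : -j ≠ - -i := by nx
        have a1 := Rp.hr.neg h1 h2 1
        have a2 := Rp.hr.neg n1 n2 1
        rw [inv_one, inv_neg, inv_one, neg_neg, a1, a2]
        group
      rw [e k2 (by nx), e (by nx) (by nx), one_mul]; rfl
  have hs : Function.Surjective f := by
    rw [← MonoidHom.range_eq_top, ← top_le_iff]
    have hG := ogen_restrict O (orc H O) (T := TT Q q0) rfl
    unfold OGen at hG
    rw [← hG]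
    refine ogp_le (or_restrict (orc H O) rfl) ?_ ?_ O
    · intro i j h1 h2 a
      refine ⟨⟨_, memy h1 h2 a⟩, Subtype.ext ?_⟩
      exact (tY h1 h2 a).symm
    · intro i w
      refine ⟨⟨_, memz i w⟩, Subtype.ext ?_⟩
      exact (tZ i w).symm
  let e := MulEquiv.ofBijective f ⟨hf, hs⟩
  refine ⟨(MonoidHom.fst G (CP Q)).comp (T.subtype.comp e.symm.toMonoidHom), ?_, ?_⟩
  · intro i j h1 h2 a
    have h3 : e ⟨_, memy h1 h2 a⟩ = toS (TT Q q0) (Yc Q i j a) := Subtype.ext (tY h1 h2 a).symm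
    rw [← h3]
    change ((e.symm (e ⟨_, memy h1 h2 a⟩) : T) : G × CP Q).1 = _
    rw [e.symm_apply_apply]
  · intro i w
    have h3 : e ⟨_, memz i w⟩ = toS (TT Q q0) (Zc Q i w) := Subtype.ext (tZ i w).symm
    rw [← h3]
    change ((e.symm (e ⟨_, memz i w⟩) : T) : G × CP Q).1 = _
    rw [e.symm_apply_apply]

include H O R in
/-- **Steinberg**: the spin group is universal, type `D` -/
theorem exists_hom_D [Finite F] [Subsingleton W] {i1 i0 : I} (k1 : i1 ≠ i0) (k2 : i1 ≠ -i0) :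
    ∃ π : TT Q q0 →* G, (∀ {i j}, i ≠ j → i ≠ -j → ∀ a, π (toS (TT Q q0) (Yc Q i j a)) = y i j a) ∧
      ∀ i w, π (toS (TT Q q0) (Zc Q i w)) = z i w :=
  exists_hom_aux H O R k1 k2 fun _ hg h => ker_D O (or_prod R (orc H O)) (oa_prod H O y z) k1 k2 hg h

end general

section typeL

variable {I : Type} {F L : Type*} [InvolutiveNeg I] [DecidableEq I] [Fintype I] [Field F] [Field L] [Algebra F L]
variable {Q : QuadraticForm F ((I → F) × L)} {q0 : L → F} {B0 : L → L → F} {τ : L →+* L} (N : OL q0 τ) (H : OQ Q q0 B0)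
  (O : OF q0 B0) {G : Type*} [Group G] {y : I → I → F → G} {z : I → L → G} (R : OR q0 B0 y z)

include N H O R in
/-- **Steinberg**: the spin group is universal, types `B`, `²D` -/
theorem exists_hom_L [Finite F] [Finite L] {i1 i0 : I} (k1 : i1 ≠ i0) (k2 : i1 ≠ -i0) :
    ∃ π : TT Q q0 →* G, (∀ {i j}, i ≠ j → i ≠ -j → ∀ a, π (toS (TT Q q0) (Yc Q i j a)) = y i j a) ∧
      ∀ i w, π (toS (TT Q q0) (Zc Q i w)) = z i w :=
  exists_hom_aux H O R k1 k2 fun _ hg h => ker_L N O (or_prod R (orc H O)) (oa_prod H O y z) k1 k2 hg h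

end typeL

end Cfsg.Agent.Stb
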