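import Cfsg.Agent.Stb.SpTwo

set_option autoImplicit false

/-!
Central extensions of the symplectic groups split.
-/

namespace Cfsg.Agent.Stb

open Subgroup Matrix Cfsg.Agent.Mult
open Cfsg.Agent.ClassSp
open scoped commutatorElement

attribute [local instance] sumNeg

universe u

section mat

variable {l : Type*} [Fintype l] [DecidableEq l] {F : Type*} [Field F]

/-- diagonal elements -/
noncomputable def hd (s : l ⊕ l → Fˣ) : symplecticGroup l F :=
  ofLin
    { toFun := fun v p => (Sum.elim (fun i => (s (Sum.inl i) : F)) (fun i => ((s (Sum.inl i))⁻¹ : Fˣ)) p) * v p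
      map_add' := fun v w => by funext p; simp [mul_add]
      map_smul' := fun c v => by funext p; simp; ring }
    (by
      intro v w
      unfold sf
      refine Finset.sum_congr rfl fun i _ => ?_
      simp only [LinearMap.coe_mk, AddHom.coe_mk, Sum.elim_inl, Sum.elim_inr, Units.val_inv_eq_inv_val]
      have := (s (Sum.inl i)).ne_zero
      field_simp)

lemma hd_apply {s : l ⊕ l → Fˣ} (hs : Sy s) (v : l ⊕ l → F) (p : l ⊕ l) :
    ((hd s : Matrix (l ⊕ l) (l ⊕ l) F) *ᵥ v) p = s p * v p := by
  unfold hd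
  rw [ofLin_mulVec]
  simp only [LinearMap.coe_mk, AddHom.coe_mk]
  rcases p with p | p
  · rfl
  · have h1 : s (Sum.inr p) = (s (Sum.inl p))⁻¹ := hs (Sum.inl p)
    rw [h1]; rfl

theorem spD : SpD (ye : l ⊕ l → l ⊕ l → F → symplecticGroup l F) hd where
  act s hs i j hij a := by
    apply ext_vec; intro v
    funext p
    rw [mul_mulVec, mul_mulVec, hd_apply hs, ye_apply hij, ye_apply hij, hd_apply hs, hd_apply hs, hd_apply hs]
    have h1 : ∀ i, (s i : F) * (s (-i) : F) = 1 := by
      intro i
      have h2 := hs i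
      rw [h2]; simp
    by_cases c1 : p = i
    · by_cases c2 : p = j ∧ i ≠ j
      · rw [if_pos c1, if_pos c2, if_pos c1, if_pos c2]
        rw [← c2.1, ← c1] at c2
        exact absurd rfl c2.2
      · rw [if_pos c1, if_neg c2, if_pos c1, if_neg c2, c1]
        linear_combination (-(s i * a * eps F j * v (-j))) * h1 j
    · by_cases c2 : p = j ∧ i ≠ j
      · rw [if_neg c1, if_pos c2, if_neg c1, if_pos c2, c2.1]
        linear_combination (-(s j * a * eps F i * v (-i))) * h1 i
      · rw [if_neg c1, if_neg c2, if_neg c1, if_neg c2]; ring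
  comm s t hs ht := by
    apply ext_vec; intro v
    funext p
    rw [mul_mulVec, mul_mulVec, hd_apply hs, hd_apply ht, hd_apply ht, hd_apply hs]
    ring

lemma ye_braid (h20 : (2 : F) = 0) (j : l ⊕ l) :
    (ye j j 1 * ye (-j) (-j) 1 * ye j j 1 : symplecticGroup l F) = ye (-j) (-j) 1 * ye j j 1 * ye (-j) (-j) 1 := by
  have hm1 : ∀ a : F, -a = a := fun a => by linear_combination -a * h20
  have he : eps F j = 1 := by rcases j with j | j <;> simp [eps, hm1]
  have he' : eps F (-j) = 1 := by rw [eps_neg', he, hm1]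
  have s1 : sf (R := F) (ee j) (ee (-j)) = 1 := by rw [sf_ee_neg, he]
  have s2 : sf (R := F) (ee (-j)) (ee j) = 1 := by rw [sf_swap, s1, hm1]
  apply ext_vec; intro v
  simp only [mul_mulVec, ye_long, sf_add_right, sf_smul_right, sf_self, s1, s2]
  have e2 : ∀ w : l ⊕ l → F, w + w = 0 := fun w => by rw [← two_smul F, h20, zero_smul]
  linear_combination (norm := module) (sf (ee j) v) • (e2 (ee j)) - (sf (ee (-j)) v) • (e2 (ee (-j)))

variable [Finite F]

/-- **Schur, Steinberg, Griess**: central extensions of the symplectic groups split -/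
theorem sp_section (h2 : 2 ≤ Fintype.card l) (H : OKSp (l ⊕ l) F) {Γ : Type*} [Group Γ] {σ : Γ →* symplecticGroup l F}
    (C : CE σ) : ∃ s : symplecticGroup l F →* Γ, σ.comp s = MonoidHom.id _ := by
  have key : ∃ y : l ⊕ l → l ⊕ l → F → Γ, SpR (eps F) y ∧ ∀ {i j}, i ≠ -j → ∀ a, σ (y i j a) = ye i j a := by
    by_cases hc : ∃ c0 : Fˣ, c0 ≠ 1
    · obtain ⟨c0, hc0⟩ := hc
      exact exists_spr_big (spr h2) spD H C hc0
    · push Not at hc
      have hall : ∀ a : F, a = 0 ∨ a = 1 := by
        intro a
        by_cases ha : a = 0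
        · exact Or.inl ha
        · right
          have := congrArg Units.val (hc (Units.mk0 a ha))
          exact this
      have h20 : (2 : F) = 0 := by
        rcases hall 2 with h | h
        · exact h
        · have : (1 : F) = 0 := by linear_combination h
          exact absurd this one_ne_zero
      rcases H.ok with ⟨s, hs⟩ | ⟨h, -⟩ | ⟨-, -, h4⟩
      · exact absurd (by rw [hc s, one_pow]) hs
      · exact absurd h20 h
      · exact exists_spr_two (spr h2) spD H C h20 hall h4 (ye_braid h20)
  obtain ⟨y, R, hσ⟩ := key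
  set T : Subgroup Γ := closure {g | ∃ i j, i ≠ -j ∧ ∃ a, y i j a = g} with hT
  let f : T →* symplecticGroup l F := σ.comp T.subtype
  have hf : Function.Injective f := by
    rw [injective_iff_map_eq_one]
    intro g hg
    exact Subtype.ext (sp_inj' R σ (fun i j h a => hσ h a) g.2 hg)
  have hs : Function.Surjective f := by
    rw [← MonoidHom.range_eq_top, ← top_le_iff, ← yeG_eq_top h2]
    unfold yeG
    rw [closure_le]
    rintro _ ⟨i, j, h, a, rfl⟩
    exact ⟨⟨y i j a, subset_closure ⟨i, j, h, a, rfl⟩⟩, hσ h a⟩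
  let e := MulEquiv.ofBijective f ⟨hf, hs⟩
  refine ⟨T.subtype.comp e.symm.toMonoidHom, ?_⟩
  ext1 g
  exact e.apply_symm_apply g

end mat

/-- the conditions from the cardinalities -/
theorem oksp {F : Type*} [Field F] [Fintype F] (m : ℕ) (h2 : m = 2 → 3 ≤ Fintype.card F)
    (hm : 2 ≤ m) (h3 : ¬ (m = 3 ∧ Fintype.card F = 2)) : OKSp (Fin m ⊕ Fin m) F := by
  classical
  constructor
  rcases sq_or (F := F) with hs | hall
  · exact Or.inl hs
  right
  by_cases h20 : (2 : F) = 0
  · right
    have hm1 : (-1 : F) = 1 := by linear_combination -h20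
    have hall' : ∀ a : F, a = 0 ∨ a = 1 := by
      intro a
      rcases hall a with h | h | h
      · exact Or.inl h
      · exact Or.inr h
      · right; rw [h, hm1]
    have hcard : Fintype.card F ≤ 2 := by
      have : (Finset.univ : Finset F) ⊆ {0, 1} := by
        intro a _
        simpa using hall' a
      calc Fintype.card F = (Finset.univ : Finset F).card := Finset.card_univ.symm
        _ ≤ _ := Finset.card_le_card this
        _ ≤ 2 := Finset.card_le_two
    have hF2 := Fintype.one_lt_card (α := F)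
    have hm4 : 4 ≤ m := by
      by_contra hcon
      interval_cases m
      · have := h2 rfl; omega
      · exact h3 ⟨rfl, by omega⟩
    refine ⟨h20, hall', ?_⟩
    intro i j k
    let pr : Fin m ⊕ Fin m → Fin m := Sum.elim id id
    have hpr : ∀ i, pr (-i) = pr i := by
      intro i
      rcases i with i | i <;> rfl
    obtain ⟨a, ha⟩ : ∃ a : Fin m, a ∉ ({pr i, pr j, pr k} : Finset (Fin m)) := by
      by_contra hcon
      push Not at hcon
      have h5 : (Finset.univ : Finset (Fin m)) ⊆ {pr i, pr j, pr k} := fun a _ => hcon a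
      have := (Finset.card_le_card h5).trans Finset.card_le_three
      rw [Finset.card_univ, Fintype.card_fin] at this
      omega
    simp only [Finset.mem_insert, Finset.mem_singleton, not_or] at ha
    obtain ⟨a1, a2, a3⟩ := ha
    have hh : ∀ q, a ≠ pr q → (Sum.inl a : Fin m ⊕ Fin m) ≠ q ∧ (Sum.inl a : Fin m ⊕ Fin m) ≠ -q := by
      intro q hq
      refine ⟨fun e => hq ?_, fun e => hq ?_⟩
      · rw [← e]; rfl
      · rw [← hpr, ← e]; rfl
    exact ⟨Sum.inl a, (hh i a1).1, (hh i a1).2, (hh j a2).1, (hh j a2).2, (hh k a3).1, (hh k a3).2⟩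
  · left
    exact ⟨h20, hall⟩

theorem sp_mult_one {F : Type u} [Field F] [Fintype F] (m : ℕ) (h2 : m = 2 → 3 ≤ Fintype.card F)
    (hm : 2 ≤ m) (h3 : ¬ (m = 3 ∧ Fintype.card F = 2)) :
    HasCyclicSchurMultiplier (Matrix.symplecticGroup (Fin m) F) 1 :=
  mult_one_of_section fun _ _ _ _ C => sp_section (by rwa [Fintype.card_fin]) (oksp m h2 hm h3) C

end Cfsg.Agent.Stb
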