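import Cfsg.Agent.Stb.OOut
import Cfsg.Agent.Stb.SpMult

set_option autoImplicit false

/-!
The multiplier of `PΩ⁺`.
-/

namespace Cfsg.Agent.Stb

open QuadraticMap Cfsg.Agent.Orth Cfsg.Agent.OMax Subgroup Module Cfsg.Agent.ClassO Cfsg.Agent.Mult

universe u

attribute [local instance] sumNeg

section idx

variable {m : ℕ}

lemma idx_ne (i : Fin m ⊕ Fin m) : -i ≠ i := by
  rcases i with i | i
  · exact Sum.inr_ne_inl
  · exact Sum.inl_ne_inr

lemma exists_avoid (L : List (Fin m ⊕ Fin m)) (h : L.length < m) : ∃ a : Fin m ⊕ Fin m, ∀ q ∈ L, a ≠ q ∧ a ≠ -q := by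
  let pr : Fin m ⊕ Fin m → Fin m := Sum.elim id id
  have hpr : ∀ i, pr (-i) = pr i := by
    intro i
    rcases i with i | i <;> rfl
  obtain ⟨a, ha⟩ : ∃ a : Fin m, a ∉ (L.map pr).toFinset := by
    by_contra hcon
    push Not at hcon
    have h5 : (Finset.univ : Finset (Fin m)) ⊆ (L.map pr).toFinset := fun a _ => hcon a
    have h6 := (Finset.card_le_card h5).trans (List.toFinset_card_le _)
    rw [Finset.card_univ, Fintype.card_fin, List.length_map] at h6
    omega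
  refine ⟨Sum.inl a, fun q hq => ?_⟩
  have h7 : pr q ∈ (L.map pr).toFinset := List.mem_toFinset.2 (List.mem_map_of_mem hq)
  refine ⟨fun e => ha ?_, fun e => ha ?_⟩
  · rw [← e] at h7; exact h7
  · rw [← hpr, ← e] at h7; exact h7

lemma exists_two (hm : 3 ≤ m) (i j : Fin m ⊕ Fin m) : ∃ k, k ≠ i ∧ k ≠ -i ∧ k ≠ j ∧ k ≠ -j := by
  obtain ⟨a, ha⟩ := exists_avoid [i, j] (by simp; omega)
  exact ⟨a, (ha i (by simp)).1, (ha i (by simp)).2, (ha j (by simp)).1, (ha j (by simp)).2⟩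

lemma exists_three (hm : 4 ≤ m) (i j k : Fin m ⊕ Fin m) : ∃ l, l ≠ i ∧ l ≠ -i ∧ l ≠ j ∧ l ≠ -j ∧ l ≠ k ∧ l ≠ -k := by
  obtain ⟨a, ha⟩ := exists_avoid [i, j, k] (by simp; omega)
  exact ⟨a, (ha i (by simp)).1, (ha i (by simp)).2, (ha j (by simp)).1, (ha j (by simp)).2, (ha k (by simp)).1, (ha k (by simp)).2⟩

lemma exists_four (hm : 5 ≤ m) (i j k l : Fin m ⊕ Fin m) :
    ∃ n, n ≠ i ∧ n ≠ -i ∧ n ≠ j ∧ n ≠ -j ∧ n ≠ k ∧ n ≠ -k ∧ n ≠ l ∧ n ≠ -l := by
  obtain ⟨a, ha⟩ := exists_avoid [i, j, k, l] (by simp; omega)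
  exact ⟨a, (ha i (by simp)).1, (ha i (by simp)).2, (ha j (by simp)).1, (ha j (by simp)).2, (ha k (by simp)).1, (ha k (by simp)).2,
    (ha l (by simp)).1, (ha l (by simp)).2⟩

end idx

/-- fields with few elements -/
lemma small_or (F : Type*) [Field F] [Fintype F] : (∃ s : F, s ≠ 0 ∧ s * s ≠ 1) ∨ ((3 : F) = 0 ∧ ∀ a : F, a = 0 ∨ a = 1 ∨ a = -1) ∨
    ((2 : F) = 0 ∧ (∀ a : F, a = 0 ∨ a = 1) ∧ Fintype.card F = 2) := by
  classical
  by_cases h : ∃ s : F, s ≠ 0 ∧ s * s ≠ 1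
  · exact Or.inl h
  right
  push Not at h
  have hall : ∀ a : F, a = 0 ∨ a = 1 ∨ a = -1 := by
    intro a
    by_cases ha : a = 0
    · exact Or.inl ha
    · right
      exact mul_self_eq_one_iff.1 (h a ha)
  by_cases h2 : (2 : F) = 0
  · right
    have hm1 : (-1 : F) = 1 := by linear_combination -h2
    have hall' : ∀ a : F, a = 0 ∨ a = 1 := by
      intro a
      rcases hall a with h | h | h
      · exact Or.inl h
      · exact Or.inr h
      · right; rw [h, hm1]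
    refine ⟨h2, hall', ?_⟩
    have hcard : Fintype.card F ≤ 2 := by
      have : (Finset.univ : Finset F) ⊆ {0, 1} := by
        intro a _
        simpa using hall' a
      calc Fintype.card F = (Finset.univ : Finset F).card := Finset.card_univ.symm
        _ ≤ _ := Finset.card_le_card this
        _ ≤ 2 := Finset.card_le_two
    have hF2 := Fintype.one_lt_card (α := F)
    omega
  · left
    refine ⟨?_, hall⟩
    rcases hall 2 with h3 | h3 | h3
    · exact absurd h3 h2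
    · exact absurd (show (1 : F) = 0 by linear_combination h3) one_ne_zero
    · linear_combination h3

section D

variable {m : ℕ} {F : Type u} [Field F]

/-- the equivalence -/
def eD (m : ℕ) (F : Type u) [Field F] : ((Fin m ⊕ Fin m → F) × PUnit.{u + 1}) ≃ₗ[F] (Fin m ⊕ Fin m → F) := LinearEquiv.prodUnique

/-- the quadratic form -/
noncomputable def QD (m : ℕ) (F : Type u) [Field F] : QuadraticForm F ((Fin m ⊕ Fin m → F) × PUnit.{u + 1}) :=
  (qfPlus m F).comp (eD m F).toLinearMap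

lemma heD (v : (Fin m ⊕ Fin m → F) × PUnit.{u + 1}) : qfPlus m F (eD m F v) = QD m F v := rfl

lemma ofD : OF (F := F) (fun _ : PUnit.{u + 1} => (0 : F)) (fun _ _ => 0) where
  q_add _ _ := by simp
  q_smul _ _ := by simp
  add_right _ _ _ := by simp
  smul_right _ _ _ := by simp
  symm _ _ := rfl
  aniso _ := Subsingleton.elim _ _

lemma oqD (hm : 3 ≤ m) : OQ (QD m F) (fun _ => 0) (fun _ _ => 0) where
  ne := idx_ne
  three := exists_two hm
  qe p := by
    rw [← heD, qfPlus_apply]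
    refine Finset.sum_eq_zero fun i _ => ?_
    change (eh p : (Fin m ⊕ Fin m → F) × PUnit.{u + 1}).1 (Sum.inl i) * (eh p : (Fin m ⊕ Fin m → F) × PUnit.{u + 1}).1 (Sum.inr i) = 0
    rw [eh_fst, eh_fst]
    rcases p with p | p
    · rw [if_neg (show (Sum.inr i : Fin m ⊕ Fin m) ≠ Sum.inl p from Sum.inr_ne_inl), mul_zero]
    · rw [if_neg (show (Sum.inl i : Fin m ⊕ Fin m) ≠ Sum.inr p from Sum.inl_ne_inr), zero_mul]
  qw w := by
    rw [← heD, qfPlus_apply]
    refine Finset.sum_eq_zero fun i _ => ?_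
    change (wh w : (Fin m ⊕ Fin m → F) × PUnit.{u + 1}).1 (Sum.inl i) * _ = 0
    rw [wh_fst, zero_mul]
  pol u v := by
    rw [← polar_e (eD m F) heD, polar_qfPlus]
    unfold hh
    rw [add_zero, Fintype.sum_sum_type, ← Finset.sum_add_distrib]
    refine Finset.sum_congr rfl fun i _ => ?_
    change u.1 (Sum.inl i) * v.1 (Sum.inr i) + v.1 (Sum.inl i) * u.1 (Sum.inr i) =
      u.1 (Sum.inl i) * v.1 (Sum.inr i) + u.1 (Sum.inr i) * v.1 (Sum.inl i)
    ring

lemma okd [Fintype F] (hm : 4 ≤ m) (hexc : ¬ (m = 4 ∧ Fintype.card F = 2)) : OKD (Fin m ⊕ Fin m) F := by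
  constructor
  rcases small_or F with h | h | ⟨h1, h2, h3⟩
  · exact Or.inl h
  · exact Or.inr (Or.inl h)
  · right; right
    refine ⟨h1, h2, exists_four ?_⟩
    by_contra hcon
    exact hexc ⟨by omega, h3⟩

/-- the multiplier of `PΩ⁺` -/
theorem out_D [Fintype F] (hm : 4 ≤ m) (hexc : ¬ (m = 4 ∧ Fintype.card F = 2)) {A : Type} [CommGroup A]
    (hA : ∀ (κ : TT (QD m F) (fun _ => 0)) (i0 i1 : Fin m ⊕ Fin m), i1 ≠ i0 → i1 ≠ -i0 → ixn i0 + 1 = m →
      κ = cc (yS (QD m F) (fun _ => 0)) i1 i0 (-1) → (∀ g, (rS (QD m F) (fun _ => 0)) g = 1 → g = 1 ∨ g = κ) →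
      ∀ (τ : TT (QD m F) (fun _ => 0) →* Cfsg.POmega F ⇑(qfPlus m F)),
      (∀ g, τ g = 1 ↔ ((rS (QD m F) (fun _ => 0)) g = 1 ∨ ∀ v, (rS (QD m F) (fun _ => 0)) g v = -v)) → Nonempty (τ.ker ≃* A)) :
    Cfsg.HasSchurMultiplier (Cfsg.POmega F (Cfsg.quadFormPlus m F)) A := by
  have H := oqD (F := F) (m := m) (by omega)
  have O := ofD (F := F)
  have R := orS H O
  have Aa := oaS H O
  have hG := ogS H O
  set i0 : Fin m ⊕ Fin m := Sum.inl ⟨m - 1, by omega⟩ with hi0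
  set i1 : Fin m ⊕ Fin m := Sum.inl ⟨0, by omega⟩ with hi1
  have x0 : ixn i0 = m - 1 := rfl
  have x1 : ixn i1 = 0 := rfl
  have k1 : i1 ≠ i0 := by intro e; rw [e] at x1; omega
  have k2 : i1 ≠ -i0 := by intro e; rw [e, ixn_neg] at x1; omega
  have hk : ∀ g, (rS (QD m F) (fun _ => 0)) g = 1 → g = 1 ∨ g = cc (yS (QD m F) (fun _ => 0)) i1 i0 (-1) := by
    intro g hg
    exact ker_D O R Aa k1 k2 (by unfold OGen at hG; rw [hG]; exact mem_top _) hg
  have hQ' := qfPlus_nondegenerate m F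
  have hH := hyp_plus F m (Fin.castLE (show 3 ≤ m by omega)) (Fin.castLE_injective _)
  have hn : 7 ≤ finrank F ((Fin m ⊕ Fin m → F) × PUnit.{u + 1}) := by
    rw [(eD m F).finrank_eq, Module.finrank_fintype_fun_eq_card, Fintype.card_sum, Fintype.card_fin]; omega
  have : Nonempty (Fin m ⊕ Fin m) := ⟨i0⟩
  obtain ⟨τ, hτ, hker⟩ := exists_tau H O (eD m F) heD hQ' (RGrp_plus (show m ≠ 2 by omega)) hH hn
  exact out_gen H O k1 k2 hk (fun Γ _ _ σ C => sec_D O R Aa (okd hm hexc) hG k1 k2 (kapS_ne H O k1 k2) C) hτ hker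
    (hA _ i0 i1 k1 k2 (by omega) rfl hk τ hker)

end D

end Cfsg.Agent.Stb
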