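import Cfsg.Agent.Stb.Cls

set_option autoImplicit false

/-!
Abstract root subgroups of classical type (variant which includes type `D`): the root groups `X i i` may be trivial, and
there need not be elements inducing the reflections in the `e_i`.
-/

namespace Cfsg.Agent.Stb

open Subgroup
open scoped commutatorElement

variable {I Γ : Type*} [InvolutiveNeg I] [DecidableEq I] [Group Γ]

/-- Abstract root subgroups (roots are unordered pairs `{k, l}` with `k ≠ -l`) and the sets `M k l` of elements inducing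
the reflections. -/
structure Cln (X : I → I → Subgroup Γ) (M : I → I → Set Γ) : Prop extends Com X where
  Ms : ∀ i j, M i j = M j i
  Mn : ∀ i j, i ≠ -j → M (-i) (-j) = M i j
  M_inv : ∀ i j, i ≠ -j → ∀ m ∈ M i j, m⁻¹ ∈ M i j
  M_X : ∀ i j, i ≠ -j → ∀ k l, k ≠ -l → ∀ m ∈ M i j, ∀ x ∈ X k l, m * x * m⁻¹ ∈ X (rf i j k) (rf i j l)
  M_M : ∀ i j, i ≠ -j → ∀ k l, k ≠ -l → ∀ m ∈ M i j, ∀ m' ∈ M k l, m * m' * m⁻¹ ∈ M (rf i j k) (rf i j l)
  M_gp : ∀ i j, i ≠ -j → ∀ m ∈ M i j, m ∈ X i j ⊔ X (-i) (-j)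
  rank1 : ∀ i j, i ≠ -j → ∀ x ∈ X i j, x ≠ 1 → ∃ a ∈ X (-i) (-j), ∃ b ∈ X (-i) (-j), ∃ m ∈ M i j, x = a * m * b

namespace Cln

variable {X : I → I → Subgroup Γ} {M : I → I → Set Γ} (C : Cln X M)

include C

/-- conjugation by the elements of `M` -/
lemma M_gp_conj {i j : I} (hij : i ≠ -j) {m : Γ} (hm : m ∈ M i j) {P Q : I → I → Prop}
    (h : ∀ k l, k ≠ -l → P k l → Q (rf i j k) (rf i j l)) : ∀ x ∈ gp X P, m * x * m⁻¹ ∈ gp X Q := by
  have : gp X P ≤ (gp X Q).comap (MulAut.conj m).toMonoidHom := gp_le fun k l hkl hP y hy => by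
    rw [mem_comap]
    exact X_le_gp (rf_ne_neg C.ne hij hkl) (h k l hkl hP) (C.M_X i j hij k l hkl m hm y hy)
  exact fun x hx => this hx

/-- the torus -/
def T (_ : Cln X M) : Subgroup Γ := closure {g | ∃ i j, i ≠ -j ∧ ∃ m ∈ M i j, ∃ m' ∈ M i j, g = m * m'}

lemma mul_mem_T {i j : I} (hij : i ≠ -j) {m m' : Γ} (h : m ∈ M i j) (h' : m' ∈ M i j) : m * m' ∈ C.T :=
  subset_closure ⟨i, j, hij, m, h, m', h', rfl⟩

lemma T_X {k l : I} (hkl : k ≠ -l) {t : Γ} (ht : t ∈ C.T) : ∀ x ∈ X k l, t * x * t⁻¹ ∈ X k l := by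
  unfold T at ht
  have h1 : ∀ i j, i ≠ -j → ∀ m ∈ M i j, ∀ m' ∈ M i j, ∀ x ∈ X k l, (m * m') * x * (m * m')⁻¹ ∈ X k l := by
    intro i j hij m hm m' hm' x hx
    have a1 := C.M_X i j hij k l hkl m' hm' x hx
    have a2 := C.M_X i j hij _ _ (rf_ne_neg C.ne hij hkl) m hm _ a1
    rw [rf_rf C.ne _ _ _ hij, rf_rf C.ne _ _ _ hij] at a2
    have e : (m * m') * x * (m * m')⁻¹ = m * (m' * x * m'⁻¹) * m⁻¹ := by group
    rw [e]; exact a2
  have key : (∀ x ∈ X k l, t * x * t⁻¹ ∈ X k l) ∧ (∀ x ∈ X k l, t⁻¹ * x * t ∈ X k l) := by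
    induction ht using closure_induction with
    | mem t ht =>
      obtain ⟨i, j, hij, m, hm, m', hm', rfl⟩ := ht
      refine ⟨h1 i j hij m hm m' hm', fun x hx => ?_⟩
      have := h1 i j hij m'⁻¹ (C.M_inv i j hij _ hm') m⁻¹ (C.M_inv i j hij _ hm) x hx
      simpa [mul_assoc] using this
    | one => simp
    | mul a b _ _ ha hb =>
      refine ⟨fun z hz => ?_, fun z hz => ?_⟩
      · have := ha.1 _ (hb.1 z hz)
        simpa [mul_assoc] using this
      · have := hb.2 _ (ha.2 z hz)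
        simpa [mul_assoc] using this
    | inv a _ ha => exact ⟨fun z hz => by rw [inv_inv]; exact ha.2 z hz, fun z hz => by rw [inv_inv]; exact ha.1 z hz⟩
  exact key.1

lemma T_gp {P : I → I → Prop} {t : Γ} (ht : t ∈ C.T) : ∀ x ∈ gp X P, t * x * t⁻¹ ∈ gp X P := by
  have : gp X P ≤ (gp X P).comap (MulAut.conj t).toMonoidHom := gp_le fun k l hkl hP y hy => by
    rw [mem_comap]
    exact X_le_gp hkl hP (C.T_X hkl ht y hy)
  exact fun x hx => this hx

lemma M_T {i j : I} (hij : i ≠ -j) {m : Γ} (hm : m ∈ M i j) : ∀ t ∈ C.T, m * t * m⁻¹ ∈ C.T := by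
  have : C.T ≤ C.T.comap (MulAut.conj m).toMonoidHom := by
    nth_rewrite 1 [T]
    rw [closure_le]
    rintro _ ⟨k, l, hkl, a, ha, b, hb, rfl⟩
    rw [SetLike.mem_coe, mem_comap]
    have h1 := C.mul_mem_T (rf_ne_neg C.ne hij hkl) (C.M_M i j hij k l hkl m hm a ha) (C.M_M i j hij k l hkl m hm b hb)
    have e : (MulAut.conj m).toMonoidHom (a * b) = m * a * m⁻¹ * (m * b * m⁻¹) := by
      simp [MulAut.conj_apply, mul_assoc]
    rw [e]; exact h1
  exact fun x hx => this hx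

lemma M_T' {i j : I} (hij : i ≠ -j) {m : Γ} (hm : m ∈ M i j) : ∀ t ∈ C.T, m⁻¹ * t * m ∈ C.T := by
  intro t ht
  have := C.M_T hij (C.M_inv i j hij m hm) t ht
  rwa [inv_inv] at this

end Cln

namespace Cln

variable {X : I → I → Subgroup Γ} {M : I → I → Set Γ} (C : Cln X M) {J : Finset I} (hJ : ∀ k ∈ J, -k ∈ J)

/-- representatives of the Weyl group cosets: elements moving `o` to `i` -/
def NN (C : Cln X M) (J : Finset I) (i o : I) : Set Γ := {m | (i = o ∧ m ∈ C.T) ∨ (i ≠ o ∧ m ∈ M i (-o)) ∨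
  (i = -o ∧ ∃ k, k ∈ J ∧ k ≠ o ∧ k ≠ -o ∧ ∃ m1 ∈ M k o, ∃ m2 ∈ M k (-o), m = m1 * m2)}

/-- the parabolic subgroup -/
def Par (C : Cln X M) (J : Finset I) (o : I) : Subgroup Γ := gp X (fun k l => k ∈ J ∧ l ∈ J ∧ 0 ≤ cf k l o) ⊔ C.T

lemma M_Par {k l o : I} (hk : k ∈ J) (hl : l ∈ J) (hkl : k ≠ -l) (h0 : cf k l o = 0) (hJ : ∀ k ∈ J, -k ∈ J) {m : Γ}
    (hm : m ∈ M k l) : m ∈ C.Par J o := by
  have h1 : cf (-k) (-l) o = 0 := by
    have := Opp.cf C.ne (k := k) (l := l) (Or.inl ⟨rfl, rfl⟩) o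
    rw [this, h0, neg_zero]
  refine (sup_le ?_ ?_ : X k l ⊔ X (-k) (-l) ≤ _) (C.M_gp k l hkl m hm)
  · exact (X_le_gp (P := fun k l => k ∈ J ∧ l ∈ J ∧ 0 ≤ cf k l o) hkl ⟨hk, hl, h0.ge⟩).trans le_sup_left
  · exact (X_le_gp (P := fun k l => k ∈ J ∧ l ∈ J ∧ 0 ≤ cf k l o) (fun e => hkl (neg_inj.1 e)) ⟨hJ k hk, hJ l hl, h1.ge⟩).trans le_sup_left

omit C in
include hJ in
lemma rf_mem {a b x : I} (ha : a ∈ J) (hb : b ∈ J) (hx : x ∈ J) : rf a b x ∈ J := by
  unfold rf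
  split_ifs
  · exact hJ _ hb
  · exact hJ _ ha
  · exact hb
  · exact ha
  · exact hx

include C in
lemma conj_mem {i j k l : I} (hij : i ≠ -j) (hkl : k ≠ -l) {m m' : Γ} (hm : m ∈ M i j) (hm' : m' ∈ M k l) :
    m⁻¹ * m' * m ∈ M (rf i j k) (rf i j l) := by
  have := C.M_M i j hij k l hkl m⁻¹ (C.M_inv i j hij m hm) m' hm'
  rwa [inv_inv] at this

include C in
lemma rf_self2 (i j : I) (hij : i ≠ -j) : rf i j i = -j ∧ rf i j j = -i ∧ rf i j (-i) = j ∧ rf i j (-j) = i := by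
  have ne := C.ne
  have h1 : rf i j i = -j := by unfold rf; simp
  have h2 : rf i j j = -i := by rw [rf_comm _ _ _ hij]; unfold rf; simp
  refine ⟨h1, h2, ?_, ?_⟩
  · rw [rf_neg ne _ _ _ hij, h1, neg_neg]
  · rw [rf_neg ne _ _ _ hij, h2, neg_neg]

include hJ in
lemma coset {k l i o : I} (hk : k ∈ J) (hl : l ∈ J) (hi : i ∈ J) (ho : o ∈ J) (hkl : k ≠ -l) {m : Γ} (hm : m ∈ M k l)
    {n : Γ} (hn : n ∈ C.NN J i o) : ∃ n' ∈ C.NN J (rf k l i) o, ∃ p ∈ C.Par J o, m * n = n' * p := by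
  have ne := C.ne
  have hTP : C.T ≤ C.Par J o := le_sup_right
  have hrfo : rf k l o ∈ J := rf_mem hJ hk hl ho
  by_cases h1 : rf k l o = o
  · -- the reflection fixes `o`
    have hmP : m ∈ C.Par J o := C.M_Par hk hl hkl (rf_fix ne hkl h1) hJ hm
    refine ⟨m * n * m⁻¹, ?_, m, hmP, by group⟩
    rcases hn with ⟨rfl, hn⟩ | ⟨hio, hn⟩ | ⟨rfl, j, hj, hj1, hj2, m1, hm1, m2, hm2, rfl⟩
    · left; exact ⟨h1, C.M_T hkl hm n hn⟩
    · right; left
      have hio' : i ≠ - -o := by rw [neg_neg]; exact hio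
      refine ⟨fun e => hio ((rf_inj ne hkl).1 (e.trans h1.symm)), ?_⟩
      have := C.M_M k l hkl i (-o) hio' m hm n hn
      rwa [rf_neg ne _ _ _ hkl, h1] at this
    · right; right
      refine ⟨by rw [rf_neg ne _ _ _ hkl, h1], rf k l j, rf_mem hJ hk hl hj, fun e => hj1 ((rf_inj ne hkl).1 (e.trans h1.symm)),
        fun e => hj2 ((rf_inj ne hkl).1 (e.trans (by rw [rf_neg ne _ _ _ hkl, h1]))), m * m1 * m⁻¹, ?_, m * m2 * m⁻¹, ?_, by group⟩
      · have := C.M_M k l hkl j o (by exact hj2) m hm m1 hm1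
        rwa [h1] at this
      · have := C.M_M k l hkl j (-o) (by rw [neg_neg]; exact hj1) m hm m2 hm2
        rwa [rf_neg ne _ _ _ hkl, h1] at this
  -- the reflection moves `o`
  have hM : M k l = M (rf k l o) (-o) := by
    rcases rf_move ne hkl h1 with ⟨h2, rfl⟩ | ⟨h2, rfl⟩ | ⟨h2, rfl⟩ | ⟨h2, rfl⟩
    · rw [h2, C.Mn l o (fun e => hkl (by rw [e, neg_neg])), C.Ms]
    · rw [h2, C.Mn k o hkl]
    · rw [h2, neg_neg, C.Ms]
    · rw [h2, neg_neg]
  rcases hn with ⟨rfl, hn⟩ | ⟨hio, hn⟩ | ⟨rfl, j, hj, hj1, hj2, m1, hm1, m2, hm2, rfl⟩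
  · exact ⟨m, Or.inr (Or.inl ⟨h1, hM ▸ hm⟩), n, hTP hn, rfl⟩
  · have hio' : i ≠ - -o := by rw [neg_neg]; exact hio
    have hconj : n⁻¹ * m * n ∈ M (rf i (-o) k) (rf i (-o) l) := C.conj_mem hio' hkl hn hm
    by_cases h2 : rf k l i = i
    · rw [h2]
      refine ⟨n, Or.inr (Or.inl ⟨hio, hn⟩), n⁻¹ * m * n, ?_, by group⟩
      have h3 : cf (rf i (-o) k) (rf i (-o) l) o = 0 := by
        have := cf_rf ne hio' k l i
        rw [rf_eq ne hio, rf_fix ne hkl h2] at this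
        exact this
      exact C.M_Par (rf_mem hJ hi (hJ o ho) hk) (rf_mem hJ hi (hJ o ho) hl) (rf_ne_neg ne hio' hkl) h3 hJ hconj
    by_cases h3 : rf k l o = i
    · have h4 : rf k l i = o := by rw [← h3, rf_rf ne _ _ _ hkl]
      rw [h4]
      rw [hM, h3] at hm
      exact ⟨m * n, Or.inl ⟨rfl, C.mul_mem_T hio' hm hn⟩, 1, one_mem _, (mul_one _).symm⟩
    by_cases h4 : i = -o
    · subst h4
      set a := rf k l o with ha
      have hao : a ≠ -o := h3
      have hm1 : m ∈ M a (-o) := hM ▸ hm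
      have hao' : a ≠ - -o := by rw [neg_neg]; exact h1
      -- `m' = n⁻¹ m n ∈ M a o`
      have hm2 : n⁻¹ * m * n ∈ M a o := by
        have := C.conj_mem (i := -o) (j := -o) hio' hao' hn hm1
        rw [rf_of_ne hao hao (by rw [neg_neg]; exact h1) (by rw [neg_neg]; exact h1)] at this
        have e : rf (-o) (-o) (-o) = o := by unfold rf; simp
        rwa [e] at this
      have h5 : rf k l (-o) = -a := by rw [rf_neg ne _ _ _ hkl]
      rw [h5]
      have hao2 : a ≠ - (- -o) := by rw [neg_neg]; exact hao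
      refine ⟨n⁻¹ * m * n, Or.inr (Or.inl ⟨fun e => hao (by rw [← e, neg_neg]), ?_⟩), (n⁻¹ * m * n)⁻¹ * n * (n⁻¹ * m * n), ?_, by group⟩
      · rw [C.Mn a o hao]; exact hm2
      · have := C.conj_mem (i := a) (j := o) hao (k := -o) (l := -o) (by rw [neg_neg]; exact ne o) hm2 hn
        have e : rf a o (-o) = a := (C.rf_self2 a o hao).2.2.2
        rw [e] at this
        refine C.M_Par hrfo hrfo (ne' ne a) ?_ hJ this
        unfold cf; simp [h1, hao]
    · -- `rf k l o = -i`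
      have h5 : rf k l o = -i := by
        rcases rf_move ne hkl h1 with ⟨a1, a2⟩ | ⟨a1, a2⟩ | ⟨a1, a2⟩ | ⟨a1, a2⟩ <;>
        rcases rf_move ne hkl h2 with ⟨b1, b2⟩ | ⟨b1, b2⟩ | ⟨b1, b2⟩ | ⟨b1, b2⟩
        · exact absurd (b2.trans a2.symm) hio
        · rw [a1, b2]
        · exact absurd (by rw [b2, a2]) h4
        · exact absurd (by rw [a1, b2]) h3
        · rw [a1, b2]
        · exact absurd (b2.trans a2.symm) hio
        · exact absurd (by rw [a1, b2]) h3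
        · exact absurd (by rw [b2, a2]) h4
        · exact absurd (by rw [b2, a2, neg_neg]) h4
        · exact absurd (by rw [a1, b2]) h3
        · exact absurd (b2.trans a2.symm) hio
        · rw [a1, b2, neg_neg]
        · exact absurd (by rw [a1, b2]) h3
        · exact absurd (by rw [b2, a2, neg_neg]) h4
        · rw [a1, b2, neg_neg]
        · exact absurd (b2.trans a2.symm) hio
      have h6 : rf k l i = -o := by
        have := rf_rf ne k l o hkl
        rw [h5, rf_neg ne _ _ _ hkl] at this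
        rw [← this, neg_neg]
      rw [h6]
      rw [h5] at hM
      have hm1 : m ∈ M i o := by
        rw [← C.Mn i o h4, ← hM]; exact hm
      exact ⟨m * n, Or.inr (Or.inr ⟨rfl, i, hi, hio, h4, m, hm1, n, hn, rfl⟩), 1, one_mem _, (mul_one _).symm⟩
  · -- `n = m1 * m2`
    set a := rf k l o with ha
    have hm' : m ∈ M a (-o) := hM ▸ hm
    have hao' : a ≠ - -o := by rw [neg_neg]; exact h1
    have hjo : j ≠ - -o := by rw [neg_neg]; exact hj1
    have h5 : rf k l (-o) = -a := by rw [rf_neg ne _ _ _ hkl]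
    rw [h5]
    have hnj1 : -j ≠ o := fun e => hj2 (by rw [← e, neg_neg])
    have hnj2 : -j ≠ -o := fun e => hj1 (neg_inj.1 e)
    obtain ⟨r1, r2, r3, r4⟩ := C.rf_self2 j (-o) hjo
    rw [neg_neg] at r1 r4
    by_cases c1 : a = -o
    · rw [c1] at hm' ⊢
      rw [neg_neg]
      have ho2 : -o ≠ - -o := by rw [neg_neg]; exact ne o
      have u1 : m * m1 * m⁻¹ ∈ M j (-o) := by
        have := C.M_M (-o) (-o) ho2 j o hj2 m hm' m1 hm1
        rw [rf_of_ne hj2 hj2 hjo hjo] at this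
        have e : rf (-o) (-o) o = -o := by unfold rf; simp [ne' ne o]
        rwa [e] at this
      have u2 : m2⁻¹ * m * m2 ∈ M j j := by
        have := C.conj_mem hjo ho2 hm2 hm'
        rw [r2] at this
        rwa [C.Mn j j (ne' ne j)] at this
      refine ⟨(m * m1 * m⁻¹) * m2, Or.inl ⟨rfl, C.mul_mem_T hjo u1 hm2⟩, m2⁻¹ * m * m2,
        C.M_Par hj hj (ne' ne j) ?_ hJ u2, by group⟩
      unfold cf; simp [hj1, hj2]
    by_cases c2 : a = j
    · rw [c2] at hm' ⊢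
      have u1 : m * m1 * m⁻¹ ∈ M j o := by
        have := C.M_M j (-o) hjo j o hj2 m hm' m1 hm1
        rw [r1] at this
        have e : rf j (-o) o = j := rf_eq' ne hj1
        rw [e] at this
        rwa [C.Ms] at this
      refine ⟨m * m1 * m⁻¹, Or.inr (Or.inl ⟨hnj1, ?_⟩), m * m2, hTP (C.mul_mem_T hjo hm' hm2), by group⟩
      rw [C.Mn j o hj2]; exact u1
    by_cases c3 : a = -j
    · rw [c3] at hm' ⊢
      rw [neg_neg]
      have hm3 : m ∈ M j o := by rwa [C.Mn j o hj2] at hm'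
      have ht : m * m1 ∈ C.T := C.mul_mem_T hj2 hm3 hm1
      refine ⟨m2, Or.inr (Or.inl ⟨hj1, hm2⟩), m2⁻¹ * (m * m1) * m2, hTP (C.M_T' hjo hm2 _ ht), by group⟩
    -- generic case
    have c2' : j ≠ a := Ne.symm c2
    have hja : j ≠ -a := fun e => c3 (by rw [e, neg_neg])
    have haj : a ≠ -j := c3
    have hnja : -o ≠ a := Ne.symm c1
    have hnja' : -o ≠ -a := fun e => h1 (neg_inj.1 e).symm
    have u1 : m * m1 * m⁻¹ ∈ M j a := by
      have := C.M_M a (-o) hao' j o hj2 m hm' m1 hm1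
      rw [rf_of_ne c2' hj2 hja hjo, rf_eq' ne h1] at this
      exact this
    have u2 : m2⁻¹ * m * m2 ∈ M a (-j) := by
      have := C.conj_mem hjo hao' hm2 hm'
      rwa [rf_of_ne c2 c1 haj (by rw [neg_neg]; exact h1), r2] at this
    have u3 : (m * m1 * m⁻¹) * m2 * (m * m1 * m⁻¹)⁻¹ ∈ M (-a) (-o) := by
      have := C.M_M j a hja j (-o) hjo _ u1 m2 hm2
      rwa [(C.rf_self2 j a hja).1, rf_of_ne hj2.symm hnja hnj2.symm hnja'] at this
    refine ⟨_, Or.inr (Or.inl ⟨fun e => c1 (by rw [← e, neg_neg]), u3⟩), (m * m1 * m⁻¹) * (m2⁻¹ * m * m2), mul_mem ?_ ?_, by group⟩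
    · refine C.M_Par hj hrfo hja ?_ hJ u1
      have e1 : a ≠ -o := c1
      unfold cf; simp [hj1, hj2, h1, e1]
    · refine C.M_Par hrfo (hJ j hj) (by rw [neg_neg]; exact c2) ?_ hJ u2
      have e1 : a ≠ -o := c1
      unfold cf; simp [hnj1, hj1, h1, e1]


/-- the elements `t * n * p` -/
def XI (C : Cln X M) (J : Finset I) (o i : I) : Set Γ :=
  {g | ∃ t ∈ gp X (Yp J i), ∃ n ∈ C.NN J i o, ∃ p ∈ C.Par J o, g = t * n * p}

include hJ in
lemma n_Par {i o : I} (hi : i ∈ J) (ho : o ∈ J) {n : Γ} (hn : n ∈ C.NN J i o) {y : Γ}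
    (hy : y ∈ gp X (fun k l => k ∈ J ∧ l ∈ J ∧ 0 ≤ cf k l i)) : n⁻¹ * y * n ∈ C.Par J o := by
  rcases hn with ⟨rfl, hn⟩ | ⟨hio, hn⟩ | ⟨rfl, k, hk, hk1, hk2, m1, hm1, m2, hm2, rfl⟩
  · have := C.T_gp (inv_mem hn) y hy
    rw [inv_inv] at this
    exact mem_sup_left this
  · have hio' : i ≠ - -o := by rw [neg_neg]; exact hio
    have hn' : n⁻¹ ∈ M i (-o) := C.M_inv i (-o) hio' n hn
    have := C.M_gp_conj hio' hn' (Q := fun k l => k ∈ J ∧ l ∈ J ∧ 0 ≤ cf k l o) ?_ y hy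
    · rw [inv_inv] at this
      exact mem_sup_left this
    · intro k l _ h
      have hmem : ∀ x ∈ J, rf i (-o) x ∈ J := by
        intro x hx
        unfold rf
        split_ifs
        · rw [neg_neg]; exact ho
        · exact hJ _ hi
        · exact hJ _ ho
        · exact hi
        · exact hx
      refine ⟨hmem k h.1, hmem l h.2.1, ?_⟩
      rw [cf_rf' C.ne hio', rf_eq' C.ne hio]
      exact h.2.2
  · -- the third type
    have ho' := hJ o ho
    have hk' : k ≠ - -o := by rw [neg_neg]; exact hk1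
    have g1 : m1⁻¹ * y * m1 ∈ gp X (fun a b => a ∈ J ∧ b ∈ J ∧ 0 ≤ cf a b k) := by
      have := C.M_gp_conj hk2 (C.M_inv k o hk2 m1 hm1) (Q := fun a b => a ∈ J ∧ b ∈ J ∧ 0 ≤ cf a b k) ?_ y hy
      · rwa [inv_inv] at this
      · intro a b _ h
        refine ⟨rf_mem hJ hk ho h.1, rf_mem hJ hk ho h.2.1, ?_⟩
        rw [cf_rf' C.ne hk2, (C.rf_self2 k o hk2).1]
        exact h.2.2
    have g2 : m2⁻¹ * (m1⁻¹ * y * m1) * m2 ∈ gp X (fun a b => a ∈ J ∧ b ∈ J ∧ 0 ≤ cf a b o) := by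
      have := C.M_gp_conj hk' (C.M_inv k (-o) hk' m2 hm2) (Q := fun a b => a ∈ J ∧ b ∈ J ∧ 0 ≤ cf a b o) ?_ _ g1
      · rwa [inv_inv] at this
      · intro a b _ h
        refine ⟨rf_mem hJ hk ho' h.1, rf_mem hJ hk ho' h.2.1, ?_⟩
        rw [cf_rf' C.ne hk', rf_eq' C.ne hk1]
        exact h.2.2
    have e : (m1 * m2)⁻¹ * y * (m1 * m2) = m2⁻¹ * (m1⁻¹ * y * m1) * m2 := by group
    rw [e]
    exact mem_sup_left g2

include hJ in
/-- switching to another coordinate -/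
lemma switch {i j o : I} (hi : i ∈ J) (hj : j ∈ J) (ho : o ∈ J) (h1 : j ≠ i) (h2 : j ≠ -i) {x : Γ} (hx : x ∈ X j (-i))
    (hx1 : x ≠ 1) {t0 : Γ} (ht0 : t0 ∈ gp X (Yh J i j)) {n : Γ} (hn : n ∈ C.NN J i o) {p : Γ} (hp : p ∈ C.Par J o) :
    x * t0 * n * p ∈ C.XI J o j := by
  have ne := C.ne
  have hji : j ≠ - -i := by rw [neg_neg]; exact h1
  have hij : i ≠ -j := fun e => h2 (by rw [e, neg_neg])
  obtain ⟨c1, c2, c3, c4⟩ := cf_self ne h1 h2
  obtain ⟨a, ha, b, hb, m, hm, rfl⟩ := C.rank1 j (-i) hji x hx hx1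
  rw [neg_neg] at ha hb
  -- move `b` through `t0`
  have hba : ∀ {z : Γ}, z ∈ X (-j) i → z ∈ X i (-j) := fun h => by rw [C.Xs]; exact h
  have hb' := hba hb
  have ha' := hba ha
  have hi' := hJ i hi
  have hj' := hJ j hj
  obtain ⟨t1, ht1, l1, hl1, he'⟩ := C.pass hJ hi hj h1 h2 hb' ht0
  -- the pieces
  have hnn := C.coset hJ hj hi' hi ho hji hm hn
  have e3 : rf j (-i) i = j := rf_eq' ne h1
  rw [e3] at hnn
  obtain ⟨n', hn', p', hp', hmn⟩ := hnn
  have g1 : m * t1 * m⁻¹ ∈ gp X (Yp J j) := by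
    refine C.M_gp_conj hji hm (P := Yh J i j) ?_ t1 ht1
    intro k l hkl h
    refine ⟨rf_mem hJ hj hi' h.1, rf_mem hJ hj hi' h.2.1, ?_⟩
    rw [cf_rf' ne hji, rf_eq ne h1]
    exact h.2.2.1
  have g2 : m * l1 * m⁻¹ ∈ gp X (fun k l => k ∈ J ∧ l ∈ J ∧ 0 ≤ cf k l j) := by
    refine C.M_gp_conj hji hm (P := Lp J i j) ?_ l1 hl1
    intro k l hkl h
    refine ⟨rf_mem hJ hj hi' h.1, rf_mem hJ hj hi' h.2.1, ?_⟩
    rw [cf_rf' ne hji, rf_eq ne h1]
    exact h.2.2.1.ge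
  have g3 : n'⁻¹ * (m * l1 * m⁻¹) * n' ∈ C.Par J o := C.n_Par hJ hj ho hn' g2
  have g4 : n⁻¹ * b * n ∈ C.Par J o := by
    refine C.n_Par hJ hi ho hn (X_le_gp (by rw [neg_neg]; exact h1.symm) ⟨hi, hj', ?_⟩ hb')
    rw [c3]; exact zero_le_one
  have g5 : a ∈ gp X (Yp J j) := X_le_gp (by rw [neg_neg]; exact h1.symm) ⟨hi, hj', by rw [c4]; norm_num⟩ ha'
  refine ⟨a * (m * t1 * m⁻¹), mul_mem g5 g1, n', hn', (n'⁻¹ * (m * l1 * m⁻¹) * n') * p' * (n⁻¹ * b * n) * p,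
    mul_mem (mul_mem (mul_mem g3 hp') g4) hp, ?_⟩
  calc a * m * b * t0 * n * p = a * m * (b * t0) * n * p := by group
    _ = a * (m * t1 * m⁻¹) * (m * l1 * m⁻¹) * (m * n) * (n⁻¹ * b * n) * p := by rw [he']; group
    _ = _ := by rw [hmn]; group

section closure

variable {o : I} (ho : o ∈ J)

lemma XI_neg {i k l : I} (hk : k ∈ J) (hl : l ∈ J) (hkl : k ≠ -l) (h : cf k l i < 0) {x : Γ} (hx : x ∈ X k l) {g : Γ}
    (hg : g ∈ C.XI J o i) : x * g ∈ C.XI J o i := by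
  obtain ⟨t, ht, n, hn, p, hp, rfl⟩ := hg
  exact ⟨x * t, mul_mem (X_le_gp hkl ⟨hk, hl, h⟩ hx) ht, n, hn, p, hp, by group⟩

include hJ ho in
lemma XI_zero {i k l : I} (hi : i ∈ J) (hk : k ∈ J) (hl : l ∈ J) (hkl : k ≠ -l) (h : cf k l i = 0) {x : Γ} (hx : x ∈ X k l)
    {g : Γ} (hg : g ∈ C.XI J o i) : x * g ∈ C.XI J o i := by
  obtain ⟨t, ht, n, hn, p, hp, rfl⟩ := hg
  have ne := C.ne
  have h1 : x * t * x⁻¹ ∈ gp X (Yp J i) := by
    refine C.normP (P := fun k' l' => k' = k ∧ l' = l) ?_ x (X_le_gp hkl ⟨rfl, rfl⟩ hx) t ht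
    rintro _ _ _ ⟨rfl, rfl⟩ k' l' hkl' ⟨hk', hl', b2⟩
    refine ⟨fun hop => ?_, fun p q hpq => ?_⟩
    · have e1 := Opp.cf ne hop i
      omega
    · obtain ⟨hp1, hp2⟩ := SumP.mem ne hJ hpq hk hl hk' hl'
      refine ⟨hp1, hp2, ?_⟩
      rcases hpq.2 with e | e | e | ⟨-, -, e⟩
      all_goals
        have e1 := e i
        omega
  have h2 : n⁻¹ * x * n ∈ C.Par J o := C.n_Par hJ hi ho hn (X_le_gp hkl ⟨hk, hl, h.ge⟩ hx)
  exact ⟨_, h1, n, hn, (n⁻¹ * x * n) * p, mul_mem h2 hp, by group⟩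

/-- the union of the cells -/
def XX (C : Cln X M) (J : Finset I) (o : I) : Set Γ := {g | ∃ i ∈ J, g ∈ C.XI J o i}

include hJ ho in
lemma XX_left {k l : I} (hk : k ∈ J) (hl : l ∈ J) (hkl : k ≠ -l) {x : Γ} (hx : x ∈ X k l)
    {g : Γ} (hg : g ∈ C.XX J o) : x * g ∈ C.XX J o := by
  have ne := C.ne
  obtain ⟨i, hi, hg⟩ := hg
  have one : ∀ {k l : I}, k ∈ J → l ∈ J → k ≠ -l → k = i → l ≠ i → l ≠ -i → ∀ {x : Γ}, x ∈ X k l → x * g ∈ C.XX J o := by
    intro k l hk hl hkl hki hli hli' x hx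
    subst hki
    have hj : -l ∈ J := hJ l hl
    have h1 : -l ≠ k := fun e => hkl e.symm
    have h2 : -l ≠ -k := fun e => hli (neg_inj.1 e)
    have hx' : x ∈ X k (- -l) := by rwa [neg_neg]
    obtain ⟨t, ht, n, hn, p, hp, rfl⟩ := hg
    obtain ⟨x', hx', t0, ht0, rfl⟩ := C.split_Y hJ hk hj h1 h2 ht
    by_cases h3 : x' = 1
    · subst h3
      rw [one_mul]
      obtain ⟨t1, ht1, l1, hl1, he⟩ := C.pass hJ hk hj h1 h2 (by rwa [neg_neg]) ht0
      have a1 : n⁻¹ * l1 * n ∈ C.Par J o := C.n_Par hJ hk ho hn (gp_mono (fun _ _ _ h => ⟨h.1, h.2.1, h.2.2.1.ge⟩) hl1)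
      have a2 : n⁻¹ * x * n ∈ C.Par J o := by
        refine C.n_Par hJ hk ho hn (X_le_gp hkl ⟨hk, hl, ?_⟩ hx)
        unfold cf; simp [hli, hli', ne' ne k]
      refine ⟨k, hk, t1, gp_mono (fun _ _ _ h => ⟨h.1, h.2.1, h.2.2.1⟩) ht1, n, hn, (n⁻¹ * l1 * n) * (n⁻¹ * x * n) * p,
        mul_mem (mul_mem a1 a2) hp, ?_⟩
      calc x * (t0 * n * p) = (x * t0) * n * p := by group
        _ = _ := by rw [he]; group
    · have h4 := C.switch hJ hk hj ho h1 h2 hx' h3 ht0 hn hp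
      refine ⟨-l, hj, C.XI_neg hk hl hkl ?_ hx h4⟩
      rw [cf_neg]
      have : cf k l l = 1 := by unfold cf; simp [Ne.symm hli, hkl, ne' ne l]
      rw [this]; norm_num
  rcases cf_cases ne hkl i with e | e | e | e | e | e | e
  · obtain ⟨-, rfl, h9⟩ := e
    have h9' := h9.symm
    subst h9'
    clear h9
    obtain ⟨t, ht, n, hn, p, hp, rfl⟩ := hg
    rcases C.dich hJ hk ht with h | ⟨j, hj, h1, h2, x', hx', h3, t0, ht0, rfl⟩
    · by_cases ht1 : t = 1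
      · subst ht1
        have a2 : n⁻¹ * x * n ∈ C.Par J o := by
          refine C.n_Par hJ hk ho hn (X_le_gp hkl ⟨hk, hl, ?_⟩ hx)
          unfold cf; simp [ne' ne k]
        exact ⟨k, hk, 1, one_mem _, n, hn, (n⁻¹ * x * n) * p, mul_mem a2 hp, by group⟩
      · have hk' := hJ k hk
        have hkk : -k ≠ - -k := by rw [neg_neg]; exact ne k
        obtain ⟨a, ha, b, hb, m, hm, rfl⟩ := C.rank1 (-k) (-k) hkk t h ht1
        rw [neg_neg] at ha hb
        obtain ⟨n', hn', p', hp', hmn⟩ := C.coset hJ hk' hk' hk ho hkk hm hn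
        have e1 : rf (-k) (-k) k = -k := by unfold rf; simp [ne' ne k]
        rw [e1] at hn'
        have a2 : n⁻¹ * b * n ∈ C.Par J o := by
          refine C.n_Par hJ hk ho hn (X_le_gp hkl ⟨hk, hl, ?_⟩ hb)
          unfold cf; simp [ne' ne k]
        refine ⟨-k, hk', x * a, X_le_gp hkl ⟨hk, hk, ?_⟩ (mul_mem hx ha), n', hn', p' * (n⁻¹ * b * n) * p,
          mul_mem (mul_mem hp' a2) hp, ?_⟩
        · rw [cf_neg]; unfold cf; simp [ne' ne k]
        · calc x * (a * m * b * n * p) = x * a * (m * n) * (n⁻¹ * b * n) * p := by group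
            _ = _ := by rw [hmn]; group
    · have h4 := C.switch hJ hk hj ho h1 h2 hx' h3 ht0 hn hp
      refine ⟨j, hj, C.XI_zero hJ ho hj hk hl hkl ?_ hx h4⟩
      have h5 : k ≠ -j := fun e => h2 (by rw [e, neg_neg])
      unfold cf; simp [h1.symm, h5]
  · exact ⟨i, hi, C.XI_neg hk hl hkl (by omega) hx hg⟩
  · exact one hk hl hkl e.2.1 e.2.2.1 e.2.2.2 hx
  · have hx' : x ∈ X l k := by rw [C.Xs]; exact hx
    exact one hl hk (fun e => hkl (by rw [e, neg_neg])) e.2.1 e.2.2.1 e.2.2.2 hx'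
  · exact ⟨i, hi, C.XI_neg hk hl hkl (by omega) hx hg⟩
  · exact ⟨i, hi, C.XI_neg hk hl hkl (by omega) hx hg⟩
  · exact ⟨i, hi, C.XI_zero hJ ho hi hk hl hkl e.1 hx hg⟩

include hJ ho in
lemma T_left {h : Γ} (hh : h ∈ C.T) {g : Γ} (hg : g ∈ C.XX J o) : h * g ∈ C.XX J o := by
  obtain ⟨i, hi, t, ht, n, hn, p, hp, rfl⟩ := hg
  have h1 := C.T_gp hh t ht
  have h2 : n⁻¹ * h * n ∈ C.T := by
    rcases hn with ⟨_, hn⟩ | ⟨hio, hn⟩ | ⟨rfl, k, hk, hk1, hk2, m1, hm1, m2, hm2, rfl⟩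
    · exact mul_mem (mul_mem (inv_mem hn) hh) hn
    · exact C.M_T' (by rw [neg_neg]; exact hio) hn h hh
    · have e : (m1 * m2)⁻¹ * h * (m1 * m2) = m2⁻¹ * (m1⁻¹ * h * m1) * m2 := by group
      rw [e]
      exact C.M_T' (by rw [neg_neg]; exact hk1) hm2 _ (C.M_T' hk2 hm1 h hh)
  exact ⟨i, hi, _, h1, n, hn, (n⁻¹ * h * n) * p, mul_mem (mem_sup_right h2) hp, by group⟩

include hJ ho in
theorem gp_sub_XX {g : Γ} (hg : g ∈ gp X (fun k l => k ∈ J ∧ l ∈ J) ⊔ C.T) : g ∈ C.XX J o := by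
  have key : ∀ y ∈ C.XX J o, g * y ∈ C.XX J o := by
    have hle : gp X (fun k l => k ∈ J ∧ l ∈ J) ⊔ C.T ≤ closure ({g | ∃ k l, k ≠ -l ∧ (k ∈ J ∧ l ∈ J) ∧ g ∈ X k l} ∪ (C.T : Set Γ)) := by
      refine sup_le ?_ ?_
      · exact closure_mono Set.subset_union_left
      · intro x hx; exact subset_closure (Or.inr hx)
    have hg' := hle hg
    clear hg
    have h1 : ∀ y ∈ C.XX J o, g * y ∈ C.XX J o ∧ g⁻¹ * y ∈ C.XX J o := by
      induction hg' using closure_induction with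
      | mem x hx =>
        intro y hy
        rcases hx with ⟨k, l, hkl, ⟨hk, hl⟩, hx⟩ | hx
        · exact ⟨C.XX_left hJ ho hk hl hkl hx hy, C.XX_left hJ ho hk hl hkl (inv_mem hx) hy⟩
        · exact ⟨C.T_left hJ ho hx hy, C.T_left hJ ho (inv_mem hx) hy⟩
      | one => intro y hy; simpa using hy
      | mul a b _ _ ha hb =>
        intro y hy
        refine ⟨?_, ?_⟩
        · rw [mul_assoc]; exact (ha _ (hb y hy).1).1
        · rw [mul_inv_rev, mul_assoc]; exact (hb _ (ha y hy).2).2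
      | inv a _ ha => intro y hy; rw [inv_inv]; exact ⟨(ha y hy).2, (ha y hy).1⟩
    exact fun y hy => (h1 y hy).1
  have := key 1 ⟨o, ho, 1, one_mem _, 1, Or.inl ⟨rfl, one_mem _⟩, 1, one_mem _, by simp⟩
  rwa [mul_one] at this

end closure

/-- the descent: an element which stabilizes all lines is in the torus -/
theorem descent (St : I → Subgroup Γ) (hT : ∀ o, C.T ≤ St o) (hX : ∀ o k l, k ≠ -l → 0 ≤ cf k l o → X k l ≤ St o)
    (hY : ∀ (J : Finset I) (i o : I), i ∈ J → o ∈ J → ∀ t ∈ gp X (Yp J i), ∀ n ∈ C.NN J i o, t * n ∈ St o → i = o ∧ t = 1)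
    (N : ℕ) : ∀ (J : Finset I) (_ : J.card = N) (_ : ∀ k ∈ J, -k ∈ J) (g : Γ) (_ : g ∈ gp X (fun k l => k ∈ J ∧ l ∈ J) ⊔ C.T)
      (_ : ∀ o ∈ J, g ∈ St o), g ∈ C.T := by
  have ne := C.ne
  induction N using Nat.strong_induction_on with
  | _ N ih =>
    intro J hJN hJ g hg hst
    rcases J.eq_empty_or_nonempty with rfl | ⟨o, ho⟩
    · have : gp X (fun k l => k ∈ (∅ : Finset I) ∧ l ∈ (∅ : Finset I)) ≤ C.T := gp_le fun k l _ h => absurd h.1 (Finset.notMem_empty _)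
      exact (sup_le this le_rfl) hg
    · have ho' := hJ o ho
      have hP : C.Par J o ≤ St o := sup_le (gp_le fun k l hkl h => hX o k l hkl h.2.2) (hT o)
      obtain ⟨i, hi, t, ht, n, hn, p, hp, he⟩ := C.gp_sub_XX hJ ho hg
      have h1 : t * n ∈ St o := by
        have : t * n = g * p⁻¹ := by rw [he]; group
        rw [this]; exact mul_mem (hst o ho) (inv_mem (hP hp))
      obtain ⟨rfl, rfl⟩ := hY J i o hi ho t ht n hn h1
      have hn' : n ∈ C.T := by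
        rcases hn with ⟨_, hn⟩ | ⟨hn, _⟩ | ⟨hn, _⟩
        · exact hn
        · exact absurd rfl hn
        · exact absurd hn.symm (C.ne i)
      have hgP : g ∈ C.Par J i := by
        rw [he, one_mul]; exact mul_mem (mem_sup_right hn') hp
      -- decompose
      have hle : C.Par J i ≤ (gp X (fun k l => k ∈ J ∧ l ∈ J ∧ cf k l i = 0) ⊔ C.T) ⊔ gp X (Yp J (-i)) := by
        refine sup_le (gp_le fun k l hkl ⟨hk, hl, h⟩ => ?_) (le_sup_right.trans le_sup_left)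
        rcases h.eq_or_lt with h | h
        · exact (X_le_gp (P := fun k l => k ∈ J ∧ l ∈ J ∧ cf k l i = 0) hkl ⟨hk, hl, h.symm⟩).trans
            (le_sup_left.trans le_sup_left)
        · refine (X_le_gp (P := Yp J (-i)) hkl ⟨hk, hl, ?_⟩).trans le_sup_right
          rw [cf_neg]; omega
      have hnorm1 : ∀ x ∈ gp X (fun k l => k ∈ J ∧ l ∈ J ∧ cf k l i = 0), ∀ y ∈ gp X (Yp J (-i)), x * y * x⁻¹ ∈ gp X (Yp J (-i)) := by
        refine C.normP ?_
        rintro k l hkl ⟨hk, hl, a2⟩ k' l' hkl' ⟨hk', hl', b2⟩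
        refine ⟨fun hop => ?_, fun p q hpq => ?_⟩
        · have e1 := Opp.cf ne hop i
          rw [cf_neg] at b2
          omega
        · obtain ⟨hp1, hp2⟩ := SumP.mem ne hJ hpq hk hl hk' hl'
          refine ⟨hp1, hp2, ?_⟩
          rw [cf_neg] at b2 ⊢
          rcases hpq.2 with e | e | e | ⟨-, -, e⟩
          all_goals
            have e1 := e i
            omega
      have hnorm : ∀ x ∈ gp X (fun k l => k ∈ J ∧ l ∈ J ∧ cf k l i = 0) ⊔ C.T, ∀ y ∈ gp X (Yp J (-i)),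
          x * y * x⁻¹ ∈ gp X (Yp J (-i)) := by
        intro x hx
        have : gp X (fun k l => k ∈ J ∧ l ∈ J ∧ cf k l i = 0) ⊔ C.T ≤ normalizer (gp X (Yp J (-i)) : Set Γ) := by
          refine sup_le ?_ ?_
          · intro x hx
            rw [mem_normalizer_iff]
            intro y
            refine ⟨fun hy => hnorm1 x hx y hy, fun hy => ?_⟩
            have := hnorm1 x⁻¹ (inv_mem hx) _ hy
            simpa [mul_assoc] using this
          · intro x hx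
            rw [mem_normalizer_iff]
            intro y
            refine ⟨fun hy => C.T_gp hx y hy, fun hy => ?_⟩
            have := C.T_gp (inv_mem hx) _ hy
            simpa [mul_assoc] using this
        intro y hy
        exact (mem_normalizer_iff.1 (this hx) y).1 hy
      obtain ⟨u, hu, γ, hγ, hge⟩ := Cfsg.Agent.ChevGrp.mem_sup_of_normalizes' hnorm (hle hgP)
      have hγSt : γ ∈ St (-i) := by
        refine (sup_le (gp_le fun k l hkl h => hX (-i) k l hkl ?_) (hT _) :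
          gp X (fun k l => k ∈ J ∧ l ∈ J ∧ cf k l i = 0) ⊔ C.T ≤ St (-i)) hγ
        rw [cf_neg, h.2.2, neg_zero]
      have hu1 : u = 1 := by
        have h2 : u * 1 ∈ St (-i) := by
          have : u * 1 = g * γ⁻¹ := by rw [hge]; group
          rw [this]; exact mul_mem (hst _ ho') (inv_mem hγSt)
        exact (hY J (-i) (-i) ho' ho' u hu 1 (Or.inl ⟨rfl, one_mem _⟩) h2).2
      subst hu1
      rw [one_mul] at hge
      subst hge
      set J' := (J.erase i).erase (-i) with hJ'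
      have hJ'm : ∀ k, k ∈ J' ↔ k ≠ -i ∧ k ≠ i ∧ k ∈ J := fun k => by rw [hJ', Finset.mem_erase, Finset.mem_erase]
      have hcard : J'.card < N := by
        rw [hJ', ← hJN]
        exact (Finset.card_le_card (Finset.erase_subset _ _)).trans_lt (Finset.card_erase_lt_of_mem ho)
      refine ih J'.card hcard J' rfl ?_ g ?_ ?_
      · intro k hk
        rw [hJ'm] at hk ⊢
        exact ⟨fun e => hk.2.1 (neg_inj.1 e), fun e => hk.1 (by rw [← e, neg_neg]), hJ k hk.2.2⟩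
      · refine (sup_le_sup_right (gp_mono fun k l hkl h => ?_) C.T) hγ
        rcases cf_cases ne hkl i with e | e | e | e | e | e | e
        · omega
        · omega
        · omega
        · omega
        · omega
        · omega
        · exact ⟨(hJ'm k).2 ⟨e.2.2.1, e.2.1, h.1⟩, (hJ'm l).2 ⟨e.2.2.2.2, e.2.2.2.1, h.2.1⟩⟩
      · intro o' ho'
        exact hst o' ((hJ'm o').1 ho').2.2

end Cln

end Cfsg.Agent.Stb
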