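import Cfsg.Agent.Stb.Cln
import Cfsg.Agent.Stb.SpRel

set_option autoImplicit false

/-!
Steinberg relations for hermitian and quadratic forms (Witt index at least three): a group with such relations which acts
as the isometry group has kernel contained in the torus.
-/

namespace Cfsg.Agent.Stb

open Subgroup
open scoped commutatorElement

/-- closes inequalities between signed indices -/
macro "nx" : tactic => `(tactic| (first
  | assumption
  | (intro e; exact absurd e.symm (by assumption))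
  | (simp only [neg_neg, ne_eq, neg_inj, neg_eq_iff_eq_neg]; first
      | assumption
      | exact Ne.symm (by assumption)
      | (intro e; exact absurd (neg_eq_iff_eq_neg.1 e.symm) (by assumption)))))

section form

variable {K W : Type*} [Field K] [AddCommGroup W] [Module K W]

/-- a hermitian form with a form parameter -/
structure HF (τ : K →+* K) (h0 : W → W → K) (P : W → K → Prop) : Prop where
  ττ : ∀ a, τ (τ a) = a
  add_right : ∀ w u v, h0 w (u + v) = h0 w u + h0 w v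
  smul_right : ∀ w a u, h0 w (a • u) = a * h0 w u
  symm : ∀ w u, τ (h0 w u) = h0 u w
  P_zero : P 0 0
  P_mul : ∀ {w c w' c'}, P w c → P w' c' → P (w + w') (c + c' - h0 w w')
  P_inv : ∀ {w c}, P w c → P (-w) (τ c)
  P_smul : ∀ {w c}, P w c → ∀ b, P (b • w) (b * τ b * c)
  P_tr : ∀ {w c}, P w c → c + τ c + h0 w w = 0
  P_skew : ∀ a, P 0 (a - τ a)
  aniso : ∀ {w}, P w 0 → w = 0

namespace HF

variable {τ : K →+* K} {h0 : W → W → K} {P : W → K → Prop} (H : HF τ h0 P)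

include H

lemma add_left (u v w : W) : h0 (u + v) w = h0 u w + h0 v w := by
  rw [← H.symm w, H.add_right, map_add, H.symm, H.symm]

lemma smul_left (a : K) (u w : W) : h0 (a • u) w = τ a * h0 u w := by
  rw [← H.symm w, H.smul_right, map_mul, H.symm]

lemma zero_right (w : W) : h0 w 0 = 0 := by
  have := H.smul_right w 0 0
  rwa [zero_smul, zero_mul] at this

lemma zero_left (w : W) : h0 0 w = 0 := by
  rw [← H.symm w, H.zero_right, map_zero]

lemma neg_right (w u : W) : h0 w (-u) = -h0 w u := by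
  have := H.smul_right w (-1) u
  rwa [neg_one_smul, neg_one_mul] at this

lemma neg_left (w u : W) : h0 (-w) u = -h0 w u := by
  rw [← H.symm u, H.neg_right, map_neg, H.symm]

lemma τ_ne {a : K} (h : a ≠ 0) : τ a ≠ 0 := fun e => h (by rw [← H.ττ a, e, map_zero])

lemma P1 {w : W} {c : K} (h : P w c) (hc : c ≠ 0) : P ((-c⁻¹) • w) (τ c)⁻¹ := by
  have h1 := H.P_smul h (-c⁻¹)
  have h2 := H.τ_ne hc
  rwa [map_neg, map_inv₀, show -c⁻¹ * -(τ c)⁻¹ * c = (τ c)⁻¹ by field_simp] at h1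

lemma P2 {w : W} {c : K} (h : P w c) (hc : c ≠ 0) : P ((-(τ c)⁻¹) • w) (τ c)⁻¹ := by
  have h1 := H.P_smul h (-(τ c)⁻¹)
  have h2 := H.τ_ne hc
  rwa [map_neg, map_inv₀, H.ττ, show -(τ c)⁻¹ * -c⁻¹ * c = (τ c)⁻¹ by field_simp] at h1

lemma P_smul' {w : W} {c : K} (h : P w c) (b : K) : P (b • w) (b * τ b * τ c) := by
  have h1 := H.P_smul (H.P_inv h) (-b)
  rwa [neg_smul, smul_neg, neg_neg, map_neg, neg_mul_neg] at h1

end HF

end form

variable {I K W Γ : Type*} [InvolutiveNeg I] [DecidableEq I] [Field K] [AddCommGroup W] [Module K W] [Group Γ]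

/-- Steinberg relations of a hermitian form of Witt index at least three. -/
structure HR (τ : K →+* K) (h0 : W → W → K) (P : W → K → Prop) (y : I → I → K → Γ) (z : I → W → K → Γ) : Prop where
  ne : ∀ i : I, -i ≠ i
  three : ∀ i j : I, ∃ k, k ≠ i ∧ k ≠ -i ∧ k ≠ j ∧ k ≠ -j
  symm : ∀ {i j}, i ≠ j → i ≠ -j → ∀ a, y i j a = y j i (-τ a)
  add : ∀ {i j}, i ≠ j → i ≠ -j → ∀ a b, y i j (a + b) = y i j a * y i j b
  zmul : ∀ i {w c w' c'}, P w c → P w' c' → z i w c * z i w' c' = z i (w + w') (c + c' - h0 w w')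
  c1 : ∀ {i j k : I}, i ≠ j → i ≠ -j → j ≠ k → j ≠ -k → i ≠ k → i ≠ -k → ∀ a b, ⁅y i j a, y (-j) k b⁆ = y i k (a * b)
  c2 : ∀ {i j : I}, i ≠ j → i ≠ -j → ∀ a b, ⁅y i j a, y (-j) i b⁆ = z i 0 (a * b - τ (a * b))
  c3 : ∀ {i j : I}, i ≠ j → i ≠ -j → ∀ {w c}, P w c → ∀ b, ⁅z i w c, y (-i) j b⁆ = y i j (c * b) * z j (b • w) (b * τ b * τ c)
  c4 : ∀ {i j k l : I}, i ≠ j → i ≠ -j → k ≠ l → k ≠ -l → k ≠ -i → k ≠ -j → l ≠ -i → l ≠ -j → ∀ a b, ⁅y i j a, y k l b⁆ = 1
  c5 : ∀ {i k l : I}, k ≠ l → k ≠ -l → k ≠ -i → l ≠ -i → ∀ {w c}, P w c → ∀ a, ⁅z i w c, y k l a⁆ = 1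
  c6 : ∀ {i j : I}, i ≠ j → i ≠ -j → ∀ {w c w' c'}, P w c → P w' c' → ⁅z i w c, z j w' c'⁆ = y i j (-h0 w w')

/-- the root subgroups -/
def HX (P : W → K → Prop) (y : I → I → K → Γ) (z : I → W → K → Γ) (i j : I) : Subgroup Γ :=
  closure {g | (i = j ∧ ∃ w c, P w c ∧ z i w c = g) ∨ (i ≠ j ∧ i ≠ -j ∧ ∃ a, y i j a = g)}

namespace HR

variable {τ : K →+* K} {h0 : W → W → K} {P : W → K → Prop} (H : HF τ h0 P) {y : I → I → K → Γ} {z : I → W → K → Γ}
  (R : HR τ h0 P y z)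

include R

omit [DecidableEq I] in
lemma zero {i j : I} (h : i ≠ j) (h' : i ≠ -j) : y i j 0 = 1 := by
  have := R.add h h' 0 0
  rw [add_zero] at this
  exact mul_eq_left.1 this.symm

omit [DecidableEq I] in
lemma neg {i j : I} (h : i ≠ j) (h' : i ≠ -j) (a : K) : y i j (-a) = (y i j a)⁻¹ := by
  rw [eq_inv_iff_mul_eq_one, ← R.add h h', neg_add_cancel, R.zero h h']

include H

omit [DecidableEq I] in
lemma zzero (i : I) : z i 0 0 = 1 := by
  have := R.zmul i H.P_zero H.P_zero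
  rw [add_zero, add_zero, H.zero_left, sub_zero] at this
  exact mul_eq_left.1 this

omit [DecidableEq I] in
lemma zinv (i : I) {w : W} {c : K} (h : P w c) : (z i w c)⁻¹ = z i (-w) (τ c) := by
  rw [inv_eq_iff_mul_eq_one, R.zmul i h (H.P_inv h), add_neg_cancel, H.neg_right, sub_neg_eq_add, H.P_tr h, R.zzero H]

omit [DecidableEq I] in
lemma mem_Xl {i : I} {g : Γ} : g ∈ HX P y z i i ↔ ∃ w c, P w c ∧ z i w c = g := by
  constructor
  · intro hg
    unfold HX at hg
    induction hg using closure_induction with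
    | mem x hx =>
      rcases hx with ⟨-, h⟩ | ⟨h, -⟩
      · exact h
      · exact absurd rfl h
    | one => exact ⟨0, 0, H.P_zero, R.zzero H i⟩
    | mul a b _ _ ha hb =>
      obtain ⟨w, c, h, rfl⟩ := ha
      obtain ⟨w', c', h', rfl⟩ := hb
      exact ⟨_, _, H.P_mul h h', (R.zmul i h h').symm⟩
    | inv a _ ha =>
      obtain ⟨w, c, h, rfl⟩ := ha
      exact ⟨_, _, H.P_inv h, (R.zinv H i h).symm⟩
  · rintro ⟨w, c, h, rfl⟩
    exact subset_closure (Or.inl ⟨rfl, w, c, h, rfl⟩)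

omit H in
omit [DecidableEq I] in
lemma mem_Xs {i j : I} (h : i ≠ j) (h' : i ≠ -j) {g : Γ} : g ∈ HX P y z i j ↔ ∃ a, y i j a = g := by
  constructor
  · intro hg
    unfold HX at hg
    induction hg using closure_induction with
    | mem x hx =>
      rcases hx with ⟨e, -⟩ | ⟨-, -, h⟩
      · exact absurd e h
      · exact h
    | one => exact ⟨0, R.zero h h'⟩
    | mul a b _ _ ha hb =>
      obtain ⟨a, rfl⟩ := ha
      obtain ⟨b, rfl⟩ := hb
      exact ⟨a + b, R.add h h' a b⟩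
    | inv a _ ha =>
      obtain ⟨a, rfl⟩ := ha
      exact ⟨-a, R.neg h h' a⟩
  · rintro ⟨a, rfl⟩
    exact subset_closure (Or.inr ⟨h, h', a, rfl⟩)

omit R H in
omit [DecidableEq I] [AddCommGroup W] [Module K W] [Field K] in
lemma y_mem {i j : I} (h : i ≠ j) (h' : i ≠ -j) (a : K) : y i j a ∈ HX P y z i j := subset_closure (Or.inr ⟨h, h', a, rfl⟩)

omit R H in
omit [DecidableEq I] [AddCommGroup W] [Module K W] [Field K] in
lemma z_mem (i : I) {w : W} {c : K} (h : P w c) : z i w c ∈ HX P y z i i := subset_closure (Or.inl ⟨rfl, w, c, h, rfl⟩)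

omit [DecidableEq I] in
theorem com : Com (HX P y z) where
  ne := R.ne
  Xs i j := by
    by_cases h : i = j
    · rw [h]
    by_cases h' : i = -j
    · have h'' : j = -i := by rw [h', neg_neg]
      unfold HX
      congr 1
      ext g
      constructor
      · rintro (⟨e, -⟩ | ⟨-, e, -⟩)
        · exact absurd e h
        · exact absurd h' e
      · rintro (⟨e, -⟩ | ⟨-, e, -⟩)
        · exact absurd e.symm h
        · exact absurd h'' e
    · ext g
      rw [R.mem_Xs h h', R.mem_Xs (Ne.symm h) (by nx)]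
      constructor
      · rintro ⟨a, rfl⟩; exact ⟨-τ a, (R.symm h h' a).symm⟩
      · rintro ⟨a, rfl⟩; exact ⟨-τ a, (R.symm (Ne.symm h) (by nx) a).symm⟩
  c1 {i j k} h1 h2 h3 h4 h5 h6 x hx z' hz := by
    obtain ⟨a, rfl⟩ := (R.mem_Xs h1 h2).1 hx
    obtain ⟨b, rfl⟩ := (R.mem_Xs (by nx) (by nx)).1 hz
    rw [R.c1 h1 h2 h3 h4 h5 h6]
    exact y_mem h5 h6 _
  c2 {i j} h1 h2 x hx z' hz := by
    obtain ⟨a, rfl⟩ := (R.mem_Xs h1 h2).1 hx
    obtain ⟨b, rfl⟩ := (R.mem_Xs (by nx) (by nx)).1 hz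
    rw [R.c2 h1 h2]
    exact z_mem i (H.P_skew _)
  c3 {i j} h1 h2 x hx z' hz := by
    obtain ⟨w, c, h, rfl⟩ := (R.mem_Xl H).1 hx
    obtain ⟨b, rfl⟩ := (R.mem_Xs (by nx) (by nx)).1 hz
    rw [R.c3 h1 h2 h]
    exact mul_mem (mem_sup_left (y_mem h1 h2 _)) (mem_sup_right (z_mem j (H.P_smul' h b)))
  c4 {i j k l} h1 h2 h3 h4 h5 h6 h7 x hx z' hz := by
    by_cases hij : i = j
    · subst hij
      have hkl : k ≠ l := fun e => h7 ⟨rfl, e⟩
      obtain ⟨w, c, h, rfl⟩ := (R.mem_Xl H).1 hx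
      obtain ⟨b, rfl⟩ := (R.mem_Xs hkl h2).1 hz
      exact R.c5 hkl h2 h3 h5 h b
    · obtain ⟨a, rfl⟩ := (R.mem_Xs hij h1).1 hx
      by_cases hkl : k = l
      · subst hkl
        obtain ⟨w, c, h, rfl⟩ := (R.mem_Xl H).1 hz
        rw [← commutatorElement_inv, R.c5 hij h1 (by nx) (by nx) h, inv_one]
      · obtain ⟨b, rfl⟩ := (R.mem_Xs hkl h2).1 hz
        exact R.c4 hij h1 hkl h2 h3 h4 h5 h6 a b
  c5 {i j} h1 h2 x hx z' hz := by
    obtain ⟨w, c, h, rfl⟩ := (R.mem_Xl H).1 hx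
    obtain ⟨w', c', h', rfl⟩ := (R.mem_Xl H).1 hz
    rw [R.c6 h1 h2 h h']
    exact y_mem h1 h2 _

end HR


/-- the hermitian form on the whole space -/
def hh [Fintype I] (τ : K →+* K) (h0 : W → W → K) (u v : (I → K) × W) : K := ∑ p, τ (u.1 p) * v.1 (-p) + h0 u.2 v.2

/-- the natural action -/
structure HA [Fintype I] (τ : K →+* K) (h0 : W → W → K) (P : W → K → Prop) (y : I → I → K → Γ) (z : I → W → K → Γ)
    (ρ : Γ →* (((I → K) × W) ≃ₗ[K] ((I → K) × W))) : Prop where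
  act_y : ∀ {i j}, i ≠ j → i ≠ -j → ∀ a v, ρ (y i j a) v =
    (fun p => v.1 p + (if p = i then a * v.1 (-j) else 0) - (if p = j then τ a * v.1 (-i) else 0), v.2)
  act_z : ∀ i {w c}, P w c → ∀ v, ρ (z i w c) v =
    (fun p => v.1 p + (if p = i then c * v.1 (-i) - h0 w v.2 else 0), v.2 + v.1 (-i) • w)
  form : ∀ g u v, hh τ h0 (ρ g u) (ρ g v) = hh τ h0 u v

/-- basis vectors -/
def eh (p : I) : (I → K) × W := (Pi.single p 1, 0)

/-- vectors in the anisotropic part -/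
def wh (w : W) : (I → K) × W := (0, w)

section act

variable [Fintype I] {τ : K →+* K} {h0 : W → W → K} {P : W → K → Prop} (H : HF τ h0 P) {y : I → I → K → Γ} {z : I → W → K → Γ}
  (R : HR τ h0 P y z) {ρ : Γ →* (((I → K) × W) ≃ₗ[K] ((I → K) × W))} (A : HA τ h0 P y z ρ)

omit [InvolutiveNeg I] [Fintype I] [Module K W] in
lemma eh_fst (p q : I) : (eh p : (I → K) × W).1 q = if q = p then 1 else 0 := by
  change (Pi.single p 1 : I → K) q = _
  rw [Pi.single_apply]

omit [InvolutiveNeg I] [Fintype I] [Module K W] in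
lemma eh_snd (p : I) : (eh p : (I → K) × W).2 = 0 := rfl

omit [InvolutiveNeg I] [Fintype I] [Module K W] in
lemma eh_ne (p : I) : (eh p : (I → K) × W) ≠ 0 := by
  intro h
  have := congrFun (congrArg Prod.fst h) p
  rw [eh_fst, if_pos rfl] at this
  exact one_ne_zero this

omit [InvolutiveNeg I] [Fintype I] in
lemma ext_eh' {L L' : ((I → K) × W) →ₗ[K] ((I → K) × W)} [Finite I] (h : ∀ p, L (eh p) = L' (eh p))
    (h' : ∀ w, L (wh w) = L' (wh w)) : L = L' := by
  refine LinearMap.prod_ext ?_ ?_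
  · refine (Pi.basisFun K I).ext fun p => ?_
    rw [Pi.basisFun_apply]
    exact h p
  · ext1 w
    exact h' w

omit [DecidableEq I] [InvolutiveNeg I] [Fintype I] in
lemma hrho_mul (g h : Γ) (v : (I → K) × W) : ρ (g * h) v = ρ g (ρ h v) := by rw [map_mul]; rfl

include A in
lemma act_y_ee {i j : I} (h : i ≠ j) (h' : i ≠ -j) (a : K) (p : I) : ρ (y i j a) (eh p) =
    eh p + (if p = -j then a else 0) • eh i - (if p = -i then τ a else 0) • eh j := by
  have b1 : ∀ q : I, (-q = p) ↔ (p = -q) := fun q => eq_comm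
  rw [A.act_y h h']
  refine Prod.ext ?_ ?_
  · funext q
    simp only [Prod.fst_sub, Prod.fst_add, Prod.smul_fst, Pi.sub_apply, Pi.add_apply, Pi.smul_apply, eh_fst, smul_eq_mul, b1]
    by_cases h1 : q = i <;> by_cases h2 : q = j <;> by_cases h3 : p = -i <;> by_cases h4 : p = -j <;> simp_all
  · simp only [Prod.snd_sub, Prod.snd_add, Prod.smul_snd, eh_snd, smul_zero, add_zero, sub_zero]

include A in
lemma act_z_ee {i : I} {w : W} {c : K} (H : HF τ h0 P) (hP : P w c) (p : I) : ρ (z i w c) (eh p) =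
    eh p + (if p = -i then c else 0) • eh i + (if p = -i then (1 : K) else 0) • wh w := by
  have b1 : ∀ q : I, (-q = p) ↔ (p = -q) := fun q => eq_comm
  rw [A.act_z i hP]
  refine Prod.ext ?_ ?_
  · funext q
    simp only [Prod.fst_add, Prod.smul_fst, Pi.add_apply, Pi.smul_apply, eh_fst, smul_eq_mul, b1, eh_snd, H.zero_right]
    by_cases h1 : q = i <;> by_cases h3 : p = -i <;> simp_all [wh]
  · simp only [Prod.snd_add, Prod.smul_snd, eh_fst, eh_snd, b1, wh, smul_zero, add_zero]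

include A in
lemma act_y_wh {i j : I} (h : i ≠ j) (h' : i ≠ -j) (a : K) (w : W) : ρ (y i j a) (wh w) = wh w := by
  rw [A.act_y h h']
  refine Prod.ext ?_ ?_
  · funext q; simp [wh]
  · rfl

include A in
lemma act_z_wh {i : I} {w : W} {c : K} (hP : P w c) (u : W) : ρ (z i w c) (wh u) = wh u - h0 w u • eh i := by
  rw [A.act_z i hP]
  refine Prod.ext ?_ ?_
  · funext q
    simp only [Prod.fst_sub, Prod.smul_fst, Pi.sub_apply, Pi.smul_apply, eh_fst, smul_eq_mul]
    by_cases h1 : q = i <;> simp_all [wh]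
  · simp [wh, eh_snd]

include A in
/-- coordinates not touched by the root groups -/
lemma hcoord_fix {Q : I → I → Prop} {p : I} (hQ : ∀ k l, k ≠ -l → Q k l → k ≠ p ∧ l ≠ p) (R : HR τ h0 P y z) (H : HF τ h0 P)
    {g : Γ} (hg : g ∈ gp (HX P y z) Q) (v : (I → K) × W) : (ρ g v).1 p = v.1 p := by
  unfold gp at hg
  induction hg using closure_induction generalizing v with
  | mem x hx =>
    obtain ⟨k, l, hkl, h, hx⟩ := hx
    obtain ⟨h1, h2⟩ := hQ k l hkl h
    by_cases h3 : k = l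
    · subst h3
      obtain ⟨w, c, hP, rfl⟩ := (R.mem_Xl H).1 hx
      rw [A.act_z k hP]
      simp only
      rw [if_neg (Ne.symm h1), add_zero]
    · obtain ⟨a, rfl⟩ := (R.mem_Xs h3 hkl).1 hx
      rw [A.act_y h3 hkl]
      simp only
      rw [if_neg (Ne.symm h1), if_neg (Ne.symm h2), add_zero, sub_zero]
  | one => simp
  | mul a b _ _ ha hb => rw [map_mul]; simp only [LinearEquiv.mul_apply]; rw [ha, hb]
  | inv a _ ha =>
    have := ha (ρ a⁻¹ v)
    rw [← LinearEquiv.mul_apply, ← map_mul, mul_inv_cancel, map_one, LinearEquiv.coe_one, id] at this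
    exact this.symm

include H R A in
/-- a column element which moves the basis vector only in the direction of the diagonal root group -/
lemma mem_diag {i : I} {t : Γ} (ht : t ∈ gp (HX P y z) (Yp Finset.univ i))
    (h : ∀ j, j ≠ i → j ≠ -i → (ρ t (eh i)).1 j = 0) : t ∈ HX P y z (-i) (-i) := by
  have ne := R.ne
  rcases (R.com H).dich (J := Finset.univ) (fun _ _ => Finset.mem_univ _) (Finset.mem_univ i) ht with h1 | ⟨j, -, h1, h2, x, hx, hx1, t0, ht0, rfl⟩
  · exact h1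
  · exfalso
    have hji : j ≠ - -i := by rw [neg_neg]; exact h1
    obtain ⟨a, rfl⟩ := (R.mem_Xs h2 hji).1 hx
    have k1 : (ρ t0 (eh i)).1 i = 1 := by
      rw [hcoord_fix A (p := i) ?_ R H ht0 (eh i), eh_fst, if_pos rfl]
      intro k l hkl hP
      rcases cf_lt ne hkl hP.2.2.1 with e | e
      · refine ⟨by rw [e]; exact ne i, fun f => hkl ?_⟩
        rw [e, f]
      · refine ⟨fun f => hkl ?_, by rw [e]; exact ne i⟩
        rw [e, f, neg_neg]
    have k2 : (ρ t0 (eh i)).1 j = 0 := by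
      rw [hcoord_fix A (p := j) ?_ R H ht0 (eh i), eh_fst, if_neg h1]
      intro k l hkl hP
      obtain ⟨-, -, q1, q2⟩ := hP
      by_contra hcon
      have h3 : 0 < cf k l j := by
        rcases cf_cases ne hkl j with e | e | e | e | e | e | e
        · omega
        · exfalso; apply hcon; rw [e.2.1, e.2.2]; exact ⟨ne j, ne j⟩
        · omega
        · omega
        · exfalso; apply hcon; rw [e.2.1]; exact ⟨ne j, e.2.2.1⟩
        · exfalso; apply hcon; rw [e.2.1]; exact ⟨e.2.2.1, ne j⟩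
        · exfalso; apply hcon; exact ⟨e.2.1, e.2.2.2.1⟩
      rcases q2 with q2 | q2
      · rcases cf_pm ne hkl h2 q1 h3 with ⟨e, f⟩ | ⟨e, f⟩
        · rw [e, f] at q2
          rw [cf_comm, (cf_self ne h1 h2).1] at q2; omega
        · rw [e, f, (cf_self ne h1 h2).1] at q2; omega
      · omega
    have h3 := h j h1 h2
    rw [hrho_mul, A.act_y h2 hji] at h3
    simp only [neg_neg, k1, k2, if_true, if_neg h2, zero_add, mul_one, sub_zero] at h3
    exact hx1 (by rw [h3, R.zero h2 hji])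

include H R A in
/-- a column element which fixes the basis vector is trivial -/
lemma hinj_Y {i : I} {t : Γ} (ht : t ∈ gp (HX P y z) (Yp Finset.univ i)) (h : ρ t (eh i) = eh i) : t = 1 := by
  have ne := R.ne
  have h1 := mem_diag H R A ht (fun j h1 _ => by rw [h, eh_fst, if_neg h1])
  obtain ⟨w, c, hP, rfl⟩ := (R.mem_Xl H).1 h1
  rw [act_z_ee A H hP, neg_neg, if_pos rfl, if_pos rfl, one_smul] at h
  have h3 := congrFun (congrArg Prod.fst h) (-i)
  have h4 := congrArg Prod.snd h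
  simp only [Prod.fst_add, Prod.smul_fst, Pi.add_apply, Pi.smul_apply, eh_fst, smul_eq_mul, if_true, mul_one, if_neg (ne i),
    zero_add, wh, Pi.zero_apply, add_zero] at h3
  simp only [Prod.snd_add, Prod.smul_snd, eh_snd, wh, smul_zero, zero_add] at h4
  rw [h3, h4, R.zzero H]

/-- elements inducing the reflection on the basis -/
def HSwap (ρ : Γ →* (((I → K) × W) ≃ₗ[K] ((I → K) × W))) (i j : I) : Set Γ :=
  {g | ∀ p, ∃ c : K, ρ g (eh p) = c • eh (rf i j p)}

omit [Fintype I] in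
lemma hswap_ne {g : Γ} {c : K} {p q : I} (h : ρ g (eh p) = c • eh q) : c ≠ 0 := by
  intro h0
  rw [h0, zero_smul] at h
  exact eh_ne p ((ρ g).map_eq_zero_iff.1 h)

omit [Fintype I] in
lemma hswap_inv' {g : Γ} {c : K} {p q : I} (h : ρ g (eh p) = c • eh q) : ρ g⁻¹ (eh q) = c⁻¹ • eh p := by
  have h0 := hswap_ne h
  have h1 : (eh q : (I → K) × W) = c⁻¹ • ρ g (eh p) := by rw [h, smul_smul, inv_mul_cancel₀ h0, one_smul]
  rw [h1, map_smul, ← LinearEquiv.mul_apply, ← map_mul, inv_mul_cancel, map_one]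
  rfl

omit [Fintype I] in
lemma hswap_inv (ne : ∀ i : I, -i ≠ i) {i j : I} (hij : i ≠ -j) {m : Γ} (hm : m ∈ HSwap ρ i j) : m⁻¹ ∈ HSwap ρ i j := by
  intro q
  obtain ⟨c, hc⟩ := hm (rf i j q)
  rw [rf_rf ne _ _ _ hij] at hc
  exact ⟨c⁻¹, hswap_inv' hc⟩

omit [Fintype I] in
lemma hswap_conj' (ne : ∀ i : I, -i ≠ i) {i j k l : I} (hij : i ≠ -j) {m m' : Γ} (hm : m ∈ HSwap ρ i j) (hm' : m' ∈ HSwap ρ k l) :
    m * m' * m⁻¹ ∈ HSwap ρ (rf i j k) (rf i j l) := by
  intro q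
  obtain ⟨c, hc⟩ := hswap_inv ne hij hm q
  obtain ⟨d, hd⟩ := hm' (rf i j q)
  obtain ⟨e, he⟩ := hm (rf k l (rf i j q))
  refine ⟨c * d * e, ?_⟩
  rw [hrho_mul, hrho_mul, hc, map_smul, map_smul, hd, map_smul, he, smul_smul, smul_smul]
  congr 1
  have := rf_conj ne hij k l (rf i j q)
  rw [rf_rf ne _ _ _ hij] at this
  rw [this]

include H in
lemma hh_eh_left (p : I) (v : (I → K) × W) : hh τ h0 (eh p) v = v.1 (-p) := by
  unfold hh
  rw [eh_snd, H.zero_left, add_zero, Finset.sum_eq_single p]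
  · rw [eh_fst, if_pos rfl, map_one, one_mul]
  · intro b _ hb; rw [eh_fst, if_neg hb, map_zero, zero_mul]
  · intro h; exact absurd (Finset.mem_univ _) h

include H in
lemma hh_smul_left (a : K) (u v : (I → K) × W) : hh τ h0 (a • u) v = τ a * hh τ h0 u v := by
  unfold hh
  rw [mul_add, Finset.mul_sum]
  congr 1
  · refine Finset.sum_congr rfl fun p _ => ?_
    rw [Prod.smul_fst, Pi.smul_apply, smul_eq_mul, map_mul, mul_assoc]
  · rw [Prod.smul_snd, H.smul_left]

include H A in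
/-- the anisotropic part is preserved by monomial elements -/
lemma hswap_wh (ne : ∀ i : I, -i ≠ i) {i j : I} (hij : i ≠ -j) {m : Γ} (hm : m ∈ HSwap ρ i j) (w : W) :
    ∃ w', ρ m (wh w) = wh w' := by
  refine ⟨(ρ m (wh w)).2, Prod.ext ?_ rfl⟩
  funext q
  obtain ⟨c, hc⟩ := hm (rf i j (-q))
  rw [rf_rf ne _ _ _ hij] at hc
  have h1 := A.form m (eh (rf i j (-q))) (wh w)
  rw [hc, hh_smul_left H, hh_eh_left H, hh_eh_left H, neg_neg] at h1
  have h2 : (wh w : (I → K) × W).1 (-rf i j (-q)) = 0 := rfl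
  rw [h2] at h1
  exact (mul_eq_zero.1 h1).resolve_left (H.τ_ne (hswap_ne hc))

include H A in
/-- the form on multiples of basis vectors -/
lemma hform_ee (g : Γ) {p r : I} {c d : K} (h1 : ρ g (eh p) = c • eh r) (h2 : ρ g (eh (-p)) = d • eh (-r)) : τ c * d = 1 := by
  have := A.form g (eh p) (eh (-p))
  rw [h1, h2, hh_smul_left H, hh_eh_left H, hh_eh_left H, eh_fst, if_pos rfl, Prod.smul_fst, Pi.smul_apply, eh_fst,
    if_pos rfl, smul_eq_mul, mul_one] at this
  exact this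

include H R A in
/-- conjugating root elements by monomial elements -/
lemma hswap_conj {i j : I} (hij : i ≠ -j) {m : Γ} (hm : m ∈ HSwap ρ i j) {k l : I} (hkl : k ≠ l) (hkl' : k ≠ -l) (a : K) :
    ∃ a', ρ (m * y k l a * m⁻¹) = ρ (y (rf i j k) (rf i j l) a') := by
  have ne := R.ne
  have hm' := hm
  choose c hc using hm
  have hkl2' := rf_ne_neg ne hij hkl'
  have hkl2 : rf i j k ≠ rf i j l := fun e => hkl ((rf_inj ne hij).1 e)
  refine ⟨a * c k * τ (c l), ?_⟩
  have key : ρ (m * y k l a) = ρ (y (rf i j k) (rf i j l) (a * c k * τ (c l)) * m) := by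
    apply LinearEquiv.toLinearMap_injective
    apply ext_eh'
    · intro p
      change ρ (m * y k l a) (eh p) = ρ (y (rf i j k) (rf i j l) (a * c k * τ (c l)) * m) (eh p)
      rw [hrho_mul, hrho_mul, act_y_ee A hkl hkl', map_sub, map_add, map_smul, map_smul, hc, hc, hc, map_smul,
        act_y_ee A hkl2 hkl2']
      have b1 : (rf i j p = -rf i j l) ↔ (p = -l) := by rw [← rf_neg ne _ _ _ hij, rf_inj ne hij]
      have b2 : (rf i j p = -rf i j k) ↔ (p = -k) := by rw [← rf_neg ne _ _ _ hij, rf_inj ne hij]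
      simp only [b1, b2, smul_add, smul_sub, smul_smul]
      have f1 : ∀ q, τ (c q) * c (-q) = 1 := fun q => hform_ee H A m (hc q) (by rw [hc, rf_neg ne _ _ _ hij])
      congr 1
      · congr 1
        by_cases h : p = -l
        · subst h
          rw [if_pos rfl, if_pos rfl]
          congr 1
          linear_combination (-a * c k) * f1 l
        · rw [if_neg h, if_neg h]; simp
      · by_cases h : p = -k
        · subst h
          rw [if_pos rfl, if_pos rfl]
          congr 1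
          rw [map_mul, map_mul, H.ττ]
          linear_combination (-τ a * c l) * f1 k
        · rw [if_neg h, if_neg h]; simp
    · intro w
      change ρ (m * y k l a) (wh w) = ρ (y (rf i j k) (rf i j l) (a * c k * τ (c l)) * m) (wh w)
      obtain ⟨w', hw'⟩ := hswap_wh H A ne hij hm' w
      rw [hrho_mul, hrho_mul, act_y_wh A hkl hkl', hw', act_y_wh A hkl2 hkl2']
  rw [map_mul, key, ← map_mul, mul_inv_cancel_right]

include H R A in
/-- conjugating diagonal root elements by monomial elements -/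
lemma hdiag_coord {i j : I} (hij : i ≠ -j) {m : Γ} (hm : m ∈ HSwap ρ i j) {k : I} {x : Γ} (hx : x ∈ HX P y z k k) (q : I)
    (h1 : q ≠ -rf i j k) (h2 : q ≠ rf i j k) : (ρ (m * x * m⁻¹) (eh (-rf i j k))).1 q = 0 := by
  have ne := R.ne
  obtain ⟨w, c, hP, rfl⟩ := (R.mem_Xl H).1 hx
  obtain ⟨d, hd⟩ := hswap_inv ne hij hm (-rf i j k)
  rw [rf_neg ne _ _ _ hij, rf_rf ne _ _ _ hij] at hd
  obtain ⟨w', hw'⟩ := hswap_wh H A ne hij hm w
  obtain ⟨e1, he1⟩ := hm (-k)
  obtain ⟨e2, he2⟩ := hm k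
  rw [hrho_mul, hrho_mul, hd, map_smul, map_smul, act_z_ee A H hP, if_pos rfl, if_pos rfl, one_smul, map_add, map_add, map_smul,
    hw', he1, he2, rf_neg ne _ _ _ hij]
  simp only [Prod.smul_fst, Prod.fst_add, Pi.smul_apply, Pi.add_apply, eh_fst, if_neg h1, if_neg h2, smul_eq_mul, mul_zero, wh,
    Pi.zero_apply, add_zero]


include H R in
lemma hnorm0 (l : I) : ∀ x ∈ gp (HX P y z) (fun k' l' => cf k' l' l = 0), ∀ t ∈ gp (HX P y z) (Yp Finset.univ (-l)),
    x * t * x⁻¹ ∈ gp (HX P y z) (Yp Finset.univ (-l)) := by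
  refine (R.com H).normP ?_
  rintro k l' hkl a2 k' l'' hkl' ⟨_, _, b2⟩
  rw [cf_neg] at b2
  refine ⟨fun hop => ?_, fun p q hpq => ?_⟩
  · have e1 := Opp.cf R.ne hop l
    omega
  · refine ⟨Finset.mem_univ _, Finset.mem_univ _, ?_⟩
    rw [cf_neg]
    rcases hpq.2 with e | e | e | ⟨-, -, e⟩
    all_goals
      have e1 := e l
      omega

include H R A in
lemma hM_A {i j : I} (hij : i ≠ -j) {m : Γ} (hm : m ∈ HX P y z i j ⊔ HX P y z (-i) (-j)) (hs : m ∈ HSwap ρ i j) {k l : I}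
    (hkl : k ≠ -l) (h1 : l ≠ i) (h2 : l ≠ j) (h3 : l ≠ -i) (h4 : l ≠ -j) {x : Γ} (hx : x ∈ HX P y z k l) :
    m * x * m⁻¹ ∈ HX P y z (rf i j k) (rf i j l) := by
  have ne := R.ne
  have hl : rf i j l = l := rf_of_ne h1 h2 h3 h4
  have c0 : cf i j l = 0 := by
    have h5 : i ≠ -l := fun e => h3 (by rw [e, neg_neg])
    have h6 : j ≠ -l := fun e => h4 (by rw [e, neg_neg])
    unfold cf; simp [h1.symm, h2.symm, h5, h6]
  have c1 : cf (-i) (-j) l = 0 := by rw [Opp.cf ne (k := i) (l := j) (Or.inl ⟨rfl, rfl⟩), c0, neg_zero]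
  have hm' : m ∈ gp (HX P y z) (fun k' l' => cf k' l' l = 0) :=
    (sup_le (X_le_gp hij c0) (X_le_gp (fun e => hij (neg_inj.1 e)) c1) : HX P y z i j ⊔ HX P y z (-i) (-j) ≤ _) hm
  have hkl2 : ∀ {k}, k ≠ -l → Yp Finset.univ (-l) k l := by
    intro k hkl
    refine ⟨Finset.mem_univ _, Finset.mem_univ _, ?_⟩
    rw [cf_neg]
    rcases cf_cases ne hkl l with e | e | e | e | e | e | e
    · omega
    · exact absurd e.2.2 (ne' ne l)
    · omega
    · omega
    · exact absurd e.2.1 hkl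
    · exact absurd e.2.1 (ne' ne l)
    · exact absurd rfl e.2.2.2.1
  have h5 := hnorm0 H R l m hm' x (X_le_gp hkl (hkl2 hkl) hx)
  by_cases hkl3 : k = l
  · subst hkl3
    have h6 := mem_diag H R A h5 (fun q q1 q2 => by
      have := hdiag_coord H R A hij hs hx q (by rw [hl]; exact q1) (by rw [hl]; rwa [neg_neg] at q2)
      rwa [hl] at this)
    rw [hl]
    rwa [neg_neg] at h6
  · obtain ⟨a, rfl⟩ := (R.mem_Xs hkl3 hkl).1 hx
    obtain ⟨a', ha'⟩ := hswap_conj H R A hij hs hkl3 hkl a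
    have k1 : rf i j k ≠ rf i j l := fun e => hkl3 ((rf_inj ne hij).1 e)
    have k2 := rf_ne_neg ne hij hkl
    have h6 : y (rf i j k) (rf i j l) a' ∈ HX P y z (rf i j k) (rf i j l) := HR.y_mem k1 k2 a'
    have h7 : y (rf i j k) (rf i j l) a' ∈ gp (HX P y z) (Yp Finset.univ (-l)) := by
      rw [hl] at h6 k2 ⊢
      exact X_le_gp k2 (hkl2 k2) h6
    have h8 := hinj_Y H R A (mul_mem h5 (inv_mem h7)) (by rw [map_mul, map_inv, ha', mul_inv_cancel]; rfl)
    rw [mul_inv_eq_one] at h8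
    rw [h8]; exact h6

include H R A in
theorem hM_X {i j : I} (hij : i ≠ -j) {m : Γ} (hm : m ∈ HX P y z i j ⊔ HX P y z (-i) (-j)) (hs : m ∈ HSwap ρ i j) {k l : I}
    (hkl : k ≠ -l) {x : Γ} (hx : x ∈ HX P y z k l) : m * x * m⁻¹ ∈ HX P y z (rf i j k) (rf i j l) := by
  have ne := R.ne
  have hC := R.com H
  have hlk : l ≠ -k := fun e => hkl (by rw [e, neg_neg])
  by_cases hl : l = i ∨ l = j ∨ l = -i ∨ l = -j
  swap
  · push Not at hl
    exact hM_A H R A hij hm hs hkl hl.1 hl.2.1 hl.2.2.1 hl.2.2.2 hx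
  by_cases hk : k = i ∨ k = j ∨ k = -i ∨ k = -j
  swap
  · push Not at hk
    rw [hC.Xs (rf i j k)]
    rw [hC.Xs k] at hx
    exact hM_A H R A hij hm hs hlk hk.1 hk.2.1 hk.2.2.1 hk.2.2.2 hx
  -- a third index
  obtain ⟨p, p1, p2, p3, p4⟩ := R.three i j
  have hpp : ∀ q, (q = i ∨ q = j ∨ q = -i ∨ q = -j) → p ≠ q ∧ p ≠ -q := by
    rintro q (rfl | rfl | rfl | rfl)
    · exact ⟨p1, p2⟩
    · exact ⟨p3, p4⟩
    · exact ⟨p2, by rw [neg_neg]; exact p1⟩
    · exact ⟨p4, by rw [neg_neg]; exact p3⟩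
  obtain ⟨pk1, pk2⟩ := hpp k hk
  obtain ⟨pl1, pl2⟩ := hpp l hl
  have hp : rf i j p = p := rf_of_ne p1 p3 p2 p4
  have hnp : rf i j (-p) = -p := by rw [rf_neg ne _ _ _ hij, hp]
  have np1 : -p ≠ i := fun e => p2 (by rw [← e, neg_neg])
  have np2 : -p ≠ -i := fun e => p1 (neg_inj.1 e)
  have np3 : -p ≠ j := fun e => p4 (by rw [← e, neg_neg])
  have np4 : -p ≠ -j := fun e => p3 (neg_inj.1 e)
  have rk1 : rf i j k ≠ p := fun e => pk1 ((rf_inj ne hij).1 (hp.trans e.symm))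
  have rk2 : rf i j k ≠ -p := fun e => pk2 (by rw [(rf_inj ne hij).1 (e.trans hnp.symm), neg_neg])
  by_cases hkl3 : k = l
  · subst hkl3
    have hk2 := rf_ne_neg ne hij hkl
    obtain ⟨w, c, hP, rfl⟩ := (R.mem_Xl H).1 hx
    have e1 : z k w c = (y p k (τ c * 1))⁻¹ * ⁅z p w (τ c), y (-p) k 1⁆ := by
      have hP' : P w (τ c) := by
        have := H.P_inv (H.P_smul hP (-1))
        rwa [neg_one_smul, neg_neg, map_neg, map_one, neg_mul_neg, one_mul, one_mul] at this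
      rw [R.c3 pk1 pk2 hP', inv_mul_cancel_left, one_smul, map_one, H.ττ, one_mul, one_mul]
    have hP' : P w (τ c) := by
      have := H.P_inv (H.P_smul hP (-1))
      rwa [neg_one_smul, neg_neg, map_neg, map_one, neg_mul_neg, one_mul, one_mul] at this
    have a1 := hM_A H R A hij hm hs (k := p) (l := p) (ne' ne p) p1 p3 p2 p4 (HR.z_mem p hP')
    have a2 := hM_A H R A hij hm hs (k := k) (l := -p) (by rw [neg_neg]; exact Ne.symm pk1) np1 np3 np2 np4
      (x := y (-p) k 1) (by rw [hC.Xs]; exact HR.y_mem (by nx) (by nx) _)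
    have a3 := hM_A H R A hij hm hs (k := k) (l := p) (by nx) p1 p3 p2 p4
      (x := y p k (τ c * 1)) (by rw [hC.Xs]; exact HR.y_mem pk1 pk2 _)
    rw [hp] at a1
    rw [hnp, hC.Xs] at a2
    rw [hp] at a3
    have rk3 : p ≠ rf i j k := Ne.symm rk1
    have rk4 : p ≠ -rf i j k := fun e => rk2 (by rw [e, neg_neg])
    have b2 := hC.c3 rk3 rk4 _ a1 _ a2
    have e2 : m * z k w c * m⁻¹ = (m * y p k (τ c * 1) * m⁻¹)⁻¹ * ⁅m * z p w (τ c) * m⁻¹, m * y (-p) k 1 * m⁻¹⁆ := by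
      rw [e1]; simp only [commutatorElement_def]; group
    have c1 : cf (rf i j k) (rf i j k) (-rf i j k) < 0 := by
      rw [cf_neg]; unfold cf; simp [hk2]
    have c2 : cf (rf i j k) p (-rf i j k) < 0 := by
      rw [cf_neg]; unfold cf; simp [hk2, rk3, rk4]
    have b3 : m * z k w c * m⁻¹ ∈ gp (HX P y z) (Yp Finset.univ (-rf i j k)) := by
      rw [e2]
      refine mul_mem (inv_mem (X_le_gp (fun e => rk4 (by rw [e, neg_neg])) ⟨Finset.mem_univ _, Finset.mem_univ _, c2⟩ a3)) ?_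
      refine (sup_le (X_le_gp rk4 ⟨Finset.mem_univ _, Finset.mem_univ _, ?_⟩) (X_le_gp hk2 ⟨Finset.mem_univ _, Finset.mem_univ _, c1⟩) :
        HX P y z p (rf i j k) ⊔ HX P y z (rf i j k) (rf i j k) ≤ _) b2
      rw [cf_comm]; exact c2
    have b4 := mem_diag H R A b3 (fun q q1 q2 => hdiag_coord H R A hij hs hx q q1 (by rwa [neg_neg] at q2))
    rwa [neg_neg] at b4
  · obtain ⟨a, rfl⟩ := (R.mem_Xs hkl3 hkl).1 hx
    have e1 : y k l a = ⁅y k p a, y (-p) l 1⁆ := by
      rw [R.c1 (by nx) (by nx) pl1 pl2 hkl3 hkl, mul_one]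
    have a1 := hM_A H R A hij hm hs (k := k) (l := p) (by nx) p1 p3 p2 p4
      (x := y k p a) (HR.y_mem (by nx) (by nx) _)
    have a2 := hM_A H R A hij hm hs (k := l) (l := -p) (by rw [neg_neg]; exact Ne.symm pl1) np1 np3 np2 np4
      (x := y (-p) l 1) (by rw [hC.Xs]; exact HR.y_mem (by nx) (by nx) _)
    rw [hp] at a1
    rw [hnp, hC.Xs] at a2
    have rl1 : rf i j l ≠ p := fun e => pl1 ((rf_inj ne hij).1 (hp.trans e.symm))
    have rl2 : rf i j l ≠ -p := fun e => pl2 (by rw [(rf_inj ne hij).1 (e.trans hnp.symm), neg_neg])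
    have e2 : m * y k l a * m⁻¹ = ⁅m * y k p a * m⁻¹, m * y (-p) l 1 * m⁻¹⁆ := by
      rw [e1]; simp only [commutatorElement_def]; group
    rw [e2]
    exact hC.c1 rk1 rk2 (Ne.symm rl1) (by nx) (fun e => hkl3 ((rf_inj ne hij).1 e)) (rf_ne_neg ne hij hkl) _ a1 _ a2


include H A in
lemma hn_y_aux {i j : I} (ne : ∀ i : I, -i ≠ i) (h1 : i ≠ j) (h2 : i ≠ -j) {a : K} (ha : a ≠ 0) :
    y (-i) (-j) (τ a)⁻¹ * y i j a * y (-i) (-j) (τ a)⁻¹ ∈ HSwap ρ i j := by
  have hta := H.τ_ne ha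
  have n1 : i ≠ -i := (ne i).symm
  have n2 : j ≠ -j := (ne j).symm
  have m1 : -i ≠ -j := by nx
  have m2 : -i ≠ - -j := by nx
  have n3 : -j ≠ i := by nx
  have n4 : -j ≠ -i := by nx
  have n5 : j ≠ i := by nx
  have n6 : j ≠ -i := by nx
  have n7 : -j ≠ j := ne j
  have n8 : -i ≠ i := ne i
  have n9 : -i ≠ j := by nx
  obtain ⟨r1, r2⟩ := rf_self1 (I := I) (i := i) (j := j) h2
  have e1 : τ (τ a)⁻¹ = a⁻¹ := by rw [map_inv₀, H.ττ]
  have aY := fun p => act_y_ee A h1 h2 a p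
  have aL := fun p => act_y_ee A m1 m2 (τ a)⁻¹ p
  simp only [neg_neg, e1] at aL
  intro p
  simp only [hrho_mul]
  by_cases p1 : p = i
  · subst p1
    refine ⟨-a⁻¹, ?_⟩
    simp only [r1, aL, aY, map_sub, map_add, map_smul, if_true, if_neg h1, if_neg h2, if_neg n1, if_neg n4, if_neg n7,
      if_neg n3, zero_smul, add_zero, sub_zero]
    have k : a * a⁻¹ = 1 := mul_inv_cancel₀ ha
    linear_combination (norm := module) (-k) • (eh p + (-a⁻¹) • eh (-j) : (I → K) × W)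
  by_cases p2 : p = j
  · subst p2
    refine ⟨(τ a)⁻¹, ?_⟩
    simp only [r2, aL, aY, map_sub, map_add, map_smul, if_true, if_neg n5, if_neg n2, if_neg n6, if_neg m1, if_neg n8,
      if_neg n9, zero_smul, add_zero, sub_zero]
    have k : (τ a)⁻¹ * τ a = 1 := inv_mul_cancel₀ hta
    linear_combination (norm := module) (-k) • (eh p + (τ a)⁻¹ • eh (-i) : (I → K) × W)
  by_cases p3 : p = -i
  · subst p3
    refine ⟨-τ a, ?_⟩
    rw [rf_neg ne _ _ _ h2, r1, neg_neg, aL, if_neg n9, if_neg n8, zero_smul, zero_smul, add_zero, sub_zero, aY, if_neg m1,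
      if_pos rfl, zero_smul, add_zero, map_sub, map_smul, aL, aL, if_neg n9, if_neg n8, if_pos rfl, if_neg n5]
    have k : (τ a)⁻¹ * τ a = 1 := inv_mul_cancel₀ hta
    linear_combination (norm := module) (-k) • (eh (-i) : (I → K) × W)
  by_cases p4 : p = -j
  · subst p4
    refine ⟨a, ?_⟩
    rw [rf_neg ne _ _ _ h2, r2, neg_neg, aL, if_neg n7, if_neg n3, zero_smul, zero_smul, add_zero, sub_zero, aY, if_pos rfl,
      if_neg n4, zero_smul, sub_zero, map_add, map_smul, aL, aL, if_neg n7, if_neg n3, if_neg h1, if_pos rfl]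
    have k : a * a⁻¹ = 1 := mul_inv_cancel₀ ha
    linear_combination (norm := module) (-k) • (eh (-j) : (I → K) × W)
  · refine ⟨1, ?_⟩
    rw [rf_of_ne p1 p2 p3 p4, aL, if_neg p2, if_neg p1, zero_smul, zero_smul, add_zero, sub_zero, aY, if_neg p4, if_neg p3,
      zero_smul, zero_smul, add_zero, sub_zero, aL, if_neg p2, if_neg p1, zero_smul, zero_smul, add_zero, sub_zero, one_smul]

include H A in
lemma hn_z_aux {i : I} (ne : ∀ i : I, -i ≠ i) {w : W} {c : K} (hP : P w c) (hc : c ≠ 0) :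
    z (-i) ((-c⁻¹) • w) (τ c)⁻¹ * z i w c * z (-i) ((-(τ c)⁻¹) • w) (τ c)⁻¹ ∈ HSwap ρ i i := by
  have htc := H.τ_ne hc
  have n1 : i ≠ -i := (ne i).symm
  have n8 : -i ≠ i := ne i
  have hP1 := H.P1 hP hc
  have hP2 := H.P2 hP hc
  have htr := H.P_tr hP
  obtain ⟨r1, -⟩ := rf_self1 (I := I) (i := i) (j := i) n1
  have aZ := fun p => act_z_ee A (i := i) H hP p
  have a1 := fun p => act_z_ee A (i := -i) H hP1 p
  have a2 := fun p => act_z_ee A (i := -i) H hP2 p
  have wZ := fun u => act_z_wh A (i := i) hP u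
  have w1 := fun u => act_z_wh A (i := -i) hP1 u
  have whs : ∀ (b : K) (u : W), (wh (b • u) : (I → K) × W) = b • wh u := by
    intro b u
    refine Prod.ext ?_ rfl
    funext q; simp [wh]
  simp only [neg_neg, whs] at a1 a2
  simp only [H.smul_left, map_neg, map_inv₀] at w1
  intro p
  simp only [hrho_mul]
  by_cases p1 : p = i
  · subst p1
    refine ⟨(τ c)⁻¹, ?_⟩
    simp only [r1, a2, aZ, wZ, a1, w1, map_add, map_sub, map_smul, if_true, if_neg n1, if_neg n8, one_smul, zero_smul, add_zero]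
    have k : (τ c)⁻¹ * τ c = 1 := inv_mul_cancel₀ htc
    have k2 : (1 : K) + (τ c)⁻¹ * c + (τ c)⁻¹ * h0 w w = 0 := by linear_combination (τ c)⁻¹ * htr - k
    linear_combination (norm := module) k2 • (eh p + (τ c)⁻¹ • eh (-p) + (-c⁻¹) • wh w : (I → K) × W)
  by_cases p3 : p = -i
  · subst p3
    refine ⟨c, ?_⟩
    rw [rf_neg ne _ _ _ n1, r1, neg_neg, a2, if_neg n8, if_neg n8, zero_smul, zero_smul, add_zero, add_zero, aZ, if_pos rfl,
      if_pos rfl, one_smul, map_add, map_add, map_smul, a1, a1, if_neg n8, if_neg n8, if_pos rfl, if_pos rfl, w1]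
    have k : (τ c)⁻¹ * τ c = 1 := inv_mul_cancel₀ htc
    have k3 : c * c⁻¹ = 1 := mul_inv_cancel₀ hc
    have k2 : (1 : K) + c * (τ c)⁻¹ + (τ c)⁻¹ * h0 w w = 0 := by linear_combination (τ c)⁻¹ * htr - k
    linear_combination (norm := module) k2 • (eh (-i) : (I → K) × W) - k3 • (wh w : (I → K) × W)
  · refine ⟨1, ?_⟩
    rw [rf_of_ne p1 p1 p3 p3, a2, if_neg p1, if_neg p1, zero_smul, zero_smul, add_zero, add_zero, aZ, if_neg p3, if_neg p3,
      zero_smul, zero_smul, add_zero, add_zero, a1, if_neg p1, if_neg p1, zero_smul, zero_smul, add_zero, add_zero, one_smul]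

/-- the elements inducing the reflections -/
def HMM (P : W → K → Prop) (y : I → I → K → Γ) (z : I → W → K → Γ) (ρ : Γ →* (((I → K) × W) ≃ₗ[K] ((I → K) × W)))
    (i j : I) : Set Γ :=
  {m | m ∈ HX P y z i j ⊔ HX P y z (-i) (-j) ∧ m ∈ HSwap ρ i j}

include H R A in
theorem hcln : Cln (HX P y z) (HMM P y z ρ) where
  toCom := R.com H
  Ms i j := by
    have hC := R.com H
    ext m
    unfold HMM HSwap
    simp only [Set.mem_setOf_eq, hC.Xs j i, hC.Xs (-j) (-i), rf_comm' R.ne j i]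
  Mn i j hij := by
    ext m
    unfold HMM HSwap
    simp only [Set.mem_setOf_eq, rf_negneg' R.ne hij, neg_neg, sup_comm (HX P y z (-i) (-j))]
  M_inv i j hij m hm := ⟨inv_mem hm.1, hswap_inv R.ne hij hm.2⟩
  M_X i j hij k l hkl m hm x hx := hM_X H R A hij hm.1 hm.2 hkl hx
  M_M i j hij k l hkl m hm m' hm' := by
    refine ⟨?_, hswap_conj' R.ne hij hm.2 hm'.2⟩
    have hmkl : -k ≠ - -l := fun e => hkl (neg_inj.1 e)
    have : HX P y z k l ⊔ HX P y z (-k) (-l) ≤ (HX P y z (rf i j k) (rf i j l) ⊔ HX P y z (-rf i j k) (-rf i j l)).comap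
        (MulAut.conj m).toMonoidHom := by
      refine sup_le ?_ ?_
      · intro x hx
        rw [mem_comap]
        exact mem_sup_left (hM_X H R A hij hm.1 hm.2 hkl hx)
      · intro x hx
        rw [mem_comap]
        have := hM_X H R A hij hm.1 hm.2 hmkl hx
        rw [rf_neg R.ne _ _ _ hij, rf_neg R.ne _ _ _ hij] at this
        exact mem_sup_right this
    exact this hm'.1
  M_gp i j hij m hm := hm.1
  rank1 i j hij x hx hx1 := by
    by_cases h1 : i = j
    · subst h1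
      have n2 : -i ≠ - -i := fun e => hij (neg_inj.1 e)
      obtain ⟨w, c, hP, rfl⟩ := (R.mem_Xl H).1 hx
      have hc : c ≠ 0 := by
        rintro rfl
        rw [H.aniso hP, R.zzero H] at hx1
        exact hx1 rfl
      refine ⟨(z (-i) ((-c⁻¹) • w) (τ c)⁻¹)⁻¹, inv_mem (HR.z_mem _ (H.P1 hP hc)), (z (-i) ((-(τ c)⁻¹) • w) (τ c)⁻¹)⁻¹,
        inv_mem (HR.z_mem _ (H.P2 hP hc)), _, ⟨?_, hn_z_aux H A R.ne hP hc⟩, by group⟩
      exact mul_mem (mul_mem (mem_sup_right (HR.z_mem _ (H.P1 hP hc))) (mem_sup_left hx)) (mem_sup_right (HR.z_mem _ (H.P2 hP hc)))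
    · have m1 : -i ≠ -j := by nx
      have m2 : -i ≠ - -j := by nx
      obtain ⟨a, rfl⟩ := (R.mem_Xs h1 hij).1 hx
      have ha : a ≠ 0 := fun h => hx1 (by rw [h, R.zero h1 hij])
      refine ⟨(y (-i) (-j) (τ a)⁻¹)⁻¹, inv_mem (HR.y_mem m1 m2 _), (y (-i) (-j) (τ a)⁻¹)⁻¹, inv_mem (HR.y_mem m1 m2 _), _,
        ⟨?_, hn_y_aux H A R.ne h1 hij ha⟩, by group⟩
      exact mul_mem (mul_mem (mem_sup_right (HR.y_mem m1 m2 _)) (mem_sup_left hx)) (mem_sup_right (HR.y_mem m1 m2 _))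

/-- the stabilizer of a line -/
def HSt (ρ : Γ →* (((I → K) × W) ≃ₗ[K] ((I → K) × W))) (o : I) : Subgroup Γ where
  carrier := {g | ∃ c : K, ρ g (eh o) = c • eh o}
  one_mem' := ⟨1, by rw [map_one, one_smul]; rfl⟩
  mul_mem' := by
    rintro a b ⟨c, hc⟩ ⟨d, hd⟩
    exact ⟨d * c, by rw [map_mul, LinearEquiv.mul_apply, hd, map_smul, hc, smul_smul]⟩
  inv_mem' := by
    rintro a ⟨c, hc⟩
    exact ⟨c⁻¹, hswap_inv' hc⟩

include H R A in
lemma hT_St (o : I) : (hcln H R A).T ≤ HSt ρ o := by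
  unfold Cln.T
  rw [closure_le]
  rintro _ ⟨i, j, hij, m, hm, m', hm', rfl⟩
  obtain ⟨c, hc⟩ := hm'.2 o
  obtain ⟨d, hd⟩ := hm.2 (rf i j o)
  rw [rf_rf R.ne _ _ _ hij] at hd
  exact ⟨c * d, by rw [hrho_mul, hc, map_smul, hd, smul_smul]⟩

include H R A in
lemma hNN_ee {J : Finset I} {i o : I} {n : Γ} (hn : n ∈ (hcln H R A).NN J i o) : ∃ c : K, ρ n (eh o) = c • eh i := by
  rcases hn with ⟨rfl, hn⟩ | ⟨hio, hn⟩ | ⟨rfl, k, -, hk1, hk2, m1, hm1, m2, hm2, rfl⟩
  · exact hT_St H R A i hn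
  · obtain ⟨c, hc⟩ := hn.2 o
    rw [rf_eq' R.ne hio] at hc
    exact ⟨c, hc⟩
  · obtain ⟨c, hc⟩ := hm2.2 o
    rw [rf_eq' R.ne hk1] at hc
    obtain ⟨d, hd⟩ := hm1.2 k
    rw [(rf_self1 hk2).1] at hd
    exact ⟨c * d, by rw [hrho_mul, hc, map_smul, hd, smul_smul]⟩

include H R A in
/-- an element stabilizing the lines of all basis vectors is in the torus -/
theorem hmem_T {g : Γ} (hg : g ∈ gp (HX P y z) (fun _ _ => True) ⊔ (hcln H R A).T) (h : ∀ o, g ∈ HSt ρ o) :
    g ∈ (hcln H R A).T := by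
  have ne := R.ne
  refine (hcln H R A).descent (HSt ρ) (hT_St H R A) ?_ ?_ _ Finset.univ rfl (fun _ _ => Finset.mem_univ _) g ?_ (fun o _ => h o)
  · intro o k l hkl h0' x hx
    refine ⟨1, ?_⟩
    have h1 : k ≠ -o := by
      rintro rfl
      rcases cf_cases ne hkl o with e | e | e | e | e | e | e
      · exact ne o e.2.1
      · omega
      · exact ne o e.2.1
      · exact e.2.2.2 rfl
      · omega
      · omega
      · exact e.2.2.1 rfl
    have h2 : l ≠ -o := by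
      rintro rfl
      rcases cf_cases ne hkl o with e | e | e | e | e | e | e
      · exact ne o e.2.2
      · omega
      · exact e.2.2.2 rfl
      · exact ne o e.2.1
      · omega
      · omega
      · exact e.2.2.2.2 rfl
    by_cases h3 : k = l
    · subst h3
      obtain ⟨w, c, hP, rfl⟩ := (R.mem_Xl H).1 hx
      rw [act_z_ee A H hP, if_neg (fun e => h1 (by rw [e, neg_neg])), if_neg (fun e => h1 (by rw [e, neg_neg]))]
      simp
    · obtain ⟨a, rfl⟩ := (R.mem_Xs h3 hkl).1 hx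
      rw [act_y_ee A h3 hkl, if_neg (fun e => h2 (by rw [e, neg_neg])), if_neg (fun e => h1 (by rw [e, neg_neg]))]
      simp
  · intro J i o hi ho t ht n hn htn
    have ht' : t ∈ gp (HX P y z) (Yp Finset.univ i) := gp_mono (fun _ _ _ h => ⟨Finset.mem_univ _, Finset.mem_univ _, h.2.2⟩) ht
    obtain ⟨c, hc⟩ := hNN_ee H R A hn
    have hc0 := hswap_ne hc
    obtain ⟨d, hd⟩ := htn
    have h1 : (ρ t (eh i)).1 i = 1 := by
      rw [hcoord_fix A (p := i) ?_ R H ht' (eh i), eh_fst, if_pos rfl]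
      intro k l hkl hP
      rcases cf_lt ne hkl hP.2.2 with e | e
      · refine ⟨by rw [e]; exact ne i, fun f => hkl ?_⟩
        rw [e, f]
      · refine ⟨fun f => hkl ?_, by rw [e]; exact ne i⟩
        rw [e, f, neg_neg]
    have h2 : c • ρ t (eh i) = d • eh o := by rw [← map_smul, ← hc, ← hrho_mul, hd]
    have h3 := congrFun (congrArg Prod.fst h2) i
    rw [Prod.smul_fst, Pi.smul_apply, h1, Prod.smul_fst, Pi.smul_apply, eh_fst, smul_eq_mul, smul_eq_mul, mul_one] at h3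
    by_cases hio : i = o
    · subst hio
      rw [if_pos rfl, mul_one] at h3
      refine ⟨rfl, hinj_Y H R A ht' ?_⟩
      rw [← h3] at h2
      exact smul_right_injective _ hc0 h2
    · rw [if_neg hio, mul_zero] at h3
      exact absurd h3 hc0
  · refine (sup_le_sup_right (gp_mono fun _ _ _ _ => ⟨Finset.mem_univ _, Finset.mem_univ _⟩) _) hg

end act

end Cfsg.Agent.Stb
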