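import Cfsg.Agent.Stb.OKer

set_option autoImplicit false

/-!
The action of the torus on the root elements of an orthogonal group.
-/

namespace Cfsg.Agent.Stb

open Subgroup
open Cfsg.Agent.Mult (R1)
open scoped commutatorElement

variable {I F W Γ : Type*} [InvolutiveNeg I] [DecidableEq I] [Field F] [AddCommGroup W] [Module F W] [Group Γ]
variable {q0 : W → F} {B0 : W → W → F} (O : OF q0 B0) {y : I → I → F → Γ} {z : I → W → Γ} (R : OR q0 B0 y z)
variable [Fintype I] {ρ : Γ →* (((I → F) × W) ≃ₗ[F] ((I → F) × W))} (A : OA q0 B0 y z ρ)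

omit [InvolutiveNeg I] [DecidableEq I] [Fintype I] in
lemma wh_smul (b : F) (u : W) : (wh (b • u) : (I → F) × W) = b • wh u := by
  refine Prod.ext ?_ rfl
  funext q; simp [wh]

omit [InvolutiveNeg I] [DecidableEq I] [Fintype I] in
lemma wh_add (u v : W) : (wh (u + v) : (I → F) × W) = wh u + wh v := by
  refine Prod.ext ?_ rfl
  funext q; simp [wh]

omit [InvolutiveNeg I] [DecidableEq I] [Fintype I] in
lemma wh_sub (u v : W) : (wh (u - v) : (I → F) × W) = wh u - wh v := by
  refine Prod.ext ?_ rfl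
  funext q; simp [wh]

omit [InvolutiveNeg I] [DecidableEq I] [Fintype I] [Module F W] in
lemma wh_zero : (wh (0 : W) : (I → F) × W) = 0 := rfl

omit [InvolutiveNeg I] [DecidableEq I] [Fintype I] [Module F W] in
lemma wh_snd (w : W) : (wh w : (I → F) × W).2 = w := rfl

omit [InvolutiveNeg I] [DecidableEq I] [Fintype I] [Module F W] in
lemma wh_fst (w : W) (p : I) : (wh w : (I → F) × W).1 p = 0 := rfl

include O R A

omit R in
lemma oz_ee (i : I) (w : W) (p : I) : ρ (z i w) (eh p) =
    eh p + (if p = -i then -q0 w else 0) • eh i + (if p = -i then (1 : F) else 0) • wh w :=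
  act_z_ee A.ha O.hf rfl p

omit R in
lemma oz_neg (i : I) (w : W) : ρ (z i w) (eh (-i)) = eh (-i) + (-q0 w) • eh i + wh w := by
  rw [oz_ee O A, if_pos rfl, if_pos rfl, one_smul]

omit R in
lemma oz_of (i : I) (w : W) {p : I} (h : p ≠ -i) : ρ (z i w) (eh p) = eh p := by
  rw [oz_ee O A, if_neg h, if_neg h, zero_smul, zero_smul, add_zero, add_zero]

omit R O in
lemma oz_wh (i : I) (w u : W) : ρ (z i w) (wh u) = wh u - B0 w u • eh i := act_z_wh A.ha rfl u

omit R in
lemma oform_ee (g : Γ) {p : I} {c d : F} (h1 : ρ g (eh p) = c • eh p) (h2 : ρ g (eh (-p)) = d • eh (-p)) : c * d = 1 :=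
  hform_ee O.hf A.ha g h1 h2

omit R in
lemma stab_inv {g : Γ} {p : I} {c : F} (h1 : ρ g (eh p) = c • eh p) (h2 : g ∈ HSt ρ (-p)) : ρ g (eh (-p)) = c⁻¹ • eh (-p) := by
  obtain ⟨d, hd⟩ := h2
  rw [hd, eq_inv_of_mul_eq_one_right (oform_ee O A g h1 hd)]

/-- the torus acts on long root elements -/
lemma tor_y {i j : I} (h1 : i ≠ j) (h2 : i ≠ -j) {g : Γ} (hg : g ∈ (ocln O R A).T) {c d : F} (hc : ρ g (eh i) = c • eh i)
    (hd : ρ g (eh j) = d • eh j) (a : F) : g * y i j a = y i j (c * d * a) * g := by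
  have h3 := (ocln O R A).T_X h2 hg (y i j a) (HR.y_mem h1 h2 a)
  obtain ⟨b, hb⟩ := (R.hr.mem_Xs h1 h2).1 h3
  have e1 : g * y i j a = y i j b * g := by rw [hb]; group
  have e2 := congrArg (fun g => ρ g (eh (-j))) e1
  simp only [hrho_mul] at e2
  have hd' := stab_inv O A hd (oT_St O R A hg _)
  have hd0 : d ≠ 0 := hswap_ne hd
  rw [oX_e2 R A h1 h2, map_add, map_smul, hc, hd', map_smul, oX_e2 R A h1 h2] at e2
  have h4 := oli (W := W) h2 (a * c - d⁻¹ * b) 0 (by linear_combination (norm := module) e2)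
  have h5 : b = c * d * a := by
    have h6 := h4.1
    field_simp at h6
    linear_combination -h6
  rw [← h5]; exact e1

/-- the torus acts on short root elements -/
lemma tor_z {i : I} {g : Γ} (hg : g ∈ (ocln O R A).T) {c : F} (hc : ρ g (eh i) = c • eh i) {w w' : W}
    (hw : ρ g (wh w) = wh w') : g * z i w = z i (c • w') * g := by
  have ne := R.ne
  have h3 := (ocln O R A).T_X (ne i).symm hg (z i w) (HR.z_mem i rfl)
  obtain ⟨u, c', hP, hb⟩ := (R.hr.mem_Xl O.hf).1 h3
  have e1 : g * z i w = z i u * g := by rw [hb]; group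
  have e2 := congrArg (fun g => ρ g (eh (-i))) e1
  simp only [hrho_mul] at e2
  have hd' := stab_inv O A hc (oT_St O R A hg _)
  have hc0 : c ≠ 0 := hswap_ne hc
  rw [oz_neg O A, map_add, map_add, hw, hd', map_smul, map_smul, oz_neg O A, hc] at e2
  have e3 := congrArg Prod.snd e2
  simp only [Prod.snd_add, Prod.smul_snd, eh_snd, wh_snd, smul_zero, zero_add] at e3
  rw [e1, e3, smul_smul, mul_inv_cancel₀ hc0, one_smul]

end Cfsg.Agent.Stb
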