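import Cfsg.Agent.Orth.Basic

set_option autoImplicit false

/-!
Lifts of Siegel elements to the Clifford algebra.
-/

namespace Cfsg.Agent.Stb

open QuadraticMap Cfsg.Agent.Orth
open CliffordAlgebra (ι)
open scoped commutatorElement

variable {F V : Type*} [Field F] [AddCommGroup V] [Module F V] {Q : QuadraticForm F V}

/-- scalars in the Clifford algebra -/
local notation "am" => algebraMap F (CliffordAlgebra Q)

lemma cl_swap (u v : V) : ι Q v * ι Q u = am (polar Q u v) - ι Q u * ι Q v := by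
  have := CliffordAlgebra.ι_mul_ι_add_swap (Q := Q) u v
  rw [← this]; abel

lemma cl_sq (u : V) : ι Q u * ι Q u = am (Q u) := CliffordAlgebra.ι_sq_scalar Q u

lemma cl_anti {u v : V} (h : polar Q u v = 0) : ι Q v * ι Q u = -(ι Q u * ι Q v) := by
  rw [cl_swap, h, map_zero, zero_sub]

lemma cl_sq0 {u v : V} (hu : Q u = 0) (h : polar Q u v = 0) (v' : V) : (ι Q u * ι Q v) * (ι Q u * ι Q v') = 0 := by
  calc (ι Q u * ι Q v) * (ι Q u * ι Q v') = ι Q u * (ι Q v * ι Q u) * ι Q v' := by noncomm_ring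
    _ = -((ι Q u * ι Q u) * ι Q v * ι Q v') := by rw [cl_anti h]; noncomm_ring
    _ = 0 := by rw [cl_sq, hu, map_zero]; noncomm_ring

/-- the unit `1 + u v` -/
def EC (u v : V) (hu : Q u = 0) (h : polar Q u v = 0) : (CliffordAlgebra Q)ˣ where
  val := 1 + ι Q u * ι Q v
  inv := 1 - ι Q u * ι Q v
  val_inv := by
    have := cl_sq0 hu h v
    calc (1 + ι Q u * ι Q v) * (1 - ι Q u * ι Q v) = 1 - (ι Q u * ι Q v) * (ι Q u * ι Q v) := by noncomm_ring
      _ = 1 := by rw [this, sub_zero]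
  inv_val := by
    have := cl_sq0 hu h v
    calc (1 - ι Q u * ι Q v) * (1 + ι Q u * ι Q v) = 1 - (ι Q u * ι Q v) * (ι Q u * ι Q v) := by noncomm_ring
      _ = 1 := by rw [this, sub_zero]

lemma EC_conj {u v : V} (hu : Q u = 0) (h : polar Q u v = 0) (x : V) :
    (EC u v hu h : CliffordAlgebra Q) * ι Q x = ι Q ((eich Q u v hu h : V ≃ₗ[F] V) x) * (EC u v hu h : CliffordAlgebra Q) := by
  rw [eich_apply]
  change (1 + ι Q u * ι Q v) * ι Q x = ι Q _ * (1 + ι Q u * ι Q v)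
  simp only [map_add, map_sub, map_smul, Algebra.smul_def]
  have e1 : ι Q v * ι Q x = am (polar Q x v) - ι Q x * ι Q v := cl_swap x v
  have e2 : ι Q u * ι Q x = am (polar Q x u) - ι Q x * ι Q u := cl_swap x u
  have e3 : ι Q v * ι Q u = -(ι Q u * ι Q v) := cl_anti h
  have e4 : ι Q v * ι Q v = am (Q v) := cl_sq v
  have e5 : ι Q u * ι Q u = 0 := by rw [cl_sq, hu, map_zero]
  have c1 : ∀ (a : F) (b : CliffordAlgebra Q), b * am a = am a * b := fun a b => (Algebra.commutes a b).symm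
  have l1 : (1 + ι Q u * ι Q v) * ι Q x = ι Q x + am (polar Q x v) * ι Q u - am (polar Q x u) * ι Q v + ι Q x * (ι Q u * ι Q v) := by
    calc (1 + ι Q u * ι Q v) * ι Q x = ι Q x + ι Q u * (ι Q v * ι Q x) := by noncomm_ring
      _ = ι Q x + ι Q u * am (polar Q x v) - (ι Q u * ι Q x) * ι Q v := by rw [e1]; noncomm_ring
      _ = _ := by rw [e2, c1]; noncomm_ring
  have l2 : (ι Q x + am (polar Q x v) * ι Q u - am (polar Q x u) * ι Q v - am (Q v * polar Q x u) * ι Q u) * (1 + ι Q u * ι Q v) =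
      ι Q x + am (polar Q x v) * ι Q u - am (polar Q x u) * ι Q v + ι Q x * (ι Q u * ι Q v) := by
    have f1 : ι Q u * (ι Q u * ι Q v) = 0 := by rw [← mul_assoc, e5, zero_mul]
    have f2 : ι Q v * (ι Q u * ι Q v) = -(am (Q v) * ι Q u) := by
      rw [← mul_assoc, e3, neg_mul, mul_assoc, e4, c1]
    have f3 : am (Q v * polar Q x u) = am (polar Q x u) * am (Q v) := by rw [mul_comm, map_mul]
    rw [f3]
    calc (ι Q x + am (polar Q x v) * ι Q u - am (polar Q x u) * ι Q v - am (polar Q x u) * am (Q v) * ι Q u) * (1 + ι Q u * ι Q v)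
        = ι Q x + am (polar Q x v) * ι Q u - am (polar Q x u) * ι Q v - am (polar Q x u) * am (Q v) * ι Q u + ι Q x * (ι Q u * ι Q v)
          + am (polar Q x v) * (ι Q u * (ι Q u * ι Q v)) - am (polar Q x u) * (ι Q v * (ι Q u * ι Q v))
          - am (polar Q x u) * am (Q v) * (ι Q u * (ι Q u * ι Q v)) := by noncomm_ring
      _ = _ := by rw [f1, f2]; noncomm_ring
  rw [l1, l2]

/-- pairs of units of the Clifford algebra and isometries -/
abbrev CP (Q : QuadraticForm F V) := (CliffordAlgebra Q)ˣ × OGrp Q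

/-- compatible pairs -/
def CL (Q : QuadraticForm F V) : Subgroup (CP Q) where
  carrier := {g | ∀ x, (g.1 : CliffordAlgebra Q) * ι Q x = ι Q ((g.2 : V ≃ₗ[F] V) x) * (g.1 : CliffordAlgebra Q)}
  one_mem' := fun x => by
    change (1 : CliffordAlgebra Q) * ι Q x = ι Q x * (1 : CliffordAlgebra Q)
    rw [one_mul, mul_one]
  mul_mem' := by
    intro a b ha hb x
    change ((a.1 : CliffordAlgebra Q) * (b.1 : CliffordAlgebra Q)) * ι Q x = ι Q ((a.2 : V ≃ₗ[F] V) ((b.2 : V ≃ₗ[F] V) x)) * _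
    rw [mul_assoc, hb x, ← mul_assoc, ha, mul_assoc]; rfl
  inv_mem' := by
    intro a ha x
    have h1 := ha (((a.2⁻¹ : OGrp Q) : V ≃ₗ[F] V) x)
    rw [coe_apply_inv_self] at h1
    change ((a.1⁻¹ : (CliffordAlgebra Q)ˣ) : CliffordAlgebra Q) * ι Q x = ι Q (((a.2⁻¹ : OGrp Q) : V ≃ₗ[F] V) x) * ((a.1⁻¹ : (CliffordAlgebra Q)ˣ) : CliffordAlgebra Q)
    rw [Units.inv_mul_eq_iff_eq_mul, ← mul_assoc, h1, mul_assoc, Units.mul_inv, mul_one]

open scoped Classical in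
/-- lifted Siegel elements -/
noncomputable def EE (Q : QuadraticForm F V) (u v : V) : CP Q :=
  if h : Q u = 0 ∧ polar Q u v = 0 then (EC u v h.1 h.2, eich Q u v h.1 h.2) else 1

lemma EE_eq {u v : V} (hu : Q u = 0) (h : polar Q u v = 0) : EE Q u v = (EC u v hu h, eich Q u v hu h) := by
  unfold EE
  rw [dif_pos ⟨hu, h⟩]

lemma EE_mem {u v : V} (hu : Q u = 0) (h : polar Q u v = 0) : EE Q u v ∈ CL Q := by
  rw [EE_eq hu h]
  intro x
  exact EC_conj hu h x

lemma CP_ext {a b : CP Q} (h1 : (a.1 : CliffordAlgebra Q) = b.1) (h2 : ∀ x, (a.2 : V ≃ₗ[F] V) x = (b.2 : V ≃ₗ[F] V) x) : a = b :=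
  Prod.ext (Units.ext h1) (OGrp_ext h2)

lemma EE_add {u v w : V} (hu : Q u = 0) (h : polar Q u v = 0) (h' : polar Q u w = 0) :
    EE Q u (v + w) = EE Q u v * EE Q u w := by
  have h2 : polar Q u (v + w) = 0 := by rw [par, h, h', add_zero]
  rw [EE_eq hu h2, EE_eq hu h, EE_eq hu h', Prod.mk_mul_mk]
  refine CP_ext ?_ ?_
  · change 1 + ι Q u * ι Q (v + w) = (1 + ι Q u * ι Q v) * (1 + ι Q u * ι Q w)
    have := cl_sq0 hu h w
    rw [map_add]
    calc 1 + ι Q u * (ι Q v + ι Q w) = 1 + ι Q u * ι Q v + ι Q u * ι Q w + 0 := by noncomm_ring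
      _ = _ := by rw [← this]; noncomm_ring
  · intro x
    rw [← eich_mul hu h h']

lemma EE_smul {u v : V} (hu : Q u = 0) (h : polar Q u v = 0) (a : F) : EE Q (a • u) v = EE Q u (a • v) := by
  have h1 : Q (a • u) = 0 := by rw [qsmul, hu, mul_zero]
  have h2 : polar Q (a • u) v = 0 := by rw [psl, h, mul_zero]
  have h3 : polar Q u (a • v) = 0 := by rw [psr, h, mul_zero]
  rw [EE_eq h1 h2, EE_eq hu h3]
  refine CP_ext ?_ ?_
  · change 1 + ι Q (a • u) * ι Q v = 1 + ι Q u * ι Q (a • v)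
    rw [map_smul, map_smul, smul_mul_assoc, mul_smul_comm]
  · intro x
    change (eich Q (a • u) v h1 h2 : V ≃ₗ[F] V) x = (eich Q u (a • v) hu h3 : V ≃ₗ[F] V) x
    rw [eich_apply, eich_apply, psr, psr, qsmul]
    module

lemma EE_swap {u v : V} (hu : Q u = 0) (hv : Q v = 0) (h : polar Q u v = 0) : EE Q u v = EE Q v (-u) := by
  have h1 : polar Q v (-u) = 0 := by rw [polar_neg_right, pc, h, neg_zero]
  rw [EE_eq hu h, EE_eq hv h1]
  refine CP_ext ?_ ?_
  · change 1 + ι Q u * ι Q v = 1 + ι Q v * ι Q (-u)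
    rw [map_neg, mul_neg, cl_anti h, neg_neg]
  · intro x
    change (eich Q u v hu h : V ≃ₗ[F] V) x = (eich Q v (-u) hv h1 : V ≃ₗ[F] V) x
    rw [eich_apply, eich_apply, polar_neg_right, QuadraticMap.map_neg, hu, hv]
    module

lemma EE_self {u v : V} (hu : Q u = 0) (h : polar Q u v = 0) (a : F) : EE Q u (v + a • u) = EE Q u v := by
  have h1 : polar Q u (a • u) = 0 := by rw [psr, pself, hu]; ring
  rw [EE_add hu h h1]
  have : EE Q u (a • u) = 1 := by
    rw [EE_eq hu h1]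
    refine CP_ext ?_ ?_
    · change 1 + ι Q u * ι Q (a • u) = 1
      rw [map_smul, mul_smul_comm, cl_sq, hu, map_zero, smul_zero, add_zero]
    · intro x
      change (eich Q u (a • u) hu h1 : V ≃ₗ[F] V) x = x
      rw [eich_apply, psr, qsmul, hu]
      module
  rw [this, mul_one]

lemma EE_zero {u : V} (hu : Q u = 0) : EE Q u 0 = 1 := by
  have h0 : polar Q u 0 = 0 := polar_zero_right Q u
  have := EE_add hu h0 h0
  rw [add_zero] at this
  exact mul_eq_left.1 this.symm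

lemma EE_neg {u v : V} (hu : Q u = 0) (h : polar Q u v = 0) : EE Q u (-v) = (EE Q u v)⁻¹ := by
  rw [eq_inv_iff_mul_eq_one, ← EE_add hu (by rw [polar_neg_right, h, neg_zero]) h, neg_add_cancel, EE_zero hu]

lemma EE_snd {u v : V} (hu : Q u = 0) (h : polar Q u v = 0) (x : V) :
    ((EE Q u v).2 : V ≃ₗ[F] V) x = x + polar Q x v • u - polar Q x u • v - (Q v * polar Q x u) • u := by
  rw [EE_eq hu h, eich_apply]

lemma EE_conj {g : CP Q} (hg : g ∈ CL Q) {u v : V} (hu : Q u = 0) (h : polar Q u v = 0) :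
    g * EE Q u v * g⁻¹ = EE Q ((g.2 : V ≃ₗ[F] V) u) ((g.2 : V ≃ₗ[F] V) v) := by
  have h1 : Q ((g.2 : V ≃ₗ[F] V) u) = 0 := by rw [OGrp_q, hu]
  have h2 : polar Q ((g.2 : V ≃ₗ[F] V) u) ((g.2 : V ≃ₗ[F] V) v) = 0 := by rw [OGrp_polar, h]
  rw [EE_eq hu h, EE_eq h1 h2]
  refine CP_ext ?_ ?_
  · change (g.1 : CliffordAlgebra Q) * (1 + ι Q u * ι Q v) * ((g.1⁻¹ : (CliffordAlgebra Q)ˣ) : CliffordAlgebra Q) = 1 + ι Q _ * ι Q _
    have e : (g.1 : CliffordAlgebra Q) * (1 + ι Q u * ι Q v) = (1 + ι Q ((g.2 : V ≃ₗ[F] V) u) * ι Q ((g.2 : V ≃ₗ[F] V) v)) * g.1 := by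
      rw [mul_add, mul_one, ← mul_assoc, hg u, mul_assoc, hg v, add_mul, one_mul, mul_assoc]
    rw [e, mul_assoc, Units.mul_inv, mul_one]
  · intro x
    change (g.2 : V ≃ₗ[F] V) ((eich Q u v hu h : V ≃ₗ[F] V) (((g.2⁻¹ : OGrp Q) : V ≃ₗ[F] V) x)) = _
    have e1 : ∀ a, polar Q (((g.2⁻¹ : OGrp Q) : V ≃ₗ[F] V) x) a = polar Q x ((g.2 : V ≃ₗ[F] V) a) := fun a => by
      rw [← OGrp_polar g.2, coe_apply_inv_self]
    change _ = (eich Q ((g.2 : V ≃ₗ[F] V) u) ((g.2 : V ≃ₗ[F] V) v) h1 h2 : V ≃ₗ[F] V) x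
    rw [eich_apply, eich_apply, e1, e1, map_sub, map_sub, map_add, map_smul, map_smul, map_smul, coe_apply_inv_self, OGrp_q]

/-- commutators -/
lemma EE_comm {g : CP Q} (hg : g ∈ CL Q) {u v : V} (hu : Q u = 0) (h : polar Q u v = 0) :
    ⁅g, EE Q u v⁆ = EE Q ((g.2 : V ≃ₗ[F] V) u) ((g.2 : V ≃ₗ[F] V) v) * EE Q u (-v) := by
  rw [commutatorElement_def, EE_conj hg hu h, EE_neg hu h]

end Cfsg.Agent.Stb
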