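import Cfsg.Agent.Stb.OAct

set_option autoImplicit false

/-!
The kernel of the natural action of a group with the Steinberg relations of an orthogonal group with short roots.
-/

namespace Cfsg.Agent.Stb

open Subgroup
open Cfsg.Agent.Mult (R1)
open scoped commutatorElement

variable {I F L Γ : Type*} [InvolutiveNeg I] [DecidableEq I] [Field F] [Field L] [Algebra F L] [Group Γ]

/-- the anisotropic form is the norm form of a field -/
structure OL (q0 : L → F) (τ : L →+* L) : Prop where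
  ττ : ∀ a, τ (τ a) = a
  q : ∀ w, algebraMap F L (q0 w) = w * τ w

variable {q0 : L → F} {B0 : L → L → F} {τ : L →+* L} (N : OL q0 τ) (O : OF q0 B0)

namespace OL

include N

lemma τ_ne {a : L} (h : a ≠ 0) : τ a ≠ 0 := fun e => h (by rw [← N.ττ a, e, map_zero])

lemma q_one : q0 1 = 1 := by
  apply (algebraMap F L).injective
  rw [N.q, map_one, map_one, mul_one]

lemma q_mul (w u : L) : q0 (w * u) = q0 w * q0 u := by
  apply (algebraMap F L).injective
  rw [map_mul, N.q, N.q, N.q, map_mul]; ring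

lemma q_ne {w : L} (h : w ≠ 0) : q0 w ≠ 0 := by
  intro e
  have h1 := N.q w
  rw [e, map_zero] at h1
  exact (mul_ne_zero h (N.τ_ne h)) h1.symm

lemma q_inv {w : L} (h : w ≠ 0) : q0 w⁻¹ = (q0 w)⁻¹ := by
  rw [← mul_right_inj' (N.q_ne h), ← N.q_mul, mul_inv_cancel₀ h, N.q_one, mul_inv_cancel₀ (N.q_ne h)]

lemma q_τ (w : L) : q0 (τ w) = q0 w := by
  apply (algebraMap F L).injective
  rw [N.q, N.q, N.ττ, mul_comm]

include O

lemma tF (a : F) : τ (algebraMap F L a) = algebraMap F L a := by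
  by_cases ha : a = 0
  · rw [ha, map_zero, map_zero]
  have h1 := O.q_smul a 1
  rw [N.q_one, mul_one] at h1
  have h2 := N.q (a • (1 : L))
  rw [h1, Algebra.smul_def, mul_one, pow_two, map_mul] at h2
  exact (mul_left_cancel₀ (by simpa using ha) h2).symm

lemma b (w u : L) : algebraMap F L (B0 w u) = w * τ u + τ w * u := by
  have h1 := congrArg (algebraMap F L) (O.q_add w u)
  rw [map_add, map_add, N.q, N.q, N.q, map_add] at h1
  linear_combination -h1

end OL

variable {y : I → I → F → Γ} {z : I → L → Γ} (R : OR q0 B0 y z)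
variable [Fintype I] {ρ : Γ →* (((I → F) × L) ≃ₗ[F] ((I → F) × L))} (A : OA q0 B0 y z ρ)

/-- Weyl elements of short roots -/
def nz (τ : L →+* L) (z : I → L → Γ) (i : I) (t : L) : Γ := z i t * z (-i) (-τ (-t⁻¹)) * z i t

include N O A

/-- action of the Weyl elements of short roots -/
lemma nz_act (ne : ∀ i : I, -i ≠ i) (i : I) {t : L} (ht : t ≠ 0) :
    ρ (nz τ z i t) (eh i) = (-(q0 t)⁻¹) • eh (-i) ∧ ρ (nz τ z i t) (eh (-i)) = (-q0 t) • eh i ∧
    (∀ p, p ≠ i → p ≠ -i → ρ (nz τ z i t) (eh p) = eh p) ∧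
    (∀ v, ρ (nz τ z i t) (wh v) = wh (-(t / τ t) * τ v)) := by
  have n1 := ne i
  have n2 : i ≠ -i := n1.symm
  have hτ := N.τ_ne ht
  set s : L := (τ t)⁻¹ with hs
  have hs' : -τ (-t⁻¹) = s := by rw [map_neg, map_inv₀, neg_neg]
  have hq := N.q_ne ht
  have qs : q0 s = (q0 t)⁻¹ := by rw [hs, N.q_inv hτ, N.q_τ]
  have e1 : (q0 t)⁻¹ • t = s := by
    rw [Algebra.smul_def, map_inv₀, N.q, hs]
    field_simp
  have e2 : q0 t • s = t := by rw [← e1, smul_smul, mul_inv_cancel₀ hq, one_smul]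
  have b1 : B0 t s = 2 := by
    apply (algebraMap F L).injective
    rw [N.b O, hs, map_inv₀, N.ττ, mul_inv_cancel₀ ht, mul_inv_cancel₀ hτ, map_ofNat]; norm_num
  have b1' : B0 s t = 2 := by rw [O.symm, b1]
  have b2 : ∀ v, B0 s v = (q0 t)⁻¹ * B0 t v := fun v => by
    rw [← e1, O.symm, O.smul_right, O.symm]
  unfold nz
  rw [hs']
  have Z1 : ρ (z i t) (eh i) = eh i := oz_of O A i t n2
  have Z2 : ρ (z i t) (eh (-i)) = eh (-i) + (-q0 t) • eh i + wh t := oz_neg O A i t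
  have Y1 : ρ (z (-i) s) (eh i) = eh i + (-(q0 t)⁻¹) • eh (-i) + wh s := by
    have := oz_neg O A (-i) s
    rwa [neg_neg, qs] at this
  have Y2 : ρ (z (-i) s) (eh (-i)) = eh (-i) := oz_of O A (-i) s (by rw [neg_neg]; exact n1)
  have ZW : ∀ v, ρ (z i t) (wh v) = wh v - B0 t v • eh i := fun v => oz_wh A i t v
  have YW : ∀ v, ρ (z (-i) s) (wh v) = wh v - B0 s v • eh (-i) := fun v => oz_wh A (-i) s v
  have w1 : (wh s : (I → F) × L) = (q0 t)⁻¹ • wh t := by rw [← wh_smul, e1]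
  have k : (q0 t)⁻¹ * q0 t = 1 := inv_mul_cancel₀ hq
  refine ⟨?_, ?_, ?_, ?_⟩
  · simp only [hrho_mul, Z1, Z2, Y1, Y2, ZW, YW, map_add, map_sub, map_smul, b1, b1', O.self, w1]
    linear_combination (norm := module) (-k) • (eh i : (I → F) × L)
  · simp only [hrho_mul, Z1, Z2, Y1, Y2, ZW, YW, map_add, map_sub, map_smul, b1, b1', O.self, w1]
    linear_combination (norm := module) k • ((eh (-i) : (I → F) × L) + q0 t • eh i)
  · intro p p1 p2
    have Z3 := oz_of O A i t p2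
    have Y3 := oz_of O A (-i) s (p := p) (by rw [neg_neg]; exact p1)
    rw [hrho_mul, hrho_mul, Z3, Y3, Z3]
  · intro v
    rw [hrho_mul, hrho_mul, ZW, map_sub, map_smul, YW, Y1, b2, map_sub, map_sub, map_smul, map_smul, map_add, map_add,
      map_smul, Z1, Z2, ZW, ZW, b1]
    have e3 : (-(t / τ t) * τ v : L) = v - B0 t v • s := by
      rw [Algebra.smul_def, N.b O, hs]
      field_simp
      ring
    rw [e3, wh_sub, wh_smul]
    module

include R

lemma nz_mem (i : I) {t : L} (ht : t ≠ 0) : nz τ z i t ∈ OM q0 y z ρ i i := by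
  have ne := R.ne
  obtain ⟨a1, a2, a3, a4⟩ := nz_act N O A ne i ht
  obtain ⟨r1, -⟩ := rf_self1 (I := I) (i := i) (j := i) (ne i).symm
  refine ⟨mul_mem (mul_mem (mem_sup_left (HR.z_mem i rfl)) (mem_sup_right (HR.z_mem (-i) rfl))) (mem_sup_left (HR.z_mem i rfl)), ?_⟩
  intro p
  by_cases p1 : p = i
  · subst p1; rw [r1]; exact ⟨_, a1⟩
  by_cases p2 : p = -i
  · subst p2; rw [rf_neg ne _ _ _ (ne i).symm, r1, neg_neg]; exact ⟨_, a2⟩
  · rw [rf_of_ne p1 p1 p2 p2]; exact ⟨1, by rw [a3 p p1 p2, one_smul]⟩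

/-- rank one relations for short roots -/
theorem r1z (i : I) : R1 (fun a => z i a) (fun a => z (-i) (-τ a)) := by
  have ne := R.ne
  have hC := ocln O R A
  obtain ⟨r1, -⟩ := rf_self1 (I := I) (i := i) (j := i) (ne i).symm
  have hsq : ∀ t : L, t ≠ 0 → algebraMap F L (q0 t) ≠ 0 := fun t ht => by simpa using N.q_ne ht
  refine ⟨fun t u => R.zadd i _ _, fun t u => by simp only [map_add, neg_add]; exact R.zadd _ _ _,
    fun t v ht => ?_, fun t v ht => ?_⟩
  · obtain ⟨a1, a2, a3, a4⟩ := nz_act N O A ne i ht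
    have h3 := hC.M_X i i (ne i).symm i i (ne i).symm _ (nz_mem N O R A i ht) (z i v) (HR.z_mem i rfl)
    rw [r1] at h3
    obtain ⟨u, c', hP, hb⟩ := (R.hr.mem_Xl O.hf).1 h3
    have e1 : nz τ z i t * z i v = z (-i) u * nz τ z i t := by rw [hb]; group
    have e2 := congrArg (fun g => ρ g (eh (-i))) e1
    simp only [hrho_mul] at e2
    have Y1 : ρ (z (-i) u) (eh i) = eh i + (-q0 u) • eh (-i) + wh u := by
      have := oz_neg O A (-i) u
      rwa [neg_neg] at this
    rw [oz_neg O A, map_add, map_add, map_smul, a2, a1, a4, map_smul, Y1] at e2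
    have e3 := congrArg Prod.snd e2
    simp only [Prod.snd_add, Prod.smul_snd, eh_snd, wh_snd, smul_zero, zero_add] at e3
    have e4 : u = -τ (-(t⁻¹ ^ 2 * v)) := by
      rw [Algebra.smul_def, map_neg, N.q] at e3
      have := N.τ_ne ht
      simp only [map_neg, map_mul, map_pow, map_inv₀]
      field_simp at e3 ⊢
      linear_combination e3
    have e5 := e1
    rw [e4] at e5
    exact e5
  · obtain ⟨a1, a2, a3, a4⟩ := nz_act N O A ne i ht
    have h3 := hC.M_X i i (ne i).symm (-i) (-i) (by rw [neg_neg]; exact ne i) _ (nz_mem N O R A i ht) (z (-i) (-τ v)) (HR.z_mem _ rfl)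
    rw [rf_neg ne _ _ _ (ne i).symm, r1, neg_neg] at h3
    obtain ⟨u, c', hP, hb⟩ := (R.hr.mem_Xl O.hf).1 h3
    have e1 : nz τ z i t * z (-i) (-τ v) = z i u * nz τ z i t := by rw [hb]; group
    have e2 := congrArg (fun g => ρ g (eh i)) e1
    simp only [hrho_mul] at e2
    have Y1 : ρ (z (-i) (-τ v)) (eh i) = eh i + (-q0 (-τ v)) • eh (-i) + wh (-τ v) := by
      have := oz_neg O A (-i) (-τ v)
      rwa [neg_neg] at this
    rw [Y1, map_add, map_add, map_smul, a2, a1, a4, map_smul, oz_neg O A] at e2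
    have e3 := congrArg Prod.snd e2
    simp only [Prod.snd_add, Prod.smul_snd, eh_snd, wh_snd, smul_zero, zero_add] at e3
    have e4 : u = -(t ^ 2 * v) := by
      have := N.τ_ne ht
      simp only [map_neg, map_inv₀, N.ττ, Algebra.smul_def, N.q] at e3
      field_simp at e3 ⊢
      linear_combination e3
    have e5 := e1
    rw [e4] at e5
    exact e5

/-- torus elements of short roots -/
def hz (τ : L →+* L) (z : I → L → Γ) (i : I) (t : L) : Γ := nz τ z i t * nz τ z i (-1)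

omit R in
lemma hz_act (ne : ∀ i : I, -i ≠ i) (i : I) {t : L} (ht : t ≠ 0) :
    ρ (hz τ z i t) (eh i) = q0 t • eh i ∧ ρ (hz τ z i t) (eh (-i)) = (q0 t)⁻¹ • eh (-i) ∧
    (∀ p, p ≠ i → p ≠ -i → ρ (hz τ z i t) (eh p) = eh p) ∧
    (∀ v, ρ (hz τ z i t) (wh v) = wh (t / τ t * v)) := by
  obtain ⟨a1, a2, a3, a4⟩ := nz_act N O A ne i ht
  obtain ⟨b1, b2, b3, b4⟩ := nz_act N O A ne i (t := -1) (neg_ne_zero.2 one_ne_zero)
  have hq1 : q0 (-1 : L) = 1 := by rw [O.q_neg, N.q_one]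
  unfold hz
  refine ⟨?_, ?_, ?_, ?_⟩
  · rw [hrho_mul, b1, map_smul, a2, smul_smul, hq1]; congr 1; norm_num
  · rw [hrho_mul, b2, map_smul, a1, smul_smul, hq1]; congr 1; ring
  · intro p p1 p2
    rw [hrho_mul, b3 p p1 p2, a3 p p1 p2]
  · intro v
    rw [hrho_mul, b4, a4]
    congr 1
    simp only [map_mul, map_neg, map_div₀, N.ττ, map_one]
    ring

lemma hz_T (i : I) {t : L} (ht : t ≠ 0) : hz τ z i t ∈ (ocln O R A).T :=
  (ocln O R A).mul_mem_T (R.ne i).symm (nz_mem N O R A i ht) (nz_mem N O R A i (neg_ne_zero.2 one_ne_zero))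

lemma hz_mul [Finite L] (i : I) {t u : L} (ht : t ≠ 0) (hu : u ≠ 0) : hz τ z i t * hz τ z i u = hz τ z i (t * u) :=
  (r1z N O R A i).h_mul1 ht hu

/-- the torus of a short root -/
lemma DI_le [Finite L] {i : I} {g : Γ} (hg : g ∈ DI q0 y z (ocln O R A).T i) : ∃ t : L, t ≠ 0 ∧ g = hz τ z i t := by
  have ne := R.ne
  have hT := hg.2
  have hS : g ∈ (r1z N O R A i).S := by
    refine (sup_le ?_ ?_ : OX q0 y z i i ⊔ OX q0 y z (-i) (-i) ≤ _) hg.1
    · intro x hx
      obtain ⟨w, c, hP, rfl⟩ := (R.hr.mem_Xl O.hf).1 hx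
      exact (r1z N O R A i).X_mem w
    · intro x hx
      obtain ⟨w, c, hP, rfl⟩ := (R.hr.mem_Xl O.hf).1 hx
      have := (r1z N O R A i).Y_mem (-τ w)
      simp only [map_neg, neg_neg, N.ττ] at this
      exact this
  have H1 := oT_St O R A hT i
  have H2 := oT_St O R A hT (-i)
  rcases (r1z N O R A i).bruhat hS with ⟨a, t, ht, rfl⟩ | ⟨a, t, b, ht, rfl⟩
  · refine ⟨t, ht, ?_⟩
    obtain ⟨d, hd⟩ := H2
    obtain ⟨a1, a2, a3, a4⟩ := hz_act N O A ne i ht
    change ρ (z i a * hz τ z i t) _ = _ at hd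
    rw [hrho_mul, a2, map_smul, oz_neg O A] at hd
    have e3 := congrArg Prod.snd hd
    simp only [Prod.snd_add, Prod.smul_snd, eh_snd, wh_snd, smul_zero, zero_add] at e3
    have h4 := (smul_eq_zero.1 e3).resolve_left (inv_ne_zero (N.q_ne ht))
    change z i a * hz τ z i t = _
    rw [h4, R.z_zero, one_mul]
  · exfalso
    obtain ⟨d, hd⟩ := H1
    obtain ⟨a1, a2, a3, a4⟩ := hz_act N O A ne i ht
    obtain ⟨b1, b2, b3, b4⟩ := nz_act N O A ne i (t := 1) one_ne_zero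
    change ρ (z i a * hz τ z i t * nz τ z i 1 * z i b) _ = _ at hd
    rw [hrho_mul, oz_of O A i b (ne i).symm, hrho_mul, b1, map_smul, hrho_mul, a2, map_smul, oz_neg O A] at hd
    have e3 := congrFun (congrArg Prod.fst hd) (-i)
    simp only [Prod.fst_add, Prod.smul_fst, Pi.add_apply, Pi.smul_apply, eh_fst, wh_fst, if_true, if_neg (ne i), smul_eq_mul,
      mul_zero, add_zero, mul_one, N.q_one, inv_one] at e3
    have := inv_ne_zero (N.q_ne ht)
    apply this
    linear_combination -e3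

/-- the central torus elements are torus elements of a short root -/
lemma cc_hz [Finite F] {i i0 : I} (h1 : i ≠ i0) (h2 : i ≠ -i0) {u : F} (hu : u ≠ 0) :
    cc y i i0 u = hz τ z i0 (algebraMap F L u⁻¹) := by
  have ne := R.ne
  have hC := ocln O R A
  have n0 : i0 ≠ -i0 := (ne i0).symm
  have hu' : algebraMap F L u⁻¹ ≠ 0 := by simpa using hu
  set n := nz τ z i0 1 with hn
  set H := hl y i (-i0) u with hH
  have hnM := nz_mem N O R A i0 (one_ne_zero (α := L))
  have hHT : H ∈ (ocln O R A).T := hl_T O R A h2 (by nx) hu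
  obtain ⟨r1, -⟩ := rf_self1 (I := I) (i := i0) (j := i0) n0
  obtain ⟨b1, b2, b3, b4⟩ := nz_act N O A ne i0 (t := 1) one_ne_zero
  obtain ⟨a1, a2, a3, a4, a5, a6⟩ := hl_act O R A (i := i) (j := -i0) h2 (by nx) hu
  rw [neg_neg] at a2
  have e1 : n * H * n⁻¹ = hl y i i0 u := by
    have k1 : n * H * n⁻¹ ∈ OX q0 y z i i0 ⊔ OX q0 y z (-i) (-i0) := by
      have := M_R O R A n0 (show i ≠ - -i0 by nx) hnM (hl_R O R A (i := i) (j := -i0) h2 (by nx) hu)
      rwa [rf_of_ne h1 h1 h2 h2, rf_neg ne _ _ _ n0, r1, neg_neg] at this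
    refine hl_uniq O R A h1 h2 k1 ?_ (oT_St O R A (hC.M_T n0 hnM _ hHT) _)
    have h8 : n ∈ FxV ρ (eh i) := b3 i h1 h2
    have h9 : ρ n⁻¹ (eh i) = eh i := inv_mem h8
    rw [hrho_mul, hrho_mul, h9, a1, map_smul, b3 i h1 h2]
  have e2 : cc y i i0 u = H * n * H⁻¹ * n⁻¹ := by
    change H * _ = _
    rw [hl_neg O R A h1 h2 hu, ← e1]; group
  have e3 : H * n * H⁻¹ = nz τ z i0 (algebraMap F L u⁻¹) := by
    have t1 : ∀ w, H * z i0 w * H⁻¹ = z i0 (u⁻¹ • w) := by
      intro w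
      rw [tor_z O R A (i := i0) hHT (c := u⁻¹) a2 (a6 w), mul_inv_cancel_right]
    have t2 : ∀ w, H * z (-i0) w * H⁻¹ = z (-i0) (u • w) := by
      intro w
      rw [tor_z O R A (i := -i0) hHT (c := u) a3 (a6 w), mul_inv_cancel_right]
    have e4 : H * n * H⁻¹ = (H * z i0 1 * H⁻¹) * (H * z (-i0) (-τ (-1⁻¹)) * H⁻¹) * (H * z i0 1 * H⁻¹) := by
      rw [hn]; unfold nz; group
    rw [e4, t1, t2]
    unfold nz
    have f1 : u⁻¹ • (1 : L) = algebraMap F L u⁻¹ := by rw [Algebra.smul_def, mul_one]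
    have f2 : u • (-τ (-(1 : L)⁻¹)) = -τ (-(algebraMap F L u⁻¹)⁻¹) := by
      rw [map_neg, map_neg, map_inv₀, map_inv₀, N.tF O, map_one, Algebra.smul_def, map_inv₀, inv_inv, inv_one]; ring
    rw [f1, f2]
  rw [e2, e3]
  unfold hz
  congr 1
  have := (r1z N O R A i0).n_inv 1
  exact this

/-- the kernel when there are short roots -/
theorem ker_L [Finite F] [Finite L] {i0 i1 : I} (k1 : i1 ≠ i0) (k2 : i1 ≠ -i0) {g : Γ}
    (hg : g ∈ gp (OX q0 y z) (fun _ _ => True)) (h : ρ g = 1) : g = 1 ∨ g = cc y i1 i0 (-1) := by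
  have ne := R.ne
  obtain ⟨u, hu, d, hd, rfl⟩ := ker_one O R A k1 k2 hg h
  obtain ⟨t, ht, rfl⟩ := DI_le N O R A hd
  have hu' : algebraMap F L u⁻¹ ≠ 0 := by simpa using hu
  rw [cc_hz N O R A k1 k2 hu, hz_mul N O R A i0 hu' ht] at h ⊢
  have hs0 := mul_ne_zero hu' ht
  rw [cc_hz N O R A k1 k2 (neg_ne_zero.2 one_ne_zero)]
  set s := algebraMap F L u⁻¹ * t
  obtain ⟨a1, a2, a3, a4⟩ := hz_act N O A ne i0 hs0
  have e1 := a4 1
  rw [h] at a1 e1
  rw [mul_one] at e1
  have e2 := congrArg Prod.snd e1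
  change (1 : L) = s / τ s at e2
  have hτ := N.τ_ne hs0
  have e3 : τ s = s := by field_simp at e2; exact e2
  have e4 := congrFun (congrArg Prod.fst a1) i0
  rw [LinearEquiv.coe_one, id, Prod.smul_fst, Pi.smul_apply, eh_fst, if_pos rfl, smul_eq_mul, mul_one] at e4
  have e5 := N.q s
  rw [← e4, map_one, e3] at e5
  have h4 : (s - 1) * (s + 1) = 0 := by linear_combination -e5
  rcases mul_eq_zero.1 h4 with h5 | h5
  · left
    rw [sub_eq_zero.1 h5]
    exact (r1z N O R A i0).h_one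
  · right
    rw [eq_neg_of_add_eq_zero_left h5]
    congr 1
    rw [inv_neg, inv_one, map_neg, map_one]

end Cfsg.Agent.Stb
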