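import Cfsg.Agent.Stb.OSpin
import Cfsg.Agent.Stb.SpMat

set_option autoImplicit false

/-!
Torus elements acting as `-1`.
-/

namespace Cfsg.Agent.Stb

open Subgroup Cfsg.Agent.Mult
open scoped commutatorElement

section basis

variable {I F W : Type*} [DecidableEq I] [Fintype I] [Field F] [AddCommGroup W] [Module F W]

lemma vec_eq (v : (I → F) × W) : v = ∑ p, v.1 p • eh p + wh v.2 := by
  refine Prod.ext ?_ ?_
  · funext q
    rw [Prod.fst_add, Pi.add_apply, wh_fst, add_zero, Prod.fst_sum, Finset.sum_apply, Finset.sum_eq_single q]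
    · rw [Prod.smul_fst, Pi.smul_apply, eh_fst, if_pos rfl, smul_eq_mul, mul_one]
    · intro b _ hb
      rw [Prod.smul_fst, Pi.smul_apply, eh_fst, if_neg (Ne.symm hb), smul_zero]
    · intro h; exact absurd (Finset.mem_univ q) h
  · rw [Prod.snd_add, wh_snd, Prod.snd_sum, Finset.sum_eq_zero, zero_add]
    intro p _
    rw [Prod.smul_snd, eh_snd, smul_zero]

lemma neg_of_basis {f : ((I → F) × W) ≃ₗ[F] ((I → F) × W)} (h1 : ∀ p, f (eh p) = -eh p) (h2 : ∀ w, f (wh w) = -wh w) (v) :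
    f v = -v := by
  conv_lhs => rw [vec_eq v]
  conv_rhs => rw [vec_eq v]
  rw [map_add, map_sum, h2, neg_add, ← Finset.sum_neg_distrib]
  congr 1
  refine Finset.sum_congr rfl fun p _ => ?_
  rw [map_smul, h1, smul_neg]

end basis

attribute [local instance] sumNeg

/-- the number of a signed index -/
def ixn {m : ℕ} : Fin m ⊕ Fin m → ℕ := Sum.elim (fun i => i) (fun i => i)

lemma ixn_neg {m : ℕ} (p : Fin m ⊕ Fin m) : ixn (-p) = ixn p := by
  rcases p with p | p <;> rfl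

lemma ixn_eq {m : ℕ} {p : Fin m ⊕ Fin m} {i : Fin m} (h : ixn p = i) : p = Sum.inl i ∨ p = -Sum.inl i := by
  rcases p with p | p
  · left; exact congrArg Sum.inl (Fin.ext h)
  · right; exact congrArg Sum.inr (Fin.ext h)

lemma ixn_inl {m : ℕ} (i : Fin m) : ixn (Sum.inl i : Fin m ⊕ Fin m) = i := rfl

section elt

variable {m : ℕ} {F W Γ : Type*} [Field F] [AddCommGroup W] [Module F W] [Group Γ]
variable {q0 : W → F} {B0 : W → W → F} (O : OF q0 B0) {y : Fin m ⊕ Fin m → Fin m ⊕ Fin m → F → Γ} {z : Fin m ⊕ Fin m → W → Γ}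
  (R : OR q0 B0 y z) {ρ : Γ →* (((Fin m ⊕ Fin m → F) × W) ≃ₗ[F] ((Fin m ⊕ Fin m → F) × W))} (A : OA q0 B0 y z ρ) [Finite F]

include O R A

/-- products of torus elements of disjoint long roots -/
theorem exists_prod_neg (k : ℕ) (hk : 2 * k ≤ m) : ∃ s ∈ (ocln O R A).T, s * s = 1 ∧
    (∀ g ∈ (ocln O R A).T, g * s = s * g) ∧ (∀ p, ixn p < 2 * k → ρ s (eh p) = -eh p) ∧
    (∀ p, 2 * k ≤ ixn p → ρ s (eh p) = eh p) ∧ ∀ w, ρ s (wh w) = wh w := by
  induction k with
  | zero =>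
    refine ⟨1, one_mem _, one_mul 1, ?_, ?_, ?_, ?_⟩
    · intro g _; rw [mul_one, one_mul]
    · intro p hp; omega
    · intro p _; rw [map_one]; rfl
    · intro w; rw [map_one]; rfl
  | succ k ih =>
    obtain ⟨s, hs, hs2, hsc, hs3, hs4, hs5⟩ := ih (by omega)
    have b1 : 2 * k < m := by omega
    have b2 : 2 * k + 1 < m := by omega
    set i : Fin m ⊕ Fin m := Sum.inl ⟨2 * k, b1⟩ with hi
    set j : Fin m ⊕ Fin m := Sum.inl ⟨2 * k + 1, b2⟩ with hj
    have xi : ixn i = 2 * k := rfl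
    have xj : ixn j = 2 * k + 1 := rfl
    have h1 : i ≠ j := by intro e; rw [e] at xi; omega
    have h2 : i ≠ -j := by intro e; rw [e, ixn_neg] at xi; omega
    have hm1 : (-1 : F) ≠ 0 := neg_ne_zero.2 one_ne_zero
    obtain ⟨a1, a2, a3, a4, a5, a6⟩ := hl_act O R A h1 h2 hm1
    set t := hl y i j (-1 : F) with ht
    have tT : t ∈ (ocln O R A).T := hl_T O R A h1 h2 hm1
    have e1 : ∀ v : (Fin m ⊕ Fin m → F) × W, (-1 : F) • v = -v := fun v => neg_one_smul _ v
    have e2 : ∀ v : (Fin m ⊕ Fin m → F) × W, (-1 : F)⁻¹ • v = -v := fun v => by rw [inv_neg, inv_one, neg_one_smul]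
    rw [e1] at a1 a3
    rw [e2] at a2 a4
    have hst : s * t = t * s := (hsc t tT).symm
    refine ⟨s * t, mul_mem hs tT, ?_, ?_, ?_, ?_, ?_⟩
    · calc s * t * (s * t) = s * (t * s) * t := by group
        _ = s * (s * t) * t := by rw [hst]
        _ = (s * s) * (t * t) := by group
        _ = 1 := by rw [hs2, ht, hl_mul O R A h1 h2 hm1 hm1, neg_mul_neg, one_mul, one_mul, hl_one O R A h1 h2]
    · intro g hg
      have h3 := T_hl O R A h1 h2 hm1 hg
      rw [← ht] at h3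
      calc g * (s * t) = (g * s) * t := by group
        _ = s * (g * t) := by rw [hsc g hg]; group
        _ = _ := by rw [h3]; group
    · intro p hp
      rw [hrho_mul]
      by_cases c : ixn p < 2 * k
      · have n1 : p ≠ i := by intro e; rw [e, xi] at c; omega
        have n2 : p ≠ j := by intro e; rw [e, xj] at c; omega
        have n3 : p ≠ -i := by intro e; rw [e, ixn_neg, xi] at c; omega
        have n4 : p ≠ -j := by intro e; rw [e, ixn_neg, xj] at c; omega
        rw [a5 p n1 n2 n3 n4, hs3 p c]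
      · have c2 : 2 * k ≤ ixn p := by omega
        have hh := hs4 p c2
        have c3 : ixn p = 2 * k ∨ ixn p = 2 * k + 1 := by omega
        rcases c3 with c3 | c3
        · rcases ixn_eq (i := ⟨2 * k, b1⟩) c3 with c4 | c4
          · rw [c4] at hh ⊢; rw [← hi, a1, map_neg, hh]
          · rw [c4] at hh ⊢; rw [← hi, a4, map_neg, hh]
        · rcases ixn_eq (i := ⟨2 * k + 1, b2⟩) c3 with c4 | c4
          · rw [c4] at hh ⊢; rw [← hj, a3, map_neg, hh]
          · rw [c4] at hh ⊢; rw [← hj, a2, map_neg, hh]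
    · intro p hp
      have n1 : p ≠ i := by intro e; rw [e, xi] at hp; omega
      have n2 : p ≠ j := by intro e; rw [e, xj] at hp; omega
      have n3 : p ≠ -i := by intro e; rw [e, ixn_neg, xi] at hp; omega
      have n4 : p ≠ -j := by intro e; rw [e, ixn_neg, xj] at hp; omega
      rw [hrho_mul, a5 p n1 n2 n3 n4, hs4 p (by omega)]
    · intro w
      rw [hrho_mul, a6, hs5]

/-- type `D`, even rank -/
theorem exists_neg_D_even [Subsingleton W] (hm : Even m) : ∃ s ∈ (ocln O R A).T, s * s = 1 ∧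
    (∀ g ∈ (ocln O R A).T, g * s = s * g) ∧ ∀ v, ρ s v = -v := by
  obtain ⟨k, hk⟩ := hm
  obtain ⟨s, hs, hs2, hsc, hs3, hs4, hs5⟩ := exists_prod_neg O R A k (by omega)
  refine ⟨s, hs, hs2, hsc, neg_of_basis ?_ ?_⟩
  · intro p
    refine hs3 p ?_
    rcases p with p | p
    · have := p.2; change (p : ℕ) < _; omega
    · have := p.2; change (p : ℕ) < _; omega
  · intro w
    rw [Subsingleton.elim w 0, wh_zero, map_zero, neg_zero]

/-- type `D`, odd rank -/
theorem exists_neg_D_odd [Subsingleton W] (hm : Odd m) {ι : F} (hι : ι * ι = -1) {i0 i1 : Fin m ⊕ Fin m} (k1 : i1 ≠ i0)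
    (k2 : i1 ≠ -i0) (h0 : ixn i0 + 1 = m) : ∃ s ∈ (ocln O R A).T, s * s = cc y i1 i0 (-1) ∧ ∀ v, ρ s v = -v := by
  obtain ⟨k, hk⟩ := hm
  obtain ⟨s, hs, hs2, hsc, hs3, hs4, hs5⟩ := exists_prod_neg O R A k (by omega)
  have hι0 : ι ≠ 0 := by rintro rfl; rw [mul_zero] at hι; exact neg_ne_zero.2 one_ne_zero hι.symm
  obtain ⟨a1, a2, a3, a4⟩ := cc_act O R A k1 k2 hι0
  have hcT := cc_T O R A k1 k2 hι0
  set c := cc y i1 i0 ι with hc
  have e2 : ∀ v : (Fin m ⊕ Fin m → F) × W, (ι ^ 2) • v = -v := fun v => by rw [pow_two, hι, neg_one_smul]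
  have e3 : ∀ v : (Fin m ⊕ Fin m → F) × W, (ι⁻¹ ^ 2) • v = -v := fun v => by
    rw [inv_pow, pow_two, hι, inv_neg, inv_one, neg_one_smul]
  rw [e2] at a2
  rw [e3] at a3
  refine ⟨s * c, mul_mem hs hcT, ?_, neg_of_basis ?_ ?_⟩
  · have h3 := hsc c hcT
    calc s * c * (s * c) = s * (c * s) * c := by group
      _ = s * (s * c) * c := by rw [h3]
      _ = (s * s) * (c * c) := by group
      _ = _ := by rw [hs2, hc, cc_mul O R A k1 k2 hι0 hι0, hι, one_mul]
  · intro p
    rw [hrho_mul]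
    by_cases c1 : ixn p < 2 * k
    · have n1 : p ≠ i0 := by intro e; rw [e] at c1; omega
      have n2 : p ≠ -i0 := by intro e; rw [e, ixn_neg] at c1; omega
      rw [a1 p n1 n2, hs3 p c1]
    · have hh := hs4 p (by omega)
      have c2 : ixn p + 1 = m := by
        have : ixn p < m := by rcases p with p | p <;> exact p.2
        omega
      have c3 : p = i0 ∨ p = -i0 := by
        have c4 : ixn p = ixn i0 := by omega
        rcases i0 with i0 | i0
        · exact ixn_eq c4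
        · rcases ixn_eq (i := i0) c4 with c5 | c5
          · right; rw [c5]; rfl
          · left; rw [c5]; rfl
      rcases c3 with c3 | c3
      · rw [c3] at hh ⊢; rw [a3, map_neg, hh]
      · rw [c3] at hh ⊢; rw [a2, map_neg, hh]
  · intro w
    rw [Subsingleton.elim w 0, wh_zero, map_zero, neg_zero]

end elt

/-- type `²D`, even Witt index -/
theorem exists_neg_L {m : ℕ} {F L Γ : Type*} [Field F] [Field L] [Algebra F L] [Group Γ] [Finite F] [Finite L]
    {q0 : L → F} {B0 : L → L → F} {τ : L →+* L} (N : OL q0 τ) (O : OF q0 B0)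
    {y : Fin m ⊕ Fin m → Fin m ⊕ Fin m → F → Γ} {z : Fin m ⊕ Fin m → L → Γ}
    (R : OR q0 B0 y z) {ρ : Γ →* (((Fin m ⊕ Fin m → F) × L) ≃ₗ[F] ((Fin m ⊕ Fin m → F) × L))} (A : OA q0 B0 y z ρ)
    (hm : Even m) {ι : L} (hι : ι * ι = -1) (hτ : τ ι = -ι) {i0 i1 : Fin m ⊕ Fin m} (k1 : i1 ≠ i0)
    (k2 : i1 ≠ -i0) : ∃ s ∈ (ocln O R A).T, s * s = cc y i1 i0 (-1) ∧ ∀ v, ρ s v = -v := by
  obtain ⟨k, hk⟩ := hm
  obtain ⟨s, hs, hs2, hsc, hs3, hs4, hs5⟩ := exists_prod_neg O R A k (by omega)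
  have hι0 : ι ≠ 0 := by rintro rfl; rw [mul_zero] at hι; exact neg_ne_zero.2 one_ne_zero hι.symm
  have hq : q0 ι = 1 := by
    apply (algebraMap F L).injective
    rw [N.q, hτ, mul_neg, hι, neg_neg, map_one]
  obtain ⟨a1, a2, a3, a4⟩ := hz_act N O A R.ne i0 hι0
  rw [hq, one_smul] at a1
  rw [hq, inv_one, one_smul] at a2
  have hcT := hz_T N O R A i0 hι0
  set c := hz τ z i0 ι with hc
  refine ⟨s * c, mul_mem hs hcT, ?_, neg_of_basis ?_ ?_⟩
  · have h3 := hsc c hcT
    calc s * c * (s * c) = s * (c * s) * c := by group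
      _ = s * (s * c) * c := by rw [h3]
      _ = (s * s) * (c * c) := by group
      _ = _ := by
        rw [hs2, hc, hz_mul N O R A i0 hι0 hι0, hι, one_mul, cc_hz N O R A k1 k2 (neg_ne_zero.2 one_ne_zero), inv_neg, inv_one,
          map_neg, map_one]
  · intro p
    have hp : ixn p < 2 * k := by
      rcases p with p | p
      · have := p.2; change (p : ℕ) < _; omega
      · have := p.2; change (p : ℕ) < _; omega
    rw [hrho_mul]
    by_cases c1 : p = i0
    · rw [c1] at hp ⊢; rw [a1, hs3 i0 hp]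
    by_cases c2 : p = -i0
    · rw [c2] at hp ⊢; rw [a2, hs3 _ hp]
    · rw [a3 p c1 c2, hs3 p hp]
  · intro w
    rw [hrho_mul, a4, hs5, hτ, div_neg, div_self hι0, neg_one_mul]
    refine Prod.ext ?_ rfl
    funext q; simp [wh]

end Cfsg.Agent.Stb
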