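import Cfsg.Agent.Stb.OSurj
import Cfsg.Agent.S0790
import Cfsg.Agent.S0791

set_option autoImplicit false

/-!
The spin group maps onto `PΩ`.
-/

namespace Cfsg.Agent.Stb

open QuadraticMap Cfsg.Agent.Orth Cfsg.Agent.OMax Subgroup Module Cfsg.Agent.ClassO

universe u

variable {I F W : Type*} [InvolutiveNeg I] [DecidableEq I] [Fintype I] [Field F] [AddCommGroup W] [Module F W]
variable {Q : QuadraticForm F ((I → F) × W)} {q0 : W → F} {B0 : W → W → F} (H : OQ Q q0 B0) (O : OF q0 B0)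
variable {ι' : Type} [Fintype ι'] [DecidableEq ι'] {Q' : QuadraticForm F (ι' → F)}
  (e : ((I → F) × W) ≃ₗ[F] (ι' → F)) (he : ∀ v, Q' (e v) = Q v)

omit [InvolutiveNeg I] [DecidableEq I] [Fintype I] [Fintype ι'] [DecidableEq ι'] in
include he in
lemma polar_e (u v : (I → F) × W) : polar Q' (e u) (e v) = polar Q u v := by
  unfold polar
  rw [← _root_.map_add, he, he, he]

omit [InvolutiveNeg I] [DecidableEq I] [Fintype I] [Fintype ι'] [DecidableEq ι'] in
include he in
lemma nondeg_e (hQ : (polarBilin Q').Nondegenerate) : (polarBilin Q).Nondegenerate := by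
  constructor
  · intro u hu
    apply e.injective
    rw [_root_.map_zero]
    refine hQ.1 _ fun v => ?_
    obtain ⟨v, rfl⟩ := e.surjective v
    change polar Q' (e u) (e v) = 0
    rw [polar_e e he]; exact hu v
  · intro u hu
    apply e.injective
    rw [_root_.map_zero]
    refine hQ.2 _ fun v => ?_
    obtain ⟨v, rfl⟩ := e.surjective v
    change polar Q' (e v) (e u) = 0
    rw [polar_e e he]; exact hu v

/-- the map to the orthogonal group -/
noncomputable def psi0 (q0 : W → F) : TT Q q0 →* OGrp Q' :=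
  (OGrpCongr e he).toMonoidHom.comp ((MonoidHom.snd _ _).comp (TT Q q0).subtype)

omit [InvolutiveNeg I] [DecidableEq I] [Fintype I] [Fintype ι'] [DecidableEq ι'] in
lemma psi0_apply [InvolutiveNeg I] [DecidableEq I] (g : TT Q q0) (v : (I → F) × W) : ((psi0 e he q0 g : OGrp Q') : (ι' → F) ≃ₗ[F] (ι' → F)) (e v) =
    e (((ρc Q).comp (TT Q q0).subtype) g v) := by
  change e (((g : CP Q).2 : ((I → F) × W) ≃ₗ[F] ((I → F) × W)) (e.symm (e v))) = e _
  rw [e.symm_apply_apply]; rfl

include H O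

lemma psi0_mem (g : TT Q q0) : psi0 e he q0 g ∈ commutator (OGrp Q') := by
  have h1 : (g : CP Q).2 ∈ commutator (OGrp Q) := TT_map_le H O ⟨g, g.2, rfl⟩
  exact (mem_commutator_equiv (OGrpCongr e he) _).1 h1

/-- the map to the commutator subgroup of the orthogonal group -/
noncomputable def psi : TT Q q0 →* commutator (OGrp Q') := (psi0 e he q0).codRestrict _ (psi0_mem H O e he)

lemma psi_apply (g : TT Q q0) (v : (I → F) × W) :
    (((psi H O e he g : commutator (OGrp Q')) : OGrp Q') : (ι' → F) ≃ₗ[F] (ι' → F)) (e v) =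
    e (((ρc Q).comp (TT Q q0).subtype) g v) := psi0_apply e he g v

theorem psi_surj [Finite F] [FiniteDimensional F W] [Nonempty I] (hQ' : (polarBilin Q').Nondegenerate)
    (hn : 7 ≤ finrank F ((I → F) × W)) : Function.Surjective (psi H O e he) := by
  rintro ⟨n, hn'⟩
  have h1 : (OGrpCongr e he).symm n ∈ commutator (OGrp Q) := by
    rw [mem_commutator_equiv (OGrpCongr e he), MulEquiv.apply_symm_apply]; exact hn'
  obtain ⟨t, ht, htn⟩ := comm_le_TT H O (nondeg_e e he hQ') hn h1
  refine ⟨⟨t, ht⟩, Subtype.ext ?_⟩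
  change (OGrpCongr e he) t.2 = n
  have : t.2 = (OGrpCongr e he).symm n := htn
  rw [this, MulEquiv.apply_symm_apply]

lemma psi_one_iff (g : TT Q q0) : psi H O e he g = 1 ↔ ((ρc Q).comp (TT Q q0).subtype) g = 1 := by
  constructor
  · intro h
    apply LinearEquiv.ext
    intro v
    apply e.injective
    rw [← psi_apply H O e he, h]; rfl
  · intro h
    apply Subtype.ext
    refine OGrp_ext fun x => ?_
    obtain ⟨v, rfl⟩ := e.surjective x
    rw [psi_apply, h]; rfl

lemma psi_neg_iff (g : TT Q q0) : (∀ x, (((psi H O e he g : commutator (OGrp Q')) : OGrp Q') : (ι' → F) ≃ₗ[F] (ι' → F)) x = -x) ↔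
    ∀ v, ((ρc Q).comp (TT Q q0).subtype) g v = -v := by
  constructor
  · intro h v
    apply e.injective
    rw [← psi_apply H O e he, h, _root_.map_neg]
  · intro h x
    obtain ⟨v, rfl⟩ := e.surjective x
    rw [psi_apply, h, _root_.map_neg]

include e he

/-- the map to `PΩ` -/
theorem exists_tau [Finite F] [FiniteDimensional F W] [Nonempty I] (hQ' : (polarBilin Q').Nondegenerate) (hR' : RGrp Q' = ⊤)
    {e0 f0 : Fin 3 → ι' → F} (hH : Hyp Q' e0 f0) (hn : 7 ≤ finrank F ((I → F) × W)) :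
    ∃ τ : TT Q q0 →* Cfsg.POmega F ⇑Q', Function.Surjective τ ∧
      ∀ g, τ g = 1 ↔ (((ρc Q).comp (TT Q q0).subtype) g = 1 ∨ ∀ v, ((ρc Q).comp (TT Q q0).subtype) g v = -v) := by
  let τ : TT Q q0 →* Cfsg.POmega F ⇑Q' := (pomE Q').symm.toMonoidHom.comp ((QuotientGroup.mk' _).comp (psi H O e he))
  refine ⟨τ, (pomE Q').symm.surjective.comp ((QuotientGroup.mk'_surjective _).comp (psi_surj H O e he hQ' hn)), ?_⟩
  intro g
  have h1 : τ g = 1 ↔ psi H O e he g ∈ center (commutator (OGrp Q')) := by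
    change (pomE Q').symm (QuotientGroup.mk' _ (psi H O e he g)) = 1 ↔ _
    rw [MulEquiv.map_eq_one_iff, QuotientGroup.mk'_apply, QuotientGroup.eq_one_iff]
  rw [h1]
  have hE := commutator_eq_EGrp hQ' hR' hH
  constructor
  · intro h
    rcases center_cases hQ' hR' hH _ hE h with h2 | h2
    · left; exact (psi_one_iff H O e he g).1 h2
    · right; exact (psi_neg_iff H O e he g).1 h2
  · rintro (h | h)
    · rw [(psi_one_iff H O e he g).2 h]; exact one_mem _
    · refine (mem_center_iff_scalar hQ' hR' hH _ hE _).2 ⟨-1, fun x => ?_⟩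
      rw [(psi_neg_iff H O e he g).2 h, neg_one_smul]

/-- elements acting as `-1` -/
theorem neg_iff [Finite F] [FiniteDimensional F W] [Nonempty I] (hQ' : (polarBilin Q').Nondegenerate)
    (hn : 7 ≤ finrank F ((I → F) × W)) : (∃ g : TT Q q0, ∀ v, ((ρc Q).comp (TT Q q0).subtype) g v = -v) ↔
    ∃ g : ↥(Cfsg.isometryGroup F ⇑Q'), g ∈ Cfsg.Omega F ⇑Q' ∧ ((g : Matrix.GeneralLinearGroup ι' F) : Matrix ι' ι' F) = -1 := by
  rw [← exists_neg_iff]
  constructor
  · rintro ⟨g, hg⟩
    exact ⟨psi H O e he g, (psi_neg_iff H O e he g).2 hg⟩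
  · rintro ⟨n, hn2⟩
    obtain ⟨g, rfl⟩ := psi_surj H O e he hQ' hn n
    exact ⟨g, (psi_neg_iff H O e he g).1 hn2⟩

end Cfsg.Agent.Stb
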