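import Cfsg.Agent.Stb.OModel
import Mathlib.LinearAlgebra.CliffordAlgebra.Contraction

set_option autoImplicit false

/-!
The central element of the spin group is not trivial in odd characteristic.
-/

namespace Cfsg.Agent.Stb

open QuadraticMap Cfsg.Agent.Orth
open CliffordAlgebra (ι)

section ring

variable {A : Type*} [Ring A]

lemma ring_nn {X Y : A} (hX : X * X = 0) (hY : Y * Y = 0) (hXY : X * Y * X = X) (hYX : Y * X * Y = Y) :
    ((1 - X) * (1 + Y) * (1 - X)) * ((1 - X) * (1 + Y) * (1 - X)) = 1 - 2 * (X * Y + Y * X) := by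
  have h1 : (1 - X) * (1 + Y) * (1 - X) = 1 - X + Y - X * Y - Y * X := by
    calc (1 - X) * (1 + Y) * (1 - X) = 1 - 2 * X + Y - X * Y - Y * X + X * X + X * Y * X := by noncomm_ring
      _ = _ := by rw [hX, hXY]; noncomm_ring
  rw [h1]
  have a1 : X * (X * Y) = 0 := by rw [← mul_assoc, hX, zero_mul]
  have a2 : X * (Y * X) = X := by rw [← mul_assoc, hXY]
  have a3 : Y * (X * Y) = Y := by rw [← mul_assoc, hYX]
  have a4 : Y * (Y * X) = 0 := by rw [← mul_assoc, hY, zero_mul]
  have a5 : X * Y * Y = 0 := by rw [mul_assoc, hY, mul_zero]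
  have a6 : Y * X * X = 0 := by rw [mul_assoc, hX, mul_zero]
  have a7 : (X * Y) * (X * Y) = X * Y := by rw [← mul_assoc, hXY]
  have a8 : (Y * X) * (Y * X) = Y * X := by rw [← mul_assoc, hYX]
  have a9 : (X * Y) * (Y * X) = 0 := by rw [← mul_assoc, a5, zero_mul]
  have a10 : (Y * X) * (X * Y) = 0 := by rw [← mul_assoc, a6, zero_mul]
  calc (1 - X + Y - X * Y - Y * X) * (1 - X + Y - X * Y - Y * X)
      = 1 - 2 * X + 2 * Y - 2 * (X * Y) - 2 * (Y * X) + X * X - X * Y - Y * X + Y * Y + X * (X * Y) + X * (Y * X) - Y * (X * Y)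
        - Y * (Y * X) + X * Y * X - X * Y * Y + Y * X * X - Y * X * Y + (X * Y) * (X * Y) + (Y * X) * (Y * X)
        + (X * Y) * (Y * X) + (Y * X) * (X * Y) := by noncomm_ring
    _ = _ := by
      rw [hX, hY, a1, a2, a3, a4, a5, a6, a7, a8, a9, a10, hXY, hYX]; noncomm_ring

lemma ring_kap {a b c d : A} (ha : a * a = 0) (hb : b * b = 0) (hc : c * c = 0) (hd : d * d = 0) (hba : b * a = 1 - a * b)
    (hdc : d * c = 1 - c * d) (hca : c * a = -(a * c)) (hda : d * a = -(a * d)) (hcb : c * b = -(b * c)) (hdb : d * b = -(b * d)) :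
    (((1 - a * c) * (1 + d * b) * (1 - a * c)) * ((1 - a * c) * (1 + d * b) * (1 - a * c))) *
    (((1 - b * c) * (1 + d * a) * (1 - b * c)) * ((1 - b * c) * (1 + d * a) * (1 - b * c))) = -1 := by
  have ha' : ∀ x, a * (a * x) = 0 := fun x => by rw [← mul_assoc, ha, zero_mul]
  have hb' : ∀ x, b * (b * x) = 0 := fun x => by rw [← mul_assoc, hb, zero_mul]
  have hc' : ∀ x, c * (c * x) = 0 := fun x => by rw [← mul_assoc, hc, zero_mul]
  have hd' : ∀ x, d * (d * x) = 0 := fun x => by rw [← mul_assoc, hd, zero_mul]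
  have hba' : ∀ x, b * (a * x) = x - a * (b * x) := fun x => by rw [← mul_assoc, hba, sub_mul, one_mul, mul_assoc]
  have hdc' : ∀ x, d * (c * x) = x - c * (d * x) := fun x => by rw [← mul_assoc, hdc, sub_mul, one_mul, mul_assoc]
  have hca' : ∀ x, c * (a * x) = -(a * (c * x)) := fun x => by rw [← mul_assoc, hca, neg_mul, mul_assoc]
  have hda' : ∀ x, d * (a * x) = -(a * (d * x)) := fun x => by rw [← mul_assoc, hda, neg_mul, mul_assoc]
  have hcb' : ∀ x, c * (b * x) = -(b * (c * x)) := fun x => by rw [← mul_assoc, hcb, neg_mul, mul_assoc]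
  have hdb' : ∀ x, d * (b * x) = -(b * (d * x)) := fun x => by rw [← mul_assoc, hdb, neg_mul, mul_assoc]
  have X1 : (a * c) * (a * c) = 0 := by
    simp only [mul_assoc, ha, hb, hc, hd, ha', hb', hc', hd', hba, hdc, hba', hdc', hca, hda, hcb, hdb, hca', hda', hcb', hdb',
      mul_sub, mul_one, mul_neg, neg_neg, mul_zero, sub_zero, zero_sub, neg_zero, neg_mul, sub_mul, one_mul, zero_mul]
    try abel
  have Y1 : (d * b) * (d * b) = 0 := by
    simp only [mul_assoc, ha, hb, hc, hd, ha', hb', hc', hd', hba, hdc, hba', hdc', hca, hda, hcb, hdb, hca', hda', hcb', hdb',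
      mul_sub, mul_one, mul_neg, neg_neg, mul_zero, sub_zero, zero_sub, neg_zero, neg_mul, sub_mul, one_mul, zero_mul]
    try abel
  have X2 : (b * c) * (b * c) = 0 := by
    simp only [mul_assoc, ha, hb, hc, hd, ha', hb', hc', hd', hba, hdc, hba', hdc', hca, hda, hcb, hdb, hca', hda', hcb', hdb',
      mul_sub, mul_one, mul_neg, neg_neg, mul_zero, sub_zero, zero_sub, neg_zero, neg_mul, sub_mul, one_mul, zero_mul]
    try abel
  have Y2 : (d * a) * (d * a) = 0 := by
    simp only [mul_assoc, ha, hb, hc, hd, ha', hb', hc', hd', hba, hdc, hba', hdc', hca, hda, hcb, hdb, hca', hda', hcb', hdb',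
      mul_sub, mul_one, mul_neg, neg_neg, mul_zero, sub_zero, zero_sub, neg_zero, neg_mul, sub_mul, one_mul, zero_mul]
    try abel
  have XYX1 : (a * c) * (d * b) * (a * c) = a * c := by
    simp only [mul_assoc, ha, hb, hc, hd, ha', hb', hc', hd', hba, hdc, hba', hdc', hca, hda, hcb, hdb, hca', hda', hcb', hdb',
      mul_sub, mul_one, mul_neg, neg_neg, mul_zero, sub_zero, zero_sub, neg_zero, neg_mul, sub_mul, one_mul, zero_mul]
    try abel
  have YXY1 : (d * b) * (a * c) * (d * b) = d * b := by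
    simp only [mul_assoc, ha, hb, hc, hd, ha', hb', hc', hd', hba, hdc, hba', hdc', hca, hda, hcb, hdb, hca', hda', hcb', hdb',
      mul_sub, mul_one, mul_neg, neg_neg, mul_zero, sub_zero, zero_sub, neg_zero, neg_mul, sub_mul, one_mul, zero_mul]
    try abel
  have XYX2 : (b * c) * (d * a) * (b * c) = b * c := by
    simp only [mul_assoc, ha, hb, hc, hd, ha', hb', hc', hd', hba, hdc, hba', hdc', hca, hda, hcb, hdb, hca', hda', hcb', hdb',
      mul_sub, mul_one, mul_neg, neg_neg, mul_zero, sub_zero, zero_sub, neg_zero, neg_mul, sub_mul, one_mul, zero_mul]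
    try abel
  have YXY2 : (d * a) * (b * c) * (d * a) = d * a := by
    simp only [mul_assoc, ha, hb, hc, hd, ha', hb', hc', hd', hba, hdc, hba', hdc', hca, hda, hcb, hdb, hca', hda', hcb', hdb',
      mul_sub, mul_one, mul_neg, neg_neg, mul_zero, sub_zero, zero_sub, neg_zero, neg_mul, sub_mul, one_mul, zero_mul]
    try abel
  rw [ring_nn X1 Y1 XYX1 YXY1, ring_nn X2 Y2 XYX2 YXY2]
  have hE : (b * c) * (d * a) + (d * a) * (b * c) = 1 - ((a * c) * (d * b) + (d * b) * (a * c)) := by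
    simp only [mul_assoc, ha, hb, hc, hd, ha', hb', hc', hd', hba, hdc, hba', hdc', hca, hda, hcb, hdb, hca', hda', hcb', hdb',
      mul_sub, mul_one, mul_neg, neg_neg, mul_zero, sub_zero, zero_sub, neg_zero, neg_mul, sub_mul, one_mul, zero_mul]
    abel
  set E := (a * c) * (d * b) + (d * b) * (a * c) with hEd
  have hEE : E * E = E := by
    rw [hEd]
    calc ((a * c) * (d * b) + (d * b) * (a * c)) * ((a * c) * (d * b) + (d * b) * (a * c))
        = ((a * c) * (d * b) * (a * c)) * (d * b) + (a * c) * ((d * b) * (d * b)) * (a * c)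
          + (d * b) * ((a * c) * (a * c)) * (d * b) + ((d * b) * (a * c) * (d * b)) * (a * c) := by noncomm_ring
      _ = _ := by rw [X1, Y1, XYX1, YXY1]; noncomm_ring
  rw [hE]
  calc (1 - 2 * E) * (1 - 2 * (1 - E)) = -1 + 4 * E - 4 * (E * E) := by noncomm_ring
    _ = -1 := by rw [hEE]; noncomm_ring

end ring

variable {I F W : Type*} [InvolutiveNeg I] [DecidableEq I] [Fintype I] [Field F] [AddCommGroup W] [Module F W]
variable {Q : QuadraticForm F ((I → F) × W)} {q0 : W → F} {B0 : W → W → F} (H : OQ Q q0 B0) (O : OF q0 B0)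

include H O

lemma Yc_fst {i j : I} (h : i ≠ -j) (a : F) :
    (((Yc Q i j a).1 : (CliffordAlgebra Q)ˣ) : CliffordAlgebra Q) = 1 + ι Q (eh i) * ι Q (a • eh j) := by
  unfold Yc
  rw [EE_eq (H.qe i) (pol_eae H O h a)]; rfl

/-- the central element -/
theorem kap_fst {i i0 : I} (h1 : i ≠ i0) (h2 : i ≠ -i0) :
    (((cc (Yc Q) i i0 (-1)).1 : (CliffordAlgebra Q)ˣ) : CliffordAlgebra Q) = -1 := by
  have ne := H.ne
  have e1 : -(-1 : F)⁻¹ = 1 := by rw [inv_neg, inv_one, neg_neg]
  have k1 : ∀ j l : I, l ≠ -j → ι Q (eh l) * ι Q (eh j) = -(ι Q (eh j) * ι Q (eh l)) := by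
    intro j l h
    exact cl_anti (by rw [pol_ee H O, if_neg h])
  have k2 : ∀ j : I, ι Q (eh j) * ι Q (eh j) = 0 := by
    intro j; rw [cl_sq, H.qe, map_zero]
  have k3 : ∀ j : I, ι Q (eh (-j)) * ι Q (eh j) = 1 - ι Q (eh j) * ι Q (eh (-j)) := by
    intro j; rw [cl_swap, pol_ee H O, if_pos rfl, map_one]
  have k4 : ι Q (eh i0) * ι Q (eh (-i0)) = 1 - ι Q (eh (-i0)) * ι Q (eh i0) := by
    have := k3 (-i0)
    rwa [neg_neg] at this
  have key := ring_kap (A := CliffordAlgebra Q) (a := ι Q (eh i)) (b := ι Q (eh (-i))) (c := ι Q (eh (-i0))) (d := ι Q (eh i0))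
    (k2 _) (k2 _) (k2 _) (k2 _) (k3 i) k4 (k1 _ _ (by nx)) (k1 _ _ (by nx)) (k1 _ _ (by nx)) (k1 _ _ (by nx))
  rw [← key]
  unfold cc hl nl
  simp only [Prod.fst_mul, Units.val_mul]
  rw [Yc_fst H O (i := i) (j := -i0) (by nx), Yc_fst H O (i := - -i0) (j := -i) (by nx),
    Yc_fst H O (i := -i) (j := -i0) (by nx), Yc_fst H O (i := - -i0) (j := - -i) (by nx), e1, neg_neg, neg_neg,
    one_smul, one_smul, neg_one_smul, map_neg, mul_neg, mul_neg, ← sub_eq_add_neg, ← sub_eq_add_neg]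

theorem kap_ne {i i0 : I} (h1 : i ≠ i0) (h2 : i ≠ -i0) (h : cc (Yc Q) i i0 (-1) = 1) : (2 : F) = 0 := by
  by_contra h3
  have : Invertible (2 : F) := invertibleOfNonzero h3
  have hn : Nontrivial (CliffordAlgebra Q) := inferInstance
  have e1 := kap_fst H O h1 h2
  rw [h] at e1
  change (1 : CliffordAlgebra Q) = -1 at e1
  have e2 : (algebraMap F (CliffordAlgebra Q)) 2 = 0 := by
    rw [show (2 : F) = 1 + 1 by norm_num, map_add, map_one]
    nth_rw 1 [e1]
    exact neg_add_cancel 1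
  exact h3 ((algebraMap F (CliffordAlgebra Q)).injective (by rw [e2, map_zero]))

end Cfsg.Agent.Stb
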