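import Cfsg.Agent.Stb.OTor

set_option autoImplicit false

/-!
The kernel of the natural action of a group with the Steinberg relations of an orthogonal group.
-/

namespace Cfsg.Agent.Stb

open Subgroup
open Cfsg.Agent.Mult (R1)
open scoped commutatorElement

lemma mem_sup_comm {Γ : Type*} [Group Γ] {A B : Subgroup Γ} (h : ∀ a ∈ A, ∀ b ∈ B, a * b = b * a) {g : Γ} (hg : g ∈ A ⊔ B) :
    ∃ a ∈ A, ∃ b ∈ B, g = a * b := by
  rw [sup_eq_closure] at hg
  induction hg using closure_induction with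
  | mem x hx =>
    rcases hx with hx | hx
    · exact ⟨x, hx, 1, one_mem _, (mul_one x).symm⟩
    · exact ⟨1, one_mem _, x, hx, (one_mul x).symm⟩
  | one => exact ⟨1, one_mem _, 1, one_mem _, (mul_one 1).symm⟩
  | mul x y _ _ hx hy =>
    obtain ⟨a, ha, b, hb, rfl⟩ := hx
    obtain ⟨a', ha', b', hb', rfl⟩ := hy
    refine ⟨a * a', mul_mem ha ha', b * b', mul_mem hb hb', ?_⟩
    calc a * b * (a' * b') = a * (b * a') * b' := by group
      _ = a * (a' * b) * b' := by rw [h a' ha' b hb]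
      _ = _ := by group
  | inv x _ hx =>
    obtain ⟨a, ha, b, hb, rfl⟩ := hx
    refine ⟨a⁻¹, inv_mem ha, b⁻¹, inv_mem hb, ?_⟩
    rw [mul_inv_rev, h _ (inv_mem ha) _ (inv_mem hb)]

variable {I F W Γ : Type*} [InvolutiveNeg I] [DecidableEq I] [Field F] [AddCommGroup W] [Module F W] [Group Γ]
variable {q0 : W → F} {B0 : W → W → F} (O : OF q0 B0) {y : I → I → F → Γ} {z : I → W → Γ} (R : OR q0 B0 y z)
variable [Fintype I] {ρ : Γ →* (((I → F) × W) ≃ₗ[F] ((I → F) × W))} (A : OA q0 B0 y z ρ)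

/-- the fixator of a vector -/
def FxV (ρ : Γ →* (((I → F) × W) ≃ₗ[F] ((I → F) × W))) (v : (I → F) × W) : Subgroup Γ where
  carrier := {g | ρ g v = v}
  one_mem' := by change ρ 1 v = v; rw [map_one]; rfl
  mul_mem' := by
    intro a b ha hb
    change ρ (a * b) v = v
    rw [hrho_mul, show ρ b v = v from hb, show ρ a v = v from ha]
  inv_mem' := by
    intro a ha
    change ρ a⁻¹ v = v
    conv_lhs => rw [← show ρ a v = v from ha]
    rw [← hrho_mul, inv_mul_cancel, map_one]; rfl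

omit [InvolutiveNeg I] [DecidableEq I] [Fintype I] in
lemma mem_FxV {g : Γ} {v : (I → F) × W} : g ∈ FxV ρ v ↔ ρ g v = v := Iff.rfl

include O R A

/-- elements of a short rank one group fix the other basis vectors -/
lemma DI_fix {T : Subgroup Γ} {i0 p : I} (h1 : p ≠ i0) (h2 : p ≠ -i0) : DI q0 y z T i0 ≤ FxV ρ (eh p) := by
  refine inf_le_left.trans (sup_le ?_ ?_)
  · intro x hx
    obtain ⟨w, c, hP, rfl⟩ := (R.hr.mem_Xl O.hf).1 hx
    rw [mem_FxV, act_z_ee A.ha O.hf hP, if_neg h2, if_neg h2]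
    simp
  · intro x hx
    obtain ⟨w, c, hP, rfl⟩ := (R.hr.mem_Xl O.hf).1 hx
    rw [mem_FxV, act_z_ee A.ha O.hf hP, neg_neg, if_neg h1, if_neg h1]
    simp

variable [Finite F]

/-- pairs of opposite tori -/
def TP (y : I → I → F → Γ) (i i0 : I) : Subgroup Γ :=
  closure {g | ∃ t : F, t ≠ 0 ∧ g = hl y i (-i0) t} ⊔ closure {g | ∃ t : F, t ≠ 0 ∧ g = hl y (-i) (-i0) t}

omit O R A [Finite F] [DecidableEq I] [Fintype I] in
lemma TP_neg (i i0 : I) : TP y (-i) i0 = TP y i i0 := by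
  unfold TP; rw [neg_neg, sup_comm]

lemma TP_T {i i0 : I} (h1 : i ≠ i0) (h2 : i ≠ -i0) : TP y i i0 ≤ (ocln O R A).T := by
  refine sup_le ?_ ?_
  · rw [closure_le]; rintro _ ⟨t, ht, rfl⟩
    exact hl_T O R A h2 (by nx) ht
  · rw [closure_le]; rintro _ ⟨t, ht, rfl⟩
    exact hl_T O R A (by nx) (by nx) ht

lemma mem_TP {i i0 : I} (h1 : i ≠ i0) (h2 : i ≠ -i0) {g : Γ} (hg : g ∈ TP y i i0) :
    ∃ t s : F, t ≠ 0 ∧ s ≠ 0 ∧ g = hl y i (-i0) t * hl y (-i) (-i0) s := by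
  have c1 : ∀ {i : I}, i ≠ -i0 → i ≠ - -i0 → ∀ g ∈ closure {g | ∃ t : F, t ≠ 0 ∧ g = hl y i (-i0) t},
      ∃ t : F, t ≠ 0 ∧ g = hl y i (-i0) t := by
    intro i h1 h2 g hg
    induction hg using closure_induction with
    | mem x hx => exact hx
    | one => exact ⟨1, one_ne_zero, (hl_one O R A h1 h2).symm⟩
    | mul a b _ _ ha hb =>
      obtain ⟨t, ht, rfl⟩ := ha
      obtain ⟨s, hs, rfl⟩ := hb
      exact ⟨t * s, mul_ne_zero ht hs, hl_mul O R A h1 h2 ht hs⟩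
    | inv a _ ha =>
      obtain ⟨t, ht, rfl⟩ := ha
      exact ⟨t⁻¹, inv_ne_zero ht, hl_inv O R A h1 h2 ht⟩
  obtain ⟨a, ha, b, hb, rfl⟩ := mem_sup_comm (by
    intro a ha b hb
    obtain ⟨t, ht, rfl⟩ := c1 h2 (by nx) a ha
    obtain ⟨s, hs, rfl⟩ := c1 (i := -i) (by nx) (by nx) b hb
    exact T_hl O R A (by nx) (by nx) hs (hl_T O R A h2 (by nx) ht)) hg
  obtain ⟨t, ht, rfl⟩ := c1 h2 (by nx) a ha
  obtain ⟨s, hs, rfl⟩ := c1 (i := -i) (by nx) (by nx) b hb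
  exact ⟨t, s, ht, hs, rfl⟩

lemma T_TP {i i0 : I} (h1 : i ≠ i0) (h2 : i ≠ -i0) {g t : Γ} (hg : g ∈ TP y i i0) (ht : t ∈ (ocln O R A).T) :
    g * t = t * g := by
  obtain ⟨a, b, ha, hb, rfl⟩ := mem_TP O R A h1 h2 hg
  have e1 := T_hl O R A (i := i) (j := -i0) h2 (by nx) ha ht
  have e2 := T_hl O R A (i := -i) (j := -i0) (by nx) (by nx) hb ht
  calc hl y i (-i0) a * hl y (-i) (-i0) b * t = hl y i (-i0) a * (hl y (-i) (-i0) b * t) := by group
    _ = (hl y i (-i0) a * t) * hl y (-i) (-i0) b := by rw [← e2]; group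
    _ = _ := by rw [← e1]; group

/-- the action of pairs of tori -/
lemma TP_act {i i0 : I} (h1 : i ≠ i0) (h2 : i ≠ -i0) {t s : F} (ht : t ≠ 0) (hs : s ≠ 0) :
    ρ (hl y i (-i0) t * hl y (-i) (-i0) s) (eh i) = (t * s⁻¹) • eh i ∧
    ∀ p, p ≠ i → p ≠ -i → p ≠ i0 → p ≠ -i0 → ρ (hl y i (-i0) t * hl y (-i) (-i0) s) (eh p) = eh p := by
  have ne := R.ne
  obtain ⟨a1, a2, a3, a4, a5, a6⟩ := hl_act O R A (i := i) (j := -i0) h2 (by nx) ht
  obtain ⟨b1, b2, b3, b4, b5, b6⟩ := hl_act O R A (i := -i) (j := -i0) (by nx) (by nx) hs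
  rw [neg_neg] at b4
  constructor
  · rw [hrho_mul, b4, map_smul, a1, smul_smul, mul_comm]
  · intro p p1 p2 p3 p4
    rw [hrho_mul, b5 p p2 p4 (by rw [neg_neg]; exact p1) (by rw [neg_neg]; exact p3), a5 p p1 p4 p2 (by rw [neg_neg]; exact p3)]

theorem ker_aux {i0 i1 : I} (k1 : i1 ≠ i0) (k2 : i1 ≠ -i0) (J : Finset I) : (∀ i ∈ J, i ≠ i0 ∧ i ≠ -i0) → ∀ g ∈
    (⨆ i ∈ J, TP y i i0) ⊔ DI q0 y z (ocln O R A).T i0, (∀ p, p ≠ i0 → p ≠ -i0 → ρ g (eh p) = eh p) →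
    ∃ u : F, u ≠ 0 ∧ ∃ d ∈ DI q0 y z (ocln O R A).T i0, g = cc y i1 i0 u * d := by
  have ne := R.ne
  induction J using Finset.induction_on with
  | empty =>
    intro _ g hg hp
    simp only [Finset.notMem_empty, iSup_false, iSup_bot, bot_sup_eq] at hg
    refine ⟨1, one_ne_zero, g, hg, ?_⟩
    unfold cc
    rw [hl_one O R A k2 (by nx), hl_one O R A (by nx) (by nx), one_mul, one_mul]
  | insert j J hj ih =>
    intro hJ g hg hp
    obtain ⟨j1, j2⟩ := hJ j (Finset.mem_insert_self _ _)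
    have hJ' : ∀ i ∈ J, i ≠ i0 ∧ i ≠ -i0 := fun i hi => hJ i (Finset.mem_insert_of_mem hi)
    rw [Finset.iSup_insert, sup_assoc] at hg
    by_cases hnj : -j ∈ J
    · refine ih hJ' g ?_ hp
      refine (sup_le ?_ le_rfl : TP y j i0 ⊔ _ ≤ _) hg
      rw [← TP_neg]
      exact le_sup_of_le_left (le_iSup₂_of_le (-j) hnj le_rfl)
    · have hB : (⨆ i ∈ J, TP y i i0) ⊔ DI q0 y z (ocln O R A).T i0 ≤ (ocln O R A).T ⊓ FxV ρ (eh j) := by
        refine sup_le (iSup₂_le fun i hi => ?_) (le_inf inf_le_right (DI_fix O R A j1 j2))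
        obtain ⟨i1, i2⟩ := hJ' i hi
        refine le_inf (TP_T O R A i1 i2) ?_
        intro g hg
        obtain ⟨t, s, ht, hs, rfl⟩ := mem_TP O R A i1 i2 hg
        exact (TP_act O R A i1 i2 ht hs).2 j (fun e => hj (e ▸ hi)) (fun e => hnj (by rw [e, neg_neg]; exact hi)) j1 j2
      obtain ⟨a, ha, b, hb, rfl⟩ := mem_sup_comm (fun a ha b hb => T_TP O R A j1 j2 ha (hB hb).1) hg
      obtain ⟨t, s, ht, hs, rfl⟩ := mem_TP O R A j1 j2 ha
      obtain ⟨q1, q2⟩ := TP_act O R A j1 j2 ht hs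
      have h3 := hp j j1 j2
      rw [hrho_mul, show ρ b (eh j) = eh j from (hB hb).2, q1] at h3
      have h4 := congrFun (congrArg Prod.fst h3) j
      rw [Prod.smul_fst, Pi.smul_apply, eh_fst, if_pos rfl, smul_eq_mul, mul_one] at h4
      have h5 : t = s := by
        field_simp at h4
        exact h4
      subst h5
      have hcc := cc_eq O R A j1 j2 k1 k2 ht
      have hact := (cc_act O R A j1 j2 ht).1
      have hb2 : ∀ p, p ≠ i0 → p ≠ -i0 → ρ b (eh p) = eh p := by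
        intro p p1 p2
        have h6 := hp p p1 p2
        rw [hrho_mul] at h6
        have h7 : ρ (cc y j i0 t)⁻¹ (ρ (cc y j i0 t) (ρ b (eh p))) = ρ (cc y j i0 t)⁻¹ (eh p) := by
          congr 1
        rw [← hrho_mul, inv_mul_cancel, map_one] at h7
        change ρ b (eh p) = _ at h7
        rw [h7]
        have h8 : cc y j i0 t ∈ FxV ρ (eh p) := hact p p1 p2
        exact inv_mem h8
      obtain ⟨u, hu, d, hd, rfl⟩ := ih hJ' b hb hb2
      refine ⟨t * u, mul_ne_zero ht hu, d, hd, ?_⟩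
      rw [← mul_assoc]
      congr 1
      change cc y j i0 t * _ = _
      rw [hcc, cc_mul O R A k1 k2 ht hu]

/-- the kernel is contained in the product of the central torus and the torus of a short root -/
theorem ker_one {i0 i1 : I} (k1 : i1 ≠ i0) (k2 : i1 ≠ -i0) {g : Γ}
    (hg : g ∈ gp (OX q0 y z) (fun _ _ => True)) (h : ρ g = 1) :
    ∃ u : F, u ≠ 0 ∧ ∃ d ∈ DI q0 y z (ocln O R A).T i0, g = cc y i1 i0 u * d := by
  have ne := R.ne
  have h1 : g ∈ (ocln O R A).T := hmem_T O.hf R.hr A.ha (mem_sup_left hg) (fun o => ⟨1, by rw [h, one_smul]; rfl⟩)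
  have h2 := T_le_T1 O R A i0 h1
  refine ker_aux O R A k1 k2 (Finset.univ.filter fun i => i ≠ i0 ∧ i ≠ -i0) (by simp) g ?_ (fun p _ _ => by rw [h]; rfl)
  have h3 : closure {g | ∃ i, i ≠ i0 ∧ i ≠ -i0 ∧ ∃ t : F, t ≠ 0 ∧ g = hl y i (-i0) t} ≤
      ⨆ i ∈ Finset.univ.filter fun i => i ≠ i0 ∧ i ≠ -i0, TP y i i0 := ?_
  · exact sup_le_sup_right h3 _ h2
  rw [closure_le]
  rintro _ ⟨i, i1, i2, t, ht, rfl⟩
  refine (le_iSup₂_of_le (f := fun i _ => TP y i i0) i (by simp [i1, i2]) le_rfl : TP y i i0 ≤ _) ?_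
  exact mem_sup_left (subset_closure ⟨t, ht, rfl⟩)

/-- the kernel when there are no short roots -/
theorem ker_D [Subsingleton W] {i0 i1 : I} (k1 : i1 ≠ i0) (k2 : i1 ≠ -i0) {g : Γ}
    (hg : g ∈ gp (OX q0 y z) (fun _ _ => True)) (h : ρ g = 1) : g = 1 ∨ g = cc y i1 i0 (-1) := by
  have ne := R.ne
  obtain ⟨u, hu, d, hd, rfl⟩ := ker_one O R A k1 k2 hg h
  have hX : ∀ i, OX q0 y z i i ≤ ⊥ := by
    intro i x hx
    obtain ⟨w, c, hP, rfl⟩ := (R.hr.mem_Xl O.hf).1 hx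
    rw [Subsingleton.elim w 0]
    exact R.z_zero i
  have hd1 : d = 1 := by
    have := (inf_le_left.trans (sup_le (hX i0) (hX (-i0))) : DI q0 y z (ocln O R A).T i0 ≤ ⊥) hd
    exact this
  rw [hd1, mul_one] at h ⊢
  have h2 := (cc_act O R A k1 k2 hu).2.1
  rw [h] at h2
  have h3 := congrFun (congrArg Prod.fst h2) (-i0)
  rw [LinearEquiv.coe_one, id, Prod.smul_fst, Pi.smul_apply, eh_fst, if_pos rfl, smul_eq_mul, mul_one] at h3
  have h4 : (u - 1) * (u + 1) = 0 := by linear_combination -h3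
  rcases mul_eq_zero.1 h4 with h5 | h5
  · left
    rw [sub_eq_zero.1 h5]
    unfold cc
    rw [hl_one O R A k2 (by nx), hl_one O R A (by nx) (by nx), one_mul]
  · right
    rw [eq_neg_of_add_eq_zero_left h5]

end Cfsg.Agent.Stb
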