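import Cfsg.Agent.Stb.SpTr

set_option autoImplicit false

/-!
Lifting the Steinberg relations of type `C` to central extensions, fields with more than two elements.
-/

namespace Cfsg.Agent.Stb

open Subgroup Cfsg.Agent.Mult
open scoped commutatorElement

section calculus

variable {Γ G F : Type*} [Group Γ] [Group G] [Field F] {σ : Γ →* G} (C : CE σ)

lemma add_fix {z : F → Γ} (hadd : ∀ a b, z (a + b) = z a * z b) {c : F} (hc : c ≠ 1) (hfix : ∀ a, z (c * a) = z a)
    (a : F) : z a = 1 := by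
  have h1 : ∀ a, z ((c - 1) * a) = 1 := by
    intro a
    have h := hadd ((c - 1) * a) a
    rw [show (c - 1) * a + a = c * a by ring, hfix] at h
    exact mul_eq_right.1 h.symm
  have h2 := h1 (a / (c - 1))
  rwa [mul_div_cancel₀ _ (sub_ne_zero.2 hc)] at h2

include C in
/-- uniqueness of equivariant lifts -/
lemma lift_uniq {L L' : F → Γ} (hσ : ∀ a, σ (L a) = σ (L' a)) (hadd : ∀ a b, L (a + b) = L a * L b)
    (hadd' : ∀ a b, L' (a + b) = L' a * L' b) {g : G} {c : F} (hc : c ≠ 1) (hg : ∀ a, C.cj g (L a) = L (c * a))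
    (hg' : ∀ a, C.cj g (L' a) = L' (c * a)) (a : F) : L a = L' a := by
  have hcen : ∀ a, L a * (L' a)⁻¹ ∈ center Γ := fun a => C.central (by
    rw [MonoidHom.mem_ker, map_mul, map_inv, hσ, mul_inv_cancel])
  have := add_fix (z := fun a => L a * (L' a)⁻¹) (c := c) ?_ hc ?_ a
  · exact mul_inv_eq_one.1 this
  · intro a b
    rw [hadd, hadd', mul_inv_rev]
    have := mem_center_iff.1 (hcen b) (L a)
    calc L a * L b * ((L' b)⁻¹ * (L' a)⁻¹) = L a * (L b * (L' b)⁻¹) * (L' a)⁻¹ := by group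
      _ = (L b * (L' b)⁻¹) * (L a * (L' a)⁻¹) := by rw [this]; group
      _ = _ := mem_center_iff.1 (hcen a) _
  · intro a
    rw [← hg, ← hg', ← map_inv, ← map_mul, C.cj_center _ (hcen a)]

/-- lifts by commutators with a torus element -/
noncomputable def tl (g : G) (X : F → G) (c a : F) : Γ := C.cm g (X (a / (c - 1)))

lemma σ_tl {g : G} {X : F → G} {c : F} (hc : c ≠ 1) (hadd : ∀ a b, X (a + b) = X a * X b)
    (hg : ∀ a, g * X a = X (c * a) * g) (a : F) : σ (tl C g X c a) = X a := by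
  unfold tl
  rw [C.σ_cm, commutatorElement_def, hg, mul_inv_cancel_right, mul_inv_eq_iff_eq_mul, ← hadd]
  congr 1
  have := sub_ne_zero.2 hc
  field_simp
  ring

lemma tl_add {g : G} {X : F → G} {c : F} (hadd : ∀ a b, X (a + b) = X a * X b)
    (hg : ∀ a, g * X a = X (c * a) * g) (hT : ∀ a b, C.Tr (X a) (X b)) (a b : F) :
    tl C g X c (a + b) = tl C g X c a * tl C g X c b := by
  unfold tl
  rw [add_div, hadd, cm_mul_right']
  have : ⁅g, X (b / (c - 1))⁆ = X ((c - 1) * (b / (c - 1))) := by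
    rw [commutatorElement_def, hg, mul_inv_cancel_right, mul_inv_eq_iff_eq_mul, ← hadd]
    congr 1
    ring
  rw [this]
  exact hT _ _

lemma cj_tl {g k : G} {X : F → G} {c d : F} (hk : k * g = g * k)
    (hkX : ∀ a, k * X a = X (d * a) * k) (a : F) :
    C.cj k (tl C g X c a) = tl C g X c (d * a) := by
  unfold tl
  rw [C.cj_cm, hk, mul_inv_cancel_right, hkX, mul_inv_cancel_right, mul_div_assoc]

end calculus

variable {I F G Γ : Type*} [InvolutiveNeg I] [DecidableEq I] [Field F] [Group G] [Group Γ]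
variable {ε : I → F} {x : I → I → F → G} (R : SpR ε x) {h : (I → Fˣ) → G} (D : SpD x h) (H : OKSp I F)
  {σ : Γ →* G} (C : CE σ)

/-- symmetric torus parameters -/
def Sy (s : I → Fˣ) : Prop := ∀ i, s (-i) = (s i)⁻¹

omit [DecidableEq I] in
lemma Sy.mul {s t : I → Fˣ} (hs : Sy s) (ht : Sy t) : Sy (fun p => s p * t p) := by
  intro i
  change s (-i) * t (-i) = _
  rw [hs, ht, mul_inv]

/-- lifts of the root elements compatible with the torus -/
structure LiftD (ε : I → F) (x : I → I → F → G) (h : (I → Fˣ) → G) (C : CE σ) (y : I → I → F → Γ) : Prop where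
  σy : ∀ {i j}, i ≠ -j → ∀ a, σ (y i j a) = x i j a
  symm : ∀ i j a, y i j a = y j i a
  add : ∀ {i j}, i ≠ -j → ∀ a b, y i j (a + b) = y i j a * y i j b
  tor : ∀ {s}, Sy s → ∀ {i j}, i ≠ -j → ∀ a, C.cj (h s) (y i j a) = y i j (s i * s j * a)
  c2 : ∀ {i j : I}, i ≠ j → i ≠ -j → ∀ a b, ⁅y i j a, y (-j) i b⁆ = y i i (2 * ε j * a * b)

include R D H in
/-- the remaining relations follow from torus arguments -/
theorem LiftD.spr {y : I → I → F → Γ} (L : LiftD ε x h C y) {c0 : Fˣ} (hc0 : c0 ≠ 1) : SpR ε y where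
  ne := R.ne
  two := R.two
  eps := R.eps
  eps_neg := R.eps_neg
  symm := L.symm
  add := L.add
  c1 {i j k} h1 h2 h3 h4 h5 h6 a b := by
    have n3 : k ≠ -k := (R.ne k).symm
    have hjk : -j ≠ -k := by nn
    have hcm : ∀ b, ⁅y i j a, y (-j) k b⁆ = C.cm (x i j a) (x (-j) k b) := fun b =>
      C.cm_eq (L.σy h2 a) (L.σy hjk b)
    have hcen : ∀ b, ⁅y i j a, y (-j) k b⁆ * (y i k (ε j * a * b))⁻¹ ∈ center Γ := fun b => C.central (by
      rw [MonoidHom.mem_ker, map_mul, map_inv, map_commutatorElement, L.σy h2, L.σy hjk, L.σy h6, R.c1 h1 h2 h3 h4 h5 h6,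
        mul_inv_cancel])
    have hcj : ∀ b, C.cj (h (sg k c0)) ⁅y i j a, y (-j) k b⁆ = ⁅y i j a, y (-j) k (c0 * b)⁆ := by
      intro b
      rw [map_commutatorElement, L.tor (sg_neg R.ne k c0) h2, L.tor (sg_neg R.ne k c0) hjk, sg_self,
        sg_of h5 h6, sg_of h3 h4, sg_of (p := -j) (by nn) (by nn)]
      simp
    have hc1 : (c0 : F) ≠ 1 := fun e => hc0 (Units.ext e)
    have := add_fix (z := fun b => ⁅y i j a, y (-j) k b⁆ * (y i k (ε j * a * b))⁻¹) (c := (c0 : F)) ?_ hc1 ?_ b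
    · exact mul_inv_eq_one.1 this
    · intro b b'
      have e1 : ⁅y i j a, y (-j) k (b + b')⁆ = ⁅y i j a, y (-j) k b⁆ * ⁅y i j a, y (-j) k b'⁆ := by
        rw [hcm, hcm, hcm, R.add hjk, cm_mul_right']
        rw [R.c1 h1 h2 h3 h4 h5 h6]
        exact tr_all R D H C hjk h6 (by nn) (by nn) (by nn) (by nn) _ _
      rw [e1, mul_add, L.add h6, mul_inv_rev]
      have e2 := mem_center_iff.1 (hcen b') (⁅y i j a, y (-j) k b⁆)
      calc ⁅y i j a, y (-j) k b⁆ * ⁅y i j a, y (-j) k b'⁆ * ((y i k (ε j * a * b'))⁻¹ * (y i k (ε j * a * b))⁻¹)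
          = ⁅y i j a, y (-j) k b⁆ * (⁅y i j a, y (-j) k b'⁆ * (y i k (ε j * a * b'))⁻¹) * (y i k (ε j * a * b))⁻¹ := by group
        _ = (⁅y i j a, y (-j) k b'⁆ * (y i k (ε j * a * b'))⁻¹) * (⁅y i j a, y (-j) k b⁆ * (y i k (ε j * a * b))⁻¹) := by
            rw [e2]; group
        _ = _ := mem_center_iff.1 (hcen b) _
    · intro b
      have e1 := C.cj_center (h (sg k c0)) (hcen b)
      rw [map_mul, map_inv, hcj, L.tor (sg_neg R.ne k c0) h6, sg_self, sg_of h5 h6] at e1
      rw [← e1]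
      congr 3
      push_cast; ring
  c2 := L.c2
  c3 {i j} h1 h2 a b := by
    have n1 : i ≠ -i := (R.ne i).symm
    have n2 : j ≠ -j := (R.ne j).symm
    have hij : -i ≠ -j := by nn
    set z : F → Γ := fun b => ⁅y i i a, y (-i) j b⁆ * (y i j (ε i * a * b) * y j j (-(a * b ^ 2)))⁻¹ with hz
    have hcm : ∀ b, ⁅y i i a, y (-i) j b⁆ = C.cm (x i i a) (x (-i) j b) := fun b =>
      C.cm_eq (L.σy n1 a) (L.σy hij b)
    have hcen : ∀ b, z b ∈ center Γ := fun b => C.central (by
      rw [MonoidHom.mem_ker, map_mul, map_inv, map_commutatorElement, map_mul, L.σy n1, L.σy hij, L.σy h2, L.σy n2, R.c3 h1 h2,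
        mul_inv_cancel])
    have hzz : ∀ b, ⁅y i i a, y (-i) j b⁆ = z b * (y i j (ε i * a * b) * y j j (-(a * b ^ 2))) := by
      intro b; rw [hz]; group
    have hcj : ∀ b, C.cj (h (sg j c0)) ⁅y i i a, y (-i) j b⁆ = ⁅y i i a, y (-i) j (c0 * b)⁆ := by
      intro b
      rw [map_commutatorElement, L.tor (sg_neg R.ne j c0) n1, L.tor (sg_neg R.ne j c0) hij, sg_self,
        sg_of h1 h2, sg_of (p := -i) (by nn) (by nn)]
      simp
    have hc1 : (c0 : F) ≠ 1 := fun e => hc0 (Units.ext e)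
    have ccj : ∀ b b', C.cj (x (-i) j b) (y i j (ε i * a * b')) = y j j (-(2 * a * b * b')) * y i j (ε i * a * b') := by
      intro b b'
      have e1 := L.c2 (i := j) (j := -i) (by nn) (by nn) b (ε i * a * b')
      rw [neg_neg, L.symm j (-i)] at e1
      rw [C.cj_apply (L.σy hij b)]
      rw [commutatorElement_def] at e1
      have e2 : y (-i) j b * y i j (ε i * a * b') * (y (-i) j b)⁻¹ = y j j (2 * ε (-i) * b * (ε i * a * b')) * y i j (ε i * a * b') := by
        rw [← e1]; group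
      rw [e2, R.eps_neg]
      congr 2
      linear_combination (-2 * a * b * b') * R.eps i
    have ccj2 : ∀ b d, C.cj (x (-i) j b) (y j j d) = y j j d := by
      intro b d
      exact (tr_all R D H C (a := b) (b := d) hij n2 (by nn) (by nn) (by nn) (by nn)).fix (L.σy n2 d)
    have cc : ∀ d e, y i j d * y j j e = y j j e * y i j d := by
      intro d e
      exact (C.tr_iff' (L.σy h2 d) (L.σy n2 e)).1 (tr_all R D H C h2 n2 (by nn) (by nn) (by nn) (by nn) _ _)
    have hza : ∀ b b', z (b + b') = z b * z b' := by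
      intro b b'
      have e0 : ⁅y i i a, y (-i) j (b + b')⁆ = ⁅y i i a, y (-i) j b⁆ * C.cj (x (-i) j b) ⁅y i i a, y (-i) j b'⁆ := by
        rw [hcm, hcm, hcm, R.add hij, C.cm_mul_right]
      have e1 : z (b + b') * (y i j (ε i * a * (b + b')) * y j j (-(a * (b + b') ^ 2))) =
          z b * (y i j (ε i * a * b) * y j j (-(a * b ^ 2))) *
          (z b' * (y j j (-(2 * a * b * b')) * y i j (ε i * a * b') * y j j (-(a * b' ^ 2)))) := by
        rw [← hzz, e0, hzz, hzz b', map_mul, C.cj_center _ (hcen b'), map_mul, ccj, ccj2]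
      have e2 : y i j (ε i * a * (b + b')) * y j j (-(a * (b + b') ^ 2)) =
          (y i j (ε i * a * b) * y j j (-(a * b ^ 2))) * (y j j (-(2 * a * b * b')) * y i j (ε i * a * b') * y j j (-(a * b' ^ 2))) := by
        rw [mul_add (ε i * a), L.add h2, show -(a * (b + b') ^ 2) = -(a * b ^ 2) + -(2 * a * b * b') + -(a * b' ^ 2) by ring,
          L.add n2, L.add n2]
        calc y i j (ε i * a * b) * y i j (ε i * a * b') * (y j j (-(a * b ^ 2)) * y j j (-(2 * a * b * b')) * y j j (-(a * b' ^ 2)))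
            = y i j (ε i * a * b) * (y i j (ε i * a * b') * y j j (-(a * b ^ 2))) * y j j (-(2 * a * b * b')) * y j j (-(a * b' ^ 2)) := by group
          _ = y i j (ε i * a * b) * y j j (-(a * b ^ 2)) * (y i j (ε i * a * b') * y j j (-(2 * a * b * b'))) * y j j (-(a * b' ^ 2)) := by
              rw [cc]; group
          _ = _ := by rw [cc (ε i * a * b')]; group
      rw [e2] at e1
      have e3 := mem_center_iff.1 (hcen b') (z b * (y i j (ε i * a * b) * y j j (-(a * b ^ 2))))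
      have e4 : z (b + b') * ((y i j (ε i * a * b) * y j j (-(a * b ^ 2))) * (y j j (-(2 * a * b * b')) * y i j (ε i * a * b') * y j j (-(a * b' ^ 2)))) =
          z b' * z b * ((y i j (ε i * a * b) * y j j (-(a * b ^ 2))) * (y j j (-(2 * a * b * b')) * y i j (ε i * a * b') * y j j (-(a * b' ^ 2)))) := by
        rw [e1, ← mul_assoc, e3]; group
      rw [mul_right_cancel e4]
      exact mem_center_iff.1 (hcen b) _
    have := add_fix (z := z) (c := (c0 : F)) hza hc1 ?_ b
    · exact mul_inv_eq_one.1 this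
    · intro b
      have e1 := C.cj_center (h (sg j c0)) (hcen b)
      rw [hz]; simp only
      rw [hz] at e1; simp only at e1
      rw [map_mul, map_inv, hcj, map_mul, L.tor (sg_neg R.ne j c0) h2, L.tor (sg_neg R.ne j c0) n2, sg_self, sg_of h1 h2] at e1
      rw [← e1]
      congr 4
      · push_cast; ring
      · ring
  c4 {i j k l} h1 h2 h3 h4 h5 h6 a b := by
    rw [commutatorElement_eq_one_iff_mul_comm]
    exact (C.tr_iff' (L.σy h1 a) (L.σy h2 b)).1 (tr_all R D H C h1 h2 h3 h4 h5 h6 a b)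


/-- lifts of short root elements -/
noncomputable def sh (x : I → I → F → G) (h : (I → Fˣ) → G) (C : CE σ) (c0 : Fˣ) (i j : I) (a : F) : Γ :=
  tl C (h (sg i c0)) (x i j) c0 a

section sh

variable {c0 : Fˣ} (hc0 : c0 ≠ 1)

include R D in
lemma sg_act {i j : I} (h1 : i ≠ j) (h2 : i ≠ -j) (a : F) : h (sg i c0) * x i j a = x i j (c0 * a) * h (sg i c0) := by
  rw [D.act _ (sg_neg R.ne i c0) i j h2, sg_self, sg_of (by nn) (by nn)]
  simp

include R D hc0 in
lemma σ_sh {i j : I} (h1 : i ≠ j) (h2 : i ≠ -j) (a : F) : σ (sh x h C c0 i j a) = x i j a :=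
  σ_tl C (fun e => hc0 (Units.ext e)) (fun a b => R.add h2 a b) (fun a => sg_act R D h1 h2 a) a

include R D H in
lemma sh_add {i j : I} (h1 : i ≠ j) (h2 : i ≠ -j) (a b : F) :
    sh x h C c0 i j (a + b) = sh x h C c0 i j a * sh x h C c0 i j b :=
  tl_add C (fun a b => R.add h2 a b) (fun a => sg_act R D h1 h2 a) (fun a b => tr_P0S R D H C h1 h2 a b) a b

include R D in
lemma sh_tor {s : I → Fˣ} (hs : Sy s) {i j : I} (h2 : i ≠ -j) (a : F) :
    C.cj (h s) (sh x h C c0 i j a) = sh x h C c0 i j (s i * s j * a) :=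
  cj_tl C (D.comm _ _ hs (sg_neg R.ne i c0)) (fun a => D.act s hs i j h2 a) a

include R D H hc0 in
lemma sh_symm {i j : I} (h1 : i ≠ j) (h2 : i ≠ -j) (a : F) : sh x h C c0 i j a = sh x h C c0 j i a := by
  have hc1 : (c0 : F) ≠ 1 := fun e => hc0 (Units.ext e)
  refine lift_uniq C (L := sh x h C c0 i j) (L' := sh x h C c0 j i) ?_ (sh_add R D H C h1 h2)
    (sh_add R D H C (by nn) (by nn)) (g := h (sg i c0)) hc1 ?_ ?_ a
  · intro a
    rw [σ_sh R D C hc0 h1 h2, σ_sh R D C hc0 (by nn) (by nn), R.symm]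
  · intro a
    rw [sh_tor R D C (sg_neg R.ne i c0) h2, sg_self, sg_of (by nn) (by nn)]
    simp
  · intro a
    rw [sh_tor R D C (sg_neg R.ne i c0) (by nn), sg_self, sg_of (by nn) (by nn)]
    simp

/-- lifts of the long root elements -/
structure LL (ε : I → F) (x : I → I → F → G) (h : (I → Fˣ) → G) (C : CE σ) (c0 : Fˣ) (i : I) (L : F → Γ) : Prop where
  σy : ∀ a, σ (L a) = x i i a
  add : ∀ a b, L (a + b) = L a * L b
  tor : ∀ {s}, Sy s → ∀ a, C.cj (h s) (L a) = L (s i * s i * a)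
  c2 : ∀ {j : I}, i ≠ j → i ≠ -j → ∀ a b, C.cm (x i j a) (x (-j) i b) = L (2 * ε j * a * b)

include R D H in
lemma pair_addr {i j : I} (h1 : i ≠ j) (h2 : i ≠ -j) (a b b' : F) :
    C.cm (x i j a) (x (-j) i (b + b')) = C.cm (x i j a) (x (-j) i b) * C.cm (x i j a) (x (-j) i b') := by
  have n1 : i ≠ -i := (R.ne i).symm
  rw [R.add (by nn), cm_mul_right']
  rw [R.c2 h1 h2]
  exact tr_all R D H C (by nn) n1 (by nn) (by nn) (by nn) (by nn) _ _

include R D H in
lemma pair_addl {i j : I} (h1 : i ≠ j) (h2 : i ≠ -j) (a a' b : F) :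
    C.cm (x i j (a + a')) (x (-j) i b) = C.cm (x i j a) (x (-j) i b) * C.cm (x i j a') (x (-j) i b) := by
  have n1 : i ≠ -i := (R.ne i).symm
  rw [add_comm, R.add (by nn), cm_mul_left']
  rw [R.c2 h1 h2]
  exact tr_all R D H C (by nn) n1 (by nn) (by nn) (by nn) (by nn) _ _

include R D H in
theorem exists_LL_big {s : Fˣ} (hs : s ^ 2 ≠ 1) (i : I) : ∃ L : F → Γ, LL ε x h C c0 i L := by
  have n1 : i ≠ -i := (R.ne i).symm
  have hs1 : ((s ^ 2 : Fˣ) : F) ≠ 1 := fun e => hs (Units.ext e)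
  have act : ∀ a, h (sg i s) * x i i a = x i i (((s ^ 2 : Fˣ) : F) * a) * h (sg i s) := by
    intro a
    rw [D.act _ (sg_neg R.ne i s) i i n1, sg_self]
    push_cast; rw [pow_two]
  set L : F → Γ := fun a => tl C (h (sg i s)) (x i i) ((s ^ 2 : Fˣ) : F) a with hL
  have Lσ : ∀ a, σ (L a) = x i i a := fun a => σ_tl C hs1 (fun a b => R.add n1 a b) act a
  have Ladd : ∀ a b, L (a + b) = L a * L b := fun a b =>
    tl_add C (fun a b => R.add n1 a b) act (fun a b => tr_P0L R H C i b a) a b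
  have Ltor : ∀ {t}, Sy t → ∀ a, C.cj (h t) (L a) = L (t i * t i * a) := fun {t} ht a =>
    cj_tl C (D.comm _ _ ht (sg_neg R.ne i s)) (fun a => D.act t ht i i n1 a) a
  refine ⟨L, Lσ, Ladd, Ltor, ?_⟩
  intro j h1 h2 a b
  set t : I → Fˣ := fun p => sg i s p * sg j s⁻¹ p with ht
  have htn : Sy t := Sy.mul (sg_neg R.ne i s) (sg_neg R.ne j s⁻¹)
  have t1 : t i = s := by rw [ht]; simp only [sg_self, sg_of h1 h2, mul_one]
  have t2 : t j = s⁻¹ := by
    rw [ht]; simp only [sg_self, sg_of (show j ≠ i by nn) (show j ≠ -i by nn), one_mul]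
  have t3 : t (-j) = s := by rw [htn, t2, inv_inv]
  have hcen : ∀ b, C.cm (x i j a) (x (-j) i b) * (L (2 * ε j * a * b))⁻¹ ∈ center Γ := fun b => C.central (by
    rw [MonoidHom.mem_ker, map_mul, map_inv, C.σ_cm, Lσ, R.c2 h1 h2, mul_inv_cancel])
  have := add_fix (z := fun b => C.cm (x i j a) (x (-j) i b) * (L (2 * ε j * a * b))⁻¹) (c := ((s ^ 2 : Fˣ) : F)) ?_ hs1 ?_ b
  · exact mul_inv_eq_one.1 this
  · intro b b'
    rw [pair_addr R D H C h1 h2, mul_add, Ladd, mul_inv_rev]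
    have e2 := mem_center_iff.1 (hcen b') (C.cm (x i j a) (x (-j) i b))
    calc C.cm (x i j a) (x (-j) i b) * C.cm (x i j a) (x (-j) i b') * ((L (2 * ε j * a * b'))⁻¹ * (L (2 * ε j * a * b))⁻¹)
        = C.cm (x i j a) (x (-j) i b) * (C.cm (x i j a) (x (-j) i b') * (L (2 * ε j * a * b'))⁻¹) * (L (2 * ε j * a * b))⁻¹ := by
          group
      _ = (C.cm (x i j a) (x (-j) i b') * (L (2 * ε j * a * b'))⁻¹) * (C.cm (x i j a) (x (-j) i b) * (L (2 * ε j * a * b))⁻¹) := by
          rw [e2]; group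
      _ = _ := mem_center_iff.1 (hcen b) _
  · intro b
    have e1 := C.cj_center (h t) (hcen b)
    rw [map_mul, map_inv, Ltor htn, C.cj_cm, D.act t htn i j h2, D.act t htn (-j) i (by nn), mul_inv_cancel_right,
      mul_inv_cancel_right, t1, t2, t3] at e1
    rw [← e1]
    congr 3
    · simp
    · push_cast; ring
    · push_cast; ring

include R D H in
lemma pair_change {i j k : I} (h1 : i ≠ j) (h2 : i ≠ -j) (h3 : i ≠ k) (h4 : i ≠ -k) (h5 : j ≠ k) (h6 : j ≠ -k) (a b c : F) :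
    C.cm (x i j a) (x (-j) i (ε k * b * c)) = C.cm (x i k (ε j * a * b)) (x (-k) i c) := by
  have n1 : i ≠ -i := (R.ne i).symm
  have n2 : j ≠ -j := (R.ne j).symm
  have n3 : k ≠ -k := (R.ne k).symm
  have e1 : x (-j) i (ε k * b * c) = ⁅x (-j) k b, x (-k) i c⁆ := by
    rw [R.c1 (i := -j) (j := k) (k := i) (by nn) (by nn) (by nn) (by nn) (by nn) (by nn)]
  have e2 : x (-j) k b * x (-k) i c * (x (-j) k b)⁻¹ = x (-j) i (ε k * b * c) * x (-k) i c := by
    rw [e1, commutatorElement_def]; group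
  have h7 : C.Tr (x i j a) (x (-k) i c) := tr_all R D H C h2 (by nn) (by nn) (by nn) (by nn) (by nn) _ _
  have h8 : C.Tr (x i k (ε j * a * b)) (x (-j) i (ε k * b * c)) :=
    tr_all R D H C h4 (by nn) (by nn) (by nn) (by nn) (by nn) _ _
  conv_lhs => rw [e1]
  rw [C.cm_comm_right h7, R.c1 h1 h2 h5 h6 h3 h4, e2, C.cm_mul_right, show C.cm _ _ = 1 from h8, one_mul]
  have h9 : C.Tr (x (-j) i (ε k * b * c)) (σ (C.cm (x i k (ε j * a * b)) (x (-k) i c))) := by
    rw [C.σ_cm, R.c2 h3 h4]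
    exact tr_all R D H C (by nn) n1 (by nn) (by nn) (by nn) (by nn) _ _
  rw [h9.cj_eq]

include R D H in
theorem exists_LL_three (h20 : (2 : F) ≠ 0) (hall : ∀ a : F, a = 0 ∨ a = 1 ∨ a = -1) (i : I) :
    ∃ L : F → Γ, LL ε x h C c0 i L := by
  have n1 : i ≠ -i := (R.ne i).symm
  obtain ⟨j0, hj1, hj2⟩ := R.two i
  have k1 : i ≠ j0 := Ne.symm hj1
  have k2 : i ≠ -j0 := by nn
  have hD1 : ∀ {j : I}, i ≠ j → i ≠ -j → ∀ a b, C.cm (x i j a) (x (-j) i b) = C.cm (x i j 1) (x (-j) i (a * b)) := by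
    intro j h1 h2 a b
    have z1 : C.cm (x i j 1) (x (-j) i 0) = 1 := by rw [R.zero (by nn)]; exact C.cm_one_right _
    have z2 : C.cm (x i j 0) (x (-j) i b) = 1 := by rw [R.zero (by nn)]; exact C.cm_one_left _
    rcases hall a with rfl | rfl | rfl
    · rw [zero_mul, z1, z2]
    · rw [one_mul]
    · have e1 := pair_addl R D H C h1 h2 (-1) 1 b
      have e2 := pair_addr R D H C h1 h2 1 (-1 * b) b
      rw [neg_add_cancel, z2] at e1
      rw [show -1 * b + b = 0 by ring, z1] at e2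
      rw [eq_comm, mul_eq_one_iff_eq_inv] at e1 e2
      rw [e1, e2]
  set L : F → Γ := fun a => C.cm (x i j0 1) (x (-j0) i (ε j0 * a / 2)) with hL
  have Ladd : ∀ a b, L (a + b) = L a * L b := by
    intro a b
    rw [hL]; simp only
    rw [← pair_addr R D H C k1 k2]
    congr 2; ring
  refine ⟨L, ?_, Ladd, ?_, ?_⟩
  · intro a
    rw [hL]; simp only
    rw [C.σ_cm, R.c2 k1 k2]
    congr 1
    field_simp
    linear_combination a * R.eps j0
  · intro t ht a
    rw [hL]; simp only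
    rw [C.cj_cm, D.act t ht i j0 k2, D.act t ht (-j0) i (by nn), mul_inv_cancel_right,
      mul_inv_cancel_right, hD1 k1 k2, ht]
    congr 2
    push_cast
    field_simp
  · intro j h1 h2 a b
    rw [hL]; simp only
    by_cases hj : j = j0
    · subst hj
      rw [hD1 h1 h2]
      congr 2
      field_simp
      linear_combination (-(a * b)) * R.eps j
    · by_cases hj' : j = -j0
      · subst hj'
        have e1 : C.cm (x i (-j0) a) (x (- -j0) i b) = (C.cm (x i j0 b) (x (-j0) i a))⁻¹ := by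
          rw [C.inv_cm, neg_neg, R.symm i (-j0), R.symm j0 i]
        rw [e1, hD1 k1 k2, inv_eq_iff_mul_eq_one, ← pair_addr R D H C k1 k2, R.eps_neg,
          show b * a + ε j0 * (2 * -ε j0 * a * b) / 2 = 0 by field_simp; linear_combination (-(a * b)) * R.eps j0,
          R.zero (by nn)]
        exact C.cm_one_right _
      · have e1 := pair_change R D H C k1 k2 h1 h2 (Ne.symm hj) (by nn) 1 (ε j0 * a) b
        rw [show ε j0 * 1 * (ε j0 * a) = a by linear_combination a * R.eps j0] at e1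
        rw [← e1]
        congr 2
        field_simp

include R D H C hc0 in
/-- the lifted relations -/
theorem exists_spr_big : ∃ y : I → I → F → Γ, SpR ε y ∧ ∀ {i j}, i ≠ -j → ∀ a, σ (y i j a) = x i j a := by
  classical
  have hLL : ∀ i, ∃ L : F → Γ, LL ε x h C c0 i L := by
    intro i
    rcases H.ok with ⟨s, hs⟩ | ⟨h20, hall⟩ | ⟨-, hall, -⟩
    · exact exists_LL_big R D H C hs i
    · exact exists_LL_three R D H C h20 hall i
    · exfalso
      apply hc0
      apply Units.ext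
      rcases hall c0 with h | h
      · exact absurd h c0.ne_zero
      · exact h
  choose L hL using hLL
  set y : I → I → F → Γ := fun i j a => if i = -j then 1 else if i = j then L i a else sh x h C c0 i j a with hy
  have yS : ∀ {i j}, i ≠ j → i ≠ -j → ∀ a, y i j a = sh x h C c0 i j a := fun {i j} h1 h2 a => by
    rw [hy]; simp only [if_neg h1, if_neg h2]
  have yL : ∀ i a, y i i a = L i a := fun i a => by
    rw [hy]; simp only [if_neg (R.ne i).symm, if_true]
  have hσ : ∀ {i j}, i ≠ -j → ∀ a, σ (y i j a) = x i j a := by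
    intro i j h2 a
    by_cases h1 : i = j
    · subst h1; rw [yL, (hL i).σy]
    · rw [yS h1 h2, σ_sh R D C hc0 h1 h2]
  have lift : LiftD ε x h C y := by
    refine ⟨hσ, ?_, ?_, ?_, ?_⟩
    · intro i j a
      by_cases h2 : i = -j
      · have h3 : j = -i := by rw [h2, neg_neg]
        rw [hy]; simp only [if_pos h2, if_pos h3]
      · by_cases h1 : i = j
        · subst h1; rfl
        · rw [yS h1 h2, yS (Ne.symm h1) (fun e => h2 (by rw [e, neg_neg])), sh_symm R D H C hc0 h1 h2]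
    · intro i j h2 a b
      by_cases h1 : i = j
      · subst h1; rw [yL, yL, yL, (hL i).add]
      · rw [yS h1 h2, yS h1 h2, yS h1 h2, sh_add R D H C h1 h2]
    · intro s hs i j h2 a
      by_cases h1 : i = j
      · subst h1; rw [yL, yL, (hL i).tor hs]
      · rw [yS h1 h2, yS h1 h2, sh_tor R D C hs h2]
    · intro i j h1 h2 a b
      rw [C.cm_eq (hσ h2 a) (hσ (i := -j) (j := i) (by nn) b), yL, (hL i).c2 h1 h2]
  exact ⟨y, lift.spr R D H C hc0, hσ⟩

end sh

end Cfsg.Agent.Stb
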