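import Cfsg.Agent.Stb.OTrTwo
import Cfsg.Agent.Stb.SpLift

set_option autoImplicit false

/-!
Lifting the Steinberg relations of orthogonal groups to central extensions.
-/

namespace Cfsg.Agent.Stb

open Subgroup Cfsg.Agent.Mult
open scoped commutatorElement

section calculus

variable {Γ G F M : Type*} [Group Γ] [Group G] [Field F] [AddCommGroup M] [Module F M] {σ : Γ →* G} (C : CE σ)

lemma fix_add {Z : M → Γ} (hadd : ∀ a b, Z (a + b) = Z a * Z b) {c : F} (hc : c ≠ 1) (hfix : ∀ a, Z (c • a) = Z a)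
    (a : M) : Z a = 1 := by
  have h1 : ∀ a, Z ((c - 1) • a) = 1 := by
    intro a
    have h := hadd ((c - 1) • a) a
    rw [show (c - 1) • a + a = c • a by module, hfix] at h
    exact mul_eq_right.1 h.symm
  have h2 := h1 ((c - 1)⁻¹ • a)
  rwa [smul_smul, mul_inv_cancel₀ (sub_ne_zero.2 hc), one_smul] at h2

include C in
/-- two equivariant additive families with the same image agree -/
lemma defect {E P : M → Γ} (hσ : ∀ w, σ (E w) = σ (P w)) (hE : ∀ w w', E (w + w') = E w * E w')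
    (hP : ∀ w w', P (w + w') = P w * P w') {c : F} (hc : c ≠ 1) {g : G} (hgE : ∀ w, C.cj g (E w) = E (c • w))
    (hgP : ∀ w, C.cj g (P w) = P (c • w)) (w : M) : E w = P w := by
  have hcen : ∀ w, E w * (P w)⁻¹ ∈ center Γ := fun w => C.central (by
    rw [MonoidHom.mem_ker, map_mul, map_inv, hσ, mul_inv_cancel])
  have := fix_add (Z := fun w => E w * (P w)⁻¹) (c := c) ?_ hc ?_ w
  · exact mul_inv_eq_one.1 this
  · intro a b
    rw [hE, hP, mul_inv_rev]
    have := mem_center_iff.1 (hcen b) (E a)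
    calc E a * E b * ((P b)⁻¹ * (P a)⁻¹) = E a * (E b * (P b)⁻¹) * (P a)⁻¹ := by group
      _ = (E b * (P b)⁻¹) * (E a * (P a)⁻¹) := by rw [this]; group
      _ = _ := mem_center_iff.1 (hcen a) _
  · intro a
    rw [← hgE, ← hgP, ← map_inv, ← map_mul, C.cj_center _ (hcen a)]

/-- lifts by commutators with a torus element -/
noncomputable def tm (g : G) (X : M → G) (c : F) (w : M) : Γ := C.cm g (X ((c - 1)⁻¹ • w))

lemma σ_tm {g : G} {X : M → G} {c : F} (hc : c ≠ 1) (hadd : ∀ a b, X (a + b) = X a * X b)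
    (hg : ∀ a, g * X a = X (c • a) * g) (a : M) : σ (tm C g X c a) = X a := by
  unfold tm
  rw [C.σ_cm, commutatorElement_def, hg, mul_inv_cancel_right, mul_inv_eq_iff_eq_mul, ← hadd]
  congr 1
  have := sub_ne_zero.2 hc
  rw [smul_smul, ← one_smul F a, smul_smul, smul_smul, ← add_smul, mul_one, mul_one]
  congr 1
  field_simp
  ring

lemma tm_add {g : G} {X : M → G} {c : F} (hadd : ∀ a b, X (a + b) = X a * X b)
    (hg : ∀ a, g * X a = X (c • a) * g) (hT : ∀ a b, C.Tr (X a) (X b)) (a b : M) :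
    tm C g X c (a + b) = tm C g X c a * tm C g X c b := by
  unfold tm
  rw [smul_add, hadd, cm_mul_right']
  have : ⁅g, X ((c - 1)⁻¹ • b)⁆ = X ((c - 1) • (c - 1)⁻¹ • b) := by
    rw [commutatorElement_def, hg, mul_inv_cancel_right, mul_inv_eq_iff_eq_mul, ← hadd]
    congr 1
    module
  rw [this]
  exact hT _ _

lemma cj_tm {g k : G} {X : M → G} {c : F} {f : M → M} (hk : k * g = g * k)
    (hkX : ∀ a, k * X a = X (f a) * k) (hf : ∀ a, f ((c - 1)⁻¹ • a) = (c - 1)⁻¹ • f a) (a : M) :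
    C.cj k (tm C g X c a) = tm C g X c (f a) := by
  unfold tm
  rw [C.cj_cm, hk, mul_inv_cancel_right, hkX, mul_inv_cancel_right, hf]

end calculus

variable {I F W G Γ : Type*} [InvolutiveNeg I] [DecidableEq I] [Field F] [AddCommGroup W] [Module F W] [Group G] [Group Γ]
variable {q0 : W → F} {B0 : W → W → F} (O : OF q0 B0) {y : I → I → F → G} {z : I → W → G} (R : OR q0 B0 y z)
variable {σ : Γ →* G} (C : CE σ)

section tr

variable {C}

include R

omit [DecidableEq I] in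
/-- all commuting pairs of long root elements -/
lemma OTr.yy (H : OTr y z C) {i j k l : I} (h1 : i ≠ j) (h2 : i ≠ -j) (h3 : k ≠ l) (h4 : k ≠ -l) (h5 : k ≠ -i) (h6 : k ≠ -j)
    (h7 : l ≠ -i) (h8 : l ≠ -j) (a b : F) : C.Tr (y i j a) (y k l b) := by
  by_cases hik : i = k
  · subst hik
    by_cases hjl : j = l
    · subst hjl; exact H.L0 h1 h2 a b
    · exact H.L1 h1 h2 h3 h4 hjl (by nx) a b
  by_cases hil : i = l
  · subst hil
    rw [R.symm h3 h4]
    by_cases hjk : j = k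
    · subst hjk; exact H.L0 h1 h2 a _
    · exact H.L1 h1 h2 (by nx) (by nx) hjk (by nx) a _
  by_cases hjk : j = k
  · subst hjk
    rw [R.symm h1 h2]
    exact H.L1 (by nx) (by nx) h3 h4 hil (by nx) _ b
  by_cases hjl : j = l
  · subst hjl
    rw [R.symm h1 h2, R.symm h3 h4]
    exact H.L1 (by nx) (by nx) (by nx) (by nx) hik (by nx) _ _
  exact H.L2 h1 h2 h3 h4 hik (by nx) hil (by nx) hjk (by nx) hjl (by nx) a b

omit [DecidableEq I] in
/-- commuting short and long root elements -/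
lemma OTr.zy (H : OTr y z C) {i k l : I} (h1 : k ≠ l) (h2 : k ≠ -l) (h3 : k ≠ -i) (h4 : l ≠ -i) (w : W) (a : F) :
    C.Tr (z i w) (y k l a) := by
  by_cases hik : i = k
  · subst hik; exact H.S1 h1 h2 w a
  by_cases hil : i = l
  · subst hil
    rw [R.symm h1 h2]; exact H.S1 (by nx) (by nx) w _
  exact H.S2 hik (by nx) hil (by nx) h1 h2 w a

end tr

variable [Fintype I] {ρ : G →* (((I → F) × W) ≃ₗ[F] ((I → F) × W))} (A : OA q0 B0 y z ρ)

/-- lifts which are compatible with the torus `T` -/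
structure OLD (C : CE σ) (y : I → I → F → G) (z : I → W → G) (ρ : G →* (((I → F) × W) ≃ₗ[F] ((I → F) × W))) (T : Subgroup G)
    (yl : I → I → F → Γ) (zl : I → W → Γ) : Prop where
  σy : ∀ {i j}, i ≠ j → i ≠ -j → ∀ a, σ (yl i j a) = y i j a
  σz : ∀ i w, σ (zl i w) = z i w
  symm : ∀ {i j}, i ≠ j → i ≠ -j → ∀ a, yl i j a = yl j i (-a)
  add : ∀ {i j}, i ≠ j → i ≠ -j → ∀ a b, yl i j (a + b) = yl i j a * yl i j b
  zadd : ∀ i w w', zl i (w + w') = zl i w * zl i w'
  tory : ∀ {i j}, i ≠ j → i ≠ -j → ∀ g ∈ T, ∀ c d : F, ρ g (eh i) = c • eh i → ρ g (eh j) = d • eh j → ∀ a,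
    C.cj g (yl i j a) = yl i j (c * d * a)
  torz : ∀ i, ∀ g ∈ T, ∀ c : F, ρ g (eh i) = c • eh i → (∀ w, ρ g (wh w) = wh w) → ∀ w, C.cj g (zl i w) = zl i (c • w)

include O R A in
/-- the relations for torus equivariant lifts -/
theorem OLD.or {C : CE σ} (H : OTr y z C) {yl : I → I → F → Γ} {zl : I → W → Γ} (L : OLD C y z ρ (ocln O R A).T yl zl)
    {c0 : F} (hc0 : c0 ≠ 0) (hc1 : c0 ≠ 1) : OR q0 B0 yl zl := by
  have ne := R.ne
  have one : ∀ (g : G) (p : I), ρ g (eh p) = eh p → ρ g (eh p) = (1 : F) • eh p := fun g p h => by rw [h, one_smul]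
  refine ⟨R.ne, R.three, L.symm, L.add, L.zadd, ?_, ?_, ?_, ?_, ?_, ?_⟩
  · intro i j k h1 h2 h3 h4 h5 h6 a b
    have m1 : -j ≠ k := by nx
    have m2 : -j ≠ -k := by nx
    have k1 : i ≠ -j := h2
    have k2 : i ≠ - -j := by nx
    have hcm : ∀ b, ⁅yl i j a, yl (-j) k b⁆ = C.cm (y i j a) (y (-j) k b) := fun b =>
      C.cm_eq (L.σy h1 h2 a) (L.σy m1 m2 b)
    obtain ⟨a1, a2, a3, a4, a5, a6⟩ := hl_act O R A k1 k2 hc0
    rw [neg_neg] at a2
    have hgT := hl_T O R A k1 k2 hc0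
    have ek := one _ _ (a5 k (by nx) (by nx) (by nx) (by nx))
    refine defect C (E := fun b => ⁅yl i j a, yl (-j) k b⁆) (P := fun b => yl i k (a * b)) (c := c0) (g := hl y i (-j) c0)
      ?_ ?_ ?_ hc1 ?_ ?_ b
    · intro b
      rw [hcm, C.σ_cm, R.c1 h1 h2 h3 h4 h5 h6, L.σy h5 h6]
    · intro b b'
      simp only [hcm]
      rw [R.add m1 m2, cm_mul_right']
      rw [R.c1 h1 h2 h3 h4 h5 h6]
      exact H.yy R m1 m2 h5 h6 (by nx) (by nx) (by nx) (ne' ne k) _ _
    · intro b b'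
      simp only [mul_add]
      exact L.add h5 h6 _ _
    · intro b
      simp only [map_commutatorElement]
      rw [L.tory h1 h2 _ hgT _ _ a1 a2, L.tory m1 m2 _ hgT _ _ a3 ek, mul_inv_cancel₀ hc0, one_mul, mul_one, smul_eq_mul]
    · intro b
      rw [L.tory h5 h6 _ hgT _ _ a1 ek, mul_one, smul_eq_mul]
      congr 1; ring
  · intro i j h1 h2 a b
    rw [commutatorElement_eq_one_iff_mul_comm]
    exact (C.tr_iff' (L.σy h1 h2 a) (L.σy (by nx) (by nx) b)).1 (H.L3 h1 h2 a b)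
  · intro i j h1 h2 w b
    obtain ⟨k, k1, k2, k3, k4⟩ := R.three i j
    have m1 : -i ≠ j := by nx
    have m2 : -i ≠ -j := by nx
    have n1 : j ≠ k := by nx
    have n2 : j ≠ -k := by nx
    have hcm : ∀ b, ⁅zl i w, yl (-i) j b⁆ = C.cm (z i w) (y (-i) j b) := fun b =>
      C.cm_eq (L.σz i w) (L.σy m1 m2 b)
    obtain ⟨a1, a2, a3, a4, a5, a6⟩ := hl_act O R A n1 n2 hc0
    have hgT := hl_T O R A n1 n2 hc0
    have ei := one _ _ (a5 i (by nx) (by nx) (by nx) (by nx))
    have eni := one _ _ (a5 (-i) (by nx) (by nx) (by nx) (by nx))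
    have hc3 : ∀ b, ⁅z i w, y (-i) j b⁆ = y i j (-(q0 w * b)) * z j (b • w) := fun b => R.c3 h1 h2 w b
    have hσP : ∀ b, σ (yl i j (-(q0 w * b)) * zl j (b • w)) = y i j (-(q0 w * b)) * z j (b • w) := fun b => by
      rw [map_mul, L.σy h1 h2, L.σz]
    have cc : ∀ a u, zl j u * yl i j a = yl i j a * zl j u := fun a u =>
      (C.tr_iff' (L.σz j u) (L.σy h1 h2 a)).1 (H.zy R h1 h2 (by nx) (ne' ne j) u a)
    refine defect C (E := fun b => ⁅zl i w, yl (-i) j b⁆) (P := fun b => yl i j (-(q0 w * b)) * zl j (b • w)) (c := c0)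
      (g := hl y j k c0) ?_ ?_ ?_ hc1 ?_ ?_ b
    · intro b
      rw [hcm, C.σ_cm, hc3, hσP]
    · intro b b'
      simp only [hcm]
      rw [R.add m1 m2, C.cm_mul_right]
      congr 1
      have e1 : σ (C.cm (z i w) (y (-i) j b')) = y i j (-(q0 w * b')) * z j (b' • w) := by rw [C.σ_cm, hc3]
      have t1 : C.Tr (y (-i) j b) (y i j (-(q0 w * b')) * z j (b' • w)) := by
        refine CE.Tr.mul_right ?_ ?_
        · rw [R.symm h1 h2]; exact (H.L3 (i := j) (j := i) (by nx) (by nx) _ _).symm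
        · exact (H.zy R m1 m2 (by nx) (ne' ne j) _ _).symm
      exact t1.fix e1
    · intro b b'
      rw [show -(q0 w * (b + b')) = -(q0 w * b) + -(q0 w * b') by ring, L.add h1 h2, add_smul, L.zadd]
      calc yl i j (-(q0 w * b)) * yl i j (-(q0 w * b')) * (zl j (b • w) * zl j (b' • w))
          = yl i j (-(q0 w * b)) * (yl i j (-(q0 w * b')) * zl j (b • w)) * zl j (b' • w) := by group
        _ = _ := by rw [← cc]; group
    · intro b
      simp only [map_commutatorElement]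
      rw [L.torz i _ hgT _ ei a6, L.tory m1 m2 _ hgT _ _ eni a1, one_smul, one_mul, smul_eq_mul]
    · intro b
      simp only [map_mul]
      rw [L.tory h1 h2 _ hgT _ _ ei a1, L.torz j _ hgT _ a1 a6, one_mul, smul_eq_mul, smul_smul]
      congr 2; ring
  · intro i j k l h1 h2 h3 h4 h5 h6 h7 h8 a b
    rw [commutatorElement_eq_one_iff_mul_comm]
    exact (C.tr_iff' (L.σy h1 h2 a) (L.σy h3 h4 b)).1 (H.yy R h1 h2 h3 h4 h5 h6 h7 h8 a b)
  · intro i k l h1 h2 h3 h4 w a
    rw [commutatorElement_eq_one_iff_mul_comm]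
    exact (C.tr_iff' (L.σz i w) (L.σy h1 h2 a)).1 (H.zy R h1 h2 h3 h4 w a)
  · intro i j h1 h2 w w'
    obtain ⟨k, k1, k2, k3, k4⟩ := R.three i j
    have n1 : j ≠ k := by nx
    have n2 : j ≠ -k := by nx
    have hcm : ∀ w', ⁅zl i w, zl j w'⁆ = C.cm (z i w) (z j w') := fun w' => C.cm_eq (L.σz i w) (L.σz j w')
    obtain ⟨a1, a2, a3, a4, a5, a6⟩ := hl_act O R A n1 n2 hc0
    have hgT := hl_T O R A n1 n2 hc0
    have ei := one _ _ (a5 i (by nx) (by nx) (by nx) (by nx))
    refine defect C (E := fun w' => ⁅zl i w, zl j w'⁆) (P := fun w' => yl i j (-B0 w w')) (c := c0)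
      (g := hl y j k c0) ?_ ?_ ?_ hc1 ?_ ?_ w'
    · intro w'
      rw [hcm, C.σ_cm, R.c6 h1 h2, L.σy h1 h2]
    · intro u v
      simp only [hcm]
      rw [R.zadd, cm_mul_right']
      rw [R.c6 h1 h2]
      exact H.zy R h1 h2 (by nx) (ne' ne j) _ _
    · intro u v
      rw [O.add_right, neg_add, L.add h1 h2]
    · intro u
      simp only [map_commutatorElement]
      rw [L.torz i _ hgT _ ei a6, L.torz j _ hgT _ a1 a6, one_smul]
    · intro u
      rw [L.tory h1 h2 _ hgT _ _ ei a1, one_mul, O.smul_right]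
      congr 1; ring

variable [Finite F]

include O A in
/-- torus equivariant lifts exist over fields with more than two elements -/
theorem exists_old {C : CE σ} (H : OTr y z C) {c0 : F} (hc0 : c0 ≠ 0) (hc1 : c0 ≠ 1) :
    ∃ (yl : I → I → F → Γ) (zl : I → W → Γ), OLD C y z ρ (ocln O R A).T yl zl := by
  have ne := R.ne
  choose κ k1 k2 k3 k4 using R.three
  have hact : ∀ {i j : I}, i ≠ j → i ≠ -j → ∀ a : F, hl y i (κ i j) c0 * y i j a = y i j (c0 • a) * hl y i (κ i j) c0 := by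
    intro i j h1 h2 a
    have q1 := k1 i j
    have q2 := k2 i j
    have q3 := k3 i j
    have q4 := k4 i j
    obtain ⟨a1, a2, a3, a4, a5, a6⟩ := hl_act O R A (i := i) (j := κ i j) (by nx) (by nx) hc0
    have e1 : ρ (hl y i (κ i j) c0) (eh j) = (1 : F) • eh j := by
      rw [one_smul]; exact a5 j (by nx) (by nx) (by nx) (by nx)
    have := hl_y O R A (k := i) (l := κ i j) (by nx) (by nx) hc0 h1 h2 a1 e1 a
    rwa [mul_one] at this
  have hactz : ∀ (i : I) (w : W), hl y i (κ i i) c0 * z i w = z i (c0 • w) * hl y i (κ i i) c0 := by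
    intro i w
    have q1 := k1 i i
    have q2 := k2 i i
    obtain ⟨a1, a2, a3, a4, a5, a6⟩ := hl_act O R A (i := i) (j := κ i i) (by nx) (by nx) hc0
    exact hl_z O R A (k := i) (l := κ i i) (by nx) (by nx) hc0 a1 w
  set yl : I → I → F → Γ := fun i j a => tm C (hl y i (κ i j) c0) (fun a : F => y i j a) c0 a with hyl
  set zl : I → W → Γ := fun i w => tm C (hl y i (κ i i) c0) (z i) c0 w with hzl
  have hσy : ∀ {i j}, i ≠ j → i ≠ -j → ∀ a, σ (yl i j a) = y i j a := fun {i j} h1 h2 a =>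
    σ_tm C hc1 (fun a b => R.add h1 h2 a b) (hact h1 h2) a
  have hadd : ∀ {i j}, i ≠ j → i ≠ -j → ∀ a b, yl i j (a + b) = yl i j a * yl i j b := fun {i j} h1 h2 a b =>
    tm_add C (fun a b => R.add h1 h2 a b) (hact h1 h2) (fun a b => H.L0 h1 h2 a b) a b
  have htor : ∀ {i j}, i ≠ j → i ≠ -j → ∀ g ∈ (ocln O R A).T, ∀ c d : F, ρ g (eh i) = c • eh i → ρ g (eh j) = d • eh j →
      ∀ a, C.cj g (yl i j a) = yl i j (c * d * a) := by
    intro i j h1 h2 g hg c d hc hd a
    have q1 := k1 i j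
    have q2 := k2 i j
    refine cj_tm C (f := fun a => c * d * a) (T_hl O R A (by nx) (by nx) hc0 hg) (fun a => tor_y O R A h1 h2 hg hc hd a) ?_ a
    intro a
    simp only [smul_eq_mul]; ring
  refine ⟨yl, zl, hσy, ?_, ?_, hadd, ?_, htor, ?_⟩
  · intro i w
    exact σ_tm C hc1 (fun a b => R.zadd i a b) (hactz i) w
  · intro i j h1 h2 a
    have q1 := k1 i j
    have q2 := k2 i j
    have q3 := k3 i j
    have q4 := k4 i j
    obtain ⟨a1, a2, a3, a4, a5, a6⟩ := hl_act O R A (i := i) (j := κ i j) (by nx) (by nx) hc0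
    have e1 : ρ (hl y i (κ i j) c0) (eh j) = (1 : F) • eh j := by
      rw [one_smul]; exact a5 j (by nx) (by nx) (by nx) (by nx)
    have hgT := hl_T O R A (i := i) (j := κ i j) (by nx) (by nx) hc0
    have h1' : j ≠ i := Ne.symm h1
    have h2' : j ≠ -i := by nx
    refine defect C (E := fun a => yl i j a) (P := fun a => yl j i (-a)) (c := c0) (g := hl y i (κ i j) c0) ?_ ?_ ?_ hc1 ?_ ?_ a
    · intro a
      rw [hσy h1 h2, hσy h1' h2', R.symm h1 h2]
    · intro a b; exact hadd h1 h2 a b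
    · intro a b; simp only [neg_add]; exact hadd h1' h2' _ _
    · intro a
      rw [htor h1 h2 _ hgT _ _ a1 e1, mul_one, smul_eq_mul]
    · intro a
      rw [htor h1' h2' _ hgT _ _ e1 a1, one_mul, smul_eq_mul]
      congr 1; ring
  · intro i w w'
    exact tm_add C (fun a b => R.zadd i a b) (hactz i) (fun a b => H.S0 i a b) w w'
  · intro i g hg c hc hw w
    have q1 := k1 i i
    have q2 := k2 i i
    refine cj_tm C (f := fun w => c • w) (T_hl O R A (by nx) (by nx) hc0 hg) (fun w => tor_z (c := c) (w := w) (w' := w) O R A hg hc (hw w)) ?_ w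
    intro w
    exact smul_comm _ _ _

include O R A in
/-- the lifted relations, fields with more than two elements -/
theorem exists_or_big {C : CE σ} (H : OTr y z C) {c0 : F} (hc0 : c0 ≠ 0) (hc1 : c0 ≠ 1) :
    ∃ (yl : I → I → F → Γ) (zl : I → W → Γ), OR q0 B0 yl zl ∧ (∀ {i j}, i ≠ j → i ≠ -j → ∀ a, σ (yl i j a) = y i j a) ∧
      ∀ i w, σ (zl i w) = z i w := by
  obtain ⟨yl, zl, L⟩ := exists_old O R A H hc0 hc1
  exact ⟨yl, zl, L.or O R A H hc0 hc1, L.σy, L.σz⟩

end Cfsg.Agent.Stb
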