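import Cfsg.Agent.Stb.OTwoL

set_option autoImplicit false

/-!
Central extensions of groups with the Steinberg relations of orthogonal groups split.
-/

namespace Cfsg.Agent.Stb

open Subgroup Cfsg.Agent.Mult
open scoped commutatorElement

section general

variable {I F W G : Type*} [InvolutiveNeg I] [DecidableEq I] [Field F] [AddCommGroup W] [Module F W] [Group G]
variable {q0 : W → F} {B0 : W → W → F} (O : OF q0 B0) {y : I → I → F → G} {z : I → W → G} (R : OR q0 B0 y z)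
variable [Fintype I] {ρ : G →* (((I → F) × W) ≃ₗ[F] ((I → F) × W))} (A : OA q0 B0 y z ρ)

/-- the root elements generate -/
def OGen (q0 : W → F) (y : I → I → F → G) (z : I → W → G) : Prop := gp (OX q0 y z) (fun _ _ => True) = ⊤

omit [Fintype I] [DecidableEq I] in
include R in
lemma ogp_le {K : Subgroup G} (hy : ∀ i j, i ≠ j → i ≠ -j → ∀ a, y i j a ∈ K) (hz : ∀ i w, z i w ∈ K) (O : OF q0 B0) :
    gp (OX q0 y z) (fun _ _ => True) ≤ K := by
  unfold gp
  rw [closure_le]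
  rintro x ⟨i, j, hij, -, hx⟩
  by_cases h : i = j
  · subst h
    obtain ⟨w, c, hP, rfl⟩ := (R.hr.mem_Xl O.hf).1 hx
    exact hz i w
  · obtain ⟨a, rfl⟩ := (R.hr.mem_Xs h hij).1 hx
    exact hy i j h hij a

omit [Fintype I] [DecidableEq I] [Module F W] [AddCommGroup W] in
lemma y_mem_gp {i j : I} (h1 : i ≠ j) (h2 : i ≠ -j) (a : F) : y i j a ∈ gp (OX q0 y z) (fun _ _ => True) :=
  X_le_gp h2 trivial (HR.y_mem h1 h2 a)

omit [Fintype I] [DecidableEq I] [Module F W] [AddCommGroup W] in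
lemma z_mem_gp (ne : ∀ i : I, -i ≠ i) (i : I) (w : W) : z i w ∈ gp (OX q0 y z) (fun _ _ => True) :=
  X_le_gp (ne i).symm trivial (HR.z_mem i rfl)

omit [Fintype I] [DecidableEq I] in
lemma map_cc {Γ : Type*} [Group Γ] {σ : Γ →* G} {yl : I → I → F → Γ}
    (hσ : ∀ {i j}, i ≠ j → i ≠ -j → ∀ a, σ (yl i j a) = y i j a) {i i0 : I} (h1 : i ≠ i0) (h2 : i ≠ -i0) (u : F) :
    σ (cc yl i i0 u) = cc y i i0 u := by
  unfold cc hl nl
  simp only [map_mul]
  rw [hσ (i := i) (j := -i0) h2 (by nx), hσ (i := - -i0) (j := -i) (by nx) (by nx), hσ (i := i) (j := -i0) h2 (by nx),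
    hσ (i := - -i0) (j := -i) (by nx) (by nx), hσ (i := -i) (j := -i0) (by nx) (by nx),
    hσ (i := - -i0) (j := - -i) (by nx) (by nx), hσ (i := -i) (j := -i0) (by nx) (by nx),
    hσ (i := - -i0) (j := - -i) (by nx) (by nx)]

include O A in
/-- splitting from lifts -/
theorem sec_of_lift (hG : OGen q0 y z) {i0 i1 : I} (k1 : i1 ≠ i0) (k2 : i1 ≠ -i0) (hcc : cc y i1 i0 (-1) = 1 → (2 : F) = 0)
    {Γ : Type*} [Group Γ] {σ : Γ →* G} {yl : I → I → F → Γ} {zl : I → W → Γ} (Rl : OR q0 B0 yl zl)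
    (hσ : ∀ {i j}, i ≠ j → i ≠ -j → ∀ a, σ (yl i j a) = y i j a) (hσz : ∀ i w, σ (zl i w) = z i w)
    (hker : OA q0 B0 yl zl (ρ.comp σ) → ∀ g ∈ gp (OX q0 yl zl) (fun _ _ => True), (ρ.comp σ) g = 1 →
      g = 1 ∨ g = cc yl i1 i0 (-1)) : ∃ s : G →* Γ, σ.comp s = MonoidHom.id G := by
  have Al : OA q0 B0 yl zl (ρ.comp σ) := by
    refine ⟨?_, ?_, ?_⟩
    · intro i j h1 h2 a v
      rw [MonoidHom.comp_apply, hσ h1 h2]; exact A.act_y h1 h2 a v
    · intro i w v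
      rw [MonoidHom.comp_apply, hσz]; exact A.act_z i w v
    · intro g u v; exact A.form (σ g) u v
  set T : Subgroup Γ := gp (OX q0 yl zl) (fun _ _ => True) with hT
  let f : T →* G := σ.comp T.subtype
  have hf : Function.Injective f := by
    rw [injective_iff_map_eq_one]
    intro g hg
    have hg' : σ (g : Γ) = 1 := hg
    have h1 : (ρ.comp σ) (g : Γ) = 1 := by rw [MonoidHom.comp_apply, hg', map_one]
    rcases hker Al g g.2 h1 with h | h
    · exact Subtype.ext h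
    · have h3 := hg'
      rw [h, map_cc hσ k1 k2] at h3
      have h20 := hcc h3
      have hm1 : (-1 : F) = 1 := by linear_combination -h20
      apply Subtype.ext
      rw [h, hm1]
      unfold cc hl nl
      have e : ∀ {i j : I}, i ≠ j → i ≠ -j → yl i j 1 * yl (-j) (-i) (-(1 : F)⁻¹) * yl i j 1 *
          (yl i j (-1) * yl (-j) (-i) (-(-1 : F)⁻¹) * yl i j (-1)) = 1 := by
        intro i j h1 h2
        have n1 : -j ≠ -i := by nx
        have n2 : -j ≠ - -i := by nx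
        rw [inv_one, inv_neg, inv_one, neg_neg, Rl.hr.neg h1 h2, Rl.hr.neg n1 n2]
        group
      rw [e k2 (by nx), e (by nx) (by nx), one_mul]; rfl
  have hs : Function.Surjective f := by
    rw [← MonoidHom.range_eq_top, ← top_le_iff]
    unfold OGen at hG
    rw [← hG]
    have R : OR q0 B0 y z := by
      have hy' : ∀ {i j : I}, i ≠ j → i ≠ -j → ∀ a, y i j a = σ (yl i j a) := fun h1 h2 a => (hσ h1 h2 a).symm
      have hz' : ∀ i w, z i w = σ (zl i w) := fun i w => (hσz i w).symm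
      refine ⟨Rl.ne, Rl.three, ?_, ?_, ?_, ?_, ?_, ?_, ?_, ?_, ?_⟩
      · intro i j h1 h2 a; rw [hy' h1 h2, hy' (i := j) (j := i) (by nx) (by nx), Rl.symm h1 h2]
      · intro i j h1 h2 a b; rw [hy' h1 h2, hy' h1 h2, hy' h1 h2, Rl.add h1 h2, map_mul]
      · intro i w w'; rw [hz', hz', hz', Rl.zadd, map_mul]
      · intro i j k h1 h2 h3 h4 h5 h6 a b
        rw [hy' h1 h2, hy' (i := -j) (j := k) (by nx) (by nx), hy' h5 h6, ← map_commutatorElement, Rl.c1 h1 h2 h3 h4 h5 h6]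
      · intro i j h1 h2 a b
        rw [hy' h1 h2, hy' (i := -j) (j := i) (by nx) (by nx), ← map_commutatorElement, Rl.c2 h1 h2, map_one]
      · intro i j h1 h2 w b
        rw [hy' h1 h2, hy' (i := -i) (j := j) (by nx) (by nx), hz', hz', ← map_commutatorElement, Rl.c3 h1 h2, map_mul]
      · intro i j k l h1 h2 h3 h4 h5 h6 h7 h8 a b
        rw [hy' h1 h2, hy' h3 h4, ← map_commutatorElement, Rl.c4 h1 h2 h3 h4 h5 h6 h7 h8, map_one]
      · intro i k l h1 h2 h3 h4 w a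
        rw [hz', hy' h1 h2, ← map_commutatorElement, Rl.c5 h1 h2 h3 h4, map_one]
      · intro i j h1 h2 w w'
        rw [hz', hz', hy' h1 h2, ← map_commutatorElement, Rl.c6 h1 h2]
    refine ogp_le R ?_ ?_ O
    · intro i j h1 h2 a
      exact ⟨⟨yl i j a, y_mem_gp h1 h2 a⟩, hσ h1 h2 a⟩
    · intro i w
      exact ⟨⟨zl i w, z_mem_gp Rl.ne i w⟩, hσz i w⟩
  let e := MulEquiv.ofBijective f ⟨hf, hs⟩
  refine ⟨T.subtype.comp e.symm.toMonoidHom, ?_⟩
  ext1 g
  exact e.apply_symm_apply g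

lemma exists_c0 (h : (∃ s : F, s ≠ 0 ∧ s * s ≠ 1) ∨ ((3 : F) = 0 ∧ ∀ a : F, a = 0 ∨ a = 1 ∨ a = -1)) :
    ∃ c0 : F, c0 ≠ 0 ∧ c0 ≠ 1 := by
  rcases h with ⟨s, hs, hs2⟩ | ⟨h3, -⟩
  · exact ⟨s, hs, fun e => hs2 (by rw [e, mul_one])⟩
  · refine ⟨-1, neg_ne_zero.2 one_ne_zero, fun e => ?_⟩
    have : (1 : F) = 0 := by linear_combination h3 + e
    exact one_ne_zero this

include O R A in
/-- **Schur, Steinberg, Griess**: central extensions of groups of type `D` split -/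
theorem sec_D [Finite F] [Subsingleton W] (H : OKD I F) (hG : OGen q0 y z) {i0 i1 : I} (k1 : i1 ≠ i0) (k2 : i1 ≠ -i0)
    (hcc : cc y i1 i0 (-1) = 1 → (2 : F) = 0) {Γ : Type*} [Group Γ] {σ : Γ →* G} (C : CE σ) :
    ∃ s : G →* Γ, σ.comp s = MonoidHom.id G := by
  have hTr := otr_D O R C A H
  have key : ∃ (yl : I → I → F → Γ) (zl : I → W → Γ), OR q0 B0 yl zl ∧
      (∀ {i j}, i ≠ j → i ≠ -j → ∀ a, σ (yl i j a) = y i j a) ∧ ∀ i w, σ (zl i w) = z i w := by
    rcases H.ok with h | h | ⟨h20, hall, h5⟩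
    · obtain ⟨c0, hc0, hc1⟩ := exists_c0 (Or.inl h)
      exact exists_or_big O R A hTr hc0 hc1
    · obtain ⟨c0, hc0, hc1⟩ := exists_c0 (Or.inr h)
      exact exists_or_big O R A hTr hc0 hc1
    · refine exists_or_two_D R hTr h20 hall (fun i j k => ?_)
      obtain ⟨m, m1, m2, m3, m4, m5, m6, -⟩ := h5 i j k k
      exact ⟨m, m1, m2, m3, m4, m5, m6⟩
  obtain ⟨yl, zl, Rl, hσ, hσz⟩ := key
  exact sec_of_lift O A hG k1 k2 hcc Rl hσ hσz (fun Al g hg h => ker_D O Rl Al k1 k2 hg h)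

end general

variable {I F L G : Type*} [InvolutiveNeg I] [DecidableEq I] [Field F] [Field L] [Algebra F L] [Group G]
variable {q0 : L → F} {B0 : L → L → F} {τ : L →+* L} (N : OL q0 τ) (O : OF q0 B0) {y : I → I → F → G} {z : I → L → G}
  (R : OR q0 B0 y z)
variable [Fintype I] {ρ : G →* (((I → F) × L) ≃ₗ[F] ((I → F) × L))} (A : OA q0 B0 y z ρ)

include N O R A in
/-- **Schur, Steinberg, Griess**: central extensions of groups of types `B` and `²D` split -/
theorem sec_L [Finite F] [Finite L] (H : OKL I F L) (hτ : (2 : F) = 0 → ∃ t : L, τ t ≠ t) (hG : OGen q0 y z) {i0 i1 : I}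
    (k1 : i1 ≠ i0) (k2 : i1 ≠ -i0) (hcc : cc y i1 i0 (-1) = 1 → (2 : F) = 0) {Γ : Type*} [Group Γ] {σ : Γ →* G} (C : CE σ) :
    ∃ s : G →* Γ, σ.comp s = MonoidHom.id G := by
  have hTr := otr_L N O R A C H
  have key : ∃ (yl : I → I → F → Γ) (zl : I → L → Γ), OR q0 B0 yl zl ∧
      (∀ {i j}, i ≠ j → i ≠ -j → ∀ a, σ (yl i j a) = y i j a) ∧ ∀ i w, σ (zl i w) = z i w := by
    rcases H.ok with h | h | ⟨h20, hall⟩
    · obtain ⟨c0, hc0, hc1⟩ := exists_c0 (Or.inl h)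
      exact exists_or_big O R A hTr hc0 hc1
    · obtain ⟨c0, hc0, hc1⟩ := exists_c0 (Or.inr h)
      exact exists_or_big O R A hTr hc0 hc1
    · exact exists_or_two_L N O R A hTr h20 hall (hτ h20) i0
  obtain ⟨yl, zl, Rl, hσ, hσz⟩ := key
  exact sec_of_lift O A hG k1 k2 hcc Rl hσ hσz (fun Al g hg h => ker_L N O Rl Al k1 k2 hg h)

end Cfsg.Agent.Stb
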