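import Cfsg.Agent.Stb.OCliff
import Cfsg.Agent.Stb.OSec

set_option autoImplicit false

/-!
The Steinberg relations of orthogonal groups hold in the spin group.
-/

namespace Cfsg.Agent.Stb

open QuadraticMap Cfsg.Agent.Orth
open scoped commutatorElement

variable {I F W : Type*} [InvolutiveNeg I] [DecidableEq I] [Fintype I] [Field F] [AddCommGroup W] [Module F W]

/-- a quadratic form with a hyperbolic part and an anisotropic part -/
structure OQ (Q : QuadraticForm F ((I → F) × W)) (q0 : W → F) (B0 : W → W → F) : Prop where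
  ne : ∀ i : I, -i ≠ i
  three : ∀ i j : I, ∃ k, k ≠ i ∧ k ≠ -i ∧ k ≠ j ∧ k ≠ -j
  qe : ∀ p, Q (eh p) = 0
  qw : ∀ w, Q (wh w) = q0 w
  pol : ∀ u v, polar Q u v = hh (RingHom.id F) B0 u v

variable {Q : QuadraticForm F ((I → F) × W)} {q0 : W → F} {B0 : W → W → F} (H : OQ Q q0 B0) (O : OF q0 B0)

/-- long root elements -/
noncomputable def Yc (Q : QuadraticForm F ((I → F) × W)) (i j : I) (a : F) : CP Q := EE Q (eh i) (a • eh j)

/-- short root elements -/
noncomputable def Zc (Q : QuadraticForm F ((I → F) × W)) (i : I) (w : W) : CP Q := EE Q (eh i) (-wh w)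

/-- the action -/
def ρc (Q : QuadraticForm F ((I → F) × W)) : CP Q →* (((I → F) × W) ≃ₗ[F] ((I → F) × W)) :=
  (OGrp Q).subtype.comp (MonoidHom.snd _ _)

omit [DecidableEq I] [Fintype I] [InvolutiveNeg I] in
lemma ρc_apply (g : CP Q) (v : (I → F) × W) : ρc Q g v = (g.2 : ((I → F) × W) ≃ₗ[F] ((I → F) × W)) v := rfl

include H O

lemma pol_e (p : I) (v : (I → F) × W) : polar Q (eh p) v = v.1 (-p) := by
  rw [H.pol, hh_eh_left O.hf]

lemma pol_ee (p r : I) : polar Q (eh p) (eh r) = if r = -p then 1 else 0 := by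
  rw [pol_e H O, eh_fst]
  by_cases h : r = -p
  · rw [if_pos h, if_pos h.symm]
  · rw [if_neg h, if_neg (Ne.symm h)]

lemma pol_ew (p : I) (w : W) : polar Q (eh p) (wh w) = 0 := by
  rw [pol_e H O]; rfl

lemma pol_xe (v : (I → F) × W) (p : I) : polar Q v (eh p) = v.1 (-p) := by
  rw [pc, pol_e H O]

omit O in
lemma pol_xw (v : (I → F) × W) (w : W) : polar Q v (wh w) = B0 v.2 w := by
  rw [H.pol]
  unfold hh
  have : ∑ p, (RingHom.id F) (v.1 p) * (wh w : (I → F) × W).1 (-p) = 0 := Finset.sum_eq_zero fun p _ => by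
    rw [wh_fst, mul_zero]
  rw [this, zero_add]; rfl

omit H O in
include H O in
lemma pol_eae {i j : I} (h : i ≠ -j) (a : F) : polar Q (eh i) (a • eh j) = 0 := by
  rw [psr, pol_ee H O, if_neg (show j ≠ -i by nx), mul_zero]

theorem oac : OA q0 B0 (Yc Q) (Zc Q) (ρc Q) := by
  have ne := H.ne
  refine ⟨?_, ?_, ?_⟩
  · intro i j h1 h2 a v
    rw [ρc_apply, Yc, EE_snd (H.qe i) (pol_eae H O h2 a), psr, pol_xe H O, pol_xe H O, qsmul, H.qe]
    refine Prod.ext ?_ ?_
    · funext p
      simp only [Prod.fst_sub, Prod.fst_add, Prod.smul_fst, Pi.sub_apply, Pi.add_apply, Pi.smul_apply, eh_fst, smul_eq_mul]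
      by_cases c1 : p = i <;> by_cases c2 : p = j <;> simp_all <;> ring
    · simp [eh_snd]
  · intro i w v
    have h3 : polar Q (eh i) (-wh w) = 0 := by rw [polar_neg_right, pol_ew H O, neg_zero]
    rw [ρc_apply, Zc, EE_snd (H.qe i) h3, polar_neg_right, pol_xw H, pol_xe H O, QuadraticMap.map_neg, H.qw, O.symm]
    refine Prod.ext ?_ ?_
    · funext p
      simp only [Prod.fst_sub, Prod.fst_add, Prod.smul_fst, Pi.sub_apply, Pi.add_apply, Pi.smul_apply, eh_fst, smul_eq_mul,
        Prod.fst_neg, Pi.neg_apply, wh_fst]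
      by_cases c1 : p = i <;> simp_all <;> ring
    · simp only [Prod.snd_sub, Prod.snd_add, Prod.smul_snd, eh_snd, wh_snd, Prod.snd_neg, smul_zero, smul_neg]
      module
  · intro g u v
    rw [← H.pol, ← H.pol, ρc_apply, ρc_apply, OGrp_polar]

/-- the relations in the spin group -/
theorem orc : OR q0 B0 (Yc Q) (Zc Q) := by
  have ne := H.ne
  have A := (oac H O).ha
  have pe := H.qe
  have pz : ∀ i w, polar Q (eh i) (-wh w) = 0 := fun i w => by rw [polar_neg_right, pol_ew H O, neg_zero]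
  have mY : ∀ {i j}, i ≠ -j → ∀ a, Yc Q i j a ∈ CL Q := fun {i j} h a => EE_mem (pe i) (pol_eae H O h a)
  have mZ : ∀ i w, Zc Q i w ∈ CL Q := fun i w => EE_mem (pe i) (pz i w)
  have aY : ∀ {i j}, i ≠ j → i ≠ -j → ∀ a p, ((Yc Q i j a).2 : ((I → F) × W) ≃ₗ[F] ((I → F) × W)) (eh p) =
      eh p + (if p = -j then a else 0) • eh i - (if p = -i then a else 0) • eh j := fun h h' a p => act_y_ee A h h' a p
  have aZ : ∀ i w p, ((Zc Q i w).2 : ((I → F) × W) ≃ₗ[F] ((I → F) × W)) (eh p) =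
      eh p + (if p = -i then -q0 w else 0) • eh i + (if p = -i then (1 : F) else 0) • wh w := fun i w p =>
    act_z_ee A O.hf (i := i) (w := w) rfl p
  have symm : ∀ {i j}, i ≠ j → i ≠ -j → ∀ a, Yc Q i j a = Yc Q j i (-a) := by
    intro i j h1 h2 a
    unfold Yc
    rw [← EE_smul (pe i) (by rw [pol_ee H O, if_neg (show j ≠ -i by nx)]), EE_swap (by rw [qsmul, pe, mul_zero]) (pe j)
      (by rw [psl, pol_ee H O, if_neg (show j ≠ -i by nx), mul_zero]), neg_smul]
  have add : ∀ {i j}, i ≠ j → i ≠ -j → ∀ a b, Yc Q i j (a + b) = Yc Q i j a * Yc Q i j b := by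
    intro i j h1 h2 a b
    unfold Yc
    rw [add_smul, EE_add (pe i) (pol_eae H O h2 a) (pol_eae H O h2 b)]
  -- root elements from general Siegel elements
  have key : ∀ {j : I} {b : F} {x : (I → F) × W}, Q x = 0 → polar Q x (eh j) = 0 → EE Q x (b • eh j) = EE Q (eh j) (-(b • x)) := by
    intro j b x hx hxj
    rw [← EE_smul hx hxj, EE_swap (by rw [qsmul, hx, mul_zero]) (pe j) (by rw [psl, hxj, mul_zero])]
  refine ⟨ne, H.three, symm, add, ?_, ?_, ?_, ?_, ?_, ?_, ?_⟩
  · intro i w w'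
    unfold Zc
    rw [wh_add, neg_add, EE_add (pe i) (pz i w) (pz i w')]
  · intro i j k h1 h2 h3 h4 h5 h6 a b
    have e1 := EE_comm (mY h2 a) (pe (-j)) (pol_eae H O (i := -j) (j := k) (by nx) b)
    change ⁅Yc Q i j a, EE Q (eh (-j)) (b • eh k)⁆ = _
    rw [e1, map_smul, aY h1 h2, aY h1 h2, if_pos rfl, if_neg (show -j ≠ -i by nx), if_neg (show k ≠ -j by nx),
      if_neg (show k ≠ -i by nx)]
    simp only [zero_smul, sub_zero, add_zero]
    have hx : Q (eh (-j) + a • eh i) = 0 := by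
      rw [qadd, qsmul, pe, pe, psr, pol_ee H O, if_neg (by nx)]; ring
    have hxk : polar Q (eh (-j) + a • eh i) (eh k) = 0 := by
      rw [pal, psl, pol_ee H O, pol_ee H O, if_neg (show k ≠ - -j by nx), if_neg (show k ≠ -i by nx)]; ring
    have hjk : polar Q (eh (-j)) (eh k) = 0 := by rw [pol_ee H O, if_neg (by nx)]
    rw [key hx hxk, ← neg_smul b (eh k), key (pe _) hjk]
    have p1 : polar Q (eh k) (-(b • (eh (-j) + a • eh i))) = 0 := by
      rw [polar_neg_right, psr, pc, hxk, mul_zero, neg_zero]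
    have p2 : polar Q (eh k) (-(-b • eh (-j))) = 0 := by
      rw [polar_neg_right, psr, pc, hjk, mul_zero, neg_zero]
    rw [← EE_add (pe k) p1 p2, show -(b • (eh (-j) + a • eh i)) + -(-b • eh (-j)) = (-(a * b)) • (eh i : (I → F) × W) by module]
    exact (symm h5 h6 (a * b)).symm
  · intro i j h1 h2 a b
    have e1 := EE_comm (mY h2 a) (pe (-j)) (pol_eae H O (i := -j) (j := i) (by nx) b)
    change ⁅Yc Q i j a, EE Q (eh (-j)) (b • eh i)⁆ = _
    rw [e1, map_smul, aY h1 h2, aY h1 h2, if_pos rfl, if_neg (show -j ≠ -i by nx), if_neg h2,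
      if_neg (ne i).symm]
    simp only [zero_smul, sub_zero, add_zero]
    have hx : Q (eh (-j) + a • eh i) = 0 := by
      rw [qadd, qsmul, pe, pe, psr, pol_ee H O, if_neg (by nx)]; ring
    have hxi : polar Q (eh (-j) + a • eh i) (eh i) = 0 := by
      rw [pal, psl, pol_ee H O, pol_ee H O, if_neg (by nx), if_neg (ne i).symm]; ring
    have hji : polar Q (eh (-j)) (eh i) = 0 := by rw [pol_ee H O, if_neg (by nx)]
    rw [key hx hxi, ← neg_smul b (eh i), key (pe _) hji]
    have p1 : polar Q (eh i) (-(b • eh (-j))) = 0 := by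
      rw [polar_neg_right, psr, pc, hji, mul_zero, neg_zero]
    have p2 : polar Q (eh i) (-(-b • eh (-j))) = 0 := by
      rw [polar_neg_right, psr, pc, hji, mul_zero, neg_zero]
    rw [show -(b • (eh (-j) + a • eh i)) = -(b • eh (-j)) + (-(a * b)) • (eh i : (I → F) × W) by module, EE_self (pe i) p1,
      ← EE_add (pe i) p1 p2, show -(b • eh (-j)) + -(-b • eh (-j)) = (0 : (I → F) × W) by module, EE_zero (pe i)]
  · intro i j h1 h2 w b
    have e1 := EE_comm (mZ i w) (pe (-i)) (pol_eae H O (i := -i) (j := j) (by nx) b)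
    change ⁅Zc Q i w, EE Q (eh (-i)) (b • eh j)⁆ = _
    rw [e1, map_smul, aZ, aZ, if_pos rfl, if_pos rfl, if_neg (show j ≠ -i by nx), if_neg (show j ≠ -i by nx)]
    simp only [zero_smul, add_zero, one_smul]
    have hx : Q (eh (-i) + -q0 w • eh i + wh w) = 0 := by
      rw [qadd, qadd, qsmul, pe, pe, H.qw, psr, pol_ee H O, if_pos (neg_neg i).symm, pal, psl, pol_ew H O, pol_ew H O]; ring
    have hxj : polar Q (eh (-i) + -q0 w • eh i + wh w) (eh j) = 0 := by
      rw [pal, pal, psl, pol_ee H O, pol_ee H O, if_neg (show j ≠ - -i by nx), if_neg (show j ≠ -i by nx), pc Q (wh w), pol_ew H O]; ring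
    have hij : polar Q (eh (-i)) (eh j) = 0 := by rw [pol_ee H O, if_neg (by nx)]
    rw [key hx hxj, ← neg_smul b (eh j), key (pe _) hij]
    have p1 : polar Q (eh j) (-(b • (eh (-i) + -q0 w • eh i + wh w))) = 0 := by
      rw [polar_neg_right, psr, pc, hxj, mul_zero, neg_zero]
    have p2 : polar Q (eh j) (-(-b • eh (-i))) = 0 := by
      rw [polar_neg_right, psr, pc, hij, mul_zero, neg_zero]
    have p3 : polar Q (eh j) ((q0 w * b) • eh i) = 0 := pol_eae H O (by nx) _
    rw [← EE_add (pe j) p1 p2, show -(b • (eh (-i) + -q0 w • eh i + wh w)) + -(-b • eh (-i)) =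
      (q0 w * b) • (eh i : (I → F) × W) + -wh (b • w) by rw [wh_smul]; module, EE_add (pe j) p3 (pz j _)]
    have := symm h1 h2 (-(q0 w * b))
    rw [neg_neg] at this
    rw [this]; rfl
  · intro i j k l h1 h2 h3 h4 h5 h6 h7 h8 a b
    have e1 := EE_comm (mY h2 a) (pe k) (pol_eae H O h4 b)
    change ⁅Yc Q i j a, EE Q (eh k) (b • eh l)⁆ = _
    rw [e1, map_smul, aY h1 h2, aY h1 h2, if_neg h6, if_neg h5, if_neg h8, if_neg h7]
    simp only [zero_smul, sub_zero, add_zero]
    rw [EE_neg (pe k) (pol_eae H O h4 b), mul_inv_cancel]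
  · intro i k l h1 h2 h3 h4 w a
    have e1 := EE_comm (mZ i w) (pe k) (pol_eae H O h2 a)
    change ⁅Zc Q i w, EE Q (eh k) (a • eh l)⁆ = _
    rw [e1, map_smul, aZ, aZ, if_neg h3, if_neg h3, if_neg h4, if_neg h4]
    simp only [zero_smul, add_zero]
    rw [EE_neg (pe k) (pol_eae H O h2 a), mul_inv_cancel]
  · intro i j h1 h2 w w'
    have e1 := EE_comm (mZ i w) (pe j) (pz j w')
    have aw : ((Zc Q i w).2 : ((I → F) × W) ≃ₗ[F] ((I → F) × W)) (wh w') = wh w' - B0 w w' • eh i := act_z_wh A rfl w'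
    change ⁅Zc Q i w, EE Q (eh j) (-wh w')⁆ = _
    rw [e1, aZ, if_neg (show j ≠ -i by nx), if_neg (show j ≠ -i by nx)]
    simp only [zero_smul, add_zero]
    rw [map_neg, aw]
    have p1 : polar Q (eh j) (-(wh w' - B0 w w' • eh i)) = 0 := by
      rw [polar_neg_right, pdr, pol_ew H O, pol_eae H O (by nx)]; ring
    have p2 : polar Q (eh j) (- -wh w') = 0 := by rw [neg_neg, pol_ew H O]
    rw [← EE_add (pe j) p1 p2, show -(wh w' - B0 w w' • eh i) + - -wh w' = B0 w w' • (eh i : (I → F) × W) by module]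
    have := symm h1 h2 (-B0 w w')
    rw [neg_neg] at this
    exact this.symm

end Cfsg.Agent.Stb
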