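import Cfsg.Agent.Stb.OFin

set_option autoImplicit false

/-!
The multiplier of `PΩ` from the kernel of the spin group.
-/

namespace Cfsg.Agent.Stb

open QuadraticMap Cfsg.Agent.Orth Cfsg.Agent.OMax Subgroup Module Cfsg.Agent.ClassO Cfsg.Agent.Mult

universe u

section kappa

variable {I F W Γ : Type*} [InvolutiveNeg I] [DecidableEq I] [Field F] [AddCommGroup W] [Module F W] [Group Γ]
variable {q0 : W → F} {B0 : W → W → F} (O : OF q0 B0) {y : I → I → F → Γ} {z : I → W → Γ} (R : OR q0 B0 y z)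
variable [Fintype I] {ρ : Γ →* (((I → F) × W) ≃ₗ[F] ((I → F) × W))} (A : OA q0 B0 y z ρ)

include O R A

lemma kap_rho {i i0 : I} (h1 : i ≠ i0) (h2 : i ≠ -i0) : ρ (cc y i i0 (-1)) = 1 := by
  obtain ⟨a1, a2, a3, a4⟩ := cc_act O R A h1 h2 (neg_ne_zero.2 (one_ne_zero (α := F)))
  have e1 : (-1 : F) ^ 2 = 1 := by ring
  have e2 : (-1 : F)⁻¹ ^ 2 = 1 := by rw [inv_pow, e1, inv_one]
  rw [e1, one_smul] at a2
  rw [e2, one_smul] at a3
  apply LinearEquiv.ext
  intro v
  conv_lhs => rw [vec_eq v]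
  conv_rhs => rw [vec_eq v]
  rw [_root_.map_add, map_sum, a4]
  change _ = ∑ p, v.1 p • (eh p : (I → F) × W) + wh v.2
  congr 1
  refine Finset.sum_congr rfl fun p _ => ?_
  rw [_root_.map_smul]
  congr 1
  by_cases c1 : p = i0
  · rw [c1, a3]
  by_cases c2 : p = -i0
  · rw [c2, a2]
  · exact a1 p c1 c2

variable [Finite F]

lemma kap_one' {i i0 : I} (h1 : i ≠ i0) (h2 : i ≠ -i0) : cc y i i0 (1 : F) = 1 := by
  have := cc_mul O R A h1 h2 (one_ne_zero (α := F)) one_ne_zero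
  rw [one_mul] at this
  exact mul_eq_left.1 this

lemma kap_sq {i i0 : I} (h1 : i ≠ i0) (h2 : i ≠ -i0) : cc y i i0 (-1 : F) * cc y i i0 (-1) = 1 := by
  have hm1 : (-1 : F) ≠ 0 := neg_ne_zero.2 one_ne_zero
  rw [cc_mul O R A h1 h2 hm1 hm1, neg_mul_neg, one_mul, kap_one' O R A h1 h2]

lemma kap_two {i i0 : I} (h1 : i ≠ i0) (h2 : i ≠ -i0) (h20 : (2 : F) = 0) : cc y i i0 (-1 : F) = 1 := by
  have e : (-1 : F) = 1 := by linear_combination -h20
  rw [e, kap_one' O R A h1 h2]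

end kappa

section model

variable {I : Type} {F W : Type u} [InvolutiveNeg I] [DecidableEq I] [Fintype I] [Field F] [AddCommGroup W] [Module F W]
variable {Q : QuadraticForm F ((I → F) × W)} {q0 : W → F} {B0 : W → W → F} (H : OQ Q q0 B0) (O : OF q0 B0)

/-- root elements in the spin group -/
noncomputable abbrev yS (Q : QuadraticForm F ((I → F) × W)) (q0 : W → F) (i j : I) (a : F) : TT Q q0 := toS (TT Q q0) (Yc Q i j a)

/-- root elements in the spin group -/
noncomputable abbrev zS (Q : QuadraticForm F ((I → F) × W)) (q0 : W → F) (i : I) (w : W) : TT Q q0 := toS (TT Q q0) (Zc Q i w)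

/-- the action of the spin group -/
noncomputable abbrev rS (Q : QuadraticForm F ((I → F) × W)) (q0 : W → F) : TT Q q0 →* (((I → F) × W) ≃ₗ[F] ((I → F) × W)) :=
  (ρc Q).comp (TT Q q0).subtype

include H O

theorem orS : OR q0 B0 (yS Q q0) (zS Q q0) := or_restrict (orc H O) rfl

theorem oaS : OA q0 B0 (yS Q q0) (zS Q q0) (rS Q q0) := oa_restrict H.ne (oac H O) rfl

theorem ogS : OGen q0 (yS Q q0) (zS Q q0) := ogen_restrict O (orc H O) rfl

theorem kapS_ne {i1 i0 : I} (k1 : i1 ≠ i0) (k2 : i1 ≠ -i0) (h : cc (yS Q q0) i1 i0 (-1) = 1) : (2 : F) = 0 := by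
  have e := map_cc (σ := (TT Q q0).subtype) (yl := yS Q q0) (y := Yc Q)
    (fun {i j} h1 h2 a => toS_coe (y_mem_gp h1 h2 a)) k1 k2 (-1)
  rw [h, _root_.map_one] at e
  exact kap_ne H O k1 k2 e.symm

/-- the multiplier of `PΩ` -/
theorem out_gen [Finite F] [Finite W] {i1 i0 : I} (k1 : i1 ≠ i0) (k2 : i1 ≠ -i0)
    (hk : ∀ g, (rS Q q0) g = 1 → g = 1 ∨ g = cc (yS Q q0) i1 i0 (-1))
    (hsec : ∀ (Γ : Type u) [Group Γ] [Finite Γ] (σ : Γ →* TT Q q0), CE σ → ∃ s : TT Q q0 →* Γ, σ.comp s = MonoidHom.id _)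
    {P : Type u} [Group P] {τ : TT Q q0 →* P} (hτ : Function.Surjective τ)
    (hker : ∀ g, τ g = 1 ↔ ((rS Q q0) g = 1 ∨ ∀ v, (rS Q q0) g v = -v))
    {A : Type} [CommGroup A] (e : Nonempty (τ.ker ≃* A)) : Cfsg.HasSchurMultiplier P A := by
  have hfin : Finite (TT Q q0) := by
    apply TT_finite (κ := ((cc (yS Q q0) i1 i0 (-1) : TT Q q0) : CP Q))
    intro g hg h
    rcases hk ⟨g, hg⟩ h with h' | h'
    · left; exact congrArg Subtype.val h'
    · right; exact congrArg Subtype.val h'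
  exact mult_assemble (TT_perfect H O) (mult_one_of_section hsec) hτ hker hk (kap_rho O (orS H O) (oaS H O) k1 k2) e

end model

end Cfsg.Agent.Stb
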