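import Cfsg.Agent.Stb.OSec
import Cfsg.Agent.Mult.SLMult

set_option autoImplicit false

/-!
Groups with the Steinberg relations of orthogonal groups: perfectness, finiteness, central elements.
-/

namespace Cfsg.Agent.Stb

open Subgroup Cfsg.Agent.Mult
open scoped commutatorElement

universe u

section general

variable {I F W G : Type*} [InvolutiveNeg I] [Field F] [AddCommGroup W] [Module F W] [Group G]
variable {q0 : W → F} {B0 : W → W → F} {y : I → I → F → G} {z : I → W → G}

/-- pulling back the relations along an injective homomorphism -/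
theorem or_of_inj {H : Type*} [Group H] {f : H →* G} (hf : Function.Injective f) {y' : I → I → F → H} {z' : I → W → H}
    (hy : ∀ {i j}, i ≠ j → i ≠ -j → ∀ a, f (y' i j a) = y i j a) (hz : ∀ i w, f (z' i w) = z i w) (R : OR q0 B0 y z) :
    OR q0 B0 y' z' := by
  refine ⟨R.ne, R.three, ?_, ?_, ?_, ?_, ?_, ?_, ?_, ?_, ?_⟩
  · intro i j h1 h2 a
    apply hf; rw [hy h1 h2, hy (i := j) (j := i) (by nx) (by nx), R.symm h1 h2]
  · intro i j h1 h2 a b
    apply hf; rw [map_mul, hy h1 h2, hy h1 h2, hy h1 h2, R.add h1 h2]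
  · intro i w w'
    apply hf; rw [map_mul, hz, hz, hz, R.zadd]
  · intro i j k h1 h2 h3 h4 h5 h6 a b
    apply hf
    rw [map_commutatorElement, hy h1 h2, hy (i := -j) (j := k) (by nx) (by nx), hy h5 h6, R.c1 h1 h2 h3 h4 h5 h6]
  · intro i j h1 h2 a b
    apply hf
    rw [map_commutatorElement, hy h1 h2, hy (i := -j) (j := i) (by nx) (by nx), R.c2 h1 h2, map_one]
  · intro i j h1 h2 w b
    apply hf
    rw [map_commutatorElement, map_mul, hy h1 h2, hy (i := -i) (j := j) (by nx) (by nx), hz, hz, R.c3 h1 h2]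
  · intro i j k l h1 h2 h3 h4 h5 h6 h7 h8 a b
    apply hf
    rw [map_commutatorElement, hy h1 h2, hy h3 h4, R.c4 h1 h2 h3 h4 h5 h6 h7 h8, map_one]
  · intro i k l h1 h2 h3 h4 w a
    apply hf
    rw [map_commutatorElement, hz, hy h1 h2, R.c5 h1 h2 h3 h4, map_one]
  · intro i j h1 h2 w w'
    apply hf
    rw [map_commutatorElement, hz, hz, hy h1 h2, R.c6 h1 h2]

/-- pulling back an element to a subgroup -/
noncomputable def toS (T : Subgroup G) (g : G) : T := by
  classical exact if h : g ∈ T then ⟨g, h⟩ else 1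

lemma toS_coe {T : Subgroup G} {g : G} (h : g ∈ T) : (toS T g : G) = g := by
  unfold toS; rw [dif_pos h]

/-- restriction of the relations to the generated subgroup -/
theorem or_restrict (R : OR q0 B0 y z) {T : Subgroup G} (hT : T = gp (OX q0 y z) (fun _ _ => True)) :
    OR q0 B0 (fun i j a => toS T (y i j a)) (fun i w => toS T (z i w)) := by
  refine or_of_inj (f := T.subtype) T.subtype_injective (y := y) (z := z) ?_ ?_ R
  · intro i j h1 h2 a
    exact toS_coe (by rw [hT]; exact y_mem_gp h1 h2 a)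
  · intro i w
    exact toS_coe (by rw [hT]; exact z_mem_gp R.ne i w)

/-- restriction of the action -/
theorem oa_restrict [DecidableEq I] [Fintype I] {ρ : G →* (((I → F) × W) ≃ₗ[F] ((I → F) × W))} (ne : ∀ i : I, -i ≠ i)
    (A : OA q0 B0 y z ρ) {T : Subgroup G} (hT : T = gp (OX q0 y z) (fun _ _ => True)) :
    OA q0 B0 (fun i j a => toS T (y i j a)) (fun i w => toS T (z i w)) (ρ.comp T.subtype) := by
  refine ⟨?_, ?_, ?_⟩
  · intro i j h1 h2 a v
    have : T.subtype (toS T (y i j a)) = y i j a := toS_coe (by rw [hT]; exact y_mem_gp h1 h2 a)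
    rw [MonoidHom.comp_apply, this]
    exact A.act_y h1 h2 a v
  · intro i w v
    have : T.subtype (toS T (z i w)) = z i w := toS_coe (by rw [hT]; exact z_mem_gp ne i w)
    rw [MonoidHom.comp_apply, this]
    exact A.act_z i w v
  · intro g u v
    exact A.form g u v

/-- the generated subgroup is generated -/
theorem ogen_restrict (O : OF q0 B0) (R : OR q0 B0 y z) {T : Subgroup G} (hT : T = gp (OX q0 y z) (fun _ _ => True)) :
    OGen q0 (fun i j a => toS T (y i j a)) (fun i w => toS T (z i w)) := by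
  have RT := or_restrict R hT
  unfold OGen
  rw [eq_top_iff]
  intro t _
  have hle : T ≤ (gp (OX q0 (fun i j a => toS T (y i j a)) (fun i w => toS T (z i w))) (fun _ _ => True)).map T.subtype := by
    conv_lhs => rw [hT]
    refine ogp_le R ?_ ?_ O
    · intro i j h1 h2 a
      exact ⟨toS T (y i j a), y_mem_gp (y := fun i j a => toS T (y i j a)) h1 h2 a, toS_coe (by rw [hT]; exact y_mem_gp h1 h2 a)⟩
    · intro i w
      exact ⟨toS T (z i w), z_mem_gp (z := fun i w => toS T (z i w)) R.ne i w, toS_coe (by rw [hT]; exact z_mem_gp R.ne i w)⟩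
  obtain ⟨s, hs, hst⟩ := hle t.2
  have : s = t := Subtype.ext hst
  rwa [← this]

/-- groups generated by root elements are perfect -/
theorem or_perfect (O : OF q0 B0) (R : OR q0 B0 y z) (hG : OGen q0 y z) : commutator G = ⊤ := by
  have ne := R.ne
  have cm : ∀ a b : G, ⁅a, b⁆ ∈ commutator G := fun a b => Subgroup.commutator_mem_commutator (mem_top _) (mem_top _)
  have hy : ∀ i j, i ≠ j → i ≠ -j → ∀ a, y i j a ∈ commutator G := by
    intro i j h1 h2 a
    obtain ⟨k, k1, k2, k3, k4⟩ := R.three i j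
    have := R.c1 (i := i) (j := k) (k := j) (by nx) (by nx) (by nx) (by nx) h1 h2 a 1
    rw [mul_one] at this
    rw [← this]
    exact cm _ _
  unfold OGen at hG
  rw [← top_le_iff, ← hG]
  refine ogp_le R hy ?_ O
  intro j w
  obtain ⟨i, i1, i2, -⟩ := R.three j j
  have h := R.c3 (i := i) (j := j) (by nx) (by nx) w 1
  rw [one_smul] at h
  have h2 : z j w = (y i j (-(q0 w * 1)))⁻¹ * ⁅z i w, y (-i) j 1⁆ := by rw [h]; group
  rw [h2]
  exact mul_mem (inv_mem (hy i j (by nx) (by nx) _)) (cm _ _)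

end general

/-- a central modulo central element of a perfect group is central -/
theorem perfect_central {G : Type*} [Group G] (hp : commutator G = ⊤) {g : G} (h : ∀ t : G, g * t * g⁻¹ * t⁻¹ ∈ center G) :
    g ∈ center G := by
  have hle : commutator G ≤ centralizer {g} := by
    rw [commutator_def, Subgroup.commutator_le]
    intro a _ b _
    rw [mem_centralizer_singleton_iff]
    have ha := h a
    have hb := h b
    set s := g * a * g⁻¹ * a⁻¹ with hs
    set t := g * b * g⁻¹ * b⁻¹ with ht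
    have e1 : g * a * g⁻¹ = s * a := by rw [hs]; group
    have e2 : g * b * g⁻¹ = t * b := by rw [ht]; group
    have cs := mem_center_iff.1 ha
    have ct := mem_center_iff.1 hb
    have e3 : g * ⁅a, b⁆ * g⁻¹ = ⁅a, b⁆ := by
      have : g * ⁅a, b⁆ * g⁻¹ = ⁅g * a * g⁻¹, g * b * g⁻¹⁆ := by
        simp only [commutatorElement_def]; group
      rw [this, e1, e2, commutatorElement_def, commutatorElement_def]
      calc s * a * (t * b) * (s * a)⁻¹ * (t * b)⁻¹ = s * (a * t) * b * a⁻¹ * s⁻¹ * b⁻¹ * t⁻¹ := by group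
        _ = s * (t * a) * b * a⁻¹ * s⁻¹ * b⁻¹ * t⁻¹ := by rw [ct a]
        _ = (s * (t * a * b * a⁻¹)) * s⁻¹ * b⁻¹ * t⁻¹ := by group
        _ = ((t * a * b * a⁻¹) * s) * s⁻¹ * b⁻¹ * t⁻¹ := by rw [cs]
        _ = t * (a * b * a⁻¹ * b⁻¹) * t⁻¹ := by group
        _ = (a * b * a⁻¹ * b⁻¹) * t * t⁻¹ := by rw [ct]
        _ = a * b * a⁻¹ * b⁻¹ := by group
    calc ⁅a, b⁆ * g = g * ⁅a, b⁆ * g⁻¹ * g := by rw [e3]
      _ = g * ⁅a, b⁆ := by group
  rw [hp] at hle
  rw [mem_center_iff]
  intro t
  exact mem_centralizer_singleton_iff.1 (hle (mem_top t))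

section assemble

variable {F V : Type*} {G : Type u} [Field F] [AddCommGroup V] [Module F V] [Group G] {ρ : G →* (V ≃ₗ[F] V)} {κ : G}

lemma κ_central (hk : ∀ g, ρ g = 1 → g = 1 ∨ g = κ) (hκ : ρ κ = 1) : κ ∈ center G := by
  rw [mem_center_iff]
  intro t
  have h1 : ρ (t * κ * t⁻¹) = 1 := by rw [map_mul, map_mul, hκ, mul_one, ← map_mul, mul_inv_cancel, map_one]
  rcases hk _ h1 with h | h
  · have : κ = 1 := by
      have := congrArg (fun g => t⁻¹ * g * t) h
      simpa [mul_assoc] using this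
    rw [this]; group
  · rw [mul_inv_eq_iff_eq_mul] at h; exact h

lemma neg_central (hp : commutator G = ⊤) (hk : ∀ g, ρ g = 1 → g = 1 ∨ g = κ) (hκ : ρ κ = 1) {g : G} (hg : ∀ v, ρ g v = -v) :
    g ∈ center G := by
  apply perfect_central hp
  intro t
  have h1 : ρ (g * t * g⁻¹ * t⁻¹) = 1 := by
    have hg' : ∀ v, ρ g⁻¹ v = -v := by
      intro v
      have h2 : ρ g⁻¹ (ρ g v) = v := by
        change (ρ g⁻¹ * ρ g) v = v
        rw [← map_mul, inv_mul_cancel, map_one]; rfl
      rw [hg, map_neg] at h2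
      rw [← neg_eq_iff_eq_neg, h2]
    have ht : ∀ v, ρ t (ρ t⁻¹ v) = v := by
      intro v
      change (ρ t * ρ t⁻¹) v = v
      rw [← map_mul, mul_inv_cancel, map_one]; rfl
    apply LinearEquiv.ext
    intro v
    rw [map_mul, map_mul, map_mul]
    change ρ g (ρ t (ρ g⁻¹ (ρ t⁻¹ v))) = v
    rw [hg', map_neg, ht, hg, neg_neg]
  rcases hk _ h1 with h | h
  · rw [h]; exact one_mem _
  · rw [h]; exact κ_central hk hκ

/-- the multiplier of the central quotient -/
theorem mult_assemble [Finite G] (hp : commutator G = ⊤) (h1 : HasCyclicSchurMultiplier G 1) {P : Type u} [Group P]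
    {τ : G →* P} (hτ : Function.Surjective τ) (hker : ∀ g, τ g = 1 ↔ (ρ g = 1 ∨ ∀ v, ρ g v = -v))
    (hk : ∀ g, ρ g = 1 → g = 1 ∨ g = κ) (hκ : ρ κ = 1) {A : Type} [CommGroup A] (e : Nonempty (τ.ker ≃* A)) :
    HasSchurMultiplier P A := by
  obtain ⟨e⟩ := e
  refine mult_of_central hp h1 τ hτ ?_ e
  intro g hg
  rcases (hker g).1 hg with h | h
  · rcases hk g h with h' | h'
    · rw [h']; exact one_mem _
    · rw [h']; exact κ_central hk hκ
  · exact neg_central hp hk hκ h

variable {P : Type*} [Group P] {τ : G →* P} (hker : ∀ g, τ g = 1 ↔ (ρ g = 1 ∨ ∀ v, ρ g v = -v))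
  (hk : ∀ g, ρ g = 1 → g = 1 ∨ g = κ) (hκ : ρ κ = 1)

include hker hk

/-- trivial kernel -/
theorem ker_triv (h2 : ∀ v : V, -v = v) (h1 : κ = 1) {A : Type} [CommGroup A] [Unique A] : Nonempty (τ.ker ≃* A) := by
  have hb : τ.ker = ⊥ := by
    rw [eq_bot_iff]
    intro g hg
    have h3 : ρ g = 1 := by
      rcases (hker g).1 hg with h | h
      · exact h
      · apply LinearEquiv.ext; intro v; rw [h, h2]; rfl
    rw [mem_bot]
    rcases hk g h3 with h | h
    · exact h
    · rw [h, h1]
  have : Unique τ.ker := by rw [hb]; infer_instance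
  exact ⟨MulEquiv.ofUnique⟩

include hκ

/-- kernel of order two -/
theorem ker_two (h1 : κ ≠ 1) (hn : ¬ ∃ g : G, ∀ v, ρ g v = -v) : Nonempty (τ.ker ≃* Multiplicative (ZMod 2)) := by
  have hcard : Nat.card τ.ker = 2 := by
    rw [Nat.card_eq_two_iff]
    have hκ' : κ ∈ τ.ker := (hker κ).2 (Or.inl hκ)
    refine ⟨1, ⟨κ, hκ'⟩, ?_, ?_⟩
    · intro h; exact h1 (congrArg Subtype.val h).symm
    · rw [Set.eq_univ_iff_forall]
      rintro ⟨g, hg⟩
      rcases (hker g).1 hg with h | h
      · rcases hk g h with h' | h'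
        · left; exact Subtype.ext h'
        · right; rw [Set.mem_singleton_iff]; exact Subtype.ext h'
      · exact absurd ⟨g, h⟩ hn
  have h2 : Nat.card (Multiplicative (ZMod 2)) = 2 := by
    change Nat.card (ZMod 2) = 2
    exact Nat.card_zmod 2
  have : Fact (Nat.Prime 2) := ⟨Nat.prime_two⟩
  exact ⟨mulEquivOfPrimeCardEq hcard h2⟩

/-- the kernel has four elements -/
theorem ker_four {s : G} (hs : ∀ v, ρ s v = -v) {g : G} (hg : g ∈ τ.ker) :
    g = 1 ∨ g = κ ∨ g = s ∨ g = s * κ := by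
  rcases (hker g).1 hg with h | h
  · rcases hk g h with h' | h'
    · exact Or.inl h'
    · exact Or.inr (Or.inl h')
  · have h3 : ρ (s⁻¹ * g) = 1 := by
      have hs' : ∀ v, ρ s⁻¹ v = -v := by
        intro v
        have h2 : ρ s⁻¹ (ρ s v) = v := by
          change (ρ s⁻¹ * ρ s) v = v
          rw [← map_mul, inv_mul_cancel, map_one]; rfl
        rw [hs, map_neg] at h2
        rw [← neg_eq_iff_eq_neg, h2]
      apply LinearEquiv.ext
      intro v
      rw [map_mul]
      change ρ s⁻¹ (ρ g v) = v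
      rw [h, hs', neg_neg]
    rcases hk _ h3 with h' | h'
    · right; right; left
      rw [inv_mul_eq_one] at h'; exact h'.symm
    · right; right; right
      rw [inv_mul_eq_iff_eq_mul] at h'; exact h'

/-- cyclic kernel of order four -/
theorem ker_cyc (h1 : κ ≠ 1) {s : G} (hs : ∀ v, ρ s v = -v) (hs2 : s * s = κ) (hκ2 : κ * κ = 1) :
    Nonempty (τ.ker ≃* Multiplicative (ZMod 4)) := by
  have hs' : s ∈ τ.ker := (hker s).2 (Or.inr hs)
  have hord : orderOf s = 4 := by
    have : orderOf s = 2 ^ (1 + 1) := by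
      apply orderOf_eq_prime_pow
      · rw [pow_one, pow_two, hs2]; exact h1
      · change s ^ 4 = 1
        rw [show (4 : ℕ) = 2 * 2 from rfl, pow_mul, pow_two s, hs2, pow_two, hκ2]
    rw [this]; norm_num
  have hz : τ.ker = zpowers s := by
    apply le_antisymm
    · intro g hg
      rcases ker_four hker hk hκ hs hg with h | h | h | h
      · rw [h]; exact one_mem _
      · rw [h, ← hs2]; exact mul_mem (mem_zpowers s) (mem_zpowers s)
      · rw [h]; exact mem_zpowers s
      · rw [h, ← hs2]; exact mul_mem (mem_zpowers s) (mul_mem (mem_zpowers s) (mem_zpowers s))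
    · rw [zpowers_le]; exact hs'
  have hcard : Nat.card τ.ker = 4 := by rw [hz, Nat.card_zpowers, hord]
  have : IsCyclic τ.ker := by rw [hz]; infer_instance
  have e := zmodCyclicMulEquiv (G := τ.ker) this
  rw [hcard] at e
  exact ⟨e.symm⟩

/-- Klein four kernel -/
theorem ker_klein (h1 : κ ≠ 1) (hV : ∃ v : V, -v ≠ v) {s : G} (hs : ∀ v, ρ s v = -v) (hs2 : s * s = 1) (hκ2 : κ * κ = 1)
    (hcomm : s * κ = κ * s) : Nonempty (τ.ker ≃* Multiplicative (ZMod 2 × ZMod 2)) := by
  have hs' : s ∈ τ.ker := (hker s).2 (Or.inr hs)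
  have hκ' : κ ∈ τ.ker := (hker κ).2 (Or.inl hκ)
  obtain ⟨v, hv⟩ := hV
  have hsκ : s ≠ κ := fun e => hv (by rw [← hs v, e, hκ]; rfl)
  have hs1 : s ≠ 1 := fun e => hv (by rw [← hs v, e, map_one]; rfl)
  have hκs1 : s * κ ≠ 1 := fun e => hsκ (by
    have := eq_inv_of_mul_eq_one_left e
    rw [this, inv_eq_iff_mul_eq_one, hκ2])
  have hκs2 : s * κ ≠ κ := fun e => hs1 (mul_eq_right.1 e)
  have hκs3 : s * κ ≠ s := fun e => h1 (mul_eq_left.1 e)
  have hall := fun g hg => ker_four (g := g) hker hk hκ hs hg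
  have hcard : Nat.card τ.ker = 4 := by
    have he : (τ.ker : Set G) = ({1, κ, s, s * κ} : Set G) := by
      ext g
      simp only [Set.mem_insert_iff, Set.mem_singleton_iff]
      constructor
      · exact hall g
      · rintro (h | h | h | h)
        · rw [h]; exact one_mem _
        · rw [h]; exact hκ'
        · rw [h]; exact hs'
        · rw [h]; exact mul_mem hs' hκ'
    have h2 : Nat.card τ.ker = (τ.ker : Set G).ncard := Nat.card_coe_set_eq _
    rw [h2, he, Set.ncard_insert_of_notMem, Set.ncard_insert_of_notMem, Set.ncard_pair hκs3.symm]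
    · simp only [Set.mem_insert_iff, Set.mem_singleton_iff, not_or]
      exact ⟨hsκ.symm, hκs2.symm⟩
    · simp only [Set.mem_insert_iff, Set.mem_singleton_iff, not_or]
      exact ⟨h1.symm, hs1.symm, hκs1.symm⟩
  have hexp : ∀ g : τ.ker, g ^ 2 = 1 := by
    rintro ⟨g, hg⟩
    apply Subtype.ext
    change g ^ 2 = 1
    rcases hall g hg with h | h | h | h
    · rw [h, one_pow]
    · rw [h, pow_two, hκ2]
    · rw [h, pow_two, hs2]
    · rw [h, pow_two]
      calc s * κ * (s * κ) = s * (κ * s) * κ := by group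
        _ = s * (s * κ) * κ := by rw [hcomm]
        _ = (s * s) * (κ * κ) := by group
        _ = 1 := by rw [hs2, hκ2, one_mul]
  have hK : IsKleinFour τ.ker := by
    refine ⟨hcard, ?_⟩
    apply Nat.dvd_antisymm
    · exact Monoid.exponent_dvd_of_forall_pow_eq_one hexp
    · have h3 : Monoid.exponent τ.ker ≠ 1 := by
        rw [Ne, Monoid.exp_eq_one_iff]
        intro hsub
        have : Nat.card τ.ker ≤ 1 := Finite.card_le_one_iff_subsingleton.2 hsub
        omega
      have h4 : Monoid.exponent τ.ker ∣ 2 := Monoid.exponent_dvd_of_forall_pow_eq_one hexp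
      rcases (Nat.dvd_prime Nat.prime_two).1 h4 with h5 | h5
      · exact absurd h5 h3
      · rw [h5]
  exact IsKleinFour.nonempty_mulEquiv

end assemble

end Cfsg.Agent.Stb
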