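import Cfsg.Agent.Stb.OElt
import Cfsg.Agent.Stb.OKap
import Cfsg.Agent.OMax.Gen
import Cfsg.Agent.ClassO.Card
import Cfsg.Agent.Orth.HermQuad

set_option autoImplicit false

/-!
The spin group maps onto the commutator subgroup of the orthogonal group.
-/

namespace Cfsg.Agent.Stb

open QuadraticMap Cfsg.Agent.Orth Cfsg.Agent.OMax Subgroup Module

universe u

variable {I F W : Type*} [InvolutiveNeg I] [DecidableEq I] [Fintype I] [Field F] [AddCommGroup W] [Module F W]
variable {Q : QuadraticForm F ((I → F) × W)} {q0 : W → F} {B0 : W → W → F} (H : OQ Q q0 B0) (O : OF q0 B0)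

/-- the spin group -/
noncomputable def TT (Q : QuadraticForm F ((I → F) × W)) (q0 : W → F) : Subgroup (CP Q) := gp (OX q0 (Yc Q) (Zc Q)) (fun _ _ => True)

include H O

lemma hasE_aux {M : Subgroup (OGrp Q)} (hM : ∀ g ∈ TT Q q0, g.2 ∈ M) (i : I) (b : (I → F) × W) (hb : polar Q (eh i) b = 0) :
    HasE M (eh i) b := by
  have ne := H.ne
  rw [pol_e H O] at hb
  have hsum : ∀ (s : Finset I), HasE M (eh i) (∑ p ∈ s, b.1 p • (eh p : (I → F) × W)) := by
    intro s
    induction s using Finset.induction_on with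
    | empty => rw [Finset.sum_empty]; exact HasE.zero (H.qe i)
    | insert p s hp ih =>
      rw [Finset.sum_insert hp]
      refine HasE.add ?_ ih
      by_cases c1 : p = i
      · rw [c1]; exact HasE.smul_self (H.qe i) _
      by_cases c2 : p = -i
      · rw [c2, hb, zero_smul]; exact HasE.zero (H.qe i)
      have n1 : i ≠ p := Ne.symm c1
      have n2 : i ≠ -p := fun e => c2 (by rw [e, neg_neg])
      have h1 := pol_eae H O n2 (b.1 p)
      refine ⟨H.qe i, h1, ?_⟩
      have h2 := hM _ (y_mem_gp (q0 := q0) (y := Yc Q) (z := Zc Q) n1 n2 (b.1 p))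
      unfold Yc at h2
      rwa [EE_eq (H.qe i) h1] at h2
  rw [vec_eq b]
  refine HasE.add (hsum _) ?_
  have h1 : polar Q (eh i) (wh b.2) = 0 := pol_ew H O i b.2
  have h1' : polar Q (eh i) (-wh (-b.2)) = 0 := by rw [polar_neg_right, pol_ew H O, neg_zero]
  refine ⟨H.qe i, h1, ?_⟩
  have h2 := hM _ (z_mem_gp (q0 := q0) (y := Yc Q) (z := Zc Q) ne i (-b.2))
  unfold Zc at h2
  rw [EE_eq (H.qe i) h1'] at h2
  have e : (wh b.2 : (I → F) × W) = -wh (-b.2) := by
    refine Prod.ext ?_ ?_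
    · funext q; simp [wh]
    · simp [wh]
  have h3 : eich Q (eh i) (wh b.2) (H.qe i) h1 = eich Q (eh i) (-wh (-b.2)) (H.qe i) h1' := by
    congr 1
  rw [h3]; exact h2

/-- surjectivity onto the commutator subgroup -/
theorem comm_le_TT [Finite F] [FiniteDimensional F W] (hQ : (polarBilin Q).Nondegenerate)
    (hn : 7 ≤ finrank F ((I → F) × W)) [Nonempty I] : commutator (OGrp Q) ≤ (TT Q q0).map (MonoidHom.snd _ _) := by
  have ne := H.ne
  obtain ⟨i⟩ := (inferInstance : Nonempty I)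
  have hM : ∀ g ∈ TT Q q0, g.2 ∈ (TT Q q0).map (MonoidHom.snd _ _) := fun g hg => ⟨g, hg, rfl⟩
  refine comm_le_of_two hQ hn (a := eh i) (a' := eh (-i)) (H.qe i) (H.qe (-i)) ?_ ?_ ?_
  · rw [pol_ee H O, if_pos rfl]; exact one_ne_zero
  · intro b hb; exact hasE_aux H O hM i b hb
  · intro b hb; exact hasE_aux H O hM (-i) b hb

lemma TT_perfect : commutator (TT Q q0) = ⊤ :=
  or_perfect O (or_restrict (orc H O) rfl) (ogen_restrict O (orc H O) rfl)

theorem TT_map_le : (TT Q q0).map (MonoidHom.snd _ _) ≤ commutator (OGrp Q) := by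
  intro g hg
  obtain ⟨t, ht, rfl⟩ := hg
  have h1 : (⟨t, ht⟩ : TT Q q0) ∈ commutator (TT Q q0) := by rw [TT_perfect H O]; exact mem_top _
  have h2 : ((MonoidHom.snd _ _).comp (TT Q q0).subtype : TT Q q0 →* OGrp Q) ⟨t, ht⟩ ∈
      (commutator (TT Q q0)).map ((MonoidHom.snd _ _).comp (TT Q q0).subtype) := ⟨_, h1, rfl⟩
  rw [map_commutator_eq] at h2
  exact (Subgroup.commutator_mono le_top le_top : ⁅_, _⁆ ≤ commutator (OGrp Q)) h2

omit H O in
/-- finiteness -/
theorem TT_finite [Finite F] [Finite W] {κ : CP Q} (hk : ∀ g ∈ TT Q q0, ρc Q g = 1 → g = 1 ∨ g = κ) : Finite (TT Q q0) := by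
  let f : TT Q q0 → (((I → F) × W) ≃ₗ[F] ((I → F) × W)) := fun g => ρc Q g
  have hfin : Finite (((I → F) × W) ≃ₗ[F] ((I → F) × W)) := DFunLike.finite _
  rw [← Set.finite_univ_iff]
  refine Set.Finite.of_finite_fibers f (Set.toFinite _) ?_
  rintro x ⟨g0, -, rfl⟩
  refine ((Set.finite_singleton g0).union (Set.finite_singleton (g0 * toS _ κ))).subset ?_
  rintro g ⟨-, hg⟩
  have h1 : ρc Q ((g0 : CP Q)⁻¹ * g) = 1 := by
    rw [_root_.map_mul, map_inv, inv_mul_eq_one]; exact (Set.mem_singleton_iff.1 hg).symm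
  rcases hk _ (mul_mem (inv_mem g0.2) g.2) h1 with h | h
  · left
    rw [Set.mem_singleton_iff]
    exact Subtype.ext (inv_mul_eq_one.1 h).symm
  · right
    rw [Set.mem_singleton_iff]
    have hκ : κ ∈ TT Q q0 := by rw [← h]; exact mul_mem (inv_mem g0.2) g.2
    apply Subtype.ext
    rw [Subgroup.coe_mul, toS_coe hκ]
    exact (inv_mul_eq_iff_eq_mul.1 h)

end Cfsg.Agent.Stb
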