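import Cfsg.Agent.Stb.SpMat
import Cfsg.Agent.Mult.SLMult

set_option autoImplicit false

/-!
Root elements of type `C` which commute have commuting lifts in every central extension.
-/

namespace Cfsg.Agent.Stb

open Subgroup Cfsg.Agent.Mult
open scoped commutatorElement

/-- closes inequalities between signed indices -/
macro "nn" : tactic => `(tactic| (first
  | assumption
  | (intro e; exact absurd e.symm (by assumption))
  | (simp only [neg_neg, ne_eq, neg_inj, neg_eq_iff_eq_neg]; first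
      | assumption
      | exact Ne.symm (by assumption)
      | (intro e; exact absurd (neg_eq_iff_eq_neg.1 e.symm) (by assumption)))))

section calculus

variable {Γ G : Type*} [Group Γ] [Group G] {σ : Γ →* G} (C : CE σ)

lemma tr_one (g : G) : C.Tr g 1 := C.cm_one_right g

lemma cm_mul_left' {g g' h : G} (h1 : C.Tr g ⁅g', h⁆) : C.cm (g * g') h = C.cm g' h * C.cm g h := by
  rw [C.cm_mul_left]
  rw [← C.σ_cm] at h1
  rw [h1.cj_eq]

lemma cm_mul_right' {g h h' : G} (h1 : C.Tr h ⁅g, h'⁆) : C.cm g (h * h') = C.cm g h * C.cm g h' := by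
  rw [C.cm_mul_right]
  rw [← C.σ_cm] at h1
  rw [h1.cj_eq]

lemma cm_mul_left_c {g g' h : G} (h1 : g' * h = h * g') : C.cm (g * g') h = C.cm g' h * C.cm g h :=
  cm_mul_left' C (by rw [commutatorElement_eq_one_iff_mul_comm.2 h1]; exact tr_one C g)

lemma cm_mul_right_c {g h h' : G} (h1 : g * h' = h' * g) : C.cm g (h * h') = C.cm g h * C.cm g h' :=
  cm_mul_right' C (by rw [commutatorElement_eq_one_iff_mul_comm.2 h1]; exact tr_one C h)

end calculus

variable {I F G Γ : Type*} [InvolutiveNeg I] [DecidableEq I] [Field F] [Group G] [Group Γ]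

/-- torus elements acting on the root elements -/
structure SpD (x : I → I → F → G) (h : (I → Fˣ) → G) : Prop where
  act : ∀ s : I → Fˣ, (∀ i, s (-i) = (s i)⁻¹) → ∀ i j, i ≠ -j → ∀ a, h s * x i j a = x i j (s i * s j * a) * h s
  comm : ∀ s t : I → Fˣ, (∀ i, s (-i) = (s i)⁻¹) → (∀ i, t (-i) = (t i)⁻¹) → h s * h t = h t * h s

/-- the basic cocharacters -/
def sg (i : I) (c : Fˣ) : I → Fˣ := fun p => if p = i then c else if p = -i then c⁻¹ else 1

lemma sg_neg (ne : ∀ i : I, -i ≠ i) (i : I) (c : Fˣ) (p : I) : sg i c (-p) = (sg i c p)⁻¹ := by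
  unfold sg
  have b1 : (-p = i) ↔ (p = -i) := neg_eq_iff_eq_neg
  have b2 : (-p = -i) ↔ (p = i) := neg_inj
  simp only [b1, b2]
  by_cases h1 : p = i
  · subst h1
    have : p ≠ -p := (ne p).symm
    simp [this]
  · by_cases h2 : p = -i
    · subst h2; simp [ne i]
    · simp [h1, h2]

lemma sg_self (i : I) (c : Fˣ) : sg i c i = c := by simp [sg]

lemma sg_of {i p : I} (h1 : p ≠ i) (h2 : p ≠ -i) (c : Fˣ) : sg i c p = 1 := by simp [sg, h1, h2]

lemma sg_negself (ne : ∀ i : I, -i ≠ i) (i : I) (c : Fˣ) : sg i c (-i) = c⁻¹ := by simp [sg, ne i]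

/-- conditions on rank and field -/
structure OKSp (I F : Type*) [InvolutiveNeg I] [Field F] : Prop where
  ok : (∃ s : Fˣ, s ^ 2 ≠ 1) ∨ ((2 : F) ≠ 0 ∧ (∀ a : F, a = 0 ∨ a = 1 ∨ a = -1)) ∨
    ((2 : F) = 0 ∧ (∀ a : F, a = 0 ∨ a = 1) ∧ ∀ i j k : I, ∃ l, l ≠ i ∧ l ≠ -i ∧ l ≠ j ∧ l ≠ -j ∧ l ≠ k ∧ l ≠ -k)

variable {ε : I → F} {x : I → I → F → G} (R : SpR ε x) {h : (I → Fˣ) → G} (D : SpD x h) (H : OKSp I F)
  {σ : Γ →* G} (C : CE σ)

omit [DecidableEq I] in
lemma two_or (H : OKSp I F) : (∃ b : F, b ≠ 0 ∧ b ≠ 1) ∨ (∀ a : F, a = 0 ∨ a = 1) := by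
  by_cases h : ∃ b : F, b ≠ 0 ∧ b ≠ 1
  · exact Or.inl h
  · push Not at h
    right
    intro a
    by_cases ha : a = 0
    · exact Or.inl ha
    · exact Or.inr (h a ha)

include R in
omit [DecidableEq I] in
lemma xc {i j k l : I} (h1 : i ≠ -j) (h2 : k ≠ -l) (h3 : k ≠ -i) (h4 : k ≠ -j) (h5 : l ≠ -i) (h6 : l ≠ -j) (a b : F) :
    x i j a * x k l b = x k l b * x i j a := by
  rw [← commutatorElement_eq_one_iff_mul_comm]; exact R.c4 h1 h2 h3 h4 h5 h6 a b

include R in
omit [DecidableEq I] in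
/-- additivity of the pairing in the first variable -/
lemma cm_addl {i j k l : I} (h1 : i ≠ -j) (h2 : k ≠ -l) (h3 : k ≠ -i) (h4 : k ≠ -j) (h5 : l ≠ -i) (h6 : l ≠ -j) (a a' b : F) :
    C.cm (x i j (a + a')) (x k l b) = C.cm (x i j a) (x k l b) * C.cm (x i j a') (x k l b) := by
  rw [R.add h1, cm_mul_left_c C (xc R h1 h2 h3 h4 h5 h6 _ _)]
  exact mem_center_iff.1 (C.cm_mem_center (R.c4 h1 h2 h3 h4 h5 h6 a b)) _

include R in
omit [DecidableEq I] in
lemma cm_addr {i j k l : I} (h1 : i ≠ -j) (h2 : k ≠ -l) (h3 : k ≠ -i) (h4 : k ≠ -j) (h5 : l ≠ -i) (h6 : l ≠ -j) (a b b' : F) :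
    C.cm (x i j a) (x k l (b + b')) = C.cm (x i j a) (x k l b) * C.cm (x i j a) (x k l b') := by
  rw [R.add h2, cm_mul_right_c C (xc R h1 h2 h3 h4 h5 h6 _ _)]

include R in
omit [DecidableEq I] in
lemma c3' {i j : I} (h1 : i ≠ j) (h2 : i ≠ -j) (a b : F) :
    ⁅x j j a, x (-j) i b⁆ = x i j (ε j * a * b) * x i i (-(a * b ^ 2)) := by
  rw [R.c3 (i := j) (j := i) (by nn) (by nn), R.symm j i]

include R H in
omit [DecidableEq I] in
/-- long root elements for the same root, and adjacent short root elements -/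
lemma tr_long {i j : I} (h1 : i ≠ j) (h2 : i ≠ -j) (a c : F) :
    C.Tr (x i i c) (x i i a) ∧ C.Tr (x i i c) (x i j a) := by
  have n1 : i ≠ -i := (R.ne i).symm
  have n2 : j ≠ -j := (R.ne j).symm
  have hE : ∀ a b : F, C.cm (x i i c) (x i j (ε j * a * b)) * C.cm (x i i c) (x i i (-(a * b ^ 2))) = 1 := by
    intro a b
    have h3 : C.Tr (x i i c) ⁅x j j a, x (-j) i b⁆ := C.tr_comm
      (xc R n1 n2 (by nn) (by nn) (by nn) (by nn) _ _) (xc R n1 (by nn) (by nn) (by nn) (by nn) (by nn) _ _)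
    rw [c3' R h1 h2] at h3
    have h4 := cm_mul_right_c C (g := x i i c) (h := x i j (ε j * a * b)) (h' := x i i (-(a * b ^ 2)))
      (xc R n1 n1 (by nn) (by nn) (by nn) (by nn) _ _)
    rw [show C.cm (x i i c) _ = 1 from h3] at h4
    exact h4.symm
  have ad := cm_addr R C (i := i) (j := i) (k := i) (l := i) n1 n1 n1 n1 n1 n1 c
  have E0 : C.cm (x i i c) (x i i 0) = 1 := by rw [R.zero n1]; exact tr_one C _
  have En : ∀ a, C.cm (x i i c) (x i i (-a)) = (C.cm (x i i c) (x i i a))⁻¹ := by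
    intro a
    rw [eq_inv_iff_mul_eq_one, ← ad, neg_add_cancel, E0]
  have hD : ∀ a : F, C.cm (x i i c) (x i j (ε j * a)) = C.cm (x i i c) (x i i a) := by
    intro a
    have h3 := hE a 1
    rw [mul_one, one_pow, mul_one, En] at h3
    exact mul_inv_eq_one.1 h3
  have hE2 : ∀ a b : F, C.cm (x i i c) (x i i (a * b * (1 - b))) = 1 := by
    intro a b
    have h3 := hE a b
    rw [mul_assoc, hD, ← ad] at h3
    rw [show a * b * (1 - b) = a * b + -(a * b ^ 2) by ring]
    exact h3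
  have hE3 : ∀ a : F, C.Tr (x i i c) (x i i a) := by
    rcases two_or H with ⟨b, hb0, hb1⟩ | hall
    · intro a
      have h3 := hE2 (a / (b * (1 - b))) b
      have hb2 : (1 : F) - b ≠ 0 := sub_ne_zero.2 (Ne.symm hb1)
      rwa [show a / (b * (1 - b)) * b * (1 - b) = a by field_simp] at h3
    · intro a
      rcases hall a with rfl | rfl
      · exact E0
      · rcases hall c with rfl | rfl
        · rw [R.zero n1]; exact C.cm_one_left _
        · obtain ⟨z, hz⟩ := C.surj (x i i 1)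
          rw [← hz, C.tr_iff]
  refine ⟨hE3 a, ?_⟩
  have h3 := hD (ε j * a)
  rw [← mul_assoc, R.eps, one_mul] at h3
  exact h3.trans (hE3 _)

include R H in
omit [DecidableEq I] in
lemma tr_P0L (i : I) (a c : F) : C.Tr (x i i c) (x i i a) := by
  obtain ⟨j, h1, h2⟩ := R.two i
  exact (tr_long R H C (i := i) (j := j) (by nn) (by nn) a c).1

include R H in
omit [DecidableEq I] in
lemma tr_P3 {i j : I} (h1 : i ≠ j) (h2 : i ≠ -j) (a c : F) : C.Tr (x i i c) (x i j a) :=
  (tr_long R H C h1 h2 a c).2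

include R H in
omit [DecidableEq I] in
lemma tr_P3' {i j : I} (h1 : i ≠ j) (h2 : i ≠ -j) (a c : F) : C.Tr (x j j c) (x i j a) := by
  rw [R.symm i j]; exact tr_P3 R H C (i := j) (j := i) (by nn) (by nn) a c

include R H in
omit [DecidableEq I] in
/-- the transfer formula -/
lemma star {i j : I} (h1 : i ≠ j) (h2 : i ≠ -j) (a b c : F) :
    C.cm (x i j (-(ε j * a * b))) (x i j c) * C.cm (x j j a) (x i i (-(2 * ε j * c * b))) = 1 := by
  have n1 : i ≠ -i := (R.ne i).symm
  have n2 : j ≠ -j := (R.ne j).symm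
  have e1 : x (-j) i b * x j j a * (x (-j) i b)⁻¹ = x i i (a * b ^ 2) * x i j (-(ε j * a * b)) * x j j a := by
    have h3 := c3' R h1 h2 a b
    rw [commutatorElement_def] at h3
    have h4 : x (-j) i b * x j j a * (x (-j) i b)⁻¹ = (x i j (ε j * a * b) * x i i (-(a * b ^ 2)))⁻¹ * x j j a := by
      rw [← h3]; group
    rw [h4, mul_inv_rev, ← R.neg n1, ← R.neg h2, neg_neg]
  have e2 : x (-j) i b * x i j c * (x (-j) i b)⁻¹ = x i i (-(2 * ε j * c * b)) * x i j c := by
    have h3 := R.c2 h1 h2 c b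
    rw [commutatorElement_def] at h3
    have h4 : x (-j) i b * x i j c * (x (-j) i b)⁻¹ = (x i i (2 * ε j * c * b))⁻¹ * x i j c := by
      rw [← h3]; group
    rw [h4, ← R.neg n1]
  have h3 := (tr_P3' R H C h1 h2 c a).conj (x (-j) i b)
  rw [e1, e2] at h3
  have k1 := tr_P0L R H C i (-(2 * ε j * c * b)) (a * b ^ 2)
  have k2 := tr_P3 R H C h1 h2 c (a * b ^ 2)
  have k3 := (tr_P3 R H C h1 h2 (-(ε j * a * b)) (-(2 * ε j * c * b))).symm
  have k4 := tr_P3' R H C h1 h2 c a
  -- expand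
  have m1 : C.cm (x i i (a * b ^ 2) * x i j (-(ε j * a * b)) * x j j a) (x i i (-(2 * ε j * c * b)) * x i j c) =
      C.cm (x i i (a * b ^ 2) * x i j (-(ε j * a * b)) * x j j a) (x i i (-(2 * ε j * c * b))) *
      C.cm (x i i (a * b ^ 2) * x i j (-(ε j * a * b)) * x j j a) (x i j c) := by
    apply cm_mul_right_c
    rw [mul_assoc, xc R n2 h2 (by nn) (by nn) (by nn) (by nn), ← mul_assoc, mul_assoc (x i i _),
      xc R h2 h2 (by nn) (by nn) (by nn) (by nn) _ c, ← mul_assoc, xc R n1 h2 (by nn) (by nn) (by nn) (by nn) _ c]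
    group
  have m2 : ∀ (k l : I) (d : F), k ≠ -l → (k = i ∧ l = i) ∨ (k = i ∧ l = j) →
      C.cm (x i i (a * b ^ 2) * x i j (-(ε j * a * b)) * x j j a) (x k l d) =
      C.cm (x j j a) (x k l d) * (C.cm (x i j (-(ε j * a * b))) (x k l d) * C.cm (x i i (a * b ^ 2)) (x k l d)) := by
    rintro k l d hkl (⟨rfl, rfl⟩ | ⟨rfl, rfl⟩)
    · rw [cm_mul_left_c C (xc R n2 hkl (by nn) (by nn) (by nn) (by nn) _ _),
        cm_mul_left_c C (xc R h2 hkl (by nn) (by nn) (by nn) (by nn) _ _)]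
    · rw [cm_mul_left_c C (xc R n2 hkl (by nn) (by nn) (by nn) (by nn) _ _),
        cm_mul_left_c C (xc R h2 hkl (by nn) (by nn) (by nn) (by nn) _ _)]
  rw [show C.cm _ _ = 1 from h3, m2 i i _ n1 (Or.inl ⟨rfl, rfl⟩), m2 i j _ h2 (Or.inr ⟨rfl, rfl⟩),
    show C.cm (x i i (a * b ^ 2)) (x i i _) = 1 from k1, show C.cm (x i i (a * b ^ 2)) (x i j c) = 1 from k2,
    show C.cm (x i j (-(ε j * a * b))) (x i i _) = 1 from k3, show C.cm (x j j a) (x i j c) = 1 from k4] at m1
  rw [mul_one, mul_one, one_mul, mul_one] at m1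
  rw [m1]
  exact mem_center_iff.1 (C.cm_mem_center (R.c4 n2 n1 (by nn) (by nn) (by nn) (by nn) _ _)) _


lemma sq_or : (∃ s : Fˣ, s ^ 2 ≠ 1) ∨ (∀ a : F, a = 0 ∨ a = 1 ∨ a = -1) := by
  by_cases hs : ∃ s : Fˣ, s ^ 2 ≠ 1
  · exact Or.inl hs
  · push Not at hs
    right
    intro a
    by_cases ha : a = 0
    · exact Or.inl ha
    · right
      have h1 := congrArg Units.val (hs (Units.mk0 a ha))
      push_cast at h1
      rw [Units.val_mk0] at h1
      have h2 : (a - 1) * (a + 1) = 0 := by linear_combination h1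
      rcases mul_eq_zero.1 h2 with h3 | h3
      · exact Or.inl (sub_eq_zero.1 h3)
      · exact Or.inr (eq_neg_of_add_eq_zero_left h3)

include R D in
/-- torus argument for root elements -/
lemma tr_tor {i j k l : I} (h1 : i ≠ -j) (h2 : k ≠ -l) (h3 : k ≠ -i) (h4 : k ≠ -j) (h5 : l ≠ -i) (h6 : l ≠ -j)
    (s : I → Fˣ) (hs : ∀ i, s (-i) = (s i)⁻¹) (hs1 : s i * s j ≠ 1) (hs2 : s k * s l = 1) (a b : F) :
    C.Tr (x i j a) (x k l b) := by
  refine C.tr_torus (X := x i j) (Y := x k l) (h := h s) (l := (s i : F) * s j) (fun a b => R.add h1 a b)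
    (fun a b => xc R h1 h2 h3 h4 h5 h6 a b) ?_ ?_ ?_ a b
  · intro e
    apply hs1
    apply Units.ext
    push_cast
    exact e
  · intro a
    exact D.act s hs i j h1 a
  · intro b
    rw [D.act s hs k l h2 b]
    have e := congrArg Units.val hs2
    push_cast at e
    rw [e, one_mul]

omit [DecidableEq I] in
include R H D in
lemma tr_P5 [DecidableEq I] {i j : I} (h1 : i ≠ j) (h2 : i ≠ -j) (hF : (∃ s : Fˣ, s ^ 2 ≠ 1) ∨ (2 : F) ≠ 0) (a b : F) :
    C.Tr (x j j a) (x i i b) := by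
  have n1 : i ≠ -i := (R.ne i).symm
  have n2 : j ≠ -j := (R.ne j).symm
  rcases sq_or (F := F) with ⟨s, hs⟩ | hall
  · refine tr_tor R D C n2 n1 (by nn) (by nn) (by nn) (by nn) (sg j s) (sg_neg R.ne j s) ?_ ?_ a b
    · rw [sg_self, ← pow_two]; exact hs
    · rw [sg_of h1 h2, mul_one]
  · have h20 : (2 : F) ≠ 0 := by
      rcases hF with ⟨s, hs⟩ | h
      · exfalso
        apply hs
        apply Units.ext
        rcases hall s with h | h | h
        · exact absurd h s.ne_zero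
        · push_cast; rw [h]; ring
        · push_cast; rw [h]; ring
      · exact h
    -- three elements
    have hB0 : ∀ a c : F, C.cm (x i j a) (x i j c) = 1 := by
      have h11 : C.Tr (x i j 1) (x i j 1) := by
        obtain ⟨z, hz⟩ := C.surj (x i j 1)
        rw [← hz, C.tr_iff]
      have h1m : C.Tr (x i j 1) (x i j (-1)) := by rw [R.neg h2]; exact h11.inv_right
      intro a c
      rcases hall a with rfl | rfl | rfl
      · rw [R.zero h2]; exact C.cm_one_left _
      · rcases hall c with rfl | rfl | rfl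
        · rw [R.zero h2]; exact C.cm_one_right _
        · exact h11
        · exact h1m
      · rcases hall c with rfl | rfl | rfl
        · rw [R.zero h2]; exact C.cm_one_right _
        · exact h1m.symm
        · rw [R.neg h2]; exact h11.inv_left.inv_right
    have h3 := star R H C h1 h2 a 1 (-(ε j * b / 2))
    rw [hB0, one_mul] at h3
    rwa [show -(2 * ε j * -(ε j * b / 2) * 1) = b by
      have := R.eps j
      field_simp
      linear_combination b * this] at h3

omit [DecidableEq I] in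
include R H D in
/-- commuting short root elements for the same root -/
lemma tr_P0S [DecidableEq I] {i j : I} (h1 : i ≠ j) (h2 : i ≠ -j) (a b : F) :
    C.Tr (x i j a) (x i j b) := by
  rcases sq_or (F := F) with hs | hall
  · have h3 := star R H C h1 h2 1 (-(ε j * a)) b
    rw [show C.cm (x j j 1) _ = 1 from tr_P5 R D H C h1 h2 (Or.inl hs) _ _, mul_one] at h3
    rwa [show -(ε j * 1 * -(ε j * a)) = a by linear_combination a * R.eps j] at h3
  · have h11 : C.Tr (x i j 1) (x i j 1) := by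
      obtain ⟨z, hz⟩ := C.surj (x i j 1)
      rw [← hz, C.tr_iff]
    have h1m : C.Tr (x i j 1) (x i j (-1)) := by rw [R.neg h2]; exact h11.inv_right
    rcases hall a with rfl | rfl | rfl
    · rw [R.zero h2]; exact C.cm_one_left _
    · rcases hall b with rfl | rfl | rfl
      · rw [R.zero h2]; exact C.cm_one_right _
      · exact h11
      · exact h1m
    · rcases hall b with rfl | rfl | rfl
      · rw [R.zero h2]; exact C.cm_one_right _
      · exact h1m.symm
      · rw [R.neg h2]; exact h11.inv_left.inv_right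


include R in
omit [DecidableEq I] in
/-- short root elements as commutators of short root elements -/
lemma short_comm {i k l : I} (h1 : i ≠ k) (h2 : i ≠ -k) (h3 : l ≠ i) (h4 : l ≠ -i) (h5 : l ≠ k) (h6 : l ≠ -k) (a : F) :
    x i k a = ⁅x i l (ε l * a), x (-l) k 1⁆ := by
  rw [R.c1 (by nn) (by nn) h5 h6 h1 h2, mul_one, ← mul_assoc, R.eps, one_mul]

include R D H in
lemma tr_P4 {i j k : I} (h1 : i ≠ k) (h2 : i ≠ -k) (h3 : j ≠ i) (h4 : j ≠ -i) (h5 : j ≠ k) (h6 : j ≠ -k) (a c : F) :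
    C.Tr (x j j c) (x i k a) := by
  have n1 : i ≠ -i := (R.ne i).symm
  have n2 : j ≠ -j := (R.ne j).symm
  have n3 : k ≠ -k := (R.ne k).symm
  have key : ((∃ s : Fˣ, s ^ 2 ≠ 1) ∨ (2 : F) ≠ 0) → C.Tr (x j j c) (x i k a) := by
    intro hF
    have h7 : C.Tr (x j j c) ⁅x i i (ε i * a), x (-i) k 1⁆ := C.tr_comm
      (xc R n2 n1 (by nn) (by nn) (by nn) (by nn) _ _)
      (xc R n2 (by nn) (by nn) (by nn) (by nn) (by nn) _ _)
    rw [R.c3 h1 h2, show ε i * (ε i * a) * 1 = a by linear_combination a * R.eps i] at h7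
    have h8 := cm_mul_right_c C (g := x j j c) (h := x i k a) (h' := x k k (-(ε i * a * 1 ^ 2)))
      (xc R n2 n3 (by nn) (by nn) (by nn) (by nn) _ _)
    rw [show C.cm _ _ = 1 from h7, show C.cm (x j j c) (x k k _) = 1 from tr_P5 R D H C (by nn) (by nn) hF _ _, mul_one] at h8
    exact h8.symm
  rcases H.ok with hs | ⟨h20, -⟩ | ⟨-, -, hl⟩
  · exact key (Or.inl hs)
  · exact key (Or.inr h20)
  · obtain ⟨l, l1, l2, l3, l4, l5, l6⟩ := hl i j k
    rw [short_comm R h1 h2 l1 l2 l5 l6]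
    exact C.tr_comm (xc R n2 (by nn) (by nn) (by nn) (by nn) (by nn) _ _)
      (xc R n2 (by nn) (by nn) (by nn) (by nn) (by nn) _ _)

include R D H in
/-- orthogonal long roots -/
lemma tr_P5' {i j : I} (h1 : i ≠ j) (h2 : i ≠ -j) (a b : F) : C.Tr (x j j a) (x i i b) := by
  rcases H.ok with hs | ⟨h20, -⟩ | ⟨-, hall, hl⟩
  · exact tr_P5 R D H C h1 h2 (Or.inl hs) a b
  · exact tr_P5 R D H C h1 h2 (Or.inr h20) a b
  · have n1 : i ≠ -i := (R.ne i).symm
    have n2 : j ≠ -j := (R.ne j).symm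
    obtain ⟨k, l1, l2, l3, l4, l5, l6⟩ := hl i j i
    have n3 : k ≠ -k := (R.ne k).symm
    have h7 : C.Tr (x j j a) ⁅x k k (-b), x (-k) i 1⁆ := C.tr_comm
      (xc R n2 n3 (by nn) (by nn) (by nn) (by nn) _ _)
      (xc R n2 (by nn) (by nn) (by nn) (by nn) (by nn) _ _)
    rw [R.c3 l1 l2, show -(-b * 1 ^ 2) = b by ring] at h7
    have h8 := cm_mul_right_c C (g := x j j a) (h := x k i (ε k * -b * 1)) (h' := x i i b)
      (xc R n2 n1 (by nn) (by nn) (by nn) (by nn) _ _)
    rw [show C.cm _ _ = 1 from h7,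
      show C.cm (x j j a) (x k i _) = 1 from tr_P4 R D H C l1 l2 (by nn) (by nn) (by nn) (by nn) _ _, one_mul] at h8
    exact h8.symm

include R D H in
/-- adjacent short roots -/
lemma tr_P1 {i j k : I} (h1 : i ≠ j) (h2 : i ≠ -j) (h3 : i ≠ k) (h4 : i ≠ -k) (h5 : j ≠ k) (h6 : j ≠ -k) (a b : F) :
    C.Tr (x i j a) (x i k b) := by
  have n1 : i ≠ -i := (R.ne i).symm
  have key : (∃ s : Fˣ, s ≠ 1) → C.Tr (x i j a) (x i k b) := by
    rintro ⟨s, hs⟩
    refine tr_tor R D C h2 h4 (by nn) (by nn) (by nn) (by nn) (sg j s) (sg_neg R.ne j s) ?_ ?_ a b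
    · rw [sg_self, sg_of h1 h2, one_mul]; exact hs
    · rw [sg_of h1 h2, sg_of (by nn) (by nn), one_mul]
  rcases H.ok with ⟨s, hs⟩ | ⟨h20, -⟩ | ⟨-, -, hl⟩
  · exact key ⟨s, fun e => hs (by rw [e, one_pow])⟩
  · refine key ⟨-1, fun e => h20 ?_⟩
    have := congrArg Units.val e
    push_cast at this
    linear_combination -this
  · obtain ⟨l, l1, l2, l3, l4, l5, l6⟩ := hl i j k
    rw [short_comm R h3 h4 l1 l2 l5 l6]
    exact C.tr_comm (xc R h2 (by nn) (by nn) (by nn) (by nn) (by nn) _ _)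
      (xc R h2 (by nn) (by nn) (by nn) (by nn) (by nn) _ _)

include R D H in
/-- orthogonal short roots with disjoint supports -/
lemma tr_P2 {i j k l : I} (h1 : i ≠ j) (h2 : i ≠ -j) (h3 : k ≠ l) (h4 : k ≠ -l) (h5 : i ≠ k) (h6 : i ≠ -k)
    (h7 : i ≠ l) (h8 : i ≠ -l) (h9 : j ≠ k) (h10 : j ≠ -k) (h11 : j ≠ l) (h12 : j ≠ -l) (a b : F) :
    C.Tr (x i j a) (x k l b) := by
  have n1 : i ≠ -i := (R.ne i).symm
  have n3 : k ≠ -k := (R.ne k).symm
  have n4 : l ≠ -l := (R.ne l).symm
  have h13 : C.Tr (x i j a) ⁅x k k (ε k * b), x (-k) l 1⁆ := C.tr_comm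
    (xc R h2 n3 (by nn) (by nn) (by nn) (by nn) _ _)
    (xc R h2 (by nn) (by nn) (by nn) (by nn) (by nn) _ _)
  rw [R.c3 h3 h4, show ε k * (ε k * b) * 1 = b by linear_combination b * R.eps k] at h13
  have h14 := cm_mul_right_c C (g := x i j a) (h := x k l b) (h' := x l l (-(ε k * b * 1 ^ 2)))
    (xc R h2 n4 (by nn) (by nn) (by nn) (by nn) _ _)
  rw [show C.cm _ _ = 1 from h13, show C.cm (x i j a) (x l l _) = 1 from
    (tr_P4 R D H C h1 h2 (by nn) (by nn) (by nn) (by nn) _ _).symm, mul_one] at h14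
  exact h14.symm

include R D H in
/-- **all** commuting pairs of root elements -/
theorem tr_all {i j k l : I} (h1 : i ≠ -j) (h2 : k ≠ -l) (h3 : k ≠ -i) (h4 : k ≠ -j) (h5 : l ≠ -i) (h6 : l ≠ -j)
    (a b : F) : C.Tr (x i j a) (x k l b) := by
  by_cases hij : i = j
  · subst hij
    by_cases hkl : k = l
    · subst hkl
      by_cases hik : i = k
      · subst hik; exact tr_P0L R H C i b a
      · exact tr_P5' R D H C (by nn) (by nn) a b
    · by_cases hik : i = k
      · subst hik; exact tr_P3 R H C (by nn) (by nn) b a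
      · by_cases hil : i = l
        · subst hil; exact tr_P3' R H C (by nn) (by nn) b a
        · exact tr_P4 R D H C (by nn) (by nn) (by nn) (by nn) (by nn) (by nn) b a
  · by_cases hkl : k = l
    · subst hkl
      by_cases hik : i = k
      · subst hik; exact (tr_P3 R H C (by nn) (by nn) a b).symm
      · by_cases hjk : j = k
        · subst hjk; exact (tr_P3' R H C (by nn) (by nn) a b).symm
        · exact (tr_P4 R D H C (by nn) (by nn) (by nn) (by nn) (by nn) (by nn) a b).symm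
    · by_cases hik : i = k
      · subst hik
        by_cases hjl : j = l
        · subst hjl; exact tr_P0S R D H C (by nn) (by nn) a b
        · exact tr_P1 R D H C (by nn) (by nn) (by nn) (by nn) (by nn) (by nn) a b
      · by_cases hil : i = l
        · subst hil
          rw [R.symm k i]
          by_cases hjk : j = k
          · subst hjk; exact tr_P0S R D H C (by nn) (by nn) a b
          · exact tr_P1 R D H C (by nn) (by nn) (by nn) (by nn) (by nn) (by nn) a b
        · by_cases hjk : j = k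
          · subst hjk
            rw [R.symm i j]
            exact tr_P1 R D H C (by nn) (by nn) (by nn) (by nn) (by nn) (by nn) a b
          · by_cases hjl : j = l
            · subst hjl
              rw [R.symm i j, R.symm k j]
              exact tr_P1 R D H C (by nn) (by nn) (by nn) (by nn) (by nn) (by nn) a b
            · exact tr_P2 R D H C (by nn) (by nn) (by nn) (by nn) (by nn) (by nn) (by nn) (by nn) (by nn) (by nn)
                (by nn) (by nn) a b


/-- commutators of lifts of root elements -/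
noncomputable def dl (x : I → I → F → G) (C : CE σ) (i l k : I) (a b : F) : Γ := C.cm (x i l a) (x (-l) k b)

include R in
omit [DecidableEq I] in
lemma σ_dl {i k l : I} (h1 : i ≠ k) (h2 : i ≠ -k) (h3 : l ≠ i) (h4 : l ≠ -i) (h5 : l ≠ k) (h6 : l ≠ -k) (a b : F) :
    σ (dl x C i l k a b) = x i k (ε l * a * b) := by
  unfold dl
  rw [C.σ_cm, R.c1 (by nn) (by nn) h5 h6 h1 h2]

include R D H in
lemma dl_addl {i k l : I} (h1 : i ≠ k) (h2 : i ≠ -k) (h3 : l ≠ i) (h4 : l ≠ -i) (h5 : l ≠ k) (h6 : l ≠ -k) (a a' b : F) :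
    dl x C i l k (a + a') b = dl x C i l k a b * dl x C i l k a' b := by
  unfold dl
  rw [add_comm, R.add (by nn), cm_mul_left']
  rw [R.c1 (by nn) (by nn) h5 h6 h1 h2]
  exact tr_P1 R D H C (by nn) (by nn) (by nn) (by nn) (by nn) (by nn) _ _

include R D H in
lemma dl_addr {i k l : I} (h1 : i ≠ k) (h2 : i ≠ -k) (h3 : l ≠ i) (h4 : l ≠ -i) (h5 : l ≠ k) (h6 : l ≠ -k) (a b b' : F) :
    dl x C i l k a (b + b') = dl x C i l k a b * dl x C i l k a b' := by
  unfold dl
  rw [R.add (by nn), cm_mul_right']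
  rw [R.c1 (by nn) (by nn) h5 h6 h1 h2, R.symm (-l), R.symm i]
  exact tr_P1 R D H C (by nn) (by nn) (by nn) (by nn) (by nn) (by nn) _ _

include R D H in
/-- the two short roots which are orthogonal with long sum, over the field of two elements -/
lemma tr_P6_two (h20 : (2 : F) = 0) (hall : ∀ a : F, a = 0 ∨ a = 1)
    (hn : ∀ j : I, x j j 1 * x (-j) (-j) 1 * x j j 1 = x (-j) (-j) 1 * x j j 1 * x (-j) (-j) 1)
    {i j l : I} (h1 : i ≠ j) (h2 : i ≠ -j) (h3 : l ≠ i) (h4 : l ≠ -i) (h5 : l ≠ j) (h6 : l ≠ -j) :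
    C.Tr (x i j 1) (x (-j) i 1) := by
  have n1 : i ≠ -i := (R.ne i).symm
  have n2 : j ≠ -j := (R.ne j).symm
  have n3 : -j ≠ j := R.ne j
  have hε : ∀ i, ε i = 1 := by
    intro i
    rcases hall (ε i) with h | h
    · have := R.eps i; rw [h] at this; simp at this
    · exact h
  have hm1 : (-1 : F) = 1 := by linear_combination -h20
  have h11 : (1 : F) + 1 = 0 := by rw [← h20]; norm_num
  have inv : ∀ {k l : I}, k ≠ -l → (x k l 1)⁻¹ = x k l 1 := by
    intro k l hkl
    rw [← R.neg hkl, hm1]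
  have sq : ∀ {k l : I}, k ≠ -l → x k l 1 * x k l 1 = 1 := by
    intro k l hkl
    rw [← R.add hkl, h11, R.zero hkl]
  set X := x i j 1 with hX
  set Y := x (-j) i 1 with hY
  set Z := x i i 1 with hZ
  set A := x j j 1 with hA
  set B := x (-j) (-j) 1 with hB
  have nY : -j ≠ -i := by nn
  have nB : -j ≠ - -j := by nn
  have cBX : B * X * B⁻¹ = Y * Z * X := by
    have h7 := R.c3 (i := -j) (j := i) (by nn) (by nn) 1 1
    rw [hε, one_mul, one_mul, one_pow, one_mul, hm1, neg_neg, R.symm j i, commutatorElement_def] at h7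
    change B * X * B⁻¹ * X⁻¹ = Y * Z at h7
    rw [← h7]; group
  have cAY : A * Y * A⁻¹ = X * Z * Y := by
    have h7 := c3' R h1 h2 1 1
    rw [hε, one_mul, one_mul, one_pow, one_mul, hm1, commutatorElement_def] at h7
    change A * Y * A⁻¹ * Y⁻¹ = X * Z at h7
    rw [← h7]; group
  have cXY : X * Y = Y * X := by
    have h7 := R.c2 h1 h2 1 1
    rw [h20, zero_mul, zero_mul, zero_mul, R.zero n1] at h7
    exact commutatorElement_eq_one_iff_mul_comm.1 h7
  have cXZ : X * Z = Z * X := xc R h2 n1 (by nn) (by nn) (by nn) (by nn) _ _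
  have cYZ : Y * Z = Z * Y := xc R nY n1 (by nn) (by nn) (by nn) (by nn) _ _
  have cAX : A * X = X * A := xc R n2 h2 (by nn) (by nn) (by nn) (by nn) _ _
  have cAZ : A * Z = Z * A := xc R n2 n1 (by nn) (by nn) (by nn) (by nn) _ _
  have cBY : B * Y = Y * B := xc R nB nY (by nn) (by nn) (by nn) (by nn) _ _
  have sX : X * X = 1 := sq h2
  have sZ : Z * Z = 1 := sq n1
  have sA : A * A = 1 := sq n2
  have sB : B * B = 1 := sq nB
  have iA : A⁻¹ = A := inv n2
  have iB : B⁻¹ = B := inv nB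
  -- the Weyl element
  set n := B * A * B with hnn
  have hnA : A * n * A⁻¹ = B := by
    have h7 := hn j
    change A * B * A = B * A * B at h7
    rw [hnn, ← h7, iA]
    calc A * (A * B * A) * A = (A * A) * B * (A * A) := by group
      _ = B := by rw [sA]; group
  have hnX : n * X * n⁻¹ = Y := by
    have e1 : n * X * n⁻¹ = B * (A * (B * X * B⁻¹) * A⁻¹) * B⁻¹ := by rw [hnn]; group
    have e2 : A * (Y * Z * X) * A⁻¹ = (A * Y * A⁻¹) * Z * X := by
      calc A * (Y * Z * X) * A⁻¹ = A * Y * Z * (X * A⁻¹) := by group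
        _ = A * Y * Z * (A⁻¹ * X) := by rw [iA, cAX]
        _ = A * Y * (Z * A⁻¹) * X := by group
        _ = A * Y * (A⁻¹ * Z) * X := by rw [iA, cAZ]
        _ = _ := by group
    rw [e1, cBX, e2, cAY]
    have e3 : X * Z * Y * Z * X = Y := by
      calc X * Z * Y * Z * X = X * Z * (Y * Z) * X := by group
        _ = X * (Z * Z) * Y * X := by rw [cYZ]; group
        _ = X * X * Y := by rw [sZ, mul_one, mul_assoc, ← cXY, ← mul_assoc]
        _ = Y := by rw [sX, one_mul]
    rw [e3, cBY, mul_inv_cancel_right]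
  have hTr : C.Tr n (X * n * X⁻¹) := by
    apply CE.Tr.of_conj (k := A)
    have e1 : A * (X * n * X⁻¹) * A⁻¹ = X * B * X⁻¹ := by
      calc A * (X * n * X⁻¹) * A⁻¹ = (A * X) * n * (A * X)⁻¹ := by group
        _ = (X * A) * n * (X * A)⁻¹ := by rw [cAX]
        _ = X * (A * n * A⁻¹) * X⁻¹ := by group
        _ = _ := by rw [hnA]
    have e2 : X * B * X⁻¹ = (Y * Z)⁻¹ * B := by
      have : B * X * B⁻¹ * X⁻¹ = Y * Z := by rw [cBX]; group
      rw [← this]; group
    rw [hnA, e1, e2]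
    refine ((CE.Tr.mul_right ?_ ?_).inv_right).mul_right ?_
    · exact tr_P3 R H C (by nn) (by nn) _ _
    · exact tr_P5' R D H C (by nn) (by nn) _ _
    · exact tr_P0L R H C _ _ _
  have snn : n * n = 1 := by
    calc n * n = B * A * (B * B) * A * B := by rw [hnn]; group
      _ = B * (A * A) * B := by rw [sB]; group
      _ = 1 := by rw [sA, mul_one, sB]
  have hW : C.cm n X * C.cm n X = 1 := by
    obtain ⟨s, hs⟩ := C.surj n
    obtain ⟨u, hu⟩ := C.surj X
    have hc : s * (u * s * u⁻¹) = (u * s * u⁻¹) * s := (C.tr_iff' hs (by rw [map_mul, map_mul, map_inv, hs, hu])).1 hTr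
    have hz : s * s ∈ center Γ := C.central (by rw [MonoidHom.mem_ker, map_mul, hs, snn])
    rw [← hs, ← hu, C.cm_σ, commutatorElement_def]
    have e1 : s * (u * s⁻¹ * u⁻¹) = (u * s⁻¹ * u⁻¹) * s := by
      have : u * s⁻¹ * u⁻¹ = (u * s * u⁻¹)⁻¹ := by group
      rw [this]
      exact (Commute.inv_right (show Commute s (u * s * u⁻¹) from hc))
    calc s * u * s⁻¹ * u⁻¹ * (s * u * s⁻¹ * u⁻¹) = s * ((u * s⁻¹ * u⁻¹) * s) * (u * s⁻¹ * u⁻¹) := by group
      _ = (s * s) * u * (s * s)⁻¹ * u⁻¹ := by rw [← e1]; group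
      _ = 1 := by rw [← mem_center_iff.1 hz u]; group
  -- a lift of order two
  set y := dl x C i l j 1 1 with hy
  have hyX : σ y = X := by rw [hy, σ_dl R C h1 h2 h3 h4 h5 h6, hε, one_mul, one_mul]
  have hy2 : y * y = 1 := by
    rw [hy, ← dl_addl R D H C h1 h2 h3 h4 h5 h6, h11]
    unfold dl
    rw [R.zero (by nn)]; exact C.cm_one_left _
  set y' := C.cj n y with hy'
  have hy'Y : σ y' = Y := by rw [hy', C.σ_cj, hyX, hnX]
  have hy'2 : y' * y' = 1 := by rw [hy', ← map_mul, hy2, map_one]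
  have hWy : C.cm n X = y' * y⁻¹ := C.cm_eq_cj hyX
  have iy : y⁻¹ = y := inv_eq_of_mul_eq_one_left hy2
  have iy' : y'⁻¹ = y' := inv_eq_of_mul_eq_one_left hy'2
  rw [← hyX, ← hy'Y, C.tr_iff]
  rw [hWy, iy] at hW
  have h8 : y' * y = (y' * y)⁻¹ := eq_inv_of_mul_eq_one_left hW
  rw [mul_inv_rev, iy, iy'] at h8
  exact h8.symm

include R D H in
/-- the two short roots which are orthogonal with long sum, in characteristic two -/
theorem tr_P6 (h20 : (2 : F) = 0)
    (hn : (∀ a : F, a = 0 ∨ a = 1) → ∀ j : I, x j j 1 * x (-j) (-j) 1 * x j j 1 = x (-j) (-j) 1 * x j j 1 * x (-j) (-j) 1)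
    {i j : I} (h1 : i ≠ j) (h2 : i ≠ -j) (a b : F) : C.Tr (x i j a) (x (-j) i b) := by
  have n1 : i ≠ -i := (R.ne i).symm
  have hcom : ∀ a b, x i j a * x (-j) i b = x (-j) i b * x i j a := by
    intro a b
    have h7 := R.c2 h1 h2 a b
    rw [h20, zero_mul, zero_mul, zero_mul, R.zero n1] at h7
    exact commutatorElement_eq_one_iff_mul_comm.1 h7
  rcases H.ok with ⟨s, hs⟩ | ⟨h, -⟩ | ⟨-, hall, hl⟩
  · apply CE.Tr.symm
    set t : I → Fˣ := fun p => sg i s p * sg j s⁻¹ p with ht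
    have htn : ∀ p, t (-p) = (t p)⁻¹ := by
      intro p
      rw [ht]; simp only [sg_neg R.ne, mul_inv]
    have t1 : t i = s := by rw [ht]; simp only [sg_self, sg_of h1 h2, mul_one]
    have t2 : t j = s⁻¹ := by
      rw [ht]; simp only [sg_self, sg_of (show j ≠ i by nn) (show j ≠ -i by nn), one_mul]
    refine C.tr_torus (X := x (-j) i) (Y := x i j) (h := h t) (l := (t (-j) : F) * t i) (fun a b => R.add (by nn) a b)
      (fun a b => (hcom b a).symm) ?_ ?_ ?_ b a
    · intro e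
      apply hs
      rw [htn, t1, t2, inv_inv] at e
      apply Units.ext
      push_cast
      rw [pow_two]; exact e
    · intro a
      exact D.act t htn (-j) i (by nn) a
    · intro b
      rw [D.act t htn i j h2 b, t1, t2]
      simp
  · exact absurd h20 h
  · obtain ⟨l, l1, l2, l3, l4, -, -⟩ := hl i j i
    have h11 := tr_P6_two R D H C h20 hall (hn hall) h1 h2 l1 l2 l3 l4
    rcases hall a with rfl | rfl
    · rw [R.zero h2]; exact C.cm_one_left _
    · rcases hall b with rfl | rfl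
      · rw [R.zero (by nn)]; exact C.cm_one_right _
      · exact h11

end Cfsg.Agent.Stb
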