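import Cfsg.Agent.Stb.ODia
import Cfsg.Agent.Stb.SpTr

set_option autoImplicit false

/-!
Commuting root elements of orthogonal groups have commuting lifts in every central extension.
-/

namespace Cfsg.Agent.Stb

open Subgroup Cfsg.Agent.Mult
open scoped commutatorElement

variable {I F W G Γ : Type*} [InvolutiveNeg I] [DecidableEq I] [Field F] [AddCommGroup W] [Module F W] [Group G] [Group Γ]
variable {q0 : W → F} {B0 : W → W → F} (O : OF q0 B0) {y : I → I → F → G} {z : I → W → G} (R : OR q0 B0 y z)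

section com

include R

omit [DecidableEq I] in
lemma yyc {i j k l : I} (h1 : i ≠ j) (h2 : i ≠ -j) (h3 : k ≠ l) (h4 : k ≠ -l) (h5 : k ≠ -i) (h6 : k ≠ -j) (h7 : l ≠ -i)
    (h8 : l ≠ -j) (a b : F) : y i j a * y k l b = y k l b * y i j a := by
  rw [← commutatorElement_eq_one_iff_mul_comm]; exact R.c4 h1 h2 h3 h4 h5 h6 h7 h8 a b

omit [DecidableEq I] in
lemma y3c {i j : I} (h1 : i ≠ j) (h2 : i ≠ -j) (a b : F) : y i j a * y (-j) i b = y (-j) i b * y i j a := by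
  rw [← commutatorElement_eq_one_iff_mul_comm]; exact R.c2 h1 h2 a b

omit [DecidableEq I] in
lemma zyc {i k l : I} (h1 : k ≠ l) (h2 : k ≠ -l) (h3 : k ≠ -i) (h4 : l ≠ -i) (w : W) (a : F) :
    z i w * y k l a = y k l a * z i w := by
  rw [← commutatorElement_eq_one_iff_mul_comm]; exact R.c5 h1 h2 h3 h4 w a

omit [DecidableEq I] in
lemma zzs (i : I) (w w' : W) : z i w * z i w' = z i w' * z i w := by
  rw [← R.zadd, ← R.zadd, add_comm]

omit [DecidableEq I] in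
lemma y_zero {i j : I} (h1 : i ≠ j) (h2 : i ≠ -j) : y i j 0 = 1 := R.hr.zero h1 h2

omit [DecidableEq I] in
lemma y_neg {i j : I} (h1 : i ≠ j) (h2 : i ≠ -j) (a : F) : y i j (-a) = (y i j a)⁻¹ := R.hr.neg h1 h2 a

omit [DecidableEq I] in
/-- long root elements as commutators -/
lemma y_comm {i j k : I} (h1 : i ≠ j) (h2 : i ≠ -j) (h3 : k ≠ i) (h4 : k ≠ -i) (h5 : k ≠ j) (h6 : k ≠ -j) (a : F) :
    y i j a = ⁅y i k a, y (-k) j 1⁆ := by
  rw [R.c1 (by nx) (by nx) h5 h6 h1 h2, mul_one]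

end com

variable {σ : Γ →* G} (C : CE σ)

/-- the pairs of commuting root elements with commuting lifts -/
structure OTr (y : I → I → F → G) (z : I → W → G) (C : CE σ) : Prop where
  L0 : ∀ {i j}, i ≠ j → i ≠ -j → ∀ a b, C.Tr (y i j a) (y i j b)
  L1 : ∀ {i j k}, i ≠ j → i ≠ -j → i ≠ k → i ≠ -k → j ≠ k → j ≠ -k → ∀ a b, C.Tr (y i j a) (y i k b)
  L2 : ∀ {i j k l}, i ≠ j → i ≠ -j → k ≠ l → k ≠ -l → i ≠ k → i ≠ -k → i ≠ l → i ≠ -l → j ≠ k → j ≠ -k → j ≠ l → j ≠ -l →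
    ∀ a b, C.Tr (y i j a) (y k l b)
  L3 : ∀ {i j}, i ≠ j → i ≠ -j → ∀ a b, C.Tr (y i j a) (y (-j) i b)
  S0 : ∀ i w w', C.Tr (z i w) (z i w')
  S1 : ∀ {i j}, i ≠ j → i ≠ -j → ∀ w a, C.Tr (z i w) (y i j a)
  S2 : ∀ {i j k}, i ≠ j → i ≠ -j → i ≠ k → i ≠ -k → j ≠ k → j ≠ -k → ∀ w a, C.Tr (z i w) (y j k a)

section general

include R

omit [DecidableEq I] in
lemma tL0 {i j : I} (h1 : i ≠ j) (h2 : i ≠ -j) (a b : F) : C.Tr (y i j a) (y i j b) := by
  have ne := R.ne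
  have n1 : i ≠ -i := (ne i).symm
  have n2 : j ≠ -j := (ne j).symm
  obtain ⟨k, k1, k2, k3, k4⟩ := R.three i j
  rw [y_comm R h1 h2 k1 k2 k3 k4 b]
  exact C.tr_comm (yyc R h1 h2 (by nx) (by nx) (by nx) (by nx) (by nx) (by nx) _ _)
    (yyc R h1 h2 (by nx) (by nx) (by nx) (by nx) (by nx) (by nx) _ _)

omit [DecidableEq I] in
lemma tS1 {i j : I} (h1 : i ≠ j) (h2 : i ≠ -j) (w : W) (a : F) : C.Tr (z i w) (y i j a) := by
  have ne := R.ne
  have n1 : i ≠ -i := (ne i).symm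
  have n2 : j ≠ -j := (ne j).symm
  obtain ⟨k, k1, k2, k3, k4⟩ := R.three i j
  rw [y_comm R h1 h2 k1 k2 k3 k4 a]
  exact C.tr_comm (zyc R (by nx) (by nx) (by nx) (by nx) _ _) (zyc R (by nx) (by nx) (by nx) (by nx) _ _)

omit [DecidableEq I] in
lemma tL1 {i j k : I} (h1 : i ≠ j) (h2 : i ≠ -j) (h3 : i ≠ k) (h4 : i ≠ -k) (h5 : j ≠ k) (h6 : j ≠ -k) (a b : F) :
    C.Tr (y i j a) (y i k b) := by
  have ne := R.ne
  have n1 : i ≠ -i := (ne i).symm
  have n2 : j ≠ -j := (ne j).symm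
  rw [y_comm R (k := -j) h3 h4 (by nx) (by nx) (by nx) (by nx) b]
  refine C.tr_comm ?_ ?_
  · rw [R.symm (i := i) (j := -j) (by nx) (by nx)]
    exact y3c R h1 h2 _ _
  · rw [neg_neg]
    exact yyc R h1 h2 (by nx) (by nx) (by nx) (by nx) (by nx) (by nx) _ _

omit [DecidableEq I] in
/-- short and disjoint long roots, with a fourth index -/
lemma tS2_four {i j k l : I} (h1 : i ≠ j) (h2 : i ≠ -j) (h3 : i ≠ k) (h4 : i ≠ -k) (h5 : j ≠ k) (h6 : j ≠ -k)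
    (l1 : l ≠ i) (l2 : l ≠ -i) (l3 : l ≠ j) (l4 : l ≠ -j) (l5 : l ≠ k) (l6 : l ≠ -k) (w : W) (a : F) :
    C.Tr (z i w) (y j k a) := by
  have ne := R.ne
  rw [y_comm R h5 h6 l3 l4 l5 l6 a]
  exact C.tr_comm (zyc R (by nx) (by nx) (by nx) (by nx) _ _) (zyc R (by nx) (by nx) (by nx) (by nx) _ _)

omit [DecidableEq I] in
/-- disjoint long roots, with a fifth index -/
lemma tL2_five {i j k l m : I} (h1 : i ≠ j) (h2 : i ≠ -j) (h3 : k ≠ l) (h4 : k ≠ -l) (h5 : i ≠ k) (h6 : i ≠ -k)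
    (h7 : i ≠ l) (h8 : i ≠ -l) (h9 : j ≠ k) (h10 : j ≠ -k) (h11 : j ≠ l) (h12 : j ≠ -l)
    (m1 : m ≠ i) (m2 : m ≠ -i) (m3 : m ≠ j) (m4 : m ≠ -j) (m5 : m ≠ k) (m6 : m ≠ -k) (m7 : m ≠ l) (m8 : m ≠ -l) (a b : F) :
    C.Tr (y i j a) (y k l b) := by
  have ne := R.ne
  rw [y_comm R h3 h4 m5 m6 m7 m8 b]
  exact C.tr_comm (yyc R h1 h2 (by nx) (by nx) (by nx) (by nx) (by nx) (by nx) _ _)
    (yyc R h1 h2 (by nx) (by nx) (by nx) (by nx) (by nx) (by nx) _ _)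

omit [DecidableEq I] in
/-- disjoint long roots from short roots -/
lemma tL2_of_S2 (hS2 : ∀ {i j k : I}, i ≠ j → i ≠ -j → i ≠ k → i ≠ -k → j ≠ k → j ≠ -k → ∀ w a, C.Tr (z i w) (y j k a))
    {w : W} (hw : q0 w ≠ 0) {i j k l : I} (h1 : i ≠ j) (h2 : i ≠ -j) (h3 : k ≠ l) (h4 : k ≠ -l) (h5 : i ≠ k) (h6 : i ≠ -k)
    (h7 : i ≠ l) (h8 : i ≠ -l) (h9 : j ≠ k) (h10 : j ≠ -k) (h11 : j ≠ l) (h12 : j ≠ -l) (a b : F) :
    C.Tr (y i j a) (y k l b) := by
  have ne := R.ne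
  have h13 : C.Tr (y i j a) ⁅z k w, y (-k) l (-(q0 w)⁻¹ * b)⁆ := C.tr_comm
    (zyc R h1 h2 (by nx) (by nx) _ _).symm (yyc R h1 h2 (by nx) (by nx) (by nx) (by nx) (by nx) (by nx) _ _)
  rw [R.c3 h3 h4, show -(q0 w * (-(q0 w)⁻¹ * b)) = b by field_simp] at h13
  have h14 := cm_mul_right_c C (g := y i j a) (h := y k l b) (h' := z l ((-(q0 w)⁻¹ * b) • w))
    (zyc R h1 h2 (by nx) (by nx) _ _).symm
  rw [show C.cm _ _ = 1 from h13, show C.cm (y i j a) (z l _) = 1 from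
    (hS2 (i := l) (j := i) (k := j) (by nx) (by nx) (by nx) (by nx) h1 h2 _ _).symm, mul_one] at h14
  exact h14.symm

include O in
omit [DecidableEq I] in
/-- short root elements for the same root -/
lemma tS0_of_L3 (hL3 : ∀ {i j : I}, i ≠ j → i ≠ -j → ∀ a b, C.Tr (y i j a) (y (-j) i b)) (i : I) (w w' : W) :
    C.Tr (z i w) (z i w') := by
  have ne := R.ne
  have n1 : i ≠ -i := (ne i).symm
  obtain ⟨j, j1, j2, -, -⟩ := R.three i i
  have e1 : ⁅z j w', y (-j) i 1⁆ = y j i (-(q0 w' * 1)) * z i w' := by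
    rw [R.c3 j1 j2, one_smul]
  have e2 : z j w' * y (-j) i 1 * (z j w')⁻¹ = y j i (-(q0 w' * 1)) * z i w' * y (-j) i 1 := by
    rw [← e1, commutatorElement_def]; group
  have t1 : C.Tr (z i w) (y (-j) i 1) := by
    rw [R.symm (by nx) (by nx)]; exact tS1 R C (by nx) (by nx) _ _
  have e3 := C.cm_comm_right (A := z i w) (B := z j w') (D := y (-j) i 1) t1
  rw [R.c6 (by nx) (by nx), e2, e1] at e3
  have t2 : C.Tr (y i j (-B0 w w')) (y j i (-(q0 w' * 1)) * z i w' * y (-j) i 1) := by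
    refine CE.Tr.mul_right (CE.Tr.mul_right ?_ ?_) ?_
    · rw [R.symm (i := j) (j := i) (by nx) (by nx)]
      exact tL0 R C (by nx) (by nx) _ _
    · exact (tS1 R C (by nx) (by nx) _ _).symm
    · exact hL3 (by nx) (by nx) _ _
  rw [show C.cm (y i j _) _ = 1 from t2] at e3
  have t3 : C.Tr (z i w) (y j i (-(q0 w' * 1))) := by
    rw [R.symm (i := j) (j := i) (by nx) (by nx)]
    exact tS1 R C (by nx) (by nx) _ _
  have h14 := cm_mul_right_c C (g := z i w) (h := y j i (-(q0 w' * 1))) (h' := z i w') (zzs R i w w')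
  rw [e3, show C.cm (z i w) (y j i _) = 1 from t3, one_mul] at h14
  exact h14.symm

end general

section torus

variable [Fintype I] {ρ : G →* (((I → F) × W) ≃ₗ[F] ((I → F) × W))} (A : OA q0 B0 y z ρ)

include O R A

/-- conjugating long root elements -/
lemma conj_y {i j k l : I} (h1 : i ≠ j) (h2 : i ≠ -j) (h3 : k ≠ l) (h4 : k ≠ -l) {g : G} {a : F}
    (hg : g * y i j a * g⁻¹ ∈ OX q0 y z k l) {c d d' : F} (hc : ρ g (eh i) = c • eh k) (hd : ρ g (eh j) = d • eh l)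
    (hd' : ρ g (eh (-j)) = d' • eh (-l)) : g * y i j a * g⁻¹ = y k l (c * d * a) := by
  obtain ⟨b, hb⟩ := (R.hr.mem_Xs h3 h4).1 hg
  have e1 : g * y i j a = y k l b * g := by rw [hb]; group
  have e2 := congrArg (fun g => ρ g (eh (-j))) e1
  simp only [hrho_mul] at e2
  have hdd := hform_ee O.hf A.ha g hd hd'
  rw [RingHom.id_apply] at hdd
  rw [oX_e2 R A h1 h2, map_add, map_smul, hc, hd', map_smul, oX_e2 R A h3 h4] at e2
  have h5 := oli (W := W) h4 (a * c - d' * b) 0 (by linear_combination (norm := module) e2)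
  have h6 : b = c * d * a := by linear_combination (-d) * h5.1 - b * hdd
  rw [← h6, hb]

lemma hl_y {k l : I} (k1 : k ≠ l) (k2 : k ≠ -l) {s : F} (hs : s ≠ 0) {i j : I} (h1 : i ≠ j) (h2 : i ≠ -j) {c d : F}
    (hc : ρ (hl y k l s) (eh i) = c • eh i) (hd : ρ (hl y k l s) (eh j) = d • eh j) (a : F) :
    hl y k l s * y i j a = y i j (c * d * a) * hl y k l s :=
  tor_y O R A h1 h2 (hl_T O R A k1 k2 hs) hc hd a

lemma hl_z {k l : I} (k1 : k ≠ l) (k2 : k ≠ -l) {s : F} (hs : s ≠ 0) {i : I} {c : F}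
    (hc : ρ (hl y k l s) (eh i) = c • eh i) (w : W) :
    hl y k l s * z i w = z i (c • w) * hl y k l s :=
  tor_z O R A (hl_T O R A k1 k2 hs) hc ((hl_act O R A k1 k2 hs).2.2.2.2.2 w)

lemma hl_e {k l p : I} (k1 : k ≠ l) (k2 : k ≠ -l) {s : F} (hs : s ≠ 0) (p1 : p ≠ k) (p2 : p ≠ l) (p3 : p ≠ -k) (p4 : p ≠ -l) :
    ρ (hl y k l s) (eh p) = (1 : F) • eh p := by
  rw [one_smul]; exact (hl_act O R A k1 k2 hs).2.2.2.2.1 p p1 p2 p3 p4

/-- short and disjoint long roots, large fields -/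
lemma tS2_big {s : F} (hs : s ≠ 0) (hs2 : s * s ≠ 1) {i j k : I} (h1 : i ≠ j) (h2 : i ≠ -j) (h3 : i ≠ k) (h4 : i ≠ -k)
    (h5 : j ≠ k) (h6 : j ≠ -k) (w : W) (a : F) : C.Tr (z i w) (y j k a) := by
  obtain ⟨a1, a2, a3, a4, a5, a6⟩ := hl_act O R A h5 h6 hs
  refine (C.tr_torus (X := y j k) (Y := fun _ => z i w) (h := hl y j k s) (l := s * s) (fun a b => R.add h5 h6 a b)
    (fun a _ => (zyc R h5 h6 (by nx) (by nx) _ _).symm) hs2 ?_ ?_ a 0).symm
  · intro a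
    exact hl_y O R A h5 h6 hs h5 h6 a1 a3 a
  · intro _
    have := hl_z O R A h5 h6 hs (i := i) (hl_e O R A h5 h6 hs h1 h3 h2 h4) w
    rwa [one_smul] at this

/-- disjoint long roots, large fields -/
lemma tL2_big {s : F} (hs : s ≠ 0) (hs2 : s * s ≠ 1) {i j k l : I} (h1 : i ≠ j) (h2 : i ≠ -j) (h3 : k ≠ l) (h4 : k ≠ -l)
    (h5 : i ≠ k) (h6 : i ≠ -k) (h7 : i ≠ l) (h8 : i ≠ -l) (h9 : j ≠ k) (h10 : j ≠ -k) (h11 : j ≠ l) (h12 : j ≠ -l) (a b : F) :
    C.Tr (y i j a) (y k l b) := by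
  obtain ⟨a1, a2, a3, a4, a5, a6⟩ := hl_act O R A h3 h4 hs
  refine (C.tr_torus (X := y k l) (Y := y i j) (h := hl y k l s) (l := s * s) (fun a b => R.add h3 h4 a b)
    (fun a b => yyc R h3 h4 h1 h2 (by nx) (by nx) (by nx) (by nx) _ _) hs2 ?_ ?_ b a).symm
  · intro a
    exact hl_y O R A h3 h4 hs h3 h4 a1 a3 a
  · intro b
    have := hl_y O R A h3 h4 hs h1 h2 (hl_e O R A h3 h4 hs h5 h7 h6 h8) (hl_e O R A h3 h4 hs h9 h11 h10 h12) b
    rwa [one_mul, one_mul] at this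

/-- orthogonal long roots, large fields -/
lemma tL3_big {s : F} (hs : s ≠ 0) (hs2 : s * s ≠ 1) {i j : I} (h1 : i ≠ j) (h2 : i ≠ -j) (a b : F) :
    C.Tr (y i j a) (y (-j) i b) := by
  obtain ⟨a1, a2, a3, a4, a5, a6⟩ := hl_act O R A (i := -j) (j := i) (by nx) (by nx) hs
  rw [neg_neg] at a4
  refine (C.tr_torus (X := y (-j) i) (Y := y i j) (h := hl y (-j) i s) (l := s * s) (fun a b => R.add (by nx) (by nx) a b)
    (fun a b => (y3c R h1 h2 _ _).symm) hs2 ?_ ?_ b a).symm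
  · intro a
    exact hl_y O R A (by nx) (by nx) hs (by nx) (by nx) a1 a3 a
  · intro b
    have := hl_y O R A (k := -j) (l := i) (by nx) (by nx) hs h1 h2 a3 a4 b
    rwa [mul_inv_cancel₀ hs, one_mul] at this

lemma nl_inv' {i j : I} (h1 : i ≠ j) (h2 : i ≠ -j) (t : F) : (nl y i j t)⁻¹ = nl y i j (-t) :=
  (r1l O R A h1 h2).n_inv t

omit O R A [Fintype I] in
/-- bimultiplicative pairings over the field of three elements -/
lemma tr_three {X Y : F → G} (hX : ∀ a b, X (a + b) = X a * X b) (hY : ∀ a b, Y (a + b) = Y a * Y b)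
    (hXY : ∀ a b, X a * Y b = Y b * X a) (h3 : (3 : F) = 0) (hall : ∀ a : F, a = 0 ∨ a = 1 ∨ a = -1)
    {g : G} {e : F} (he : e * e = 1) (h1 : g * X 1 * g⁻¹ = Y e) (h2 : g * Y 1 * g⁻¹ = X e) (a b : F) : C.Tr (X a) (Y b) := by
  have X0 : X 0 = 1 := by
    have := hX 0 0
    rw [add_zero] at this
    exact mul_eq_left.1 this.symm
  have Y0 : Y 0 = 1 := by
    have := hY 0 0
    rw [add_zero] at this
    exact mul_eq_left.1 this.symm
  have Xn : ∀ a, X (-a) = (X a)⁻¹ := fun a => by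
    rw [eq_inv_iff_mul_eq_one, ← hX, neg_add_cancel, X0]
  have Yn : ∀ a, Y (-a) = (Y a)⁻¹ := fun a => by
    rw [eq_inv_iff_mul_eq_one, ← hY, neg_add_cancel, Y0]
  have hcen : ∀ a b, C.cm (X a) (Y b) ∈ center Γ := fun a b => C.cm_mem_center (by
    rw [commutatorElement_eq_one_iff_mul_comm]; exact hXY a b)
  have al : ∀ a a' b, C.cm (X (a + a')) (Y b) = C.cm (X a) (Y b) * C.cm (X a') (Y b) := by
    intro a a' b
    rw [hX, cm_mul_left_c C (hXY a' b)]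
    exact mem_center_iff.1 (hcen a b) _
  have ar : ∀ a b b', C.cm (X a) (Y (b + b')) = C.cm (X a) (Y b) * C.cm (X a) (Y b') := by
    intro a b b'
    rw [hY, cm_mul_right_c C (hXY a b')]
  have z1 : ∀ b, C.cm (X 0) (Y b) = 1 := fun b => by rw [X0]; exact C.cm_one_left _
  have z2 : ∀ a, C.cm (X a) (Y 0) = 1 := fun a => by rw [Y0]; exact C.cm_one_right _
  have nl : ∀ a b, C.cm (X (-a)) (Y b) = (C.cm (X a) (Y b))⁻¹ := fun a b => by
    rw [eq_inv_iff_mul_eq_one, ← al, neg_add_cancel, z1]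
  have nr : ∀ a b, C.cm (X a) (Y (-b)) = (C.cm (X a) (Y b))⁻¹ := fun a b => by
    rw [eq_inv_iff_mul_eq_one, ← ar, neg_add_cancel, z2]
  set c := C.cm (X 1) (Y 1) with hc
  have c3 : c * c * c = 1 := by
    rw [hc, ← al, ← al, show (1 : F) + 1 + 1 = 0 by rw [← h3]; norm_num, z1]
  have c2 : c = c⁻¹ := by
    have e1 : C.cj g c = c := C.cj_center g (hcen 1 1)
    rw [hc, C.cj_cm, h1, h2, ← C.inv_cm] at e1
    have e2 : C.cm (X e) (Y e) = c := by
      rcases hall e with rfl | rfl | rfl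
      · simp at he
      · rfl
      · rw [nl, nr, inv_inv]
    rw [e2] at e1
    exact e1.symm
  have c1 : c = 1 := by
    have e1 : c * c = 1 := by
      conv_lhs => arg 2; rw [c2]
      rw [mul_inv_cancel]
    rwa [e1, one_mul] at c3
  have t11 : C.cm (X 1) (Y 1) = 1 := c1
  change C.cm (X a) (Y b) = 1
  rcases hall a with rfl | rfl | rfl
  · exact z1 b
  · rcases hall b with rfl | rfl | rfl
    · exact z2 _
    · exact t11
    · rw [nr, t11, inv_one]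
  · rcases hall b with rfl | rfl | rfl
    · exact z2 _
    · rw [nl, t11, inv_one]
    · rw [nl, nr, t11, inv_one, inv_one]

/-- conjugation by products of two Weyl elements -/
lemma nn_y {p q r s i j k l : I} (p1 : p ≠ q) (p2 : p ≠ -q) (r1 : r ≠ s) (r2 : r ≠ -s) (h1 : i ≠ j) (h2 : i ≠ -j)
    (h3 : k ≠ l) (h4 : k ≠ -l) (e1 : rf p q (rf r s i) = k) (e2 : rf p q (rf r s j) = l) {c d : F}
    (hc : ρ (nl y p q 1 * nl y r s 1) (eh i) = c • eh k) (hd : ρ (nl y p q 1 * nl y r s 1) (eh j) = d • eh l) (a : F) :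
    (nl y p q 1 * nl y r s 1) * y i j a * (nl y p q 1 * nl y r s 1)⁻¹ = y k l (c * d * a) := by
  have ne := R.ne
  have hC := ocln O R A
  have m1 := nl_mem O R A p1 p2 (one_ne_zero (α := F))
  have m2 := nl_mem O R A r1 r2 (one_ne_zero (α := F))
  obtain ⟨c1, hc1⟩ := m2.2 (-j)
  obtain ⟨c2, hc2⟩ := m1.2 (rf r s (-j))
  rw [rf_neg ne _ _ _ r2, rf_neg ne _ _ _ p2, e2] at hc2
  rw [rf_neg ne _ _ _ r2] at hc1
  refine conj_y O R A h1 h2 h3 h4 ?_ hc hd (d' := c1 * c2) ?_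
  · have a1 := hC.M_X r s r2 i j h2 _ m2 (y i j a) (HR.y_mem h1 h2 a)
    have a2 := hC.M_X p q p2 _ _ (rf_ne_neg ne r2 h2) _ m1 _ a1
    rw [e1, e2] at a2
    convert a2 using 1
    group
  · rw [hrho_mul, hc1, map_smul, hc2, smul_smul]

/-- disjoint long roots, three elements -/
lemma tL2_three (h3' : (3 : F) = 0) (hall : ∀ a : F, a = 0 ∨ a = 1 ∨ a = -1) {i j k l : I} (h1 : i ≠ j) (h2 : i ≠ -j)
    (h3 : k ≠ l) (h4 : k ≠ -l) (h5 : i ≠ k) (h6 : i ≠ -k) (h7 : i ≠ l) (h8 : i ≠ -l) (h9 : j ≠ k) (h10 : j ≠ -k) (h11 : j ≠ l)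
    (h12 : j ≠ -l) (a b : F) : C.Tr (y i j a) (y k l b) := by
  have ne := R.ne
  obtain ⟨a1, a2, a3, a4, a5, -⟩ := nl_act O R A (i := i) (j := -k) h6 (by nx) (one_ne_zero (α := F))
  obtain ⟨b1, b2, b3, b4, b5, -⟩ := nl_act O R A (i := j) (j := -l) h12 (by nx) (one_ne_zero (α := F))
  rw [neg_neg] at a1 a2 b1 b2
  have hm : ((-(1 : F)⁻¹) * (-(1 : F)⁻¹)) = 1 := by rw [inv_one]; ring
  have f1 : ρ (nl y i (-k) 1 * nl y j (-l) 1) (eh i) = (-(1 : F)⁻¹) • eh k := by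
    rw [hrho_mul, b5 i h1 h8 h2 (by rw [neg_neg]; exact h7), a1]
  have f2 : ρ (nl y i (-k) 1 * nl y j (-l) 1) (eh j) = (-(1 : F)⁻¹) • eh l := by
    rw [hrho_mul, b1, map_smul, a5 l (by nx) (by nx) (by nx) (by rw [neg_neg]; nx)]
  have f3 : ρ (nl y i (-k) 1 * nl y j (-l) 1) (eh k) = (1 : F) • eh i := by
    rw [hrho_mul, b5 k (by nx) (by nx) (by nx) (by rw [neg_neg]; nx), a2]
  have f4 : ρ (nl y i (-k) 1 * nl y j (-l) 1) (eh l) = (1 : F) • eh j := by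
    rw [hrho_mul, b2, map_smul, a5 j (by nx) (by nx) (by nx) (by rw [neg_neg]; nx)]
  have ri : rf j (-l) i = i := rf_of_ne h1 h8 h2 (by rw [neg_neg]; exact h7)
  have rk : rf j (-l) k = k := rf_of_ne (by nx) (by nx) (by nx) (by rw [neg_neg]; nx)
  have rj : rf j (-l) j = l := rf_eq ne (by nx)
  have rl : rf j (-l) l = j := by
    have := rf_rf ne j (-l) j (by nx)
    rwa [rj] at this
  have si : rf i (-k) i = k := rf_eq ne (by nx)
  have sk : rf i (-k) k = i := by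
    have := rf_rf ne i (-k) i (by nx)
    rwa [si] at this
  have sj : rf i (-k) j = j := rf_of_ne (by nx) (by nx) (by nx) (by rw [neg_neg]; nx)
  have sl : rf i (-k) l = l := rf_of_ne (by nx) (by nx) (by nx) (by rw [neg_neg]; nx)
  refine tr_three C (X := y i j) (Y := y k l) (fun a b => R.add h1 h2 a b) (fun a b => R.add h3 h4 a b)
    (fun a b => yyc R h1 h2 h3 h4 (by nx) (by nx) (by nx) (by nx) _ _) h3' hall
    (g := nl y i (-k) 1 * nl y j (-l) 1) (e := 1) (one_mul 1) ?_ ?_ a b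
  · rw [nn_y O R A h6 (by nx) h12 (by nx) h1 h2 h3 h4 (by rw [ri, si]) (by rw [rj, sl]) f1 f2, hm, one_mul]
  · rw [nn_y O R A h6 (by nx) h12 (by nx) h3 h4 h1 h2 (by rw [rk, sk]) (by rw [rl, sj]) f3 f4, one_mul, one_mul]

/-- orthogonal long roots, three elements -/
lemma tL3_three (h3' : (3 : F) = 0) (hall : ∀ a : F, a = 0 ∨ a = 1 ∨ a = -1) {i j : I} (h1 : i ≠ j) (h2 : i ≠ -j)
    (a b : F) : C.Tr (y i j a) (y (-j) i b) := by
  have ne := R.ne
  obtain ⟨k, k1, k2, k3, k4⟩ := R.three i j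
  have m1 : j ≠ -k := by nx
  obtain ⟨a1, a2, a3, a4, a5, -⟩ := nl_act O R A (i := j) (j := k) (by nx) (by nx) (one_ne_zero (α := F))
  obtain ⟨b1, b2, b3, b4, b5, -⟩ := nl_act O R A (i := j) (j := -k) (by nx) (by nx) (one_ne_zero (α := F))
  rw [neg_neg] at b1 b2
  have f1 : ρ (nl y j k 1 * nl y j (-k) 1) (eh i) = (1 : F) • eh i := by
    rw [hrho_mul, b5 i h1 (by nx) h2 (by rw [neg_neg]; nx), a5 i h1 (by nx) h2 (by nx), one_smul]
  have f2 : ρ (nl y j k 1 * nl y j (-k) 1) (eh j) = (-1 : F) • eh (-j) := by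
    rw [hrho_mul, b1, map_smul, a3, smul_smul]
    congr 1; rw [inv_one]; ring
  have f3 : ρ (nl y j k 1 * nl y j (-k) 1) (eh (-j)) = (-1 : F) • eh j := by
    rw [hrho_mul, b4, map_smul, a2, smul_smul]
    congr 1; ring
  have ri : rf j (-k) i = i := rf_of_ne h1 (by nx) h2 (by rw [neg_neg]; nx)
  have rj : rf j (-k) j = k := rf_eq ne (by nx)
  have si : rf j k i = i := rf_of_ne h1 (by nx) h2 (by nx)
  have sk : rf j k k = -j := (rf_self1 (I := I) (i := j) (j := k) m1).2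
  have rnj : rf j (-k) (-j) = -k := by rw [rf_neg ne _ _ _ (by nx), rj]
  have snk : rf j k (-k) = j := by rw [rf_neg ne _ _ _ m1, sk, neg_neg]
  have h2' : -j ≠ i := by nx
  have h1' : -j ≠ -i := by nx
  refine tr_three C (X := y i j) (Y := fun b => y (-j) i b) (fun a b => R.add h1 h2 a b) (fun a b => R.add h2' h1' a b)
    (fun a b => y3c R h1 h2 _ _) h3' hall
    (g := nl y j k 1 * nl y j (-k) 1) (e := 1) (by ring) ?_ ?_ a b
  · have := nn_y O R A (p := j) (q := k) (r := j) (s := -k) (by nx) m1 m1 (by nx) h1 h2 (k := i) (l := -j) (by nx) (by nx)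
      (by rw [ri, si]) (by rw [rj, sk]) f1 f2 1
    rw [this, R.symm (by nx) (by nx)]
    congr 1; ring
  · have := nn_y O R A (p := j) (q := k) (r := j) (s := -k) (by nx) m1 m1 (by nx) h2' h1' (k := j) (l := i) (by nx) (by nx)
      (by rw [rnj, snk]) (by rw [ri, si]) f3 f1 1
    rw [this, R.symm (by nx) (by nx)]
    congr 1; ring

end torus

end Cfsg.Agent.Stb
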