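import Cfsg.Agent.Stb.OTr

set_option autoImplicit false

/-!
Commuting root elements of orthogonal groups have commuting lifts: the field of two elements.
-/

namespace Cfsg.Agent.Stb

open Subgroup Cfsg.Agent.Mult
open scoped commutatorElement

section calculus

variable {Γ G : Type*} [Group Γ] [Group G] {σ : Γ →* G} (C : CE σ)

/-- the squares argument -/
lemma sq_arg' {X Y n : G} (snn : n * n = 1) (hnX : n * X * n⁻¹ = Y)
    (hTr : C.Tr n (X * n * X⁻¹)) {y : Γ} (hy : σ y = X) (hy2 : y * y = 1) : C.Tr X Y := by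
  have hW : C.cm n X * C.cm n X = 1 := by
    obtain ⟨s, hs⟩ := C.surj n
    obtain ⟨u, hu⟩ := C.surj X
    have hc : s * (u * s * u⁻¹) = (u * s * u⁻¹) * s := (C.tr_iff' hs (by rw [map_mul, map_mul, map_inv, hs, hu])).1 hTr
    have hz : s * s ∈ center Γ := C.central (by rw [MonoidHom.mem_ker, map_mul, hs, snn])
    rw [← hs, ← hu, C.cm_σ, commutatorElement_def]
    have e1 : s * (u * s⁻¹ * u⁻¹) = (u * s⁻¹ * u⁻¹) * s := by
      have : u * s⁻¹ * u⁻¹ = (u * s * u⁻¹)⁻¹ := by group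
      rw [this]
      exact (Commute.inv_right (show Commute s (u * s * u⁻¹) from hc))
    calc s * u * s⁻¹ * u⁻¹ * (s * u * s⁻¹ * u⁻¹) = s * ((u * s⁻¹ * u⁻¹) * s) * (u * s⁻¹ * u⁻¹) := by group
      _ = (s * s) * u * (s * s)⁻¹ * u⁻¹ := by rw [← e1]; group
      _ = 1 := by rw [← mem_center_iff.1 hz u]; group
  set y' := C.cj n y with hy'
  have hy'Y : σ y' = Y := by rw [hy', C.σ_cj, hy, hnX]
  have hy'2 : y' * y' = 1 := by rw [hy', ← map_mul, hy2, map_one]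
  have hWy : C.cm n X = y' * y⁻¹ := C.cm_eq_cj hy
  have iy : y⁻¹ = y := inv_eq_of_mul_eq_one_left hy2
  have iy' : y'⁻¹ = y' := inv_eq_of_mul_eq_one_left hy'2
  rw [← hy, ← hy'Y, C.tr_iff]
  rw [hWy, iy] at hW
  have h8 : y' * y = (y' * y)⁻¹ := eq_inv_of_mul_eq_one_left hW
  rw [mul_inv_rev, iy, iy'] at h8
  exact h8.symm

/-- the squares argument -/
lemma sq_arg {X Y n : G} (snn : n * n = 1) (hY : Y * Y = 1) (hnX : n * X * n⁻¹ = Y)
    (hT : C.Tr n (X * Y)) {y : Γ} (hy : σ y = X) (hy2 : y * y = 1) : C.Tr X Y := by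
  refine sq_arg' C snn hnX ?_ hy hy2
  have e1 : X * n * X⁻¹ = X * Y * n := by
    have e2 : n * X⁻¹ * n⁻¹ = Y⁻¹ := by rw [← hnX]; group
    have e3 : Y⁻¹ = Y := inv_eq_of_mul_eq_one_left hY
    calc X * n * X⁻¹ = X * (n * X⁻¹ * n⁻¹) * n := by group
      _ = _ := by rw [e2, e3]
  rw [e1]
  refine hT.mul_right ?_
  obtain ⟨s, hs⟩ := C.surj n
  rw [← hs, C.tr_iff]

end calculus

variable {I F W G Γ : Type*} [InvolutiveNeg I] [DecidableEq I] [Field F] [AddCommGroup W] [Module F W] [Group G] [Group Γ]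
variable {q0 : W → F} {B0 : W → W → F} (O : OF q0 B0) {y : I → I → F → G} {z : I → W → G} (R : OR q0 B0 y z)
variable {σ : Γ →* G} (C : CE σ)

/-- commutators of lifts of long root elements -/
noncomputable def ol (y : I → I → F → G) (C : CE σ) (i l k : I) (a b : F) : Γ := C.cm (y i l a) (y (-l) k b)

include R

omit [DecidableEq I] in
lemma σ_ol {i k l : I} (h1 : i ≠ k) (h2 : i ≠ -k) (h3 : l ≠ i) (h4 : l ≠ -i) (h5 : l ≠ k) (h6 : l ≠ -k) (a b : F) :
    σ (ol y C i l k a b) = y i k (a * b) := by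
  unfold ol
  rw [C.σ_cm, R.c1 (by nx) (by nx) h5 h6 h1 h2]

omit [DecidableEq I] in
lemma ol_addl {i k l : I} (h1 : i ≠ k) (h2 : i ≠ -k) (h3 : l ≠ i) (h4 : l ≠ -i) (h5 : l ≠ k) (h6 : l ≠ -k) (a a' b : F) :
    ol y C i l k (a + a') b = ol y C i l k a b * ol y C i l k a' b := by
  unfold ol
  rw [add_comm, R.add (by nx) (by nx), cm_mul_left']
  rw [R.c1 (by nx) (by nx) h5 h6 h1 h2]
  exact tL1 R C (by nx) (by nx) h1 h2 h5 h6 _ _

omit [DecidableEq I] in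
/-- a lift of order two -/
lemma ol_sq (h20 : (2 : F) = 0) {i k l : I} (h1 : i ≠ k) (h2 : i ≠ -k) (h3 : l ≠ i) (h4 : l ≠ -i) (h5 : l ≠ k) (h6 : l ≠ -k) :
    ol y C i l k 1 1 * ol y C i l k 1 1 = 1 := by
  have h11 : (1 : F) + 1 = 0 := by rw [← h20]; norm_num
  rw [← ol_addl R C h1 h2 h3 h4 h5 h6, h11]
  unfold ol
  rw [y_zero R (by nx) (by nx)]; exact C.cm_one_left _

omit [DecidableEq I] in
lemma y_sq (h20 : (2 : F) = 0) {i j : I} (h1 : i ≠ j) (h2 : i ≠ -j) : y i j 1 * y i j 1 = 1 := by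
  have h11 : (1 : F) + 1 = 0 := by rw [← h20]; norm_num
  rw [← R.add h1 h2, h11, y_zero R h1 h2]

omit [DecidableEq I] in
lemma y_inv (h20 : (2 : F) = 0) {i j : I} (h1 : i ≠ j) (h2 : i ≠ -j) : (y i j 1)⁻¹ = y i j 1 :=
  inv_eq_of_mul_eq_one_left (y_sq R h20 h1 h2)

omit [DecidableEq I] in
lemma y_symm (h20 : (2 : F) = 0) {i j : I} (h1 : i ≠ j) (h2 : i ≠ -j) : y i j 1 = y j i 1 := by
  have hm1 : (-1 : F) = 1 := by linear_combination -h20
  rw [R.symm h1 h2, hm1]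

omit [DecidableEq I] in
/-- orthogonal long roots over the field of two elements, rank at least five -/
lemma tL3_two (h20 : (2 : F) = 0) (hL2 : ∀ {i j k l : I}, i ≠ j → i ≠ -j → k ≠ l → k ≠ -l → i ≠ k → i ≠ -k → i ≠ l → i ≠ -l →
      j ≠ k → j ≠ -k → j ≠ l → j ≠ -l → ∀ a b, C.Tr (y i j a) (y k l b))
    {i j k l : I} (h1 : i ≠ j) (h2 : i ≠ -j) (k1 : k ≠ i) (k2 : k ≠ -i) (k3 : k ≠ j) (k4 : k ≠ -j)
    (l1 : l ≠ i) (l2 : l ≠ -i) (l3 : l ≠ j) (l4 : l ≠ -j) (l5 : l ≠ k) (l6 : l ≠ -k) : C.Tr (y i j 1) (y (-j) i 1) := by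
  have ne := R.ne
  have n1 : i ≠ -i := (ne i).symm
  have n2 : j ≠ -j := (ne j).symm
  have n3 : k ≠ -k := (ne k).symm
  have n4 : l ≠ -l := (ne l).symm
  have hm1 : (-1 : F) = 1 := by linear_combination -h20
  -- the product of the two root elements
  set X := y i j 1 with hX
  set Y := y (-j) i 1 with hY
  have cXY : X * Y = Y * X := y3c R h1 h2 _ _
  have sX : X * X = 1 := y_sq R h20 h1 h2
  have sY : Y * Y = 1 := y_sq R h20 (by nx) (by nx)
  -- short root elements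
  set U := y k j 1 * y k (-j) 1 with hU
  set V := y (-k) j 1 * y (-k) (-j) 1 with hV
  have cU : y k j 1 * y k (-j) 1 = y k (-j) 1 * y k j 1 := by
    rw [y_symm R h20 (i := k) (j := -j) (by nx) (by nx)]; exact y3c R k3 k4 _ _
  have cV : y (-k) j 1 * y (-k) (-j) 1 = y (-k) (-j) 1 * y (-k) j 1 := by
    rw [y_symm R h20 (i := -k) (j := -j) (by nx) (by nx)]; exact y3c R (by nx) (by nx) _ _
  have sU : U * U = 1 := by
    rw [hU]
    calc y k j 1 * y k (-j) 1 * (y k j 1 * y k (-j) 1) = y k j 1 * (y k (-j) 1 * y k j 1) * y k (-j) 1 := by group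
      _ = (y k j 1 * y k j 1) * (y k (-j) 1 * y k (-j) 1) := by rw [← cU]; group
      _ = 1 := by rw [y_sq R h20 k3 k4, y_sq R h20 (by nx) (by nx), one_mul]
  have sV : V * V = 1 := by
    rw [hV]
    calc y (-k) j 1 * y (-k) (-j) 1 * (y (-k) j 1 * y (-k) (-j) 1) = y (-k) j 1 * (y (-k) (-j) 1 * y (-k) j 1) * y (-k) (-j) 1 := by group
      _ = (y (-k) j 1 * y (-k) j 1) * (y (-k) (-j) 1 * y (-k) (-j) 1) := by rw [← cV]; group
      _ = 1 := by rw [y_sq R h20 (by nx) (by nx), y_sq R h20 (by nx) (by nx), one_mul]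
  set n := U * V * U with hn
  have snn : n * n = 1 := by
    calc n * n = U * V * (U * U) * V * U := by rw [hn]; group
      _ = U * (V * V) * U := by rw [sU]; group
      _ = 1 := by rw [sV, mul_one, sU]
  -- the product is orthogonal to the short root elements
  have tUY : ∀ {m p : I}, m ≠ i → m ≠ -i → m ≠ j → m ≠ -j → p ≠ i → p ≠ -i → p ≠ j → p ≠ -j → p ≠ m → p ≠ -m →
      C.Tr (y m j 1 * y m (-j) 1) (X * Y) := by
    intro m p m1 m2 m3 m4 p1 p2 p3 p4 p5 p6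
    have nm : m ≠ -m := (ne m).symm
    have np : p ≠ -p := (ne p).symm
    -- `X Y` from the commutator of the short root element `p`
    have e1 : ⁅y p j 1 * y p (-j) 1, y (-p) i 1⁆ = y p i 1 * (Y * X) := by
      have a1 : ⁅y p j 1, y (-p) i 1⁆ = X := by
        rw [y_symm R h20 (i := p) (j := j) p3 p4, R.c1 (i := j) (j := p) (k := i) (by nx) (by nx) p1 p2 (by nx) (by nx), mul_one,
          hX, y_symm R h20 (i := j) (j := i) (by nx) (by nx)]
      have a2 : ⁅y p (-j) 1, y (-p) i 1⁆ = Y := by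
        rw [y_symm R h20 (i := p) (j := -j) (by nx) (by nx), R.c1 (i := -j) (j := p) (k := i) (by nx) (by nx) p1 p2 (by nx) (by nx),
          mul_one]
      have a3 : y p j 1 * Y * (y p j 1)⁻¹ = y p i 1 * Y := by
        have := R.c1 (i := p) (j := j) (k := i) p3 p4 (by nx) (by nx) p1 p2 1 1
        rw [commutatorElement_def, mul_one, ← hY] at this
        rw [← this]; group
      calc ⁅y p j 1 * y p (-j) 1, y (-p) i 1⁆ = y p j 1 * ⁅y p (-j) 1, y (-p) i 1⁆ * (y p j 1)⁻¹ * ⁅y p j 1, y (-p) i 1⁆ := by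
            simp only [commutatorElement_def]; group
        _ = y p j 1 * Y * (y p j 1)⁻¹ * X := by rw [a1, a2]
        _ = _ := by rw [a3, mul_assoc]
    -- commutation of `y m j 1 * y m (-j) 1` with `y p j 1 * y p (-j) 1`
    have b1 : (y m j 1 * y m (-j) 1) * (y p j 1 * y p (-j) 1) = (y p j 1 * y p (-j) 1) * (y m j 1 * y m (-j) 1) := by
      have c1 : y m j 1 * y p j 1 = y p j 1 * y m j 1 :=
        yyc R m3 m4 p3 p4 (by nx) (by nx) (by nx) (by nx) _ _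
      have c2 : y m (-j) 1 * y p (-j) 1 = y p (-j) 1 * y m (-j) 1 :=
        yyc R (by nx) (by nx) (by nx) (by nx) (by nx) (by nx) (by nx) (by nx) _ _
      have c3 : y m j 1 * y p (-j) 1 = y m p 1 * y p (-j) 1 * y m j 1 := by
        have := R.c1 (i := m) (j := j) (k := p) m3 m4 (by nx) (by nx) (by nx) (by nx) 1 1
        rw [commutatorElement_def, mul_one] at this
        rw [y_symm R h20 (i := p) (j := -j) (by nx) (by nx), ← this]; group
      have c4 : y m (-j) 1 * y p j 1 = y m p 1 * y p j 1 * y m (-j) 1 := by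
        have := R.c1 (i := m) (j := -j) (k := p) (by nx) (by nx) (by nx) (by nx) (by nx) (by nx) 1 1
        rw [commutatorElement_def, mul_one, neg_neg] at this
        rw [y_symm R h20 (i := p) (j := j) (by nx) (by nx), ← this]; group
      have d1 : y m p 1 * y m j 1 = y m j 1 * y m p 1 := yyc R (by nx) (by nx) m3 m4 (by nx) (by nx) (by nx) (by nx) _ _
      have d2 : y m p 1 * y p j 1 = y p j 1 * y m p 1 := yyc R (by nx) (by nx) (by nx) (by nx) (by nx) (by nx) (by nx) (by nx) _ _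
      have d4 : y m p 1 * y p (-j) 1 = y p (-j) 1 * y m p 1 := yyc R (by nx) (by nx) (by nx) (by nx) (by nx) (by nx) (by nx) (by nx) _ _
      have d3 := y_sq R h20 (i := m) (j := p) (by nx) (by nx)
      calc (y m j 1 * y m (-j) 1) * (y p j 1 * y p (-j) 1) = y m j 1 * (y m (-j) 1 * y p j 1) * y p (-j) 1 := by group
        _ = y m j 1 * y m p 1 * y p j 1 * (y m (-j) 1 * y p (-j) 1) := by rw [c4]; group
        _ = (y m j 1 * y m p 1) * y p j 1 * y p (-j) 1 * y m (-j) 1 := by rw [c2]; group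
        _ = y m p 1 * (y m j 1 * y p j 1) * y p (-j) 1 * y m (-j) 1 := by rw [← d1]; group
        _ = y m p 1 * y p j 1 * (y m j 1 * y p (-j) 1) * y m (-j) 1 := by rw [c1]; group
        _ = y m p 1 * (y p j 1 * y m p 1) * y p (-j) 1 * y m j 1 * y m (-j) 1 := by rw [c3]; group
        _ = (y m p 1 * y m p 1) * y p j 1 * y p (-j) 1 * y m j 1 * y m (-j) 1 := by rw [← d2]; group
        _ = _ := by rw [d3, one_mul]; group
    have b2 : (y m j 1 * y m (-j) 1) * y (-p) i 1 = y (-p) i 1 * (y m j 1 * y m (-j) 1) := by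
      have c1 : y m j 1 * y (-p) i 1 = y (-p) i 1 * y m j 1 :=
        yyc R m3 m4 (by nx) (by nx) (by nx) (by nx) (by nx) (by nx) _ _
      have c2 : y m (-j) 1 * y (-p) i 1 = y (-p) i 1 * y m (-j) 1 :=
        yyc R (by nx) (by nx) (by nx) (by nx) (by nx) (by nx) (by nx) (by nx) _ _
      rw [mul_assoc, c2, ← mul_assoc, c1, mul_assoc]
    have t1 : C.Tr (y m j 1 * y m (-j) 1) (y p i 1 * (Y * X)) := by
      rw [← e1]; exact C.tr_comm b1 b2
    have t2 : C.Tr (y m j 1 * y m (-j) 1) (y p i 1) :=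
      CE.Tr.mul_left (hL2 m3 m4 (by nx) (by nx) (by nx) (by nx) (by nx) (by nx) (by nx) (by nx) (by nx) (by nx) _ _)
        (hL2 (by nx) (by nx) (by nx) (by nx) (by nx) (by nx) (by nx) (by nx) (by nx) (by nx) (by nx) (by nx) _ _)
    have t3 := t2.inv_right.mul_right t1
    rwa [inv_mul_cancel_left, ← cXY] at t3
  have hT : C.Tr n (X * Y) := by
    have t1 : C.Tr U (X * Y) := tUY (m := k) (p := l) k1 k2 k3 k4 l1 l2 l3 l4 l5 l6
    have t2 : C.Tr V (X * Y) := tUY (m := -k) (p := l) (by nx) (by nx) (by nx) (by nx) l1 l2 l3 l4 (by nx) (by nx)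
    exact (t1.mul_left t2).mul_left t1
  -- the Weyl element exchanges the two root elements
  have aX : ∀ {m : I}, m ≠ i → m ≠ -i → m ≠ j → m ≠ -j →
      (y m j 1 * y m (-j) 1) * X * (y m j 1 * y m (-j) 1)⁻¹ = y m i 1 * X ∧
      (y m j 1 * y m (-j) 1) * Y * (y m j 1 * y m (-j) 1)⁻¹ = y m i 1 * Y ∧
      (y m j 1 * y m (-j) 1) * y m i 1 * (y m j 1 * y m (-j) 1)⁻¹ = y m i 1 ∧
      (y m j 1 * y m (-j) 1) * y (-m) i 1 * (y m j 1 * y m (-j) 1)⁻¹ = y m i 1 * (Y * X) * y (-m) i 1 := by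
    intro m m1 m2 m3 m4
    have nm : m ≠ -m := (ne m).symm
    have c1 : y m j 1 * X = X * y m j 1 := yyc R m3 m4 h1 h2 (by nx) (by nx) (by nx) (by nx) _ _
    have c2 : y m (-j) 1 * Y = Y * y m (-j) 1 := yyc R (by nx) (by nx) (by nx) (by nx) (by nx) (by nx) (by nx) (by nx) _ _
    have c3 : y m (-j) 1 * X * (y m (-j) 1)⁻¹ = y m i 1 * X := by
      have := R.c1 (i := m) (j := -j) (k := i) (by nx) (by nx) (by nx) (by nx) m1 m2 1 1
      rw [commutatorElement_def, mul_one, neg_neg] at this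
      rw [hX, y_symm R h20 h1 h2, ← this]; group
    have c4 : y m j 1 * Y * (y m j 1)⁻¹ = y m i 1 * Y := by
      have := R.c1 (i := m) (j := j) (k := i) m3 m4 (by nx) (by nx) m1 m2 1 1
      rw [commutatorElement_def, mul_one, ← hY] at this
      rw [← this]; group
    have d1 : y m j 1 * y m i 1 = y m i 1 * y m j 1 := yyc R m3 m4 m1 m2 (by nx) (by nx) (by nx) (by nx) _ _
    have d2 : y m (-j) 1 * y m i 1 = y m i 1 * y m (-j) 1 := yyc R (by nx) (by nx) m1 m2 (by nx) (by nx) (by nx) (by nx) _ _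
    have f1 : ⁅y m j 1, y (-m) i 1⁆ = X := by
      rw [y_symm R h20 (i := m) (j := j) m3 m4, R.c1 (i := j) (j := m) (k := i) (by nx) (by nx) m1 m2 (by nx) (by nx), mul_one,
        hX, y_symm R h20 (i := j) (j := i) (by nx) (by nx)]
    have f2 : ⁅y m (-j) 1, y (-m) i 1⁆ = Y := by
      rw [y_symm R h20 (i := m) (j := -j) (by nx) (by nx), R.c1 (i := -j) (j := m) (k := i) (by nx) (by nx) m1 m2 (by nx) (by nx),
        mul_one]
    refine ⟨?_, ?_, ?_, ?_⟩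
    · calc (y m j 1 * y m (-j) 1) * X * (y m j 1 * y m (-j) 1)⁻¹ = y m j 1 * (y m (-j) 1 * X * (y m (-j) 1)⁻¹) * (y m j 1)⁻¹ := by group
        _ = (y m j 1 * y m i 1) * (X * (y m j 1)⁻¹) := by rw [c3]; group
        _ = y m i 1 * (y m j 1 * X) * (y m j 1)⁻¹ := by rw [d1]; group
        _ = _ := by rw [c1]; group
    · calc (y m j 1 * y m (-j) 1) * Y * (y m j 1 * y m (-j) 1)⁻¹ = y m j 1 * (y m (-j) 1 * Y * (y m (-j) 1)⁻¹) * (y m j 1)⁻¹ := by group
        _ = y m j 1 * Y * (y m j 1)⁻¹ := by rw [c2, mul_inv_cancel_right]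
        _ = _ := c4
    · rw [mul_assoc (y m j 1), d2, ← mul_assoc, d1]; group
    · have g1 : y m (-j) 1 * y (-m) i 1 * (y m (-j) 1)⁻¹ = Y * y (-m) i 1 := by rw [← f2]; group
      have g2 : y m j 1 * y (-m) i 1 * (y m j 1)⁻¹ = X * y (-m) i 1 := by rw [← f1]; group
      calc (y m j 1 * y m (-j) 1) * y (-m) i 1 * (y m j 1 * y m (-j) 1)⁻¹
          = y m j 1 * (y m (-j) 1 * y (-m) i 1 * (y m (-j) 1)⁻¹) * (y m j 1)⁻¹ := by group
        _ = (y m j 1 * Y * (y m j 1)⁻¹) * (y m j 1 * y (-m) i 1 * (y m j 1)⁻¹) := by rw [g1]; group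
        _ = _ := by rw [c4, g2]; group
  obtain ⟨u1, u2, u3, u4⟩ := aX k1 k2 k3 k4
  obtain ⟨v1, v2, v3, v4⟩ := aX (m := -k) (by nx) (by nx) (by nx) (by nx)
  rw [neg_neg] at v4
  rw [← hU] at u1 u2 u3 u4
  rw [← hV] at v1 v2 v3 v4
  have s1 := y_sq R h20 (i := -k) (j := i) (by nx) (by nx)
  have s2 := y_sq R h20 (i := k) (j := i) (by nx) (by nx)
  have w1 : y k i 1 * y (-k) i 1 = y (-k) i 1 * y k i 1 := by
    rw [y_symm R h20 (i := k) (j := i) k1 k2]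
    exact y3c R (i := i) (j := k) (by nx) (by nx) _ _
  have w2 : X * y (-k) i 1 = y (-k) i 1 * X := yyc R h1 h2 (by nx) (by nx) (by nx) (by nx) (by nx) (by nx) _ _
  have w3 : X * y k i 1 = y k i 1 * X := yyc R h1 h2 (by nx) (by nx) (by nx) (by nx) (by nx) (by nx) _ _
  have w4 : Y * y k i 1 = y k i 1 * Y := yyc R (by nx) (by nx) (by nx) (by nx) (by nx) (by nx) (by nx) (by nx) _ _
  have w5 : Y * y (-k) i 1 = y (-k) i 1 * Y := yyc R (by nx) (by nx) (by nx) (by nx) (by nx) (by nx) (by nx) (by nx) _ _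
  have hnX : n * X * n⁻¹ = Y := by
    calc n * X * n⁻¹ = U * (V * (U * X * U⁻¹) * V⁻¹) * U⁻¹ := by rw [hn]; group
      _ = U * ((V * y k i 1 * V⁻¹) * (V * X * V⁻¹)) * U⁻¹ := by rw [u1]; group
      _ = U * (y (-k) i 1 * (Y * X) * y k i 1 * (y (-k) i 1 * X)) * U⁻¹ := by rw [v4, v1]
      _ = U * (y (-k) i 1 * Y * X * (y k i 1 * y (-k) i 1) * X) * U⁻¹ := by group
      _ = U * (y (-k) i 1 * Y * (X * y (-k) i 1) * y k i 1 * X) * U⁻¹ := by rw [w1]; group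
      _ = U * (y (-k) i 1 * Y * y (-k) i 1 * (X * y k i 1) * X) * U⁻¹ := by rw [w2]; group
      _ = U * (y (-k) i 1 * Y * y (-k) i 1 * y k i 1 * (X * X)) * U⁻¹ := by rw [w3]; group
      _ = U * (y (-k) i 1 * (Y * y (-k) i 1) * y k i 1) * U⁻¹ := by rw [sX]; group
      _ = U * ((y (-k) i 1 * y (-k) i 1) * (Y * y k i 1)) * U⁻¹ := by rw [w5]; group
      _ = (U * y k i 1 * U⁻¹) * (U * Y * U⁻¹) := by rw [s1, w4]; group
      _ = (y k i 1 * y k i 1) * Y := by rw [u3, u2]; group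
      _ = Y := by rw [s2, one_mul]
  exact sq_arg C snn sY hnX hT (σ_ol R C h1 h2 k1 k2 k3 k4 1 1 |>.trans (by rw [mul_one])) (ol_sq R C h20 h1 h2 k1 k2 k3 k4)

omit [DecidableEq I] in
/-- all pairs over the field of two elements -/
lemma tL3_two' (h20 : (2 : F) = 0) (hall : ∀ a : F, a = 0 ∨ a = 1)
    (hL2 : ∀ {i j k l : I}, i ≠ j → i ≠ -j → k ≠ l → k ≠ -l → i ≠ k → i ≠ -k → i ≠ l → i ≠ -l →
      j ≠ k → j ≠ -k → j ≠ l → j ≠ -l → ∀ a b, C.Tr (y i j a) (y k l b))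
    (hfour : ∀ i j k : I, ∃ l, l ≠ i ∧ l ≠ -i ∧ l ≠ j ∧ l ≠ -j ∧ l ≠ k ∧ l ≠ -k)
    {i j : I} (h1 : i ≠ j) (h2 : i ≠ -j) (a b : F) : C.Tr (y i j a) (y (-j) i b) := by
  obtain ⟨k, k1, k2, k3, k4, -, -⟩ := hfour i j j
  obtain ⟨l, l1, l2, l3, l4, l5, l6⟩ := hfour i j k
  rcases hall a with rfl | rfl
  · rw [y_zero R h1 h2]; exact C.cm_one_left _
  · rcases hall b with rfl | rfl
    · rw [y_zero R (by nx) (by nx)]; exact C.cm_one_right _
    · exact tL3_two R C h20 hL2 h1 h2 k1 k2 k3 k4 l1 l2 l3 l4 l5 l6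

omit [DecidableEq I] in
include O in
/-- short root elements with the same vector -/
lemma tZZ_two (h20 : (2 : F) = 0)
    (hS2 : ∀ {i j k : I}, i ≠ j → i ≠ -j → i ≠ k → i ≠ -k → j ≠ k → j ≠ -k → ∀ w a, C.Tr (z i w) (y j k a))
    {i j : I} (h1 : i ≠ j) (h2 : i ≠ -j) (w : W) : C.Tr (z i w) (z j w) := by
  obtain ⟨k, k1, k2, k3, k4⟩ := R.three i j
  have e1 : ⁅z k w, y (-k) j 1⁆ = y k j (-(q0 w * 1)) * z j w := by
    rw [R.c3 k3 k4, one_smul]
  have b1 : z i w * z k w = z k w * z i w := by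
    rw [← commutatorElement_eq_one_iff_mul_comm, R.c6 (by nx) (by nx), O.self, h20, zero_mul, neg_zero,
      y_zero R (by nx) (by nx)]
  have t1 : C.Tr (z i w) (y k j (-(q0 w * 1)) * z j w) := by
    rw [← e1]; exact C.tr_comm b1 (zyc R (by nx) (by nx) (by nx) (by nx) _ _)
  have t2 := (hS2 (i := i) (j := k) (k := j) (by nx) (by nx) h1 h2 k3 k4 w (-(q0 w * 1))).inv_right.mul_right t1
  rwa [inv_mul_cancel_left] at t2

/-- the conditions for type `D` -/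
structure OKD (I F : Type*) [InvolutiveNeg I] [Field F] : Prop where
  ok : (∃ s : F, s ≠ 0 ∧ s * s ≠ 1) ∨ ((3 : F) = 0 ∧ ∀ a : F, a = 0 ∨ a = 1 ∨ a = -1) ∨
    ((2 : F) = 0 ∧ (∀ a : F, a = 0 ∨ a = 1) ∧
      ∀ i j k l : I, ∃ m, m ≠ i ∧ m ≠ -i ∧ m ≠ j ∧ m ≠ -j ∧ m ≠ k ∧ m ≠ -k ∧ m ≠ l ∧ m ≠ -l)

variable [Fintype I] {ρ : G →* (((I → F) × W) ≃ₗ[F] ((I → F) × W))} (A : OA q0 B0 y z ρ)

include O A

/-- all pairs of commuting root elements, type `D` -/
theorem otr_D [Subsingleton W] (H : OKD I F) : OTr y z C := by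
  have hz : ∀ i w, z i w = 1 := fun i w => by rw [Subsingleton.elim w 0, R.z_zero]
  have hL2 : ∀ {i j k l : I}, i ≠ j → i ≠ -j → k ≠ l → k ≠ -l → i ≠ k → i ≠ -k → i ≠ l → i ≠ -l →
      j ≠ k → j ≠ -k → j ≠ l → j ≠ -l → ∀ a b, C.Tr (y i j a) (y k l b) := by
    intro i j k l h1 h2 h3 h4 h5 h6 h7 h8 h9 h10 h11 h12 a b
    rcases H.ok with ⟨s, hs, hs2⟩ | ⟨h3', hall⟩ | ⟨-, -, h5'⟩
    · exact tL2_big O R C A hs hs2 h1 h2 h3 h4 h5 h6 h7 h8 h9 h10 h11 h12 a b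
    · exact tL2_three O R C A h3' hall h1 h2 h3 h4 h5 h6 h7 h8 h9 h10 h11 h12 a b
    · obtain ⟨m, m1, m2, m3, m4, m5, m6, m7, m8⟩ := h5' i j k l
      exact tL2_five R C h1 h2 h3 h4 h5 h6 h7 h8 h9 h10 h11 h12 m1 m2 m3 m4 m5 m6 m7 m8 a b
  have hL3 : ∀ {i j : I}, i ≠ j → i ≠ -j → ∀ a b, C.Tr (y i j a) (y (-j) i b) := by
    intro i j h1 h2 a b
    rcases H.ok with ⟨s, hs, hs2⟩ | ⟨h3', hall⟩ | ⟨h20, hall, h5'⟩
    · exact tL3_big O R C A hs hs2 h1 h2 a b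
    · exact tL3_three O R C A h3' hall h1 h2 a b
    · refine tL3_two' R C h20 hall hL2 (fun i j k => ?_) h1 h2 a b
      obtain ⟨m, m1, m2, m3, m4, m5, m6, -⟩ := h5' i j k k
      exact ⟨m, m1, m2, m3, m4, m5, m6⟩
  exact ⟨fun h1 h2 a b => tL0 R C h1 h2 a b, fun h1 h2 h3 h4 h5 h6 a b => tL1 R C h1 h2 h3 h4 h5 h6 a b, hL2, hL3,
    fun i w w' => by rw [hz]; exact C.cm_one_left _, fun h1 h2 w a => by rw [hz]; exact C.cm_one_left _,
    fun h1 h2 h3 h4 h5 h6 w a => by rw [hz]; exact C.cm_one_left _⟩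

end Cfsg.Agent.Stb

namespace Cfsg.Agent.Stb

open Subgroup Cfsg.Agent.Mult
open scoped commutatorElement

variable {I F L G Γ : Type*} [InvolutiveNeg I] [DecidableEq I] [Field F] [Field L] [Algebra F L] [Group G] [Group Γ]
variable {q0 : L → F} {B0 : L → L → F} {τ : L →+* L} (N : OL q0 τ) (O : OF q0 B0) {y : I → I → F → G} {z : I → L → G}
  (R : OR q0 B0 y z)
variable [Fintype I] {ρ : G →* (((I → F) × L) ≃ₗ[F] ((I → F) × L))} (A : OA q0 B0 y z ρ)
variable {σ : Γ →* G} (C : CE σ)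

include N O R A

/-- short and disjoint long roots by the torus of a short root -/
lemma tS2_L {t : L} (ht : t ≠ 0) (ht2 : t * t ≠ 1) {i j k : I} (h1 : i ≠ j) (h2 : i ≠ -j) (h3 : i ≠ k) (h4 : i ≠ -k)
    (h5 : j ≠ k) (h6 : j ≠ -k) (w : L) (a : F) : C.Tr (z i w) (y j k a) := by
  have ne := R.ne
  obtain ⟨a1, a2, a3, a4⟩ := hz_act N O A ne i ht
  have hT := hz_T N O R A i ht
  refine C.tr_torus (X := z i) (Y := fun _ => y j k a) (h := hz τ z i t) (l := t * t) (fun a b => R.zadd i a b)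
    (fun w _ => zyc R h5 h6 (by nx) (by nx) _ _) ht2 ?_ ?_ w 0
  · intro w
    rw [tor_z O R A hT a1 (a4 w)]
    congr 2
    rw [Algebra.smul_def, N.q]
    have := N.τ_ne ht
    field_simp
  · intro _
    have e1 : ρ (hz τ z i t) (eh j) = (1 : F) • eh j := by rw [one_smul]; exact a3 j (by nx) (by nx)
    have e2 : ρ (hz τ z i t) (eh k) = (1 : F) • eh k := by rw [one_smul]; exact a3 k (by nx) (by nx)
    have := tor_y O R A h5 h6 hT e1 e2 a
    rwa [one_mul, one_mul] at this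

/-- orthogonal long roots, two elements, with short roots -/
lemma tL3_two_L (h20 : (2 : F) = 0)
    (hS2 : ∀ {i j k : I}, i ≠ j → i ≠ -j → i ≠ k → i ≠ -k → j ≠ k → j ≠ -k → ∀ w a, C.Tr (z i w) (y j k a))
    {i j : I} (h1 : i ≠ j) (h2 : i ≠ -j) : C.Tr (y i j 1) (y (-j) i 1) := by
  have ne := R.ne
  have hm1 : (-1 : F) = 1 := by linear_combination -h20
  have h20L : (2 : L) = 0 := by
    have := congrArg (algebraMap F L) h20
    rwa [map_ofNat, map_zero] at this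
  have h11L : (1 : L) + 1 = 0 := by rw [← h20L]; norm_num
  obtain ⟨k, k1, k2, k3, k4⟩ := R.three i j
  have zsq : ∀ i, z i 1 * z i 1 = 1 := fun i => by rw [← R.zadd, h11L, R.z_zero]
  have hm1L : (-1 : L) = 1 := by linear_combination -h20L
  -- the Weyl element
  have hnz : nz τ z j 1 = z j 1 * z (-j) 1 * z j 1 := by
    unfold nz
    rw [inv_one, map_neg, map_one, neg_neg]
  obtain ⟨b1, b2, b3, b4⟩ := nz_act N O A ne j (t := 1) one_ne_zero
  have hmem := nz_mem N O R A j (one_ne_zero (α := L))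
  set A' := z j 1 with hA'
  set B' := z (-j) 1 with hB'
  set n := nz τ z j 1 with hn
  have snn : n * n = 1 := by
    rw [hnz]
    calc A' * B' * A' * (A' * B' * A') = A' * B' * (A' * A') * B' * A' := by group
      _ = A' * (B' * B') * A' := by rw [zsq]; group
      _ = 1 := by rw [zsq, mul_one, zsq]
  obtain ⟨r1, -⟩ := rf_self1 (I := I) (i := j) (j := j) (ne j).symm
  have hnX : n * y i j 1 * n⁻¹ = y (-j) i 1 := by
    have a1 := (ocln O R A).M_X j j (ne j).symm i j h2 n hmem (y i j 1) (HR.y_mem h1 h2 1)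
    rw [r1, rf_of_ne h1 h1 h2 h2] at a1
    have := conj_y O R A (i := i) (j := j) (k := i) (l := -j) h1 h2 h2 (by nx) a1 (c := 1) (d := -(q0 1)⁻¹) (d' := -q0 1)
      (by rw [one_smul]; exact b3 i h1 h2) b1 (by rw [neg_neg]; exact b2)
    rw [this, R.symm h2 (by nx), N.q_one]
    congr 1
    rw [inv_one]; ring
  have hTr : C.Tr n (y i j 1 * n * (y i j 1)⁻¹) := by
    apply CE.Tr.of_conj (k := A')
    have cAX : A' * y i j 1 = y i j 1 * A' := zyc R h1 h2 h2 (ne j).symm _ _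
    have hnA : A' * n * A'⁻¹ = B' := by
      rw [hnz]
      calc A' * (A' * B' * A') * A'⁻¹ = (A' * A') * B' := by group
        _ = B' := by rw [zsq, one_mul]
    have e1 : A' * (y i j 1 * n * (y i j 1)⁻¹) * A'⁻¹ = y i j 1 * B' * (y i j 1)⁻¹ := by
      calc A' * (y i j 1 * n * (y i j 1)⁻¹) * A'⁻¹ = (A' * y i j 1) * n * (A' * y i j 1)⁻¹ := by group
        _ = (y i j 1 * A') * n * (y i j 1 * A')⁻¹ := by rw [cAX]
        _ = y i j 1 * (A' * n * A'⁻¹) * (y i j 1)⁻¹ := by group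
        _ = _ := by rw [hnA]
    have e2 : y i j 1 * B' * (y i j 1)⁻¹ = (y (-j) i (-(q0 1 * 1)) * z i ((1 : F) • (1 : L)))⁻¹ * B' := by
      have := R.c3 (i := -j) (j := i) (by nx) (by nx) 1 1
      rw [neg_neg, y_symm R h20 (i := j) (j := i) (by nx) (by nx), ← hB'] at this
      rw [← this, commutatorElement_def]; group
    rw [hnA, e1, e2]
    refine ((CE.Tr.mul_right ?_ ?_).inv_right).mul_right ?_
    · exact tS1 R C (by nx) (by nx) _ _
    · rw [one_smul]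
      exact tZZ_two O R C h20 hS2 (by nx) (by nx) _
    · obtain ⟨s, hs⟩ := C.surj B'
      rw [← hs, C.tr_iff]
  exact sq_arg' C snn hnX hTr (σ_ol R C h1 h2 k1 k2 k3 k4 1 1 |>.trans (by rw [mul_one])) (ol_sq R C h20 h1 h2 k1 k2 k3 k4)

omit A O N R in
/-- the conditions for types with short roots -/
structure OKL (I F L : Type*) [InvolutiveNeg I] [Field F] [Field L] : Prop where
  s2 : (∃ t : L, t ≠ 0 ∧ t * t ≠ 1) ∨ (∀ i j k : I, ∃ l, l ≠ i ∧ l ≠ -i ∧ l ≠ j ∧ l ≠ -j ∧ l ≠ k ∧ l ≠ -k)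
  ok : (∃ s : F, s ≠ 0 ∧ s * s ≠ 1) ∨ ((3 : F) = 0 ∧ ∀ a : F, a = 0 ∨ a = 1 ∨ a = -1) ∨ ((2 : F) = 0 ∧ (∀ a : F, a = 0 ∨ a = 1))

/-- all pairs of commuting root elements, types with short roots -/
theorem otr_L (H : OKL I F L) : OTr y z C := by
  have hS2 : ∀ {i j k : I}, i ≠ j → i ≠ -j → i ≠ k → i ≠ -k → j ≠ k → j ≠ -k → ∀ w a, C.Tr (z i w) (y j k a) := by
    intro i j k h1 h2 h3 h4 h5 h6 w a
    rcases H.s2 with ⟨t, ht, ht2⟩ | h4'
    · exact tS2_L N O R A C ht ht2 h1 h2 h3 h4 h5 h6 w a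
    · obtain ⟨l, l1, l2, l3, l4, l5, l6⟩ := h4' i j k
      exact tS2_four R C h1 h2 h3 h4 h5 h6 l1 l2 l3 l4 l5 l6 w a
  have hL2 : ∀ {i j k l : I}, i ≠ j → i ≠ -j → k ≠ l → k ≠ -l → i ≠ k → i ≠ -k → i ≠ l → i ≠ -l →
      j ≠ k → j ≠ -k → j ≠ l → j ≠ -l → ∀ a b, C.Tr (y i j a) (y k l b) := by
    intro i j k l h1 h2 h3 h4 h5 h6 h7 h8 h9 h10 h11 h12 a b
    exact tL2_of_S2 R C hS2 (w := 1) (by rw [N.q_one]; exact one_ne_zero) h1 h2 h3 h4 h5 h6 h7 h8 h9 h10 h11 h12 a b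
  have hL3 : ∀ {i j : I}, i ≠ j → i ≠ -j → ∀ a b, C.Tr (y i j a) (y (-j) i b) := by
    intro i j h1 h2 a b
    rcases H.ok with ⟨s, hs, hs2⟩ | ⟨h3', hall⟩ | ⟨h20, hall⟩
    · exact tL3_big O R C A hs hs2 h1 h2 a b
    · exact tL3_three O R C A h3' hall h1 h2 a b
    · rcases hall a with rfl | rfl
      · rw [y_zero R h1 h2]; exact C.cm_one_left _
      · rcases hall b with rfl | rfl
        · rw [y_zero R (by nx) (by nx)]; exact C.cm_one_right _
        · exact tL3_two_L N O R A C h20 hS2 h1 h2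
  exact ⟨fun h1 h2 a b => tL0 R C h1 h2 a b, fun h1 h2 h3 h4 h5 h6 a b => tL1 R C h1 h2 h3 h4 h5 h6 a b, hL2, hL3,
    fun i w w' => tS0_of_L3 O R C hL3 i w w', fun h1 h2 w a => tS1 R C h1 h2 w a, hS2⟩

end Cfsg.Agent.Stb
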