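import Cfsg.Agent.Stb.OLift

set_option autoImplicit false

/-!
Lifting the Steinberg relations of orthogonal groups to central extensions: the field of two elements.
-/

namespace Cfsg.Agent.Stb

open Subgroup Cfsg.Agent.Mult
open scoped commutatorElement

variable {I F W G Γ : Type*} [InvolutiveNeg I] [DecidableEq I] [Field F] [AddCommGroup W] [Module F W] [Group G] [Group Γ]
variable {q0 : W → F} {B0 : W → W → F} {y : I → I → F → G} {z : I → W → G} (R : OR q0 B0 y z)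
variable {σ : Γ →* G} {C : CE σ} (H : OTr y z C)

include R H

omit [DecidableEq I] in
lemma ol_change {i j k l : I} (h1 : i ≠ k) (h2 : i ≠ -k) (h3 : j ≠ i) (h4 : j ≠ -i) (h5 : j ≠ k) (h6 : j ≠ -k)
    (h7 : l ≠ i) (h8 : l ≠ -i) (h9 : l ≠ k) (h10 : l ≠ -k) (h11 : l ≠ j) (h12 : l ≠ -j) (a b c : F) :
    ol y C i j k a (b * c) = ol y C i l k (a * b) c := by
  have ne := R.ne
  unfold ol
  have e1 : y (-j) k (b * c) = ⁅y (-j) l b, y (-l) k c⁆ := by
    rw [R.c1 (i := -j) (j := l) (k := k) (by nx) (by nx) (by nx) (by nx) (by nx) (by nx)]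
  have e2 : y (-j) l b * y (-l) k c * (y (-j) l b)⁻¹ = y (-j) k (b * c) * y (-l) k c := by
    rw [e1, commutatorElement_def]; group
  have h13 : C.Tr (y i j a) (y (-l) k c) :=
    H.yy R (by nx) (by nx) (by nx) (by nx) (by nx) (by nx) (by nx) (by nx) _ _
  have h14 : C.Tr (y i l (a * b)) (y (-j) k (b * c)) :=
    H.yy R (by nx) (by nx) (by nx) (by nx) (by nx) (by nx) (by nx) (by nx) _ _
  conv_lhs => rw [e1]
  rw [C.cm_comm_right h13, R.c1 (i := i) (j := j) (k := l) (by nx) (by nx) (by nx) (by nx) (by nx) (by nx), e2,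
    C.cm_mul_right, show C.cm (y i l _) (y (-j) k _) = 1 from h14, one_mul]
  have h9 : C.Tr (y (-j) k (b * c)) (σ (C.cm (y i l (a * b)) (y (-l) k c))) := by
    rw [C.σ_cm, R.c1 (i := i) (j := l) (k := k) (by nx) (by nx) (by nx) (by nx) (by nx) (by nx)]
    exact H.yy R (by nx) (by nx) (by nx) (by nx) (by nx) (by nx) (by nx) (ne k).symm _ _
  rw [h9.cj_eq]

section two

variable (h20 : (2 : F) = 0) (hall : ∀ a : F, a = 0 ∨ a = 1)
  (h4 : ∀ i j k : I, ∃ l, l ≠ i ∧ l ≠ -i ∧ l ≠ j ∧ l ≠ -j ∧ l ≠ k ∧ l ≠ -k)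

include h4 in
omit [DecidableEq I] in
lemma ol_indep {i j k l : I} (h1 : i ≠ k) (h2 : i ≠ -k) (h3 : j ≠ i) (h4' : j ≠ -i) (h5 : j ≠ k) (h6 : j ≠ -k)
    (h7 : l ≠ i) (h8 : l ≠ -i) (h9 : l ≠ k) (h10 : l ≠ -k) :
    ol y C i j k 1 1 = ol y C i l k 1 1 := by
  have key : ∀ {j l : I}, j ≠ i → j ≠ -i → j ≠ k → j ≠ -k → l ≠ i → l ≠ -i → l ≠ k → l ≠ -k → l ≠ j → l ≠ -j →
      ol y C i j k 1 1 = ol y C i l k 1 1 := by
    intro j l a1 a2 a3 a4 a5 a6 a7 a8 a9 a10
    have := ol_change R H h1 h2 a1 a2 a3 a4 a5 a6 a7 a8 a9 a10 1 1 1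
    rwa [one_mul] at this
  by_cases hl : l = j
  · rw [hl]
  by_cases hl' : l = -j
  · obtain ⟨m, m1, m2, m3, m4, m5, m6⟩ := h4 i k j
    rw [key h3 h4' h5 h6 m1 m2 m3 m4 m5 m6, key (j := l) (l := m) h7 h8 h9 h10 m1 m2 m3 m4 (by rw [hl']; nx) (by rw [hl']; nx)]
  · exact key h3 h4' h5 h6 h7 h8 h9 h10 hl hl'

omit H [DecidableEq I] in
include h20 in
lemma ol_swap {i j k : I} (h3 : j ≠ i) (h4' : j ≠ -i) (h5 : j ≠ k) (h6 : j ≠ -k) :
    (ol y C i j k 1 1)⁻¹ = ol y C k (-j) i 1 1 := by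
  unfold ol
  rw [C.inv_cm, neg_neg, y_symm R h20 (i := -j) (j := k) (by nx) (by nx), y_symm R h20 (i := i) (j := j) (by nx) (by nx)]

/-- lift of a long root element -/
noncomputable def eo (y : I → I → F → G) (C : CE σ)
    (h4 : ∀ i j k : I, ∃ l, l ≠ i ∧ l ≠ -i ∧ l ≠ j ∧ l ≠ -j ∧ l ≠ k ∧ l ≠ -k) (i k : I) : Γ :=
  ol y C i (h4 i k k).choose k 1 1

omit [DecidableEq I] in
lemma eo_eq {i j k : I} (h1 : i ≠ k) (h2 : i ≠ -k) (h3 : j ≠ i) (h4' : j ≠ -i) (h5 : j ≠ k) (h6 : j ≠ -k) :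
    eo y C h4 i k = ol y C i j k 1 1 := by
  obtain ⟨m1, m2, m3, m4, -, -⟩ := (h4 i k k).choose_spec
  exact ol_indep R H h4 h1 h2 m1 m2 m3 m4 h3 h4' h5 h6

omit H [DecidableEq I] in
include h20 in
lemma eo_sq {i k : I} (h1 : i ≠ k) (h2 : i ≠ -k) : eo y C h4 i k * eo y C h4 i k = 1 := by
  obtain ⟨m1, m2, m3, m4, -, -⟩ := (h4 i k k).choose_spec
  exact ol_sq R C h20 h1 h2 m1 m2 m3 m4

omit H [DecidableEq I] in
lemma σ_eo {i k : I} (h1 : i ≠ k) (h2 : i ≠ -k) : σ (eo y C h4 i k) = y i k 1 := by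
  obtain ⟨m1, m2, m3, m4, -, -⟩ := (h4 i k k).choose_spec
  rw [eo, σ_ol R C h1 h2 m1 m2 m3 m4, one_mul]

omit [DecidableEq I] in
include h20 in
lemma eo_symm {i k : I} (h1 : i ≠ k) (h2 : i ≠ -k) : eo y C h4 i k = eo y C h4 k i := by
  obtain ⟨m1, m2, m3, m4, -, -⟩ := (h4 i k k).choose_spec
  rw [← inv_eq_of_mul_eq_one_left (eo_sq R (C := C) h20 h4 h1 h2), eo, ol_swap R h20 m1 m2 m3 m4]
  exact (eo_eq R H h4 (by nx) (by nx) (by nx) (by nx) (by nx) (by nx)).symm

include h20 hall h4 in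
omit [DecidableEq I] in
/-- the lifted relations for type `D`, two elements -/
theorem exists_or_two_D [Subsingleton W] :
    ∃ (yl : I → I → F → Γ) (zl : I → W → Γ), OR q0 B0 yl zl ∧ (∀ {i j}, i ≠ j → i ≠ -j → ∀ a, σ (yl i j a) = y i j a) ∧
      ∀ i w, σ (zl i w) = z i w := by
  classical
  have h10 : (1 : F) ≠ 0 := one_ne_zero
  have h11 : (1 : F) + 1 = 0 := by rw [← h20]; norm_num
  have hm1 : (-1 : F) = 1 := by linear_combination -h20
  set yl : I → I → F → Γ := fun i j a => if a = 0 then 1 else eo y C h4 i j with hyl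
  have y0 : ∀ i j, yl i j 0 = 1 := fun i j => by rw [hyl]; simp only [if_true]
  have y1 : ∀ i j, yl i j 1 = eo y C h4 i j := fun i j => by rw [hyl]; simp only [if_neg h10]
  have hσ : ∀ {i j}, i ≠ j → i ≠ -j → ∀ a, σ (yl i j a) = y i j a := by
    intro i j h1 h2 a
    rcases hall a with rfl | rfl
    · rw [y0, map_one, y_zero R h1 h2]
    · rw [y1, σ_eo R h4 h1 h2]
  have hz : ∀ i w, z i w = 1 := fun i w => by rw [Subsingleton.elim w 0, R.z_zero]
  have hzero : ∀ {i j : I}, i ≠ j → i ≠ -j → ∀ w w', y i j (-B0 w w') = 1 := by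
    intro i j h1 h2 w w'
    rw [← R.c6 h1 h2 w w', hz, commutatorElement_one_left]
  have hB : ∀ {i j : I}, i ≠ j → i ≠ -j → ∀ w w', yl i j (-B0 w w') = 1 := by
    intro i j h1 h2 w w'
    -- the root element determines the lift through its square
    rcases hall (-B0 w w') with h | h
    · rw [h, y0]
    · have h3 := hzero h1 h2 w w'
      rw [h] at h3
      rw [h, y1]
      obtain ⟨m1, m2, m3, m4, -, -⟩ := (h4 i j j).choose_spec
      have h5 : y i j 1 = 1 := h3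
      -- all root elements are trivial
      unfold eo ol
      set m := (h4 i j j).choose
      have h6 : y (-m) j 1 = 1 := by
        have := R.c1 (i := -m) (j := -i) (k := j) (by nx) (by nx) (by nx) (by nx) (by nx) (by nx) 1 1
        rw [neg_neg, h5, commutatorElement_one_right, mul_one] at this
        exact this.symm
      rw [h6]; exact C.cm_one_right _
  refine ⟨yl, fun _ _ => 1, ⟨R.ne, R.three, ?_, ?_, ?_, ?_, ?_, ?_, ?_, ?_, ?_⟩, hσ, fun i w => by rw [map_one, hz]⟩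
  · intro i j h1 h2 a
    rcases hall a with rfl | rfl
    · rw [neg_zero, y0, y0]
    · rw [hm1, y1, y1, eo_symm R H h20 h4 h1 h2]
  · intro i j h1 h2 a b
    rcases hall a with rfl | rfl
    · rw [zero_add, y0, one_mul]
    · rcases hall b with rfl | rfl
      · rw [add_zero, y0, mul_one]
      · rw [h11, y0, y1, eo_sq R h20 h4 h1 h2]
  · intro i w w'; rw [one_mul]
  · intro i j k h1 h2 h3 h4' h5 h6 a b
    rcases hall a with rfl | rfl
    · rw [zero_mul, y0, y0, commutatorElement_one_left]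
    · rcases hall b with rfl | rfl
      · rw [mul_zero, y0, y0, commutatorElement_one_right]
      · rw [mul_one, C.cm_eq (hσ h1 h2 1) (hσ (i := -j) (j := k) (by nx) (by nx) 1), y1,
          eo_eq R H h4 h5 h6 (j := j) (by nx) (by nx) (by nx) (by nx)]
        rfl
  · intro i j h1 h2 a b
    rw [commutatorElement_eq_one_iff_mul_comm]
    exact (C.tr_iff' (hσ h1 h2 a) (hσ (i := -j) (j := i) (by nx) (by nx) b)).1 (H.L3 h1 h2 a b)
  · intro i j h1 h2 w b
    rw [commutatorElement_one_left, mul_one]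
    have h3 : y i j (-(q0 w * b)) = 1 := by
      have := R.c3 h1 h2 w b
      rw [hz, hz, commutatorElement_one_left, mul_one] at this
      exact this.symm
    rcases hall (-(q0 w * b)) with h | h
    · rw [h, y0]
    · rw [h] at h3
      rw [h, y1]
      obtain ⟨m1, m2, m3, m4, -, -⟩ := (h4 i j j).choose_spec
      unfold eo ol
      set m := (h4 i j j).choose
      have h6 : y (-m) j 1 = 1 := by
        have := R.c1 (i := -m) (j := -i) (k := j) (by nx) (by nx) (by nx) (by nx) (by nx) (by nx) 1 1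
        rw [neg_neg, h3, commutatorElement_one_right, mul_one] at this
        exact this.symm
      rw [h6]; exact (C.cm_one_right _).symm
  · intro i j k l h1 h2 h3 h4' h5 h6 h7 h8 a b
    rw [commutatorElement_eq_one_iff_mul_comm]
    exact (C.tr_iff' (hσ h1 h2 a) (hσ h3 h4' b)).1 (H.yy R h1 h2 h3 h4' h5 h6 h7 h8 a b)
  · intro i k l h1 h2 h3 h4' w a
    exact commutatorElement_one_left _
  · intro i j h1 h2 w w'
    rw [hB h1 h2, commutatorElement_one_left]

end two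

end Cfsg.Agent.Stb
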