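import Cfsg.Agent.Stb.OTwo

set_option autoImplicit false

/-!
Lifting the Steinberg relations of orthogonal groups of minus type to central extensions: the field of two elements.
-/

namespace Cfsg.Agent.Stb

open Subgroup Cfsg.Agent.Mult
open scoped commutatorElement

variable {I F L G Γ : Type*} [InvolutiveNeg I] [DecidableEq I] [Field F] [Field L] [Algebra F L] [Group G] [Group Γ]
variable {q0 : L → F} {B0 : L → L → F} {τ : L →+* L} (N : OL q0 τ) (O : OF q0 B0) {y : I → I → F → G} {z : I → L → G}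
  (R : OR q0 B0 y z)
variable [Fintype I] {ρ : G →* (((I → F) × L) ≃ₗ[F] ((I → F) × L))} (A : OA q0 B0 y z ρ)
variable {σ : Γ →* G} {C : CE σ} (H : OTr y z C)

/-- the minus type over the field of two elements -/
structure O4 (q0 : L → F) (B0 : L → L → F) (τ : L →+* L) (t : L) : Prop where
  two : (2 : F) = 0
  twoL : (2 : L) = 0
  all : ∀ a : F, a = 0 ∨ a = 1
  t0 : t ≠ 0
  qt : q0 t = 1
  τt : τ t = t + 1
  tt : t * t = t + 1
  span : ∀ w : L, w = 0 ∨ w = 1 ∨ w = t ∨ w = t + 1
  b1t : B0 1 t = 1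

include N O in
lemma exists_O4 (h20 : (2 : F) = 0) (hall : ∀ a : F, a = 0 ∨ a = 1) {t : L} (ht : τ t ≠ t) : O4 q0 B0 τ t := by
  have h20L : (2 : L) = 0 := by
    have := congrArg (algebraMap F L) h20
    rwa [map_ofNat, map_zero] at this
  have t0 : t ≠ 0 := by rintro rfl; exact ht (map_zero τ)
  have qt : ∀ w : L, w ≠ 0 → q0 w = 1 := fun w hw => (hall _).resolve_left (N.q_ne hw)
  have hb : ∀ w : L, algebraMap F L (B0 1 w) = τ w + w := fun w => by rw [N.b O, map_one, one_mul, one_mul]
  have b1 : ∀ w : L, τ w ≠ w → B0 1 w = 1 := by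
    intro w hw
    rcases hall (B0 1 w) with h | h
    · exfalso
      apply hw
      have := hb w
      rw [h, map_zero] at this
      linear_combination -this - w * h20L
    · exact h
  have τw : ∀ w : L, τ w ≠ w → τ w = w + 1 := by
    intro w hw
    have := hb w
    rw [b1 w hw, map_one] at this
    linear_combination -this - w * h20L
  have sq : ∀ w : L, τ w ≠ w → w * w = w + 1 := by
    intro w hw
    have w0 : w ≠ 0 := by rintro rfl; exact hw (map_zero τ)
    have h1 := N.q w
    rw [qt w w0, map_one, τw w hw] at h1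
    linear_combination -h1 - w * h20L
  refine ⟨h20, h20L, hall, t0, qt t t0, τw t ht, sq t ht, ?_, b1 t ht⟩
  intro w
  by_cases hw : τ w = w
  · by_cases w0 : w = 0
    · exact Or.inl w0
    · right; left
      have h1 := N.q w
      rw [qt w w0, map_one, hw] at h1
      have h2 : (w - 1) * (w - 1) = 0 := by linear_combination -h1 - (w - 1) * h20L
      exact sub_eq_zero.1 (mul_self_eq_zero.1 h2)
  · have h1 := sq w hw
    have h2 := sq t ht
    have h3 : (w - t) * (w - (t + 1)) = 0 := by linear_combination h1 + h2 + (t + 1 - w * t) * h20L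
    rcases mul_eq_zero.1 h3 with h4 | h4
    · exact Or.inr (Or.inr (Or.inl (sub_eq_zero.1 h4)))
    · exact Or.inr (Or.inr (Or.inr (sub_eq_zero.1 h4)))

section lift

variable {t : L} (D4 : O4 q0 B0 τ t) {D : G} (hDz : ∀ i w, D * z i w = z i ((t * t) • w) * D)
  (hDy : ∀ {i j : I}, i ≠ j → i ≠ -j → ∀ a, D * y i j a = y i j a * D)

include D4 in
omit [Algebra F L] in
lemma O4.tt1 : t * t ≠ 1 := by
  intro h
  have := D4.tt
  rw [h] at this
  exact D4.t0 (by linear_combination -this)

/-- lifts of the short root elements -/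
noncomputable def zt (C : CE σ) (z : I → L → G) (D : G) (t : L) (i : I) (w : L) : Γ := tm C D (z i) (t * t) w

include R D4 hDz in
omit [DecidableEq I] [Fintype I] in
lemma σ_zt (i : I) (w : L) : σ (zt C z D t i w) = z i w :=
  σ_tm C D4.tt1 (fun a b => R.zadd i a b) (hDz i) w

include R H hDz in
omit [DecidableEq I] [Fintype I] in
lemma zt_add (i : I) (w w' : L) : zt C z D t i (w + w') = zt C z D t i w * zt C z D t i w' :=
  tm_add C (fun a b => R.zadd i a b) (hDz i) (fun a b => H.S0 i a b) w w'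

include hDz in
omit [DecidableEq I] [InvolutiveNeg I] [Fintype I] [Field F] [Algebra F L] in
lemma cj_zt (i : I) (w : L) : C.cj D (zt C z D t i w) = zt C z D t i (t * t * w) := by
  refine cj_tm C (f := fun w => t * t * w) rfl (fun a => hDz i a) ?_ w
  intro a
  simp only [smul_eq_mul]; ring

include R hDy in
omit [DecidableEq I] [Fintype I] in
lemma tr_Dy {i j : I} (h1 : i ≠ j) (h2 : i ≠ -j) (a : F) : C.Tr D (y i j a) := by
  obtain ⟨k, k1, k2, k3, k4⟩ := R.three i j
  rw [y_comm R h1 h2 k1 k2 k3 k4 a]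
  exact C.tr_comm (hDy (by nx) (by nx) _) (hDy (by nx) (by nx) _)

/-- the pairing of two short root groups -/
noncomputable def bt (C : CE σ) (z : I → L → G) (i j : I) (w w' : L) : Γ := C.cm (z i w) (z j w')

include R in
omit [DecidableEq I] [Fintype I] in
lemma σ_bt {i j : I} (h1 : i ≠ j) (h2 : i ≠ -j) (w w' : L) : σ (bt C z i j w w') = y i j (-B0 w w') := by
  unfold bt
  rw [C.σ_cm, R.c6 h1 h2]

include R H in
omit [DecidableEq I] [Fintype I] in
lemma bt_addr {i j : I} (h1 : i ≠ j) (h2 : i ≠ -j) (w u v : L) : bt C z i j w (u + v) = bt C z i j w u * bt C z i j w v := by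
  unfold bt
  rw [R.zadd, cm_mul_right']
  rw [R.c6 h1 h2]
  exact H.zy R h1 h2 (by nx) (R.ne j).symm _ _

include R H in
omit [DecidableEq I] [Fintype I] in
lemma bt_addl {i j : I} (h1 : i ≠ j) (h2 : i ≠ -j) (w u v : L) : bt C z i j (u + v) w = bt C z i j u w * bt C z i j v w := by
  unfold bt
  rw [add_comm, R.zadd, cm_mul_left']
  rw [R.c6 h1 h2]
  exact H.zy R h1 h2 (R.ne i).symm (by nx) _ _

include R hDz hDy in
omit [DecidableEq I] [Fintype I] in
lemma bt_D {i j : I} (h1 : i ≠ j) (h2 : i ≠ -j) (w w' : L) : bt C z i j (t * t * w) (t * t * w') = bt C z i j w w' := by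
  have e1 := (tr_Dy R (C := C) hDy h1 h2 (-B0 w w')).fix (σ_bt R (C := C) h1 h2 w w')
  unfold bt at e1 ⊢
  rw [C.cj_cm, hDz, hDz, mul_inv_cancel_right, mul_inv_cancel_right] at e1
  exact e1

include R O H D4 in
omit [DecidableEq I] [Fintype I] in
lemma bt_self {i j : I} (h1 : i ≠ j) (h2 : i ≠ -j) (w : L) : bt C z i j w w = 1 :=
  tZZ_two O R C D4.two (fun a1 a2 a3 a4 a5 a6 w a => H.S2 a1 a2 a3 a4 a5 a6 w a) h1 h2 w

omit [DecidableEq I] [InvolutiveNeg I] [Fintype I] [Field F] [Algebra F L] in
lemma bt_inv (i j : I) (w w' : L) : (bt C z i j w w')⁻¹ = bt C z j i w' w := C.inv_cm _ _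

/-- the lift of a long root element -/
noncomputable def gt (C : CE σ) (z : I → L → G) (t : L) (i j : I) : Γ := bt C z i j 1 t

open scoped Classical in
include R O H D4 hDz hDy in
omit [DecidableEq I] [Fintype I] in
lemma bt_all {i j : I} (h1 : i ≠ j) (h2 : i ≠ -j) : gt C z t i j * gt C z t i j = 1 ∧ bt C z i j t 1 = gt C z t i j ∧
    ∀ w w', bt C z i j w w' = if B0 w w' = 0 then 1 else gt C z t i j := by
  have s := fun w => bt_self O R H D4 h1 h2 w
  have ar := fun w u v => bt_addr R H h1 h2 w u v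
  have al := fun w u v => bt_addl R H h1 h2 w u v
  have h11L : (1 : L) + 1 = 0 := by rw [← D4.twoL]; norm_num
  have z1 : ∀ w, bt C z i j w 0 = 1 := fun w => by unfold bt; rw [R.z_zero]; exact C.cm_one_right _
  have z2 : ∀ w, bt C z i j 0 w = 1 := fun w => by unfold bt; rw [R.z_zero]; exact C.cm_one_left _
  have t3 : t * t * t = 1 := by
    rw [D4.tt]
    linear_combination D4.tt + t * D4.twoL
  have g1 : bt C z i j t 1 = gt C z t i j := by
    have e1 := bt_D (C := C) R hDz hDy h1 h2 1 t
    rw [mul_one, t3, D4.tt, al, s, mul_one] at e1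
    exact e1
  have g2 : gt C z t i j * gt C z t i j = 1 := by
    unfold gt
    rw [← ar, show t + t = 0 by linear_combination t * D4.twoL, z1]
  refine ⟨g2, g1, ?_⟩
  -- values of the form
  have b1t := D4.b1t
  have bself : ∀ w, B0 w w = 0 := fun w => by rw [O.self, D4.two, zero_mul]
  have bt1 : B0 t 1 = 1 := by rw [O.symm, b1t]
  have bz1 : ∀ w, B0 w 0 = 0 := fun w => by
    have := O.smul_right w 0 0
    rwa [zero_smul, zero_mul] at this
  have bz2 : ∀ w, B0 0 w = 0 := fun w => by rw [O.symm, bz1]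
  have g0 : bt C z i j 1 t = gt C z t i j := rfl
  have h10 : (1 : F) ≠ 0 := one_ne_zero
  intro w w'
  rcases D4.span w with rfl | rfl | rfl | rfl
  · rw [z2, bz2, if_pos rfl]
  · rcases D4.span w' with rfl | rfl | rfl | rfl
    · rw [z1, bz1, if_pos rfl]
    · rw [s, bself, if_pos rfl]
    · rw [g0, b1t, if_neg h10]
    · rw [ar, g0, s, mul_one, O.add_right, b1t, bself, add_zero, if_neg h10]
  · rcases D4.span w' with rfl | rfl | rfl | rfl
    · rw [z1, bz1, if_pos rfl]
    · rw [g1, bt1, if_neg h10]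
    · rw [s, bself, if_pos rfl]
    · rw [ar, g1, s, one_mul, O.add_right, bt1, bself, zero_add, if_neg h10]
  · rcases D4.span w' with rfl | rfl | rfl | rfl
    · rw [z1, bz1, if_pos rfl]
    · rw [al, g1, s, mul_one, O.symm, O.add_right, b1t, bself, add_zero, if_neg h10]
    · rw [al, g0, s, one_mul, O.symm, O.add_right, bt1, bself, zero_add, if_neg h10]
    · rw [s, bself, if_pos rfl]

include N O R H D4 hDz hDy in
omit [Fintype I] in
/-- the lifted relations for the minus type, two elements -/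
theorem exists_or_two_aux :
    ∃ (yl : I → I → F → Γ) (zl : I → L → Γ), OR q0 B0 yl zl ∧ (∀ {i j}, i ≠ j → i ≠ -j → ∀ a, σ (yl i j a) = y i j a) ∧
      ∀ i w, σ (zl i w) = z i w := by
  classical
  have ne := R.ne
  have h20 := D4.two
  have h10 : (1 : F) ≠ 0 := one_ne_zero
  have h11 : (1 : F) + 1 = 0 := by rw [← h20]; norm_num
  have hm1 : (-1 : F) = 1 := by linear_combination -h20
  have hmn : ∀ a : F, -a = a := fun a => by linear_combination -a * h20
  have hall := D4.all
  set zl : I → L → Γ := zt C z D t with hzl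
  set yl : I → I → F → Γ := fun i j a => if a = 0 then 1 else gt C z t i j with hyl
  have y0 : ∀ i j, yl i j 0 = 1 := fun i j => by rw [hyl]; simp only [if_true]
  have y1 : ∀ i j, yl i j 1 = gt C z t i j := fun i j => by rw [hyl]; simp only [if_neg h10]
  have hσz : ∀ i w, σ (zl i w) = z i w := fun i w => σ_zt R D4 hDz i w
  have hzadd : ∀ i w w', zl i (w + w') = zl i w * zl i w' := fun i w w' => zt_add R H hDz i w w'
  have hσ : ∀ {i j}, i ≠ j → i ≠ -j → ∀ a, σ (yl i j a) = y i j a := by
    intro i j h1 h2 a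
    rcases hall a with rfl | rfl
    · rw [y0, map_one, y_zero R h1 h2]
    · rw [y1]; unfold gt
      rw [σ_bt R h1 h2, D4.b1t, hm1]
  have hbt : ∀ {i j}, i ≠ j → i ≠ -j → ∀ w w', bt C z i j w w' = yl i j (B0 w w') := by
    intro i j h1 h2 w w'
    rw [(bt_all O R H D4 hDz hDy h1 h2).2.2]
  have hsymm : ∀ {i j}, i ≠ j → i ≠ -j → gt C z t i j = gt C z t j i := by
    intro i j h1 h2
    obtain ⟨g2, g1, -⟩ := bt_all O R H D4 hDz hDy (C := C) h1 h2
    rw [← inv_eq_of_mul_eq_one_left g2, ← g1, bt_inv]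
    rfl
  have hadd : ∀ {i j}, i ≠ j → i ≠ -j → ∀ a b, yl i j (a + b) = yl i j a * yl i j b := by
    intro i j h1 h2 a b
    rcases hall a with rfl | rfl
    · rw [zero_add, y0, one_mul]
    · rcases hall b with rfl | rfl
      · rw [add_zero, y0, mul_one]
      · rw [h11, y0, y1, (bt_all O R H D4 hDz hDy h1 h2).1]
  have hc6 : ∀ {i j}, i ≠ j → i ≠ -j → ∀ w w', ⁅zl i w, zl j w'⁆ = yl i j (B0 w w') := by
    intro i j h1 h2 w w'
    rw [C.cm_eq (hσz i w) (hσz j w'), ← hbt h1 h2]; rfl
  have zyl : ∀ {i k l : I}, k ≠ l → k ≠ -l → k ≠ -i → l ≠ -i → ∀ (w : L) (a : F), zl i w * yl k l a = yl k l a * zl i w := by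
    intro i k l h1 h2 h3 h4' w a
    exact (C.tr_iff' (hσz i w) (hσ h1 h2 a)).1 (H.zy R h1 h2 h3 h4' w a)
  refine ⟨yl, zl, ⟨R.ne, R.three, ?_, hadd, hzadd, ?_, ?_, ?_, ?_, ?_, ?_⟩, hσ, hσz⟩
  · intro i j h1 h2 a
    rw [hmn]
    rcases hall a with rfl | rfl
    · rw [y0, y0]
    · rw [y1, y1, hsymm h1 h2]
  · intro i j k h1 h2 h3 h4' h5 h6 a b
    rcases hall a with rfl | rfl
    · rw [zero_mul, y0, y0, commutatorElement_one_left]
    · rcases hall b with rfl | rfl
      · rw [mul_zero, y0, y0, commutatorElement_one_right]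
      · -- through short root elements
        have n2 : j ≠ -j := (ne j).symm
        have n1 : i ≠ -i := (ne i).symm
        have m1 : -j ≠ k := by nx
        have m2 : -j ≠ -k := by nx
        rw [mul_one, C.cm_eq (hσ h1 h2 1) (hσ m1 m2 1)]
        have e1 : y (-j) k 1 = ⁅z (-j) 1, z k t⁆ := by rw [R.c6 m1 m2, D4.b1t, hm1]
        have e2 : z (-j) 1 * z k t * (z (-j) 1)⁻¹ = y (-j) k 1 * z k t := by
          rw [e1, commutatorElement_def]; group
        have e3 : ⁅y i j 1, z (-j) 1⁆ = z i 1 * y (-j) i 1 := by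
          have := R.c3 (i := -j) (j := i) (by nx) (by nx) 1 1
          rw [neg_neg, y_symm R h20 (i := j) (j := i) (by nx) (by nx), one_smul, N.q_one, mul_one, hm1] at this
          rw [← commutatorElement_inv, this, mul_inv_rev, y_inv R h20 (by nx) (by nx), ← R.z_neg]
          congr 1
          congr 1
          linear_combination -D4.twoL
        have t1 : C.Tr (y i j 1) (z k t) := (H.zy R h1 h2 (by nx) (by nx) t 1).symm
        rw [e1, C.cm_comm_right t1, e3, e2]
        have t2 : C.Tr (y (-j) i 1) (y (-j) k 1 * z k t) := by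
          refine CE.Tr.mul_right ?_ ?_
          · exact H.yy R (by nx) (by nx) m1 m2 (by nx) (by nx) (by nx) (by nx) _ _
          · exact (H.zy R (by nx) (by nx) (by nx) (by nx) _ _).symm
        rw [C.cm_mul_left, show C.cm (y (-j) i 1) _ = 1 from t2, map_one, one_mul, C.cm_mul_right]
        have t3 : C.Tr (z i 1) (y (-j) k 1) := H.zy R m1 m2 (by nx) (by nx) _ _
        rw [show C.cm (z i 1) (y (-j) k 1) = 1 from t3, one_mul]
        have t4 : C.Tr (y (-j) k 1) (y i k 1) := H.yy R m1 m2 h5 h6 (by nx) (by nx) (by nx) (ne' ne k) _ _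
        have e4 : σ (C.cm (z i 1) (z k t)) = y i k 1 := by rw [C.σ_cm, R.c6 h5 h6, D4.b1t, hm1]
        rw [t4.fix e4, y1]; rfl
  · intro i j h1 h2 a b
    rw [commutatorElement_eq_one_iff_mul_comm]
    exact (C.tr_iff' (hσ h1 h2 a) (hσ (i := -j) (j := i) (by nx) (by nx) b)).1 (H.L3 h1 h2 a b)
  · intro i j h1 h2 w b
    have n2 : j ≠ -j := (ne j).symm
    have n1 : i ≠ -i := (ne i).symm
    have m1 : -i ≠ j := by nx
    have m2 : -i ≠ -j := by nx
    rcases hall b with rfl | rfl
    · have hz0 : zl j 0 = 1 := by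
        have := hzadd j 0 0
        rw [add_zero] at this
        exact mul_eq_left.1 this.symm
      rw [y0, mul_zero, neg_zero, y0, zero_smul, hz0, commutatorElement_one_right, one_mul]
    · rw [mul_one, hmn, one_smul]
      -- the defect is additive in `w`
      set E : L → Γ := fun w => ⁅zl i w, yl (-i) j 1⁆ with hE
      set P : L → Γ := fun w => yl i j (q0 w) * zl j w with hP
      have hEc : ∀ w, E w = C.cm (z i w) (y (-i) j 1) := fun w => C.cm_eq (hσz i w) (hσ m1 m2 1)
      have hσE : ∀ w, σ (E w) = σ (P w) := by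
        intro w
        rw [hEc, C.σ_cm, R.c3 h1 h2, hP]; simp only
        rw [map_mul, hσ h1 h2, hσz, mul_one, hmn, one_smul]
      set Z : L → Γ := fun w => E w * (P w)⁻¹ with hZ
      have hcen : ∀ w, Z w ∈ center Γ := fun w => C.central (by
        rw [MonoidHom.mem_ker, hZ]; simp only
        rw [map_mul, map_inv, hσE, mul_inv_cancel])
      have hEZ : ∀ w, E w = Z w * P w := fun w => by rw [hZ]; simp only; group
      have hZadd : ∀ w w', Z (w + w') = Z w * Z w' := by
        intro w w'
        have e1 : E (w + w') = C.cj (z i w) (E w') * E w := by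
          rw [hEc, hEc, hEc, R.zadd, C.cm_mul_left]
        have e2 : C.cj (z i w) (P w') = yl i j (q0 w') * (yl i j (B0 w w') * zl j w') := by
          rw [hP]; simp only
          rw [C.cj_apply (hσz i w)]
          have f1 := zyl (i := i) h1 h2 (by nx) (by nx) w (q0 w')
          have f2 : zl i w * zl j w' * (zl i w)⁻¹ = yl i j (B0 w w') * zl j w' := by
            rw [← hc6 h1 h2, commutatorElement_def]; group
          calc zl i w * (yl i j (q0 w') * zl j w') * (zl i w)⁻¹ = (zl i w * yl i j (q0 w')) * zl j w' * (zl i w)⁻¹ := by group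
            _ = yl i j (q0 w') * (zl i w * zl j w' * (zl i w)⁻¹) := by rw [f1]; group
            _ = _ := by rw [f2]
        have e3 : yl i j (q0 w') * (yl i j (B0 w w') * zl j w') * P w = P (w + w') := by
          rw [hP]; simp only
          have f1 := zyl (i := j) h1 h2 (by nx) (ne' ne j) w' (q0 w)
          have f3 : zl j w' * zl j w = zl j (w + w') := by rw [← hzadd, add_comm]
          rw [O.q_add, hadd h1 h2, hadd h1 h2, ← f3]
          have f4 : ∀ a b, yl i j a * yl i j b = yl i j b * yl i j a := fun a b => by rw [← hadd h1 h2, ← hadd h1 h2, add_comm]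
          calc yl i j (q0 w') * (yl i j (B0 w w') * zl j w') * (yl i j (q0 w) * zl j w)
              = yl i j (q0 w') * yl i j (B0 w w') * (zl j w' * yl i j (q0 w)) * zl j w := by group
            _ = yl i j (q0 w') * (yl i j (B0 w w') * yl i j (q0 w)) * zl j w' * zl j w := by rw [f1]; group
            _ = (yl i j (q0 w') * yl i j (q0 w)) * yl i j (B0 w w') * zl j w' * zl j w := by rw [f4 (B0 w w')]; group
            _ = _ := by rw [f4 (q0 w')]; group
        have e4 : Z (w + w') * P (w + w') = Z w * Z w' * P (w + w') := by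
          rw [← hEZ, e1, hEZ w', hEZ w, map_mul, C.cj_center _ (hcen w'), e2]
          have g1 := mem_center_iff.1 (hcen w) (Z w' * (yl i j (q0 w') * (yl i j (B0 w w') * zl j w')))
          calc Z w' * (yl i j (q0 w') * (yl i j (B0 w w') * zl j w')) * (Z w * P w)
              = (Z w' * (yl i j (q0 w') * (yl i j (B0 w w') * zl j w')) * Z w) * P w := by group
            _ = Z w * Z w' * (yl i j (q0 w') * (yl i j (B0 w w') * zl j w') * P w) := by rw [g1]; group
            _ = _ := by rw [e3]
        exact mul_right_cancel e4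
      have hZfix : ∀ w, Z ((t * t) • w) = Z w := by
        intro w
        have e1 : C.cj D (E w) = E (t * t * w) := by
          rw [hEc, hEc, C.cj_cm, hDz, hDy m1 m2, mul_inv_cancel_right, mul_inv_cancel_right, smul_eq_mul]
        have e2 : C.cj D (P w) = P (t * t * w) := by
          rw [hP]; simp only
          rw [map_mul, (tr_Dy R (C := C) hDy h1 h2 (q0 w)).fix (hσ h1 h2 _), hzl, cj_zt hDz]
          congr 2
          rw [N.q_mul, N.q_mul, D4.qt, one_mul, one_mul]
        have e3 := C.cj_center D (hcen w)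
        rw [← e3, hZ]; simp only
        rw [map_mul, map_inv, e1, e2, smul_eq_mul]
      have := fix_add hZadd D4.tt1 hZfix w
      have e5 := hEZ w
      rw [this, one_mul] at e5
      exact e5
  · intro i j k l h1 h2 h3 h4' h5 h6 h7 h8 a b
    rw [commutatorElement_eq_one_iff_mul_comm]
    exact (C.tr_iff' (hσ h1 h2 a) (hσ h3 h4' b)).1 (H.yy R h1 h2 h3 h4' h5 h6 h7 h8 a b)
  · intro i k l h1 h2 h3 h4' w a
    rw [commutatorElement_eq_one_iff_mul_comm]
    exact zyl h1 h2 h3 h4' w a
  · intro i j h1 h2 w w'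
    rw [hmn]
    exact hc6 h1 h2 w w'

end lift

include N O R A H in
/-- the lifted relations for the minus type, two elements -/
theorem exists_or_two_L (h20 : (2 : F) = 0) (hall : ∀ a : F, a = 0 ∨ a = 1) (hτ : ∃ t : L, τ t ≠ t) (i0 : I) :
    ∃ (yl : I → I → F → Γ) (zl : I → L → Γ), OR q0 B0 yl zl ∧ (∀ {i j}, i ≠ j → i ≠ -j → ∀ a, σ (yl i j a) = y i j a) ∧
      ∀ i w, σ (zl i w) = z i w := by
  obtain ⟨t, ht⟩ := hτ
  have D4 := exists_O4 N O h20 hall ht
  have ne := R.ne
  obtain ⟨a1, a2, a3, a4⟩ := hz_act N O A ne i0 D4.t0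
  have hT := hz_T N O R A i0 D4.t0
  have he : ∀ p, ρ (hz τ z i0 t) (eh p) = (1 : F) • eh p := by
    intro p
    by_cases p1 : p = i0
    · rw [p1, a1, D4.qt]
    by_cases p2 : p = -i0
    · rw [p2, a2, D4.qt, inv_one]
    · rw [a3 p p1 p2, one_smul]
  have hlam : t / τ t = t * t := by
    have h1 := D4.t0
    rw [D4.τt, ← D4.tt]
    field_simp
    have := D4.tt
    linear_combination (-(t + 1)) * this - t * D4.twoL
  refine exists_or_two_aux N O R H D4 (D := hz τ z i0 t) ?_ ?_
  · intro i w
    have := tor_z O R A (i := i) hT (he i) (a4 w)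
    rwa [one_smul, hlam] at this
  · intro i j h1 h2 a
    have := tor_y O R A h1 h2 hT (he i) (he j) a
    rwa [one_mul, one_mul] at this

end Cfsg.Agent.Stb
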