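import Cfsg.Agent.Stb.SpLift

set_option autoImplicit false

/-!
Lifting the Steinberg relations of type `C` to central extensions, the field with two elements.
-/

namespace Cfsg.Agent.Stb

open Subgroup Cfsg.Agent.Mult
open scoped commutatorElement

variable {I F G Γ : Type*} [InvolutiveNeg I] [DecidableEq I] [Field F] [Group G] [Group Γ]
variable {ε : I → F} {x : I → I → F → G} (R : SpR ε x) {h : (I → Fˣ) → G} (D : SpD x h) (H : OKSp I F)
  {σ : Γ →* G} (C : CE σ)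

include R D H in
lemma dl_change {i j k l : I} (h1 : i ≠ k) (h2 : i ≠ -k) (h3 : j ≠ i) (h4 : j ≠ -i) (h5 : j ≠ k) (h6 : j ≠ -k)
    (h7 : l ≠ i) (h8 : l ≠ -i) (h9 : l ≠ k) (h10 : l ≠ -k) (h11 : l ≠ j) (h12 : l ≠ -j) (a b c : F) :
    dl x C i j k a (ε l * b * c) = dl x C i l k (ε j * a * b) c := by
  have n1 : i ≠ -i := (R.ne i).symm
  have n2 : j ≠ -j := (R.ne j).symm
  have n3 : k ≠ -k := (R.ne k).symm
  have n4 : l ≠ -l := (R.ne l).symm
  unfold dl
  have e1 : x (-j) k (ε l * b * c) = ⁅x (-j) l b, x (-l) k c⁆ := by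
    rw [R.c1 (i := -j) (j := l) (k := k) (by nn) (by nn) (by nn) (by nn) (by nn) (by nn)]
  have e2 : x (-j) l b * x (-l) k c * (x (-j) l b)⁻¹ = x (-j) k (ε l * b * c) * x (-l) k c := by
    rw [e1, commutatorElement_def]; group
  have h13 : C.Tr (x i j a) (x (-l) k c) :=
    tr_all R D H C (by nn) (by nn) (by nn) (by nn) (by nn) (by nn) _ _
  have h14 : C.Tr (x i l (ε j * a * b)) (x (-j) k (ε l * b * c)) :=
    tr_all R D H C (by nn) (by nn) (by nn) (by nn) (by nn) (by nn) _ _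
  conv_lhs => rw [e1]
  rw [C.cm_comm_right h13, R.c1 (i := i) (j := j) (k := l) (by nn) (by nn) (by nn) (by nn) (by nn) (by nn), e2,
    C.cm_mul_right, show C.cm (x i l _) (x (-j) k _) = 1 from h14, one_mul]
  have h9 : C.Tr (x (-j) k (ε l * b * c)) (σ (C.cm (x i l (ε j * a * b)) (x (-l) k c))) := by
    rw [C.σ_cm, R.c1 (i := i) (j := l) (k := k) (by nn) (by nn) (by nn) (by nn) (by nn) (by nn)]
    exact tr_all R D H C (by nn) (by nn) (by nn) (by nn) (by nn) (by nn) _ _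
  rw [h9.cj_eq]

section two

variable (h20 : (2 : F) = 0) (hall : ∀ a : F, a = 0 ∨ a = 1)
  (h4 : ∀ i j k : I, ∃ l, l ≠ i ∧ l ≠ -i ∧ l ≠ j ∧ l ≠ -j ∧ l ≠ k ∧ l ≠ -k)
  (hn : ∀ j : I, x j j 1 * x (-j) (-j) 1 * x j j 1 = x (-j) (-j) 1 * x j j 1 * x (-j) (-j) 1)

include R hall in
omit [DecidableEq I] in
lemma eps_one (i : I) : ε i = 1 := by
  rcases hall (ε i) with h | h
  · have := R.eps i; rw [h] at this; simp at this
  · exact h

include R D H hall h4 in
lemma dl_indep {i j k l : I} (h1 : i ≠ k) (h2 : i ≠ -k) (h3 : j ≠ i) (h4' : j ≠ -i) (h5 : j ≠ k) (h6 : j ≠ -k)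
    (h7 : l ≠ i) (h8 : l ≠ -i) (h9 : l ≠ k) (h10 : l ≠ -k) :
    dl x C i j k 1 1 = dl x C i l k 1 1 := by
  have he := eps_one R hall
  have key : ∀ {j l : I}, j ≠ i → j ≠ -i → j ≠ k → j ≠ -k → l ≠ i → l ≠ -i → l ≠ k → l ≠ -k → l ≠ j → l ≠ -j →
      dl x C i j k 1 1 = dl x C i l k 1 1 := by
    intro j l a1 a2 a3 a4 a5 a6 a7 a8 a9 a10
    have := dl_change R D H C h1 h2 a1 a2 a3 a4 a5 a6 a7 a8 a9 a10 1 1 1
    rwa [he, he, one_mul, one_mul] at this
  by_cases hl : l = j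
  · rw [hl]
  by_cases hl' : l = -j
  · obtain ⟨m, m1, m2, m3, m4, m5, m6⟩ := h4 i k j
    rw [key h3 h4' h5 h6 m1 m2 m3 m4 m5 m6, key (j := l) (l := m) h7 h8 h9 h10 m1 m2 m3 m4 (by rw [hl']; nn) (by rw [hl']; nn)]
  · exact key h3 h4' h5 h6 h7 h8 h9 h10 hl hl'

include R D H h20 in
lemma dl_sq {i j k : I} (h1 : i ≠ k) (h2 : i ≠ -k) (h3 : j ≠ i) (h4' : j ≠ -i) (h5 : j ≠ k) (h6 : j ≠ -k) :
    dl x C i j k 1 1 * dl x C i j k 1 1 = 1 := by
  have h11 : (1 : F) + 1 = 0 := by rw [← h20]; norm_num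
  rw [← dl_addl R D H C h1 h2 h3 h4' h5 h6, h11]
  unfold dl
  rw [R.zero (by nn)]; exact C.cm_one_left _

omit [DecidableEq I] in
include R in
lemma dl_swap {i j k : I} : (dl x C i j k 1 1)⁻¹ = dl x C k (-j) i 1 1 := by
  unfold dl
  rw [C.inv_cm, neg_neg, R.symm (-j) k, R.symm i j]

/-- lift of a short root element -/
noncomputable def e2 (x : I → I → F → G) (C : CE σ)
    (h4 : ∀ i j k : I, ∃ l, l ≠ i ∧ l ≠ -i ∧ l ≠ j ∧ l ≠ -j ∧ l ≠ k ∧ l ≠ -k) (i k : I) : Γ :=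
  dl x C i (h4 i k k).choose k 1 1

include R D H hall in
lemma e2_eq {i j k : I} (h1 : i ≠ k) (h2 : i ≠ -k) (h3 : j ≠ i) (h4' : j ≠ -i) (h5 : j ≠ k) (h6 : j ≠ -k) :
    e2 x C h4 i k = dl x C i j k 1 1 := by
  obtain ⟨m1, m2, m3, m4, -, -⟩ := (h4 i k k).choose_spec
  exact dl_indep R D H C hall h4 h1 h2 m1 m2 m3 m4 h3 h4' h5 h6

include R D H h20 in
lemma e2_sq {i k : I} (h1 : i ≠ k) (h2 : i ≠ -k) : e2 x C h4 i k * e2 x C h4 i k = 1 := by
  obtain ⟨m1, m2, m3, m4, -, -⟩ := (h4 i k k).choose_spec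
  exact dl_sq R D H C h20 h1 h2 m1 m2 m3 m4

include R D H h20 in
lemma e2_inv {i k : I} (h1 : i ≠ k) (h2 : i ≠ -k) : (e2 x C h4 i k)⁻¹ = e2 x C h4 i k :=
  inv_eq_of_mul_eq_one_left (e2_sq R D H C h20 h4 h1 h2)

include R hall in
omit [DecidableEq I] in
lemma σ_e2 {i k : I} (h1 : i ≠ k) (h2 : i ≠ -k) : σ (e2 x C h4 i k) = x i k 1 := by
  obtain ⟨m1, m2, m3, m4, -, -⟩ := (h4 i k k).choose_spec
  rw [e2, σ_dl R C h1 h2 m1 m2 m3 m4, eps_one R hall, one_mul, one_mul]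

include R D H h20 hall in
lemma e2_symm {i k : I} (h1 : i ≠ k) (h2 : i ≠ -k) : e2 x C h4 i k = e2 x C h4 k i := by
  obtain ⟨m1, m2, m3, m4, -, -⟩ := (h4 i k k).choose_spec
  rw [← e2_inv R D H C h20 h4 h1 h2, e2, dl_swap R C]
  exact (e2_eq R D H C hall h4 (by nn) (by nn) (by nn) (by nn) (by nn) (by nn)).symm

/-- the commutator of a long root element with a short root element -/
noncomputable def E2 (x : I → I → F → G) (C : CE σ) (k i : I) : Γ := C.cm (x k k 1) (x (-k) i 1)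

include R hall h20 in
omit [DecidableEq I] in
lemma σ_E2 {i k : I} (h1 : i ≠ k) (h2 : i ≠ -k) : σ (E2 x C k i) = x k i 1 * x i i 1 := by
  have hm1 : (-1 : F) = 1 := by linear_combination -h20
  unfold E2
  rw [C.σ_cm, R.c3 (by nn) (by nn), eps_one R hall, one_mul, one_mul, one_pow, one_mul, hm1]

include R D H h20 hall hn in
lemma E2_change {i k l : I} (h1 : k ≠ i) (h2 : k ≠ -i) (h3 : l ≠ i) (h4' : l ≠ -i) (h5 : k ≠ l) (h6 : k ≠ -l) :
    E2 x C k i = e2 x C h4 l i * E2 x C l i * e2 x C h4 k i := by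
  have n1 : i ≠ -i := (R.ne i).symm
  have n2 : k ≠ -k := (R.ne k).symm
  have n3 : l ≠ -l := (R.ne l).symm
  have hm1 : (-1 : F) = 1 := by linear_combination -h20
  have he := eps_one R hall
  have q1 : x (-k) i 1 = ⁅x (-k) l 1, x (-l) i 1⁆ := by
    rw [R.c1 (i := -k) (j := l) (k := i) (by nn) (by nn) (by nn) (by nn) (by nn) (by nn), he, one_mul, one_mul]
  have q2 : x (-k) l 1 * x (-l) i 1 * (x (-k) l 1)⁻¹ = x (-k) i 1 * x (-l) i 1 := by
    rw [q1, commutatorElement_def]; group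
  have q3 : ⁅x k k 1, x (-k) l 1⁆ = x k l 1 * x l l 1 := by
    rw [R.c3 (by nn) (by nn), he, one_mul, one_mul, one_pow, one_mul, hm1]
  have t1 : C.Tr (x k k 1) (x (-l) i 1) := tr_all R D H C (by nn) (by nn) (by nn) (by nn) (by nn) (by nn) _ _
  have t2 : C.Tr (x l l 1) (x (-k) i 1) := tr_all R D H C (by nn) (by nn) (by nn) (by nn) (by nn) (by nn) _ _
  have t3 : C.Tr (x k l 1) (x l i 1 * x i i 1) := CE.Tr.mul_right
    (tr_all R D H C (by nn) (by nn) (by nn) (by nn) (by nn) (by nn) _ _)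
    (tr_all R D H C (by nn) (by nn) (by nn) (by nn) (by nn) (by nn) _ _)
  have t4 : C.Tr (x (-k) i 1) (x l i 1 * x i i 1) := CE.Tr.mul_right
    (tr_all R D H C (by nn) (by nn) (by nn) (by nn) (by nn) (by nn) _ _)
    (tr_all R D H C (by nn) (by nn) (by nn) (by nn) (by nn) (by nn) _ _)
  have t5 : C.Tr (x (-k) i 1) (x k i 1) := by
    have := tr_P6 R D H C h20 (fun _ => hn) (i := i) (j := k) (by nn) (by nn) 1 1
    rw [R.symm k i]
    exact this.symm
  have r1 : C.cm (x k l 1 * x l l 1) (x (-k) i 1) = e2 x C h4 l i := by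
    rw [C.cm_mul_left, show C.cm (x l l 1) _ = 1 from t2, map_one, one_mul,
      e2_eq R D H C hall h4 (i := l) (j := k) (k := i) (by nn) (by nn) (by nn) (by nn) (by nn) (by nn)]
    unfold dl
    rw [R.symm k l]
  have r2 : C.cm (x k l 1 * x l l 1) (x (-l) i 1) = E2 x C l i * e2 x C h4 k i := by
    rw [C.cm_mul_left]
    have : C.cj (x k l 1) (C.cm (x l l 1) (x (-l) i 1)) = E2 x C l i := by
      have := σ_E2 R C h20 hall (i := i) (k := l) (by nn) (by nn)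
      exact t3.fix this
    rw [this, e2_eq R D H C hall h4 (i := k) (j := l) (k := i) (by nn) (by nn) (by nn) (by nn) (by nn) (by nn)]
    rfl
  have r3 : C.cj (x (-k) i 1) (E2 x C l i * e2 x C h4 k i) = E2 x C l i * e2 x C h4 k i := by
    rw [map_mul, t4.fix (σ_E2 R C h20 hall (i := i) (k := l) (by nn) (by nn)), t5.fix (σ_e2 R C hall h4 (by nn) (by nn))]
  unfold E2
  rw [q1, C.cm_comm_right t1, q3, q2, C.cm_mul_right, r1, r2, r3, mul_assoc]
  rfl

include R D H h20 hall in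
lemma E2_sq {i k : I} (h1 : k ≠ i) (h2 : k ≠ -i) : E2 x C k i * E2 x C k i = 1 := by
  have n1 : i ≠ -i := (R.ne i).symm
  have n2 : k ≠ -k := (R.ne k).symm
  have h11 : (1 : F) + 1 = 0 := by rw [← h20]; norm_num
  have hσ := σ_E2 R C h20 hall (i := i) (k := k) (by nn) (by nn)
  have t : C.Tr (x k k 1) (x k i 1 * x i i 1) := CE.Tr.mul_right
    (tr_all R D H C (by nn) (by nn) (by nn) (by nn) (by nn) (by nn) _ _)
    (tr_all R D H C (by nn) (by nn) (by nn) (by nn) (by nn) (by nn) _ _)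
  have e1 : C.cm (x k k 1 * x k k 1) (x (-k) i 1) = 1 := by
    rw [← R.add n2, h11, R.zero n2]; exact C.cm_one_left _
  rw [C.cm_mul_left] at e1
  have e2 := t.fix hσ
  unfold E2 at e2 ⊢
  rwa [e2] at e1

/-- lift of a long root element -/
noncomputable def g2 (x : I → I → F → G) (C : CE σ)
    (h4 : ∀ i j k : I, ∃ l, l ≠ i ∧ l ≠ -i ∧ l ≠ j ∧ l ≠ -j ∧ l ≠ k ∧ l ≠ -k) (i : I) : Γ :=
  (e2 x C h4 (h4 i i i).choose i)⁻¹ * E2 x C (h4 i i i).choose i

include R D H h20 hall in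
lemma E2_comm {i k l : I} (h1 : k ≠ i) (h2 : k ≠ -i) (h3 : l ≠ i) (h4' : l ≠ -i) (hkl : k ≠ -l) :
    Commute (E2 x C l i) (e2 x C h4 k i) := by
  have n1 : i ≠ -i := (R.ne i).symm
  apply (C.tr_iff' (σ_E2 R C h20 hall (i := i) (k := l) (by nn) (by nn)) (σ_e2 R C hall h4 h1 h2)).1
  exact CE.Tr.mul_left
    (tr_all R D H C (by nn) (by nn) (by nn) (by nn) (by nn) (by nn) _ _)
    (tr_all R D H C (by nn) (by nn) (by nn) (by nn) (by nn) (by nn) _ _)

include R D H h20 hall hn in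
lemma g2_eq {i k : I} (h1 : k ≠ i) (h2 : k ≠ -i) : g2 x C h4 i = (e2 x C h4 k i)⁻¹ * E2 x C k i := by
  have n1 : i ≠ -i := (R.ne i).symm
  have key : ∀ {k l : I}, k ≠ i → k ≠ -i → l ≠ i → l ≠ -i → k ≠ l → k ≠ -l →
      (e2 x C h4 k i)⁻¹ * E2 x C k i = (e2 x C h4 l i)⁻¹ * E2 x C l i := by
    intro k l a1 a2 a3 a4 a5 a6
    have c1 := E2_comm R D H C h20 hall h4 a1 a2 a3 a4 a6
    have c2 : Commute (e2 x C h4 k i) (e2 x C h4 l i) := by
      apply (C.tr_iff' (σ_e2 R C hall h4 a1 a2) (σ_e2 R C hall h4 a3 a4)).1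
      exact tr_all R D H C (by nn) (by nn) (by nn) (by nn) (by nn) (by nn) _ _
    rw [E2_change R D H C h20 hall h4 hn a1 a2 a3 a4 a5 a6, mul_assoc (e2 x C h4 l i), c1.eq, ← mul_assoc (e2 x C h4 l i),
      ← c2.eq, mul_assoc (e2 x C h4 k i), inv_mul_cancel_left, e2_inv R D H C h20 h4 a3 a4]
  obtain ⟨m1, m2, -⟩ := (h4 i i i).choose_spec
  unfold g2
  set m := (h4 i i i).choose
  obtain ⟨l, l1, l2, l3, l4, l5, l6⟩ := h4 i m k
  rw [key (k := m) (l := l) m1 m2 l1 l2 (by nn) (by nn), key (k := k) (l := l) h1 h2 l1 l2 (by nn) (by nn)]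

include R D H h20 hall in
lemma g2_sq (i : I) : g2 x C h4 i * g2 x C h4 i = 1 := by
  obtain ⟨m1, m2, -⟩ := (h4 i i i).choose_spec
  have n := (R.ne (h4 i i i).choose).symm
  unfold g2
  set m := (h4 i i i).choose
  have c1 := E2_comm R D H C h20 hall h4 m1 m2 m1 m2 n
  rw [e2_inv R D H C h20 h4 m1 m2, mul_assoc, ← mul_assoc (E2 x C m i), c1.eq, mul_assoc (e2 x C h4 m i) (E2 x C m i),
    E2_sq R D H C h20 hall m1 m2, mul_one, e2_sq R D H C h20 h4 m1 m2]

include R hall h20 in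
omit [DecidableEq I] in
lemma σ_g2 (i : I) : σ (g2 x C h4 i) = x i i 1 := by
  obtain ⟨m1, m2, -⟩ := (h4 i i i).choose_spec
  unfold g2
  set m := (h4 i i i).choose
  rw [map_mul, map_inv, σ_e2 R C hall h4 m1 m2, σ_E2 R C h20 hall (by nn) (by nn), inv_mul_cancel_left]

include R D H C h20 hall h4 hn in
theorem exists_spr_two : ∃ y : I → I → F → Γ, SpR ε y ∧ ∀ {i j}, i ≠ -j → ∀ a, σ (y i j a) = x i j a := by
  classical
  have h10 : (1 : F) ≠ 0 := one_ne_zero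
  have h11 : (1 : F) + 1 = 0 := by rw [← h20]; norm_num
  have hm1 : (-1 : F) = 1 := by linear_combination -h20
  have he := eps_one R hall
  set y : I → I → F → Γ := fun i j a => if i = -j then 1 else if a = 0 then 1 else if i = j then g2 x C h4 i
    else e2 x C h4 i j with hy
  have y0 : ∀ i j, y i j 0 = 1 := fun i j => by
    rw [hy]; simp only [if_true, ite_self]
  have yS : ∀ {i j}, i ≠ j → i ≠ -j → y i j 1 = e2 x C h4 i j := fun {i j} h1 h2 => by
    rw [hy]; simp only [if_neg h1, if_neg h2, if_neg h10]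
  have yL : ∀ i, y i i 1 = g2 x C h4 i := fun i => by
    rw [hy]; simp only [if_neg (R.ne i).symm, if_neg h10, if_true]
  have hσ : ∀ {i j}, i ≠ -j → ∀ a, σ (y i j a) = x i j a := by
    intro i j h2 a
    rcases hall a with rfl | rfl
    · rw [y0, map_one, R.zero h2]
    · by_cases h1 : i = j
      · subst h1; rw [yL, σ_g2 R C h20 hall h4]
      · rw [yS h1 h2, σ_e2 R C hall h4 h1 h2]
  have hsq : ∀ {i j}, i ≠ -j → y i j 1 * y i j 1 = 1 := by
    intro i j h2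
    by_cases h1 : i = j
    · subst h1; rw [yL, g2_sq R D H C h20 hall h4]
    · rw [yS h1 h2, e2_sq R D H C h20 h4 h1 h2]
  refine ⟨y, ⟨R.ne, R.two, R.eps, R.eps_neg, ?_, ?_, ?_, ?_, ?_, ?_⟩, hσ⟩
  · intro i j a
    by_cases h2 : i = -j
    · have h3 : j = -i := by rw [h2, neg_neg]
      rw [hy]; simp only [if_pos h2, if_pos h3]
    · rcases hall a with rfl | rfl
      · rw [y0, y0]
      · by_cases h1 : i = j
        · subst h1; rfl
        · rw [yS h1 h2, yS (Ne.symm h1) (fun e => h2 (by rw [e, neg_neg])), e2_symm R D H C h20 hall h4 h1 h2]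
  · intro i j h2 a b
    rcases hall a with rfl | rfl
    · rw [zero_add, y0, one_mul]
    · rcases hall b with rfl | rfl
      · rw [add_zero, y0, mul_one]
      · rw [h11, y0, hsq h2]
  · intro i j k h1 h2 h3 h4' h5 h6 a b
    rw [he]
    rcases hall a with rfl | rfl
    · rw [mul_zero, zero_mul, y0, y0, commutatorElement_one_left]
    · rcases hall b with rfl | rfl
      · rw [mul_zero, y0, y0, commutatorElement_one_right]
      · rw [mul_one, mul_one, C.cm_eq (hσ h2 1) (hσ (i := -j) (j := k) (by nn) 1), yS h5 h6,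
          e2_eq R D H C hall h4 h5 h6 (j := j) (by nn) (by nn) (by nn) (by nn)]
        rfl
  · intro i j h1 h2 a b
    rw [h20, zero_mul, zero_mul, zero_mul, y0, commutatorElement_eq_one_iff_mul_comm]
    exact (C.tr_iff' (hσ h2 a) (hσ (i := -j) (j := i) (by nn) b)).1 (tr_P6 R D H C h20 (fun _ => hn) h1 h2 a b)
  · intro i j h1 h2 a b
    have n1 : i ≠ -i := (R.ne i).symm
    rw [he]
    rcases hall a with rfl | rfl
    · rw [mul_zero, zero_mul, zero_mul, neg_zero, y0, y0, y0, commutatorElement_one_left, mul_one]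
    · rcases hall b with rfl | rfl
      · rw [mul_zero, zero_pow two_ne_zero, mul_zero, neg_zero, y0, y0, y0, commutatorElement_one_right, mul_one]
      · rw [mul_one, mul_one, one_pow, mul_one, hm1, C.cm_eq (hσ n1 1) (hσ (i := -i) (j := j) (by nn) 1), yS h1 h2, yL,
          g2_eq R D H C h20 hall h4 hn h1 h2, mul_inv_cancel_left]
        rfl
  · intro i j k l h1 h2 h3 h4' h5 h6 a b
    rw [commutatorElement_eq_one_iff_mul_comm]
    exact (C.tr_iff' (hσ h1 a) (hσ h2 b)).1 (tr_all R D H C h1 h2 h3 h4' h5 h6 a b)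

end two

end Cfsg.Agent.Stb
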